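import Cfsg.Agent.INV.B2.LineB

/-!
# Two local lemmas of the amalgam argument
-/

set_option autoImplicit false
set_option maxHeartbeats 400000
set_option linter.unusedSectionVars false
open Cfsg Subgroup CL.Th CL.MSS CL.Push CL.BHS
open scoped commutatorElement MatrixGroups

namespace CL.B2
variable {G : Type*} [Group G] [Finite G] {D : Set G} {g : G} {B B₂ P₀ P₁ P₂ : Subgroup G}

namespace AI

open LB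

variable {L C L₂ C₂ L₃ C₃ La Ca Lb Cb X Y : Subgroup G}

theorem cc_of {g : G} (h : X ≤ 𝐂 Y) : g •ᶜ X ≤ 𝐂 (g •ᶜ Y : Subgroup G) :=
  cj_centralizer g Y ▸ cj_mono g h

theorem cc_iff {g : G} : g •ᶜ X ≤ 𝐂 (g •ᶜ Y : Subgroup G) ↔ X ≤ 𝐂 Y :=
  ⟨fun h => by simpa only [inv_cj_cj] using cc_of (g := g⁻¹) h, cc_of⟩

theorem cle {K : Subgroup G} (hK : K ≤ X) : 𝐂 X ≤ 𝐂 K := centralizer_le (SetLike.coe_subset_coe.2 hK)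

/-- the conjugates of the line `P₀` under `P₁` -/
def Cj (P₀ P₁ B L C : Subgroup G) : Prop := ∃ g ∈ P₁, g •ᶜ P₀ = L ∧ g •ᶜ B = C

theorem Cj.cj (c : Cj P₀ P₁ B L C) (hg : g ∈ P₁) : Cj P₀ P₁ B (g •ᶜ L) (g •ᶜ C) := by
  obtain ⟨x, hx, rfl, rfl⟩ := c
  exact ⟨g * x, mul_mem hg hx, cj_mul _ _ _, cj_mul _ _ _⟩

theorem Cj.tr (c : Cj P₀ P₁ B L C) (c' : Cj P₀ P₁ B L₂ C₂) : ∃ g ∈ P₁, g •ᶜ L = L₂ ∧ g •ᶜ C = C₂ := by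
  obtain ⟨x, hx, rfl, rfl⟩ := c
  obtain ⟨y, hy, rfl, rfl⟩ := c'
  exact ⟨y * x⁻¹, mul_mem hy (inv_mem hx), by rw [cj_mul, inv_cj_cj], by rw [cj_mul, inv_cj_cj]⟩

/-- the hypotheses -/
structure HI (D : Set G) (P₀ P₁ B : Subgroup G) : Prop where
  h : Hy D
  l₀ : Ln0 D P₀ B
  l₁ : Ln0 D P₁ B
  hE : oU[2] P₀ ≤ 𝐂 (Wo P₁)
  hp : ∀ n ∈ P₁ ⊓ 𝐍 B, n •ᶜ Wo P₀ ≤ 𝐂 (Wo P₀)

namespace HI
variable (H : HI D P₀ P₁ B)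
include H

theorem ln (c : Cj P₀ P₁ B L C) : Ln0 D L C := by
  obtain ⟨x, -, rfl, rfl⟩ := c
  exact H.l₀.cj H.h x

theorem l1 (c : Cj P₀ P₁ B L C) : Ln0 D P₁ C := by
  obtain ⟨x, hx, -, rfl⟩ := c
  exact H.l₁.pt H.h hx

theorem cE (c : Cj P₀ P₁ B L C) : oU[2] L ≤ 𝐂 (Wo P₁) := by
  obtain ⟨x, hx, rfl, -⟩ := c
  have := cc_of (g := x) H.hE
  rwa [cj_oU, cj_eq_of_mem_normalizer (le_norm_W P₁ hx)] at this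

theorem WQ (c : Cj P₀ P₁ B L C) : Wo L ≤ O2 P₁ :=
  (H.l1 c).B_inf_cent_W ▸ le_inf (H.ln c).W_le ((W_le_E L).trans (H.cE c))

theorem same (c : Cj P₀ P₁ B L C) (c' : Cj P₀ P₁ B L₂ C) : Wo L ≤ 𝐂 (Wo L₂) := by
  obtain ⟨x, hx, rfl, rfl⟩ := c
  obtain ⟨y, hy, rfl, e⟩ := c'
  have := cc_of (g := y) (H.hp (y⁻¹ * x) (mem_inf.2 ⟨mul_mem (inv_mem hy) hx,
    mem_normalizer_iff_cj.2 (by rw [cj_mul, ← e, inv_cj_cj])⟩))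
  rwa [cj_mul, cj_inv_cj, cj_Wo, cj_Wo] at this

theorem mtl (c : Cj P₀ P₁ B L C) (c' : Cj P₀ P₁ B L₂ C₂) (n : ¬ Wo L ≤ 𝐂 (Wo L₂)) :
    Wo L₂ ⊔ O2 L = C ∧ ⁅Wo L, Wo L₂⁆ = Zo L C ∧ Zo L C ≤ 𝐂 P₁ := by
  obtain ⟨a, -, b, e, -⟩ := (H.ln c).mutual_ (H.ln c') ((H.WQ c').trans (H.l1 c).Q_le)
    ((H.WQ c).trans (H.l1 c').Q_le) n
  refine ⟨a, b, le_centralizer_iff.1 (((H.l1 c).gen' (H.l1 c').syl fun e => n (H.same c (e ▸ c'))).ge.trans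
    (sup_le (le_centralizer_iff.1 (H.ln c).Z_le_cent) (le_centralizer_iff.1 ?_)))⟩
  rw [e]
  exact (H.ln c').Z_le_cent

theorem star (c : Cj P₀ P₁ B L C) (c' : Cj P₀ P₁ B L₂ C₂) (n : ¬ Wo L ≤ 𝐂 (Wo L₂)) :
    ∃ Γ : Subgroup G, Γ ≤ 𝐂 (Wo L₂) ∧ (∀ i ∈ O2 L ⊓ O2 P₁, ∃ w ∈ Wo L, w⁻¹ * i ∈ Γ) ∧
      Wo L ⊓ Γ ≤ 𝐂 L := by
  have l := H.ln c
  obtain ⟨x, hx, xn⟩ := l.exists_x
  have xP := oU_le L hx
  have s := (H.mtl c c' n).1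
  have s' := (H.mtl c' c fun e => n (le_centralizer_iff.1 e)).1
  have eI : O2 L ⊓ O2 P₁ = O2 L ⊓ 𝐂 (Wo P₁) := by
    rw [← (H.l1 c).B_inf_cent_W, ← inf_assoc, inf_eq_left.2 l.Q_le]
  refine ⟨𝐂 (Wo L₂) ⊓ 𝐂 (x •ᶜ Wo L₂ : Subgroup G), inf_le_left, fun i hi =>
    l.split (le_sup_left.trans s.le) xP xn (le_inf (W_le_Q L) (H.WQ c)) ?_ (fun i hi => ?_) hi,
    fun w hw => le_c_iff.1 ((l.gen_of_sup s xP xn).ge.trans (sup_le (sup_le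
      (le_c_iff.2 (mem_inf.1 (mem_inf.1 hw).2).1) (le_c_iff.2 (mem_inf.1 (mem_inf.1 hw).2).2))
      (le_c_iff.2 (le_centralizer_iff.1 (Q_le_cent_W L) (mem_inf.1 hw).1))))⟩
  · rw [eI]
    exact le_normalizer_inf (le_normalizer_oP ((oU_le L).trans le_normalizer))
      (le_normalizer_centralizer ((H.cE c).trans (centralizer_le_normalizer _))) hx
  · obtain ⟨w, hw, q, hq, rfl⟩ := (mem_sup_of_normalizes_right ((le_sup_left.trans s'.le).trans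
      ((H.ln c').B_le.trans (le_normalizer_oP le_normalizer)))).1
      (s'.ge ((H.l1 c').Q_le (mem_inf.1 hi).2))
    exact ⟨w, hw, by rw [inv_mul_cancel_left]; exact Q_le_cent_W L₂ hq⟩

theorem lemA (c : Cj P₀ P₁ B L C) (c' : Cj P₀ P₁ B L₂ C₂) (n : ¬ Wo L ≤ 𝐂 (Wo L₂))
    (ca : Cj P₀ P₁ B La Ca) (cb : Cj P₀ P₁ B Lb Cb) (ha : Wo La ≤ 𝐂 (Wo L)) (hb : Wo Lb ≤ 𝐂 (Wo L)) :
    Wo La ≤ 𝐂 (Wo Lb) := by
  by_contra m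
  have l := H.ln c
  obtain ⟨Γ, -, g2, g3⟩ := H.star c c' n
  have I : ∀ {La Ca}, Cj P₀ P₁ B La Ca → Wo La ≤ 𝐂 (Wo L) → Wo La ≤ O2 L ⊓ O2 P₁ := fun ca ha =>
    le_inf (l.B_inf_cent_W ▸ le_inf ((H.WQ ca).trans (H.l1 c).Q_le) ha) (H.WQ ca)
  obtain ⟨g, hg, rfl, rfl⟩ := c.tr ca
  have e := (H.mtl ca cb m).2.1
  rw [← cj_Zo, cj_eq_of_mem_centralizer (le_centralizer_iff.1 (H.mtl c c' n).2.2 hg)] at e
  refine l.Z_not_le (((le_inf l.Z_le (e.ge.trans (commutator_le.2 fun i hi j hj => ?_))).trans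
    g3).trans (cle (oU_le L)))
  obtain ⟨w, hw, hd⟩ := g2 i (I ca ha hi)
  obtain ⟨w', hw', hd'⟩ := g2 j (I cb hb hj)
  have iQ := (mem_inf.1 (I ca ha hi)).1
  have jQ := (mem_inf.1 (I cb hb hj)).1
  have k : ∀ w ∈ Wo L, ∀ q ∈ O2 L, Commute w q := fun w hw q hq =>
    mem_centralizer_iff.1 (Q_le_cent_W L hq) w hw
  have : ⁅i, j⁆ = ⁅w⁻¹ * i, w'⁻¹ * j⁆ := by
    rw [comm_of_cent (w := w⁻¹ * i) (y := i) (g := j) (by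
      rw [mul_inv_rev, inv_inv, (k w hw i iQ).inv_right.eq.symm, inv_mul_cancel_right]
      exact (k w hw j jQ).eq.symm), ← commutatorElement_inv, ← commutatorElement_inv (w'⁻¹ * j),
      comm_of_cent (w := w'⁻¹ * j) (y := j) (g := w⁻¹ * i) (by
      rw [mul_inv_rev w'⁻¹, inv_inv, (k w' hw' j jQ).inv_right.eq.symm, inv_mul_cancel_right]
      exact (k w' hw' _ (mul_mem (inv_mem (W_le_Q L hw)) iQ)).eq.symm)]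
  rw [this, commutatorElement_def]
  exact mul_mem (mul_mem (mul_mem hd hd') (inv_mem hd)) (inv_mem hd')

theorem lemB (c : Cj P₀ P₁ B L C) (c' : Cj P₀ P₁ B L₂ C₂) (n : ¬ Wo L ≤ 𝐂 (Wo L₂))
    (c₃ : Cj P₀ P₁ B L₃ C₃) (n₃ : ¬ Wo L₃ ≤ 𝐂 (Wo L)) : Wo L₃ ≤ 𝐂 (Wo L₂) := by
  have l := H.ln c
  obtain ⟨Γ, g1, g2, g3⟩ := H.star c c' n
  have s := (H.mtl c c' n).1
  have WC : Wo L₂ ≤ C := le_sup_left.trans s.le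
  refine (SubgroupClass.subset_union.1 fun u hu => ?_).resolve_left n₃
  obtain ⟨w₂, hw₂, q, hq, e⟩ := (mem_sup_of_normalizes_right (WC.trans
    (l.B_le.trans (le_normalizer_oP le_normalizer)))).1 (s.ge ((H.l1 c).Q_le (H.WQ c₃ hu)))
  obtain ⟨w, hw, hd⟩ := g2 q (mem_inf.2 ⟨hq, by
    rw [eq_inv_mul_of_mul_eq e]; exact mul_mem (inv_mem (H.WQ c' hw₂)) (H.WQ c₃ hu)⟩)
  have dQ : w⁻¹ * q ∈ O2 L := mul_mem (inv_mem (W_le_Q L hw)) hq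
  generalize ed : w⁻¹ * q = d at hd dQ
  obtain rfl : q = w * d := by rw [← ed]; group
  by_cases h2 : w₂ ∈ O2 L
  · exact .inl (Q_le_cent_W L (e ▸ mul_mem h2 hq))
  refine .inr (e ▸ mul_mem ((W_le_Q L₂).trans (Q_le_cent_W L₂) hw₂) (mul_mem
    (cle WC (l.Z_le_cent (l.mem_Z_of_comm hw (WC hw₂) h2 (g3 (mem_inf.2
      ⟨commW hw (l.B_le (WC hw₂)), ?_⟩))))) (g1 hd)))
  have u2 := Ysq (W_le_Y _ hu)
  have k1 : w₂ * d = d * w₂ := mem_centralizer_iff.1 (g1 hd) _ hw₂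
  have k2 : w * d = d * w := mem_centralizer_iff.1 (Q_le_cent_W L dQ) _ hw
  have : ⁅w, w₂⁆ = d * d := by
    rw [← e] at u2
    rw [← inv_inj, commutatorElement_inv, commutatorElement_def, Yinv (W_le_Y _ hw),
      Yinv (W_le_Y _ hw₂), eq_inv_iff_mul_eq_one, ← u2]
    calc _ = w₂ * w * w₂ * (w * d) * d := by group
      _ = w₂ * w * w₂ * (d * w) * d := by rw [k2]
      _ = w₂ * w * (w₂ * d) * (w * d) := by group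
      _ = _ := by rw [k1]; group
  rw [this]
  exact mul_mem hd hd

end HI

end AI

open AI LB

/-- Write `W = W₀ ≤ E₀ ⊓ B ≤ C_B(W₁) = Q₁`; all conjugates `W_g = g W g⁻¹` (`g ∈ P₁`) lie in `Q₁`;
`W_g` belongs to the line `g P₀ g⁻¹` with the point `g B g⁻¹`, and by `hp` conjugates with the same
point commute.  The hypotheses are invariant under `P₁`.  Suppose `W`, `W' = W_g` do not commute;
`B' = g B g⁻¹ ≠ B`.  `mutual_`: `[W, W'] = Z = g Z g⁻¹` for `Z = Zo P₀ B`; so `Z` centralizes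
`⟨B, B'⟩ = P₁`, and any two non-commuting conjugates have commutator `Z`.
(*) Let `W₂` be a conjugate not commuting with `W`, with point `B₂` and `Q₂ = C_{B₂}(W₂)`;
`W₂ Q₀ = B`, `W Q₂ = B₂`.  `I = Q₀ ⊓ Q₁ = C_{Q₀}(W₁)` is normalized by `E₀`, `W ≤ I ≤ B₂`, so
`I = W C_I(W₂)`.  By `split` (`X = W₂`, `x ∈ E₀ \ N(B)`) every `i ∈ I` is `w d` with `w ∈ W`,
`d ∈ I ⊓ C(L)`, `L = ⟨W₂, x W₂ x⁻¹⟩`; `L Q₀ = P₀`, so `W ⊓ C(L) ≤ C(P₀)` and `Z ≰ C(L)`.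
(a) Two conjugates `W_a, W_b ≤ C(W)` commute: they lie in `I`, and `[I, I] ≤ C(L)`.
(b) A conjugate `W₃` not commuting with `W` commutes with `W₂`: `Q₁ = W₂ I`, so `u ∈ W₃` is
`w₂ w d`, `1 = u² = [w₂, w] d²`, so `[w₂, w] ∈ W ⊓ C(L) ≤ C(P₀)` and (`mem_Z_of_comm`) `w₂ ∈ Q₀` or
`w ∈ Z`, that is `u ∈ C(W)` or `u ∈ C(W₂)`.  A group is not the union of two proper subgroups.
Take `b ∈ B \ Q₁`, `W'' = b W' b⁻¹` with the point `B'' = b B' b⁻¹ ≠ B, B'` (`cj_ne`).  `W''` does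
not commute with `W`, so by (b) it commutes with `W'`.  Take `b' ∈ B'` with `b' B b'⁻¹ = B''`
(`exists_B_cj`); `b' W b'⁻¹` commutes with `W''` (same point) but not with `W'`.  This contradicts
(a) for the conjugate `W''` in place of `W` (with `W₂ = W`). -/
theorem amalI (h : Hy D) (l₀ : Ln0 D P₀ B) (l₁ : Ln0 D P₁ B) (hE : oU[2] P₀ ≤ 𝐂 (Wo P₁))
    (hp : ∀ n ∈ P₁ ⊓ 𝐍 B, n •ᶜ Wo P₀ ≤ 𝐂 (Wo P₀)) (hg : g ∈ P₁) : g •ᶜ Wo P₀ ≤ 𝐂 (Wo P₀) := by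
  have H : HI D P₀ P₁ B := ⟨h, l₀, l₁, hE, hp⟩
  by_contra n'
  rw [cj_Wo] at n'
  have n : ¬ Wo P₀ ≤ 𝐂 (Wo (g •ᶜ P₀)) := fun e => n' (le_centralizer_iff.1 e)
  have c : Cj P₀ P₁ B P₀ B := ⟨1, one_mem _, cj_one _, cj_one _⟩
  have c' := c.cj hg
  generalize g •ᶜ P₀ = L' at n n' c'
  generalize g •ᶜ B = B' at c'
  have ne : B' ≠ B := fun e => n (H.same c (e ▸ c'))
  obtain ⟨b, hb, bQ⟩ := SetLike.not_le_iff_exists.1 l₁.not_le_Q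
  obtain ⟨ne1, -⟩ := l₁.cj_ne (H.l1 c').syl ne hb bQ
  have c'' := c'.cj (l₁.B_le hb)
  have n'' : ¬ Wo (b •ᶜ L') ≤ 𝐂 (Wo P₀) := fun e => n' (by
    rwa [← cj_Wo, ← cj_eq_of_mem_normalizer (le_norm_W P₀ (l₀.B_le hb)), cc_iff] at e)
  have k := H.lemB c c' n c'' n''
  obtain ⟨b', hb', e⟩ := (H.l1 c').exists_B_cj l₁.syl (H.l1 c'').syl ne.symm ne1
  have ca := c.cj ((H.l1 c').B_le hb')
  rw [e] at ca
  have := H.lemA c'' c n'' ca c' (H.same ca c'') (le_centralizer_iff.1 k)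
  rw [← cj_Wo, ← cj_eq_of_mem_normalizer (le_norm_W L' ((H.ln c').B_le hb')), cc_iff] at this
  exact n this

/-- `W₀, W₂ ≤ Q₁ ≤ B ⊓ B₂`, `W₁ ≤ Q₀`.  `mutual_`: `W₂ Q₀ = B`, `R₀ = Zo P₀ B = Zo P₂ B₂` centralizes
`⟨B, B₂⟩ = P₁`.  Take `y ∈ P₀ \ N(B)`, `P_m = y P₁ y⁻¹`, `B_m = y B y⁻¹`, `W_m = y W₁ y⁻¹ ≤ Q₀ ≤ B`.
`mutual_` for `(P₁, B)`, `(P_m, B_m)`: `R' = Zo P₁ B = Zo P_m B_m` centralizes `⟨B, B_m⟩ = P₀`.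
Take `a ∈ W₂ \ Q₀`, `w ∈ W_m \ R'`, `w' = a w a⁻¹`, `u = w w' = [w, a] ∈ Q₁ ≤ B₂`.  Then
`r = [w, w'] = u² = [u, a] ∈ [B₂, W₂] = R₀`.  `a B_m a⁻¹ ≠ B_m` (`cj_ne`), so `y⁻¹ a y ∉ N(B)` and
`W_m`, `a W_m a⁻¹` do not commute (`hA`); both lie in `Q₀ ≤ B_m ⊓ a B_m a⁻¹`.  `mutual_`:
`r ∈ R'` and `a W_m a⁻¹ ⊓ Q_m = R'`, so `w' ∈ B_m \ Q_m` and `r ∉ C(P_m)` (`mem_Z_of_comm`).  But
`r ∈ R' ≤ C(P₀)`, so `r = y r y⁻¹ ∈ y R₀ y⁻¹ ≤ C(P_m)`. -/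
theorem amalA2 (h : Hy D) (l₀ : Ln0 D P₀ B) (l₁ : Ln0 D P₁ B) (l₁' : Ln0 D P₁ B₂)
    (l₂ : Ln0 D P₂ B₂) (hne : B₂ ≠ B) (c₀₁ : Wo P₀ ≤ 𝐂 (Wo P₁)) (c₁₂ : Wo P₂ ≤ 𝐂 (Wo P₁))
    (n₀₂ : ¬ Wo P₀ ≤ 𝐂 (Wo P₂))
    (hA : ∀ y ∈ P₀, y ∉ 𝐍 B → ¬ y •ᶜ Wo P₁ ≤ 𝐂 (Wo P₁)) : False := by
  have a0 : Wo P₀ ≤ O2 P₁ := l₁.B_inf_cent_W ▸ le_inf l₀.W_le c₀₁
  have a2 : Wo P₂ ≤ O2 P₁ := l₁'.B_inf_cent_W ▸ le_inf l₂.W_le c₁₂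
  have a1 : Wo P₁ ≤ O2 P₀ := l₀.B_inf_cent_W ▸ le_inf l₁.W_le (le_centralizer_iff.1 c₀₁)
  obtain ⟨s, -, -, eR, -⟩ := l₀.mutual_ l₂ (a2.trans l₁.Q_le) (a0.trans l₁'.Q_le) n₀₂
  have R0 : Zo P₂ B₂ ≤ 𝐂 P₁ := le_centralizer_iff.1 ((l₁.gen' l₁'.syl hne).ge.trans (sup_le
    (le_centralizer_iff.1 (eR ▸ l₀.Z_le_cent)) (le_centralizer_iff.1 l₂.Z_le_cent)))
  obtain ⟨y, hy, yn⟩ := l₀.exists_x
  replace hy := oU_le _ hy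
  have nQ : ∀ x ∈ P₀, x •ᶜ O2 P₀ = O2 P₀ := fun x hx =>
    cj_eq_of_mem_normalizer (le_normalizer_oP le_normalizer hx)
  have lm := l₁.cj h y
  have lp := l₀.pt h hy
  have am : Wo (y •ᶜ P₁) ≤ O2 P₀ := by rw [← cj_Wo, ← nQ y hy]; exact cj_mono y a1
  obtain ⟨-, -, -, eR', -⟩ := l₁.mutual_ lm (am.trans l₀.Q_le) (a1.trans lp.Q_le) fun e =>
    hA y hy yn (by rw [cj_Wo]; exact le_centralizer_iff.1 e)
  have R1 : Zo (y •ᶜ P₁) (y •ᶜ B) ≤ 𝐂 P₀ := le_centralizer_iff.1 ((l₀.gen hy yn).ge.trans (sup_le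
    (le_centralizer_iff.1 (eR' ▸ l₁.Z_le_cent)) (le_centralizer_iff.1 lm.Z_le_cent)))
  obtain ⟨a, ha, aQ⟩ := SetLike.not_le_iff_exists.1
    (show ¬ Wo P₂ ≤ O2 P₀ from fun e => l₀.not_le_Q (s.ge.trans (sup_le e le_rfl)))
  obtain ⟨w, hw, wZ⟩ := SetLike.not_le_iff_exists.1 lm.W_not_le_Z
  have aB := l₁.Q_le (a2 ha)
  have aP := l₀.B_le aB
  have wi := Yinv (W_le_Y _ hw)
  have ai := Yinv (W_le_Y _ ha)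
  have a2' := Ysq (W_le_Y _ ha)
  have uQ : ⁅w, a⁆ ∈ O2 P₁ := by
    rw [commutatorElement_def]
    exact mul_mem (conj_mem_of_normalizes (le_normalizer_oP le_normalizer)
      (l₁.B_le (l₀.Q_le (am hw))) (a2 ha)) (inv_mem (a2 ha))
  have r0 : ⁅w, a * w * a⁻¹⁆ ∈ Zo P₂ B₂ := by
    have : ⁅a, ⁅w, a⁆⁆ ∈ Zo P₂ B₂ := commutator_mem_commutator ha (l₁'.Q_le uQ)
    convert inv_mem this using 1
    simp only [commutatorElement_def, mul_inv_rev, wi, ai, mul_assoc]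
    rw [← mul_assoc a a, a2', one_mul]
  have ne : y •ᶜ B ≠ B := fun e => yn (mem_normalizer_iff_cj.2 e)
  have n2 : ¬ Wo (y •ᶜ P₁) ≤ 𝐂 (Wo (a •ᶜ (y •ᶜ P₁))) := fun e => by
    refine hA (y⁻¹ * (a * y)) (mul_mem (inv_mem hy) (mul_mem aP hy)) (fun n => ?_) ?_
    · have := mem_normalizer_iff_cj.1 n
      rw [cj_mul, cj_mul, cj_eq_iff, inv_inv] at this
      exact (l₀.cj_ne lp.syl ne aB aQ).1 this
    · rw [← cc_iff (g := y), cj_mul, cj_mul, cj_inv_cj, cj_Wo, cj_Wo]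
      exact le_centralizer_iff.1 e
  have am' : Wo (a •ᶜ (y •ᶜ P₁)) ≤ O2 P₀ := by rw [← cj_Wo, ← nQ a aP]; exact cj_mono a am
  obtain ⟨-, -, e1, -, e2⟩ := lm.mutual_ (lm.cj h a) (am'.trans lp.Q_le)
    (am.trans ((nQ a aP).ge.trans (cj_mono a lp.Q_le))) n2
  have w' : a * w * a⁻¹ ∈ Wo (a •ᶜ (y •ᶜ P₁)) := cj_Wo a _ ▸ conj_mem_cj hw
  have r1 := R1 (e1 ▸ commutator_mem_commutator hw w')
  refine wZ (lm.mem_Z_of_comm hw (lp.Q_le (am' w')) (fun q => wZ ?_) ?_)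
  · have z := e2 ▸ mem_inf.2 ⟨w', q⟩
    have := mem_centralizer_iff.1 (R1 z) a aP
    rw [inv_mul_cancel_right, mul_right_inj] at this
    rwa [this] at z
  · rw [← cj_centralizer, ← mul_inv_cancel_right ⁅w, a * w * a⁻¹⁆ y,
      ← mem_centralizer_iff.1 r1 y hy]
    exact conj_mem_cj (R0 r0)

end CL.B2
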