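import Cfsg.Agent.INV.B2.LT3
import Cfsg.Agent.INV.B2.AmalPU
import Cfsg.Agent.INV.B2.AmalI

/-!
# The amalgam argument: the commuting case
-/

set_option autoImplicit false
set_option maxHeartbeats 400000
set_option linter.unusedSectionVars false
open Cfsg Subgroup CL.Th CL.MSS CL.Push CL.BHS
open scoped commutatorElement MatrixGroups

namespace CL.B2
variable {G : Type*} [Group G] [Finite G] {D : Set G} {x y : G} {B P₀ P₁ X : Subgroup G}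

namespace AN

/-- the elements of `P` centralizing `I / W` -/
def cmod (P I W : Subgroup G) (hW : P ≤ 𝐍 W) : Subgroup G where
  carrier := {g | g ∈ P ∧ ∀ i ∈ I, i⁻¹ * (g * i * g⁻¹) ∈ W}
  one_mem' := ⟨one_mem _, fun i _ => by simp [one_mem]⟩
  mul_mem' := fun {a b} ha hb => ⟨mul_mem ha.1 hb.1, fun i hi => by
    rw [show i⁻¹ * (a * b * i * (a * b)⁻¹) =
      i⁻¹ * (a * i * a⁻¹) * (a * (i⁻¹ * (b * i * b⁻¹)) * a⁻¹) by group]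
    exact mul_mem (ha.2 i hi) (conj_mem_of_normalizes hW ha.1 (hb.2 i hi))⟩
  inv_mem' := fun {a} ha => ⟨inv_mem ha.1, fun i hi => by
    rw [show i⁻¹ * (a⁻¹ * i * a⁻¹⁻¹) = a⁻¹ * (i⁻¹ * (a * i * a⁻¹))⁻¹ * a by group]
    exact conj_mem_of_normalizes' hW ha.1 (inv_mem (ha.2 i hi))⟩

theorem cmod_norm {P I W : Subgroup G} (hW : P ≤ 𝐍 W) (hI : P ≤ 𝐍 I) : P ≤ 𝐍 (cmod P I W hW) :=
  le_normalizer_of_cj_le fun e he => cj_le_iff_forall.2 fun g hg =>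
    ⟨mul_mem (mul_mem he hg.1) (inv_mem he), fun i hi => by
      rw [show i⁻¹ * (e * g * e⁻¹ * i * (e * g * e⁻¹)⁻¹) =
        e * ((e⁻¹ * i * e)⁻¹ * (g * (e⁻¹ * i * e) * g⁻¹)) * e⁻¹ by group]
      exact conj_mem_of_normalizes hW he (hg.2 _ (conj_mem_of_normalizes' hI he hi))⟩

theorem norm_of_comm {U V W K : Subgroup G} (h : ⁅U, K⁆ ≤ W) (hV : K ≤ 𝐍 V) (hW : W ≤ U ⊔ V) :
    K ≤ 𝐍 (U ⊔ V : Subgroup G) :=
  le_normalizer_of_cj_le fun a ha => by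
    rw [cj_sup, cj_eq_of_mem_normalizer (hV ha)]
    refine sup_le (cj_le_iff_forall.2 fun u hu => ?_) le_sup_right
    rw [show a * u * a⁻¹ = u * ⁅u⁻¹, a⁆ by rw [commutatorElement_def]; group]
    exact mul_mem (mem_sup_left hu) (hW (h (commutator_mem_commutator (inv_mem hu) ha)))

end AN

open AN AI

/-- Index 0, 1 for `P₀`, `P₁`; `X ≰ Q₀`, so `P₀ ≠ P₁`.
(1) `I = (y W₁ y⁻¹) W₀` is normalized by `X` (`hc`) and by `y B y⁻¹ ≥ Q₀`, so by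
`P₀ = ⟨B, y B y⁻¹⟩`; hence `I = W₁ W₀`.  `X ≤ Q₁` centralizes `I / W₀`; `E_le` for the normal
subgroup `{g ∈ P₀ | [I, g] ≤ W₀}` gives `[W₁, E₀] ≤ W₀`, and `dt` gives `W₁ ≤ C(E₀)`.  So
`E₀ ⊓ B ≤ C_B(W₁) = Q₁`.
(2) For `a ∈ X \ Q₀`, `x⁻¹ a x` centralizes `W₀` and `a` does not.  So `W₀ ≰ C(E₁)` and
`[Q₁, E₁] ≰ C(W₀)`.  By `lt3` no 2-subgroup containing a member of `D` is normalized by
`G₀ = P₀ ⊔ P₁`.
(3) Take `t ∈ D ∩ Z(B)`, `N₀ = ⟨t ^ G₀⟩`, `T₀ = N₀ ⊓ B ∋ t`.  Suppose `T₀ ≤ Q₀`.  If `T₀ ≤ Q₁` then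
`T₀ = N₀ ⊓ Q₀ = N₀ ⊓ Q₁` is normalized by `G₀`.  Otherwise `E₁ ≤ N₀` (`E_le`) and
`[Q₁, E₁] ≤ N₀ ⊓ Q₁ ≤ Q₀ ≤ C(W₀)`.  Both contradict (2).  So `E₀ ≤ N₀` (`E_le`), and `E₀`
centralizes every `G₀`-invariant subgroup of `B`.
(4) `amalPU` with `T = Q₁`, `K = P₁`: `[Q₀, E₀] ≤ W₀`.  By `amalI`, `V₁ = ⟨W₀ ^ P₁⟩ ≤ Q₁`
centralizes `W₀`, so `V₁ ≤ Q₀`.  `U = ⟨t⟩ W₁ V₁ ≤ Q₀` contains `W₀`, so it is normalized by `E₀`, and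
by `P₁` (`norm_sW`), against (2). -/
theorem amalN (h : Hy D) (l₀ : Ln D P₀ B) (l₁ : Ln0 D P₁ B) (c₀₁ : Wo P₁ ≤ 𝐂 (Wo P₀))
    (hX : X ≤ O2 P₁) (hs : X ⊔ O2 P₀ = B) (hy : y ∈ P₀) (hn : y ∉ 𝐍 B)
    (hc : ⁅y •ᶜ Wo P₁, X⁆ ≤ Wo P₀) (hx : x ∈ oU[2] P₁) (hx' : X ≤ 𝐂 (x •ᶜ Wo P₀ : Subgroup G))
    (hp : ∀ n ∈ P₁ ⊓ 𝐍 B, n •ᶜ Wo P₀ ≤ 𝐂 (Wo P₀)) : False := by
  have l := l₀.toLn0
  have XB : X ≤ B := le_sup_left.trans hs.le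
  obtain ⟨a, ha, aQ⟩ := SetLike.not_le_iff_exists.1
    (show ¬ X ≤ O2 P₀ from fun e => l.not_le_Q (hs.ge.trans (sup_le e le_rfl)))
  have hne : P₀ ≠ P₁ := fun e => aQ (e ▸ hX ha)
  have s1 : O2 P₁ ⊔ O2 P₀ = B := le_antisymm (sup_le l₁.Q_le l.Q_le) (hs.ge.trans (sup_le_sup_right hX _))
  have nO : ∀ P : Subgroup G, P ≤ 𝐍 (O2 P) := fun P => le_normalizer_oP le_normalizer
  have n1 : y •ᶜ B ≤ 𝐍 (y •ᶜ Wo P₁ ⊔ Wo P₀ : Subgroup G) := le_normalizer_sup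
    (cj_Wo y P₁ ▸ (l₁.cj h y).B_le.trans (le_norm_W _)) ((l.pt h hy).B_le.trans (le_norm_W _))
  have n2 : P₀ ≤ 𝐍 (y •ᶜ Wo P₁ ⊔ Wo P₀ : Subgroup G) :=
    (l.gen hy hn).ge.trans (sup_le (hs.ge.trans (sup_le
      (norm_of_comm hc (XB.trans (l.B_le.trans (le_norm_W _))) le_sup_right)
      ((l.pt h hy).Q_le.trans n1))) n1)
  have eI : (y •ᶜ Wo P₁ ⊔ Wo P₀ : Subgroup G) = Wo P₁ ⊔ Wo P₀ := by
    rw [← cj_eq_of_mem_normalizer (n2 (inv_mem hy)), cj_sup, inv_cj_cj,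
      cj_eq_of_mem_normalizer (le_norm_W P₀ (inv_mem hy))]
  rw [eI] at n2
  have e1 := l.E_le (N := cmod P₀ (Wo P₁ ⊔ Wo P₀) (Wo P₀) (le_norm_W P₀)) (fun _ hg => hg.1)
    ((oU_le _).trans (cmod_norm _ n2)) (b := a) ⟨l.B_le (XB ha), fun i hi => by
      obtain ⟨u, hu, w, hw, rfl⟩ := (mem_sup_of_normalizes_right
        (l₁.W_le.trans (l.B_le.trans (le_norm_W _)))).1 hi
      rw [← mul_assoc a, ← mem_centralizer_iff.1 (Q_le_cent_W P₁ (hX ha)) u hu,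
        show (u * w)⁻¹ * (u * a * w * a⁻¹) = w⁻¹ * (a * w * a⁻¹) by group]
      exact mul_mem (inv_mem hw) (cjW (l.B_le (XB ha)) hw)⟩ (XB ha) aQ
  have e2 : oU[2] P₀ ≤ 𝐂 (Wo P₁) := le_centralizer_iff.1 (dt h l l₁ c₀₁
    (commutator_le.2 fun u hu e he => by
      have := (e1 he).2 u⁻¹ (mem_sup_left (inv_mem hu))
      rwa [inv_inv, ← mul_assoc, ← mul_assoc] at this) s1)
  have e3 : oU[2] P₀ ⊓ B ≤ O2 P₁ := l₁.B_inf_cent_W ▸ le_inf inf_le_right (inf_le_left.trans e2)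
  have aC : a ∉ 𝐂 (Wo P₀) := fun e => aQ (l.B_inf_cent_W ▸ mem_inf.2 ⟨XB ha, e⟩)
  have noU : ∀ U : Subgroup G, U ≤ B → ∀ s ∈ D, s ∈ U → P₀ ≤ 𝐍 U → P₁ ≤ 𝐍 U → False :=
    fun U hU s hs hs' h0 h1 => aC (by
      have := hx' ha
      rwa [cj_eq_of_mem_centralizer (le_centralizer_iff.1
        (lt3 h l₀ l₁ hne (l.pg.to_le hU) hs hs' h0 h1).1 hx)] at this)
  have e4 : ¬ ⁅O2 P₁, oU[2] P₁⁆ ≤ 𝐂 (Wo P₀) := fun e => aC (by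
    have h1 := hx' ha
    rw [← cj_centralizer, mem_cj] at h1
    have h2 := e (commutator_mem_commutator (inv_mem (hX ha)) (inv_mem hx))
    rw [show a = x⁻¹ * a * x * ⁅a⁻¹, x⁻¹⁆⁻¹ by rw [commutatorElement_def]; group]
    exact mul_mem h1 (inv_mem h2))
  obtain ⟨t, tD, tB, tc⟩ := l.ex
  have e5 : ∀ N : Subgroup G, t ∈ N → P₀ ≤ 𝐍 N → P₁ ≤ 𝐍 N → oU[2] P₀ ≤ N := by
    intro N tN h0 h1
    have EL : ∀ {P}, Ln0 D P B → P ≤ 𝐍 N → ¬ N ⊓ B ≤ O2 P → oU[2] P ≤ N := fun {P} l h0 n => by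
      obtain ⟨b, hb, bQ⟩ := SetLike.not_le_iff_exists.1 n
      exact (l.E_le (N := N ⊓ P) inf_le_right ((oU_le _).trans (le_normalizer_inf h0 le_normalizer))
        (mem_inf.2 ⟨(mem_inf.1 hb).1, l.B_le (mem_inf.1 hb).2⟩) (mem_inf.1 hb).2 bQ).trans inf_le_left
    have EQ : ∀ {P}, Ln0 D P B → P ≤ 𝐍 N → N ⊓ B ≤ O2 P → P ≤ 𝐍 (N ⊓ B : Subgroup G) :=
      fun {P} l h0 n => by
        rw [show N ⊓ B = N ⊓ O2 P from le_antisymm (le_inf inf_le_left n) (inf_le_inf_left _ l.Q_le)]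
        exact le_normalizer_inf h0 (nO P)
    refine EL l h0 fun q0 => ?_
    by_cases q1 : N ⊓ B ≤ O2 P₁
    · exact noU _ inf_le_right t tD (mem_inf.2 ⟨tN, tB⟩) (EQ l h0 q0) (EQ l₁ h1 q1)
    · exact e4 ((le_inf ((commutator_le_right_of_normalizes ((l₁.Q_le.trans l₁.B_le).trans
        (oU_normal _))).trans (EL l₁ h1 q1)) ((commutator_le_left_of_normalizes
        ((oU_le _).trans (nO _))).trans l₁.Q_le)).trans (q0.trans (Q_le_cent_W _)))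
  have e6 := amalPU l l₁.Q_le s1 e3 l₁.B_le (nO _) fun R hR hN => e5 _
    (cle (hR.trans l₁.Q_le) tc) (le_normalizer_centralizer (le_sup_left.trans hN))
    (le_normalizer_centralizer (le_sup_right.trans hN))
  have vQ : (⨆ g : P₁, (g : G) •ᶜ Wo P₀) ≤ O2 P₀ := l.B_inf_cent_W ▸ iSup_le fun g => le_inf
    ((cj_le_of_mem_normalizer ((le_inf (W_le_E _) l.W_le).trans e3) (nO _ g.2)).trans l₁.Q_le)
    (amalI h l l₁ e2 hp g.2)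
  have UQ : zpowers t ⊔ Wo P₁ ⊔ (⨆ g : P₁, (g : G) •ᶜ Wo P₀) ≤ O2 P₀ :=
    sup_le (sup_le (zpowers_le.2 (Y_le_Q _ (l.mem_Y (h.sq tD) tB tc)))
      (l.B_inf_cent_W ▸ le_inf l₁.W_le c₀₁)) vQ
  have n3 : P₁ ≤ 𝐍 (zpowers t ⊔ Wo P₁ ⊔ (⨆ g : P₁, (g : G) •ᶜ Wo P₀) : Subgroup G) :=
    le_normalizer_sup (l₁.norm_sW (l₁.mem_Y (h.sq tD) tB tc) tc)
      (le_normalizer_of_cj_le fun g hg => by
        rw [cj_iSup]
        exact iSup_le fun k => (cj_mul g k _).ge.trans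
          (le_iSup (fun g : P₁ => (g : G) •ᶜ Wo P₀) ⟨g * k, mul_mem hg k.2⟩))
  refine noU _ (UQ.trans l.Q_le) t tD (mem_sup_left (mem_sup_left (mem_zpowers t)))
    (l.E_sup.ge.trans (sup_le ?_ (l₁.B_le.trans n3))) n3
  have := norm_of_comm (V := ⊥) ((commutator_mono UQ le_rfl).trans e6)
    (fun g _ => mem_normalizer_iff_cj.2 (cj_bot g))
    (((cj_one _).ge.trans (le_iSup (fun g : P₁ => (g : G) •ᶜ Wo P₀) 1)).trans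
      (le_sup_right.trans le_sup_left))
  rwa [sup_bot_eq] at this

end CL.B2
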