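import Cfsg.Agent.INV.B2.Defs2
import Cfsg.Agent.INV.B2.AmalN

/-!
# The amalgam argument
-/

set_option autoImplicit false
set_option linter.unusedSectionVars false
open Cfsg Subgroup CL.Th CL.MSS CL.Push CL.BHS
open scoped commutatorElement MatrixGroups

namespace CL.B2
variable {G : Type*} [Group G] [Finite G] {D : Set G} {t : G} {B P : Subgroup G}

theorem Un.cj (h : Hy D) (u : Un D P B) (g : G) : Un D (g •ᶜ P) (g •ᶜ B) :=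
  ⟨u.l.cj h g, fun P' l' => by
    have := l'.cj h g⁻¹
    rw [inv_cj_cj] at this
    have := cj_mono g (u.un _ this)
    rwa [cj_centralizer, cj_Wo, cj_Wo, cj_inv_cj] at this⟩

theorem Un.pt (h : Hy D) (u : Un D P B) {x : G} (hx : x ∈ P) : Un D P (x •ᶜ B) := by
  have := u.cj h x
  rwa [cj_eq_of_mem hx] at this

namespace AM

set_option maxHeartbeats 400000

variable {ℓ p : ℕ → Subgroup G} {c n : ℕ} {L C : Subgroup G} {y : G}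

/-- a chain; `p i` is the point between `ℓ i` and `ℓ (i + 1)` -/
def Ch (D : Set G) (c : ℕ) (ℓ p : ℕ → Subgroup G) : Prop :=
  ∀ i < c, Un D (ℓ i) (p i) ∧ Un D (ℓ (i + 1)) (p i)

/-- put an entry in front -/
def cons (L : Subgroup G) (ℓ : ℕ → Subgroup G) : ℕ → Subgroup G
  | 0 => L
  | i + 1 => ℓ i

theorem cons0 (L : Subgroup G) (ℓ : ℕ → Subgroup G) : cons L ℓ 0 = L := rfl
theorem consS (L : Subgroup G) (ℓ : ℕ → Subgroup G) (i : ℕ) : cons L ℓ (i + 1) = ℓ i := rfl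

theorem Ch.cons (k : Ch D c ℓ p) (h1 : Un D L C) (h2 : Un D (ℓ 0) C) :
    Ch D (c + 1) (cons L ℓ) (cons C p) := by
  rintro (_ | i) hi
  exacts [⟨h1, h2⟩, k i (by omega)]

theorem Ch.take (k : Ch D c ℓ p) (hn : n ≤ c) : Ch D n ℓ p := fun i hi => k i (by omega)

theorem Ch.tail (k : Ch D (c + 1) ℓ p) : Ch D c (fun i => ℓ (i + 1)) fun i => p (i + 1) :=
  fun i hi => k (i + 1) (by omega)

theorem Ch.cj (h : Hy D) (k : Ch D c ℓ p) (g : G) : Ch D c (fun i => g •ᶜ ℓ i) fun i => g •ᶜ p i :=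
  fun i hi => ⟨(k i hi).1.cj h g, (k i hi).2.cj h g⟩

theorem Ch.rev (k : Ch D c ℓ p) : Ch D c (fun i => ℓ (c - i)) fun i => p (c - 1 - i) := by
  intro i hi
  have := k (c - 1 - i) (by omega)
  rw [show c - 1 - i + 1 = c - i by omega] at this
  simp only
  rw [show c - (i + 1) = c - 1 - i by omega]
  exact this.symm

theorem Ch.shift (h : Hy D) (k : Ch D (c + 2) ℓ p) (hy : y ∈ ℓ 0) :
    Ch D (c + 2) (AM.cons (y •ᶜ ℓ 1) ℓ) (AM.cons (y •ᶜ p 0) p) :=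
  (k.take (Nat.le_succ _)).cons ((k 0 (by omega)).2.cj h y) ((k 0 (by omega)).1.pt h hy)

/-- the ends of the chains of length `c` commute -/
def Cm (D : Set G) (c : ℕ) : Prop := ∀ ℓ p, Ch D c ℓ p → Wo (ℓ 0) ≤ 𝐂 (Wo (ℓ c))

theorem down {X C' : Subgroup G} (u : Un D L C) (u' : Un D L C') (h1 : X ≤ C) (h2 : X ≤ 𝐂 (Wo L)) :
    X ≤ O2 L ∧ X ≤ C' :=
  have a : X ≤ O2 L := u.l.B_inf_cent_W ▸ le_inf h1 h2
  ⟨a, a.trans u'.l.Q_le⟩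

theorem desc0 (hm : ∀ m ≤ n, Cm D m) (k : Ch D (n + 1) ℓ p) : Wo (ℓ 0) ≤ p n := by
  induction n with
  | zero => exact (k 0 one_pos).1.l.W_le
  | succ n ih =>
    exact (down (k n (by omega)).2 (k (n + 1) (by omega)).1
      (ih (fun m h => hm m (by omega)) (k.take (Nat.le_succ _)))
      (hm _ le_rfl ℓ p (k.take (Nat.le_succ _)))).2

theorem desc1 (hm : ∀ m ≤ n, Cm D m) (k : Ch D (n + 1) ℓ p) : Wo (ℓ (n + 1)) ≤ p 0 := by
  simpa using desc0 hm k.rev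

theorem data (hm : ∀ m ≤ n, Cm D m) (k : Ch D (n + 1) ℓ p) (hn : ¬ Wo (ℓ 0) ≤ 𝐂 (Wo (ℓ (n + 1)))) :
    Wo (ℓ (n + 1)) ⊔ O2 (ℓ 0) = p 0 ∧ Wo (ℓ 0) ⊔ O2 (ℓ (n + 1)) = p n ∧
      Zo (ℓ 0) (p 0) = Zo (ℓ (n + 1)) (p n) :=
  have a := (k 0 (by omega)).1.l.mutual_ (k n (by omega)).2.l.toLn0 (desc1 hm k) (desc0 hm k) hn
  ⟨a.1, ((k n (by omega)).2.l.mutual_ (k 0 (by omega)).1.l.toLn0 (desc0 hm k) (desc1 hm k)
    fun e => hn (le_centralizer_iff.1 e)).1, a.2.2.2.1⟩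

theorem cm0 : Cm D 0 := fun _ _ _ => (W_le_Q _).trans (Q_le_cent_W _)

theorem cm1 : Cm D 1 := fun _ _ k => (k 0 one_pos).1.un _ (k 0 one_pos).2.l

theorem pt_ne (hm : Cm D (n + 1)) (k : Ch D (n + 2) ℓ p) (hn : ¬ Wo (ℓ 0) ≤ 𝐂 (Wo (ℓ (n + 2)))) :
    p 1 ≠ p 0 := fun e => by
  have := hm _ _ (k.tail.tail.cons (L := ℓ 0) (C := p 1) (e ▸ (k 0 (by omega)).1) (k 1 (by omega)).2)
  simp only [cons0, consS] at this
  exact hn this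

theorem caseN (h : Hy D) (hm : ∀ m ≤ n + 1, Cm D m) (k : Ch D (n + 2) ℓ p)
    (hn : ¬ Wo (ℓ 0) ≤ 𝐂 (Wo (ℓ (n + 2)))) (hy : y ∈ ℓ 0) (hy' : y ∉ 𝐍 (p 0)) :
    ¬ Wo (y •ᶜ ℓ 1) ≤ 𝐂 (Wo (ℓ (n + 1))) := fun hc => by
  obtain ⟨d1, -, d3⟩ := data hm k hn
  obtain ⟨u0, u1⟩ := k 0 (by omega)
  have u1' := (k 1 (by omega)).1
  have a0 := desc0 hm (k.shift h hy)
  simp only [cons0, consS] at a0
  have a : Wo (y •ᶜ ℓ 1) ≤ p (n + 1) :=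
    (down (k n (by omega)).2 (k (n + 1) (by omega)).1 a0 hc).2
  obtain ⟨x, hx, ex⟩ := u1.l.exists_E_cj u1'.l.syl
  have b := hm _ le_rfl _ _ (k.tail.tail.cons (L := x •ᶜ ℓ 0) (C := p 1) (ex ▸ u0.cj h x)
    (k 1 (by omega)).2)
  simp only [cons0, consS] at b
  have b1 := desc1 (fun m hm' => hm m (by omega)) k.tail
  have b2 := hm _ le_rfl _ _ k.tail
  simp only [zero_add] at b1 b2
  refine amalN h u0.l u1.l.toLn0 (u1.un _ u0.l) (X := Wo (ℓ (n + 2)))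
    (down u1' u1 b1 (le_centralizer_iff.1 b2)).1 d1 hy hy' ?_ hx ?_ fun g hg => ?_
  · rw [cj_Wo, commutator_comm]
    exact (commutator_mono le_rfl a).trans (d3.ge.trans u0.l.Z_le)
  · rw [cj_Wo]
    exact le_centralizer_iff.1 b
  · have := u0.l.cj h g
    rw [cj_eq_of_mem_normalizer (mem_inf.1 hg).2] at this
    rw [cj_Wo]
    exact le_centralizer_iff.1 (u0.un _ this)

theorem sh (h : Hy D) (hm : ∀ m ≤ n + 1 + 1, Cm D m) (k : Ch D (n + 1 + 2) ℓ p)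
    (hn : ¬ Wo (ℓ 0) ≤ 𝐂 (Wo (ℓ (n + 1 + 2)))) :
    ∃ W, W ⊔ O2 (ℓ (n + 1 + 1)) = p (n + 1) ∧ W ≤ 𝐂 (Wo (ℓ 1)) := by
  obtain ⟨z, hz, hz'⟩ := (k 0 (by omega)).1.l.exists_x
  replace hz := oU_le _ hz
  have ks := k.shift h hz
  have f := (data hm ks (by
    simp only [cons0, consS]; exact caseN h hm k hn hz hz')).2.1
  have g := hm (1 + 1) (by omega) _ _ (ks.take (by omega))
  simp only [cons0, consS] at f g
  exact ⟨_, f, g⟩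

theorem step (h : Hy D) (hm : ∀ m ≤ n + 1, Cm D m) : Cm D (n + 2) := fun ℓ p k => by
  by_contra hn
  obtain ⟨u0, u1⟩ := k 0 (by omega)
  have u1' := (k 1 (by omega)).1
  have ne := pt_ne (hm _ le_rfl) k hn
  obtain _ | n := n
  · refine amalA2 h u0.l.toLn0 u1.l.toLn0 u1'.l.toLn0 (k 1 (by omega)).2.l.toLn0 ne (u0.un _ u1.l)
      ((k 1 (by omega)).2.un _ u1'.l) hn fun y hy hy' => ?_
    rw [cj_Wo]
    exact caseN h hm k hn hy hy'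
  obtain ⟨d1, -, -⟩ := data hm k hn
  obtain ⟨y, hy, hy'⟩ := u0.l.exists_x
  replace hy := oU_le _ hy
  have e := (data hm (k.shift h hy) (by
    simp only [cons0, consS]; exact caseN h hm k hn hy hy')).2.2
  simp only [cons0, consS] at e
  have RW : Zo (y •ᶜ ℓ 1) (y •ᶜ p 0) ≤ Wo (ℓ (n + 2)) := e ▸ (k (n + 1) (by omega)).2.l.Z_le
  have c1 : y •ᶜ p 0 ≤ 𝐂 (Zo (y •ᶜ ℓ 1) (y •ᶜ p 0)) := le_centralizer_iff.1 (u1.cj h y).l.Z_le_cent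
  have c2 : ℓ 0 ≤ 𝐂 (Zo (y •ᶜ ℓ 1) (y •ᶜ p 0)) :=
    (u0.l.gen hy hy').ge.trans (sup_le (d1.ge.trans (sup_le (le_centralizer_iff.1 (RW.trans
      ((k (n + 2) (by omega)).1.un _ (k (n + 2) (by omega)).2.l))) ((u0.pt h hy).l.Q_le.trans c1))) c1)
  have e2 : Zo (y •ᶜ ℓ 1) (y •ᶜ p 0) = Zo (ℓ 1) (p 0) := by
    have := cj_eq_of_mem_centralizer (c2 (inv_mem hy))
    rw [← this, ← cj_Zo, inv_cj_cj]
  rw [e2] at RW
  obtain ⟨W', f, g⟩ := sh h hm k.rev (by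
    simp only [Nat.sub_zero, Nat.sub_self]
    exact fun e => hn (le_centralizer_iff.1 e))
  simp only [show n + 1 + 2 - (n + 1 + 1) = 1 by omega, show n + 1 + 2 - 1 = n + 2 by omega,
    show n + 2 - (n + 1) = 1 by omega] at f g
  refine u1.l.Z_not_le (le_centralizer_iff.1 ((oU_le _).trans ((u1.l.gen' u1'.l.syl ne).ge.trans
    (sup_le (le_centralizer_iff.1 u1.l.Z_le_cent) (f.ge.trans (sup_le ?_ ?_))))))
  · exact g.trans (centralizer_le (SetLike.coe_subset_coe.2 RW))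
  · exact (Q_le_cent_W _).trans (centralizer_le (SetLike.coe_subset_coe.2 u1.l.Z_le))

theorem cm (h : Hy D) (n : ℕ) : Cm D n := by
  induction n using Nat.strong_induction_on with
  | _ n ih =>
    obtain _ | _ | n := n
    exacts [cm0, cm1, step h fun m hm => ih m (by omega)]

end AM

open AM in
set_option maxHeartbeats 400000 in
/-- A *chain* of length `c` is `ℓ₀, p₁, ℓ₁, …, p_c, ℓ_c` with `Un D ℓ_{i-1} pᵢ` and `Un D ℓᵢ pᵢ`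
(for example two functions `ℓ p : ℕ → Subgroup G`).  `Wᵢ = Wo ℓᵢ`, `Qᵢ = O2 ℓᵢ`.  Chains can be
reversed, conjugated, cut and joined.
Descent: if `X ≤ p_j` centralizes `W_{j-1}, …, Wᵢ` then `X ≤ Qᵢ ≤ pᵢ` (`B_inf_cent_W`, `Q_le`).
(I) Suppose `W₀`, `W_c` commute in every chain.  Let `U₁` be generated by the `W_c` of the chains
with `p₁ = B`; `U₁ ≤ B` by descent.  `U₁` is normalized by `N(B)`, and by `x ∈ P` if `Un D P B`
(put `P, B, P, x B x⁻¹` in front of the conjugated chain).  Take `U = ⟨D ∩ B ∩ C(B)⟩ U₁`; use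
`cj_mem_W`, `mem_Y`.
(II) Otherwise let `c` be minimal such that some chain of length `c` has non-commuting ends
(*critical* chain); `c ≥ 2` by `Un.un`.  In a critical chain `pᵢ ≠ p_{i+1}` (cut `ℓᵢ`), `W_c ≤ Q₁ ≤ p₁`
and `W₀ ≤ Q_{c-1} ≤ p_c` (descent), and `mutual_` gives `W_c Q₀ = p₁`, `Zo ℓ₀ p₁ = Zo ℓ_c p_c`.  For
`y ∈ ℓ₀ \ N(p₁)` the *shift* is the chain `y ℓ₁ y⁻¹, y p₁ y⁻¹, ℓ₀, p₁, …, ℓ_{c-1}` of length `c`.
Case N: for some critical chain and some `y` the shift has commuting ends.  Then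
`y W₁ y⁻¹ ≤ Q_{c-1} ≤ p_c` by descent, so `[y W₁ y⁻¹, W_c] ≤ Zo ℓ_c p_c ≤ W₀`.  Take `x ∈ O²(ℓ₁)` with
`x p₁ x⁻¹ = p₂` (`exists_E_cj`); `x ℓ₀ x⁻¹, p₂, ℓ₂, …, ℓ_c` has length `c - 1`.  `amalN`, `X = W_c`.
Case A: all shifts of all critical chains are critical.  If `c = 2`: `amalA2`.  Let `c ≥ 3`.
`mutual_` for the shift: `R' = Zo ℓ_{c-1} p_{c-1} = y (Zo ℓ₁ p₁) y⁻¹` centralizes `y p₁ y⁻¹` and
`W_c` (`R' ≤ W_{c-1}`), so `ℓ₀ = ⟨y p₁ y⁻¹, W_c⟩`, and `R' = Zo ℓ₁ p₁`.  The shift of the reversed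
chain is a critical chain `ℓ₁, p₂, …, ℓ_c, p', ℓ'` (reversed), so `p₂ = W' Q₁` with `W' = Wo ℓ'`.
`ℓ_{c-1}, p_c, ℓ_c, p', ℓ'` has length `2 < c`, so `W'` centralizes `W_{c-1} ≥ R'`.  Hence
`R' = Zo ℓ₁ p₁` centralizes `⟨p₁, p₂⟩ = ℓ₁`, against `Z_not_le`. -/
theorem amal (h : Hy D) (hB : IsPGroup 2 B) (ht : t ∈ D) (hB' : t ∈ B) (hc : t ∈ 𝐂 B) :
    ∃ U : Subgroup G, IsPGroup 2 U ∧ t ∈ U ∧ 𝐍 B ≤ 𝐍 U ∧ ∀ P, Un D P B → P ≤ 𝐍 U := by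
  let U₀ : Subgroup G := closure {s | s ∈ D ∧ s ∈ B ∧ s ∈ 𝐂 B}
  let U₁ : Subgroup G := sSup {W | ∃ n ℓ p, Ch D (n + 1) ℓ p ∧ p 0 = B ∧ W = Wo (ℓ (n + 1))}
  have key : ∀ g : G, (∀ n ℓ p, Ch D (n + 1) ℓ p → p 0 = B → Wo (g •ᶜ ℓ (n + 1)) ≤ U₁) →
      g •ᶜ U₁ ≤ U₁ := fun g hg => cj_le_iff.2 (sSup_le (by
    rintro _ ⟨n, ℓ, p, k, e, rfl⟩
    refine cj_le_iff.1 ?_
    rw [cj_Wo]
    exact hg n ℓ p k e))
  refine ⟨U₀ ⊔ U₁, hB.to_le (sup_le ((closure_le _).2 fun s hs => hs.2.1) (sSup_le ?_)),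
    mem_sup_left (subset_closure ⟨ht, hB', hc⟩), le_normalizer_of_cj_le fun g hg => ?_,
    fun P u => le_normalizer_of_cj_le fun g hg => ?_⟩
  · rintro _ ⟨n, ℓ, p, k, rfl, rfl⟩
    exact desc1 (fun m _ => cm h m) k
  · rw [cj_sup]
    refine sup_le_sup (cj_le_iff.2 ((closure_le _).2 fun s hs => mem_cj.2 (subset_closure ?_)))
      (key g fun n ℓ p k e => le_sSup ⟨n, _, _, k.cj h g, ?_, rfl⟩)
    · rw [inv_inv]
      exact ⟨h.conj s hs.1 g, conj_mem_of_normalizes le_rfl hg hs.2.1,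
        conj_mem_of_normalizes (normalizer_le_normalizer_centralizer B) hg hs.2.2⟩
    · simp only [e, cj_eq_of_mem_normalizer hg]
  · rw [cj_sup]
    refine sup_le (cj_le_iff.2 ((closure_le _).2 fun s hs => mem_cj.2 ?_))
      ((key g fun n ℓ p k e => ?_).trans le_sup_right)
    swap
    · have k0 := (k 0 (by omega)).1.cj h g
      rw [e] at k0
      have k1 := ((k.cj h g).cons (u.pt h hg) k0).cons u u
      exact le_sSup ⟨n + 1 + 1, _, _, k1, cons0 _ _, by simp only [consS]⟩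
    rw [inv_inv, ← mul_inv_cancel_left s (g * s * g⁻¹)]
    refine mul_mem (mem_sup_left (subset_closure hs)) (mem_sup_right ?_)
    exact (le_sSup ⟨0, fun _ => P, fun _ => B, fun _ _ => ⟨u, u⟩, rfl, rfl⟩ : Wo P ≤ U₁)
      (u.l.cj_mem_W (u.l.mem_Y (h.sq hs.1) hs.2.1 hs.2.2) hs.2.2 hg)

end CL.B2
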