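import Cfsg.Agent.INV.B2.GC
import Cfsg.Agent.PLOC.Offender

/-!
# Pairs with `q > 2`
-/

set_option autoImplicit false
set_option maxHeartbeats 400000
set_option linter.unusedSectionVars false
open Cfsg Subgroup CL.Th CL.MSS CL.Push CL.BHS
open scoped commutatorElement MatrixGroups

namespace CL.B2
variable {G : Type*} [Group G] [Finite G] {D : Set G} {t : G} {A B K P P' T V Z : Subgroup G}

/-- If some member of `𝒜(T)` does not centralize `V`, some member acts quadratically and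
nontrivially (`thompson_replacement` with `U = V`, repeated, or a member `A` not centralizing `V`
with `|A ⊓ V|` maximal). -/
theorem exists_quad (hV : IsElementaryAbelian 2 V) (hVT : V ≤ T) (hn : T ≤ 𝐍 V) (hA : A ∈ Am T)
    (hc : ¬ A ≤ 𝐂 V) : ∃ A' ∈ Am T, ¬ A' ≤ 𝐂 V ∧ ⁅⁅V, A'⁆, A'⁆ = ⊥ := by
  have AV := hA.1.trans hn
  obtain ⟨h1, h2, h3⟩ := thompson_replacement hV hVT hA AV (le_refl V)
  have VA : ⁅V, A⁆ ≤ V := commutator_le_left_of_normalizes AV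
  refine ⟨_, h1, fun e => h3 (fun e' => hc ?_) ?_, eq_bot_iff.2 (le_trans ?_ h2.le)⟩
  · exact le_centralizer_iff.1 (commutator_eq_bot_iff_le_centralizer.1 e')
  · exact commutator_eq_bot_iff_le_centralizer.2 (le_centralizer_iff.1 e)
  refine commutator_mono (commutator_le.2 fun v hv x hx => ?_) le_rfl
  obtain ⟨u, hu, b, hb, rfl⟩ := (mem_sup_of_normalizes_left
    (inf_le_right.trans (centralizer_le_normalizer _))).1 hx
  have c := commutator_mem_commutator hv (mem_inf.1 hb).1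
  have k := mem_centralizer_iff.1 (MSS.elemAb_le_centralizer hV (VA hu))
  rw [show ⁅v, u * b⁆ = v * u * v⁻¹ * ⁅v, b⁆ * u⁻¹ by simp only [commutatorElement_def]; group, k v hv,
    mul_inv_cancel_right, ← k _ (VA c), mul_inv_cancel_right]
  exact c

/-- If `a, a', a a' ∉ N(Z)` then for `z ∈ Z`: `1 = [z, a, a'] = z · z^a · z^{a'} · z^{a a'}`, so
`z ∈ K`. -/
theorem quad_two (hV : IsElementaryAbelian 2 V) (hA : A ≤ 𝐍 V) (hq : ⁅⁅V, A⁆, A⁆ = ⊥) (hZ : Z ≤ V)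
    (hK : ¬ Z ≤ K) (hg : ∀ g ∈ A, g •ᶜ Z = Z ∨ g •ᶜ Z ≤ K) {a a' : G} (ha : a ∈ A) (ha' : a' ∈ A)
    (n1 : a ∉ 𝐍 Z) (n2 : a' ∉ 𝐍 Z) : a * a' ∈ 𝐍 Z := by
  by_contra n
  refine hK fun z hz => ?_
  have k : ∀ g ∈ A, g ∉ 𝐍 Z → g * z * g⁻¹ ∈ K := fun g hg' ng =>
    (hg g hg').resolve_left (mt mem_normalizer_iff_cj.2 ng) (conj_mem_cj hz)
  have zi : z⁻¹ = z := inv_eq_of_mul_eq_one_right ((pow_two z).symm.trans (hV.2 z (hZ hz)))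
  have c := mem_centralizer_iff.1 (commutator_eq_bot_iff_le_centralizer.1 hq
    (commutator_mem_commutator (hZ hz) ha')) a ha
  have _ := hA
  rw [commutatorElement_def, zi] at c
  rw [show z = z * a' * z * a'⁻¹ * a * a⁻¹ * (a' * z * a'⁻¹)⁻¹ by group, ← c,
    show a * (z * a' * z * a'⁻¹) * a⁻¹ = a * z * a⁻¹ * (a * a' * z * (a * a')⁻¹) by group]
  exact mul_mem (mul_mem (k a ha n1) (k _ (mul_mem ha ha') n)) (inv_mem (k a' ha' n2))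

namespace BG

open LB

variable {a y : G} {X W A₃ : Subgroup G}

theorem cle {K : Subgroup G} (hK : K ≤ X) : 𝐂 X ≤ 𝐂 K := centralizer_le (SetLike.coe_subset_coe.2 hK)

theorem idx2 (h : ∀ a ∈ A, ∀ a' ∈ A, a ∉ X → a' ∉ X → a * a' ∈ X) : X.relIndex A ≤ 2 := by
  refine Nat.le_of_dvd two_pos (relIndex_dvd_two_iff.2 ?_)
  by_cases e : A ≤ X
  · exact ⟨1, one_mem _, fun b hb => .inr (e hb)⟩
  obtain ⟨a, ha, n⟩ := SetLike.not_le_iff_exists.1 e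
  exact ⟨a, ha, fun b hb => (em (b ∈ X)).symm.imp_left fun nb => h b hb a ha nb n⟩

theorem crd (H K : Subgroup G) : Nat.card (H ⊓ K : Subgroup G) * H.relIndex K = Nat.card K := by
  rw [← inf_relIndex_right, relIndex, ← Nat.card_congr (subgroupOfEquivOfLe
    (inf_le_right : H ⊓ K ≤ K)).toEquiv, card_mul_index]

theorem star (hA : A ∈ Am T) (hW : IsElementaryAbelian 2 W) (hT : W ≤ T) (hc : X ⊓ A ≤ 𝐂 W) :
    (𝐂 A).relIndex W ≤ X.relIndex A := by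
  have := (offMeas_le_of_mem_maxElemAbIn hW hT hA (inf_le_right : X ⊓ A ≤ A)).1
  rw [offMeas_def, offMeas_def, inf_eq_left.2 (le_centralizer_iff.1 hc), inf_comm W] at this
  have e1 := crd X A
  have e2 := crd (𝐂 A) W
  have p1 : 0 < Nat.card (X ⊓ A : Subgroup G) := Nat.card_pos
  have p2 : 0 < Nat.card (𝐂 A ⊓ W : Subgroup G) := Nat.card_pos
  generalize Nat.card (X ⊓ A : Subgroup G) = a at e1 p1 this
  generalize Nat.card (𝐂 A ⊓ W : Subgroup G) = b at e2 p2 this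
  rw [← e1, ← e2] at this
  exact Nat.le_of_mul_le_mul_left (by rw [mul_assoc, mul_right_comm]; exact this) (Nat.mul_pos p1 p2)

theorem tri (h : Hy D) (p : Pr D P P' B) (ha : a ∈ 𝐍 (Jt B)) :
    (a •ᶜ P = P ∧ a •ᶜ B = B) ∨ (a •ᶜ P = P' ∧ a •ᶜ B = B) ∨ a •ᶜ Wo P ≤ 𝐂 (oU[2] P) := by
  have l := p.l.cj h a
  have hJ : Jt (a •ᶜ B) = Jt B := by rw [← cj_Jt, cj_eq_of_mem_normalizer ha]
  by_cases h1 : Wo P ≤ 𝐂 (Wo (a •ᶜ P))
  · by_cases h2 : Wo P' ≤ 𝐂 (Wo (a •ᶜ P))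
    · exact .inr (.inr (cj_Wo a P ▸ (p.third_W h l hJ h1 h2).trans (cle le_sup_left)))
    · exact .inl (p.symm.nc_eq h l hJ h2)
  · exact .inr (.inl (p.nc_eq h l hJ h1))

theorem triZ (h : Hy D) (p : Pr D P P' B) (ha : a ∈ 𝐍 (Jt B)) :
    a •ᶜ Zo P B = Zo P B ∨ a •ᶜ Wo P ≤ 𝐂 (oU[2] P) := by
  rcases tri h p ha with ⟨e1, e2⟩ | ⟨e1, e2⟩ | e
  · exact .inl (by rw [cj_Zo, e1, e2])
  · exact .inl (by rw [cj_Zo, e1, e2, p.Z_eq'])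
  · exact .inr e

theorem two (h : Hy D) (p : Pr D P P' B) (ha : a ∈ 𝐍 (Jt B)) (hZ : a ∈ 𝐍 (Zo P B)) :
    a •ᶜ P = P ∨ a •ᶜ P = P' := by
  rcases tri h p ha with ⟨e1, -⟩ | ⟨e1, -⟩ | e
  exacts [.inl e1, .inr e1, absurd ((cj_eq_of_mem_normalizer hZ).ge.trans
    ((cj_mono a p.l.Z_le).trans e)) p.l.Z_not_le]

theorem swap (h : Hy D) (p : Pr D P P' B) (ha : a ∈ 𝐍 (Jt B)) (hZ : a ∈ 𝐍 (Zo P B))
    (hn : a ∉ 𝐍 (Wo P)) : a •ᶜ P = P' ∧ a •ᶜ P' = P := by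
  have e := (two h p ha hZ).resolve_left fun e => hn (norm_Wo P (mem_normalizer_iff_cj.2 e))
  refine ⟨e, (two h p.symm ha (p.Z_eq'.symm ▸ hZ)).resolve_left fun e' => p.ne ?_⟩
  exact (cj_inj a).1 (e.trans e'.symm)

theorem idxW (h : Hy D) (p : Pr D P P' B) (h1 : A ≤ 𝐍 (Jt B)) (h2 : A ≤ 𝐍 (Zo P B)) :
    (𝐍 (Wo P)).relIndex A ≤ 2 := idx2 fun a ha a' ha' n n' =>
  norm_Wo P (mem_normalizer_iff_cj.2 (by
    rw [cj_mul, (swap h p (h1 ha') (h2 ha') n').1, (swap h p (h1 ha) (h2 ha) n).2]))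

theorem inn_cases (h : Hy D) (p : At D t P P' B) (hy : y ∈ Sy t) (hi : y ∈ Inn P B) (h2 : y * y = 1) :
    y ∈ 𝐂 (Wo P) ∨ y ∈ 𝐂 (Wo P') := by
  obtain ⟨b, hb, hk⟩ := mem_Inn.1 hi
  obtain ⟨w, hw, q, hq, rfl⟩ := (mem_sup_of_normalizes_right (p.r.W_le.trans
    (p.l.B_le.trans (le_normalizer_oP le_normalizer)))).1 (p.toPr.W'_sup.ge hb)
  obtain ⟨u, hu, hc⟩ := p.toPr.cent_dec h p.mem p.memB p.cent (y := w⁻¹ * y)
    (mul_mem (inv_mem (p.le (p.r.W_le hw))) hy) (by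
      rw [show w⁻¹ * y = q * ((w * q)⁻¹ * y) by group]
      exact mul_mem (Q_le_cent_W P hq) (mem_inf.1 (mem_inf.1 hk).1).1)
  have e : y = w * u * (u⁻¹ * (w⁻¹ * y)) := by group
  have c : ∀ P : Subgroup G, Wo P ≤ 𝐂 (Wo P) := fun P => (W_le_Q P).trans (Q_le_cent_W P)
  rcases p.toPr.inv_dec hu hw hc (e ▸ h2) with z | z <;> rw [e]
  · exact .inr (mul_mem (mul_mem (c _ hw) (cle p.r.W_le (p.l.Z_le_cent z))) (cle le_sup_right hc))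
  · exact .inl (mul_mem (mul_mem (cle p.l.W_le (p.l.Z_le_cent z)) (c _ hu)) (cle p.toPr.W_le_K hc))

theorem core (h : Hy D) (p : At D t P P' B) (hA : A ∈ Am (Sy t ⊓ 𝐍 (Jt B))) :
    ∃ P₀ P₁, Pr D P₀ P₁ B ∧ Zo P₀ B = Zo P B ∧ qo P₀ B = qo P B ∧
      (∀ a : G, a •ᶜ P = P' ∧ a •ᶜ P' = P → a •ᶜ P₀ = P₁) ∧
      (𝐂 A).relIndex (Wo P₀) ≤ (Inn P B ⊓ 𝐍 (Wo P)).relIndex A := by
  have BT : B ≤ Sy t ⊓ 𝐍 (Jt B) := le_inf p.le (le_normalizer_thompsonSubgroupOf B)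
  rcases SubgroupClass.subset_union.1 (show ((Inn P B ⊓ 𝐍 (Wo P) ⊓ A : Subgroup G) : Set G) ⊆
      𝐂 (Wo P) ∪ 𝐂 (Wo P') from fun y hy => inn_cases h p (mem_inf.1 (hA.1 (mem_inf.1 hy).2)).1
        (mem_inf.1 (mem_inf.1 hy).1).1 ((pow_two y).symm.trans (hA.2.1.2 y (mem_inf.1 hy).2))) with e | e
  · exact ⟨P, P', p.toPr, rfl, rfl, fun a e => e.1, star hA (W_elem P) (p.l.W_le.trans BT) e⟩
  · exact ⟨P', P, p.toPr.symm, p.toPr.Z_eq', p.toPr.q_eq.symm, fun a e => e.2,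
      star hA (W_elem P') (p.r.W_le.trans BT) e⟩

theorem one (h : Hy D) (p : At D t P P' B) (hq : qo P B ≠ 2) (hA : A ∈ Am (Sy t ⊓ 𝐍 (Jt B)))
    (hZ : A ≤ 𝐍 (Zo P B)) : A ≤ 𝐍 (Wo P) := fun a ha => by
  by_contra n
  have AJ := hA.1.trans inf_le_right
  have AS := hA.1.trans inf_le_left
  obtain ⟨P₀, P₁, p₀, eZ, eq, sw, le⟩ := core h p hA
  have TN := (inf_le_inf_right (𝐍 (Wo P)) AS).trans (p.l.T_le h p.mem p.memB p.cent).2.2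
  have sq : ∀ y ∈ A, y * y = 1 := fun y hy => (pow_two y).symm.trans (hA.2.1.2 y hy)
  have i1 := idxW h p.toPr AJ hZ
  have i2 : (Inn P B).relIndex (A ⊓ 𝐍 (Wo P)) ≤ 2 := idx2 fun x hx y hy nx ny =>
    p.l.fs_two ((Sy_pg t).to_le (inf_le_left.trans AS)) TN hx hy (sq x (mem_inf.1 hx).1)
      (sq y (mem_inf.1 hy).1) nx ny
  have q4 := p.l.four_le_q hq
  have e1 : Wo P₀ ⊓ 𝐂 A ≤ Zo P₀ B := fun w hw => by
    rw [← p₀.W_inf_cent']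
    refine mem_inf.2 ⟨(mem_inf.1 hw).1, (W_le_Q P₁).trans (Q_le_cent_W P₁) ?_⟩
    rw [← sw a (swap h p.toPr (AJ ha) (hZ ha) n), ← cj_Wo, ← mul_inv_cancel_right w a,
      ← mem_centralizer_iff.1 (mem_inf.1 hw).2 a ha]
    exact conj_mem_cj (mem_inf.1 hw).1
  have e2 : (𝐂 A).relIndex (Wo P₀) = (𝐂 A).relIndex (Zo P B) * qo P B := by
    have := relIndex_inf_mul_relIndex (𝐂 A) (Zo P₀ B) (Wo P₀)
    rw [inf_eq_left.2 p₀.l.Z_le, p₀.l.relIndex_Z, eq, show 𝐂 A ⊓ Zo P₀ B = 𝐂 A ⊓ Wo P₀ from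
      le_antisymm (inf_le_inf_left _ p₀.l.Z_le) (le_inf inf_le_left ((inf_comm _ _).le.trans e1)),
      inf_relIndex_right, eZ] at this
    exact this.symm
  rw [e2, ← relIndex_inf_mul_relIndex, inf_comm (𝐍 (Wo P))] at le
  by_cases c : Zo P B ≤ 𝐂 A
  · have : (Inn P B).relIndex (A ⊓ 𝐍 (Wo P)) = 1 := relIndex_eq_one.2 fun x hx =>
      p.l.fs_Z (k := 1) (mem_inf.1 (TN hx)).1 (mem_inf.1 (TN hx)).2
        (by rw [pow_one, pow_two, sq x (mem_inf.1 hx).1]) fun z hz => by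
        rw [commutatorElement_eq_one_iff_mul_comm.2
          (mem_centralizer_iff.1 (c hz) x (mem_inf.1 hx).1).symm]
        exact one_mem _
    rw [relIndex_eq_one.2 c, this] at le
    omega
  · have c1 := mt relIndex_eq_one.1 c
    have c0 := relIndex_ne (𝐂 A) (Zo P B)
    have : 2 * 4 ≤ (𝐂 A).relIndex (Zo P B) * qo P B := Nat.mul_le_mul (by omega) q4
    have := Nat.mul_le_mul i2 i1
    omega

end BG

open BG LB in
/-- `S = Sy t`, `T₁ = S ⊓ N(J(B))`, `T = S ⊓ N(W)`, `V = Ω₁ Z J(B) ≥ Z`.  By `Jt_eq_of_norm` it is enough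
to show `J(T₁) = J(B)`; by `T_le`, `J(T) = J(B)`, so it is enough to show `A ≤ N(W)` for `A ∈ 𝒜(T₁)`.
For `a ∈ T₁` the pair `a P a⁻¹, a P' a⁻¹` has a point with the same `J`.  By `nc_eq` and `third_W`
either `a W a⁻¹ ∈ {W, W'}` (then `a` normalizes `B` and `Z`, and fixes or swaps `P`, `P'`), or
`a W a⁻¹ ≤ C(E)`, and then `a Z a⁻¹ ≤ C(E)`, `a ∉ N(Z)`.
Let `A ∈ 𝒜(T₁)`, `A₁ = N_A(Z) ≥ A₂ = N_A(W) ≥ A₃ = A₂ ⊓ Inn P B`; `|A₁ : A₂| ≤ 2`, `|A₂ : A₃| ≤ 2`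
(`fs_two`).  `y ∈ A₃` is `w' w c` with `c ∈ C(K)` (`B = W' Q`, `cent_dec`), so `y ∈ C(W)` or
`y ∈ C(W')` (`inv_dec`); hence `A₃ ≤ C(W₀)` for `W₀ = W` or `W₀ = W'`, `A₃ W₀ ≤ T₁` is elementary
abelian and (*) `|W₀ : W₀ ⊓ A| ≤ |A : A₃|`.
(1) `A = A₁ ⇒ A = A₂`.  Let `a ∈ A` swap `W`, `W'`; `W₀ ⊓ A ≤ W ⊓ W' = Z` has index `≥ q ≥ 4`.  If
`A₂ = A₃` then `|A : A₃| = 2`.  Otherwise `A₂` does not centralize `Z` (`fs_Z`), the index is
`≥ 2 q > 4`.  Both contradict (*).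
(2) If all members of `𝒜(T₁)` centralize `V` we are done by (1).  Otherwise take `A` from
`exists_quad`.  If `A = A₁` then `A ≤ T`, `A ≤ J(B)` centralizes `V`.  So take `a ∈ A \ A₁`;
`|A : A₁| = 2` (`quad_two`, `K = C(E)`).  For `y ∈ A₂`, `z ∈ Z`: `y` fixes `[z, a] = z · a z a⁻¹`, so
`[z, y] ∈ Z ⊓ a Z a⁻¹ ≤ C(P)` and `y ∈ Inn P B`: `|A : A₃| ≤ 4`.  `W₀ ⊓ A ≤ W₀ ⊓ a W₀ a⁻¹ ≤ C_{W₀}(E₀)`
has index `q² ≥ 16`, against (*). -/
theorem At.big (h : Hy D) (p : At D t P P' B) (hq : qo P B ≠ 2) : Jt B = Jt (Sy t) := by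
  obtain ⟨eJ, -, TN⟩ := p.l.T_le h p.mem p.memB p.cent
  have TT : Sy t ⊓ 𝐍 (Wo P) ≤ Sy t ⊓ 𝐍 (Jt B) := le_inf inf_le_left
    ((TN.trans inf_le_right).trans (normalizer_le_normalizer_thompsonSubgroupOf B))
  have BT : B ≤ Sy t ⊓ 𝐍 (Jt B) := le_inf p.le (le_normalizer_thompsonSubgroupOf B)
  have ZV : Zo P B ≤ oz (Jt B) := fun z hz => mem_oz_Jt (p.l.W_le (p.l.Z_le hz))
    (Ysq (W_le_Y P (p.l.Z_le hz))) (cle (thompsonSubgroupOf_le B) (p.l.Z_le_cent hz))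
  refine (Jt_eq_of_norm (Sy_pg t) p.le ((thompsonSubgroupOf_eq_of_le (thompsonSubgroupOf_le_iff.2
    fun A hA => le_inf (hA.1.trans inf_le_left) (one h p hq hA ?_)) TT).symm.trans eJ)).symm
  by_contra n0
  have NV : Sy t ⊓ 𝐍 (Jt B) ≤ 𝐍 (oz (Jt B)) := inf_le_right.trans fun g hg =>
    mem_normalizer_iff_cj.2 (by rw [cj_oz, cj_eq_of_mem_normalizer hg])
  obtain ⟨A, hA, nc, hq2⟩ := exists_quad (oz_elem _) (((oz_le _).trans (thompsonSubgroupOf_le B)).trans BT)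
    NV hA fun e => n0 ((e.trans (cle ZV)).trans (centralizer_le_normalizer _))
  have AJ := hA.1.trans inf_le_right
  have AS := hA.1.trans inf_le_left
  obtain ⟨a, ha, n⟩ := SetLike.not_le_iff_exists.1 (show ¬ A ≤ 𝐍 (Zo P B) from fun e => nc
    (((le_thompsonSubgroupOf (mem_maxElemAbIn_of_le hA (le_inf AS (one h p hq hA e)) TT)).trans
      eJ.le).trans (le_centralizer_iff.1 (oz_cent _))))
  have tz : ∀ g ∈ A, g •ᶜ Zo P B = Zo P B ∨ g •ᶜ Zo P B ≤ 𝐂 (oU[2] P) := fun g hg =>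
    (triZ h p.toPr (AJ hg)).imp_right (cj_mono g p.l.Z_le).trans
  have i0 : (𝐍 (Zo P B)).relIndex A ≤ 2 := idx2 fun x hx y hy nx ny =>
    quad_two (oz_elem _) (hA.1.trans NV) hq2 ZV p.l.Z_not_le tz hx hy nx ny
  have i1 := idxW h p.toPr (A := 𝐍 (Zo P B) ⊓ A) (inf_le_right.trans AJ) inf_le_left
  have TA := (inf_le_inf_right (𝐍 (Wo P)) AS).trans TN
  have i2 : A ⊓ 𝐍 (Wo P) ≤ Inn P B := fun y hy => by
    have yA := (mem_inf.1 hy).1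
    refine p.l.fs_Z (k := 1) (mem_inf.1 (TA hy)).1 (mem_inf.1 (TA hy)).2
      (by rw [pow_one]; exact hA.2.1.2 y yA) fun z hz => ?_
    have yZ : y * z⁻¹ * y⁻¹ ∈ Zo P B := conj_mem_of_normalizes (norm_Zo P B) (TA hy) (inv_mem hz)
    have e : ⁅z, y⁆ = z * (y * z⁻¹ * y⁻¹) := by rw [commutatorElement_def]; group
    refine p.l.mem_cent_of_E (e ▸ W_le_Y P (p.l.Z_le (mul_mem hz yZ)))
      ((tz a ha).resolve_left (mt mem_normalizer_iff_cj.2 n) (mem_cj.2 ?_))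
    have c := mem_centralizer_iff.1 (commutator_eq_bot_iff_le_centralizer.1 hq2
      (commutator_mem_commutator (ZV (inv_mem hz)) ha)) y yA
    have c' := mem_centralizer_iff.1 (MSS.elemAb_le_centralizer hA.2.1 yA) a ha
    rw [commutatorElement_def, inv_inv] at c
    have : a⁻¹ * ⁅z, y⁆ * a = z * (y * z⁻¹ * y⁻¹) := by
      calc _ = a⁻¹ * z * (y * (z⁻¹ * a * z * a⁻¹)) * (a * z⁻¹ * a⁻¹) * y⁻¹ * a := by
            rw [commutatorElement_def]; group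
        _ = z * a⁻¹ * (y * a) * z⁻¹ * (y * a)⁻¹ * a := by rw [c]; group
        _ = _ := by rw [← c']; group
    rw [this]
    exact mul_mem hz yZ
  obtain ⟨P₀, P₁, p₀, eZ, eq, -, le⟩ := core h p hA
  have e1 : 𝐂 A ⊓ Wo P₀ ≤ 𝐂 P₀ := fun w hw => by
    refine p₀.l.mem_cent_of_E (W_le_Y _ (mem_inf.1 hw).2) ((triZ h p₀ (AJ ha)).resolve_left
      (fun e => n (eZ ▸ mem_normalizer_iff_cj.2 e)) ?_)
    rw [← mul_inv_cancel_right w a, ← mem_centralizer_iff.1 (mem_inf.1 hw).1 a ha]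
    exact conj_mem_cj (mem_inf.1 hw).2
  have e2 : (𝐂 P₀ ⊓ Zo P₀ B).relIndex (Wo P₀) = qo P B * qo P B := by
    rw [← relIndex_inf_mul_relIndex, inf_eq_left.2 p₀.l.Z_le, p₀.l.relIndex_Z, p₀.l.relIndex_D, eq]
  have e3 : (𝐂 P₀ ⊓ Zo P₀ B).relIndex (Wo P₀) ≤ (𝐂 A ⊓ Wo P₀).relIndex (Wo P₀) :=
    relIndex_le_of_le_left (le_inf e1 fun w hw => p₀.l.mem_Z_of_cent (mem_inf.1 hw).2 (e1 hw))
      (relIndex_ne _ _)
  have e4 : (Inn P B ⊓ 𝐍 (Wo P)).relIndex A ≤ (𝐍 (Wo P) ⊓ 𝐍 (Zo P B) ⊓ A).relIndex A :=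
    relIndex_le_of_le_left (le_inf ((le_inf inf_le_right (inf_le_left.trans inf_le_left)).trans i2)
      (inf_le_left.trans inf_le_left)) (relIndex_ne _ _)
  rw [inf_relIndex_right, ← relIndex_inf_mul_relIndex (𝐍 (Wo P))] at e4
  rw [inf_relIndex_right, e2] at e3
  have := Nat.mul_le_mul i1 i0
  have := Nat.mul_le_mul (p.l.four_le_q hq) (p.l.four_le_q hq)
  omega

end CL.B2
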