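import Cfsg.Agent.INV.B2.Defs2

/-!
# More definitions
-/

set_option autoImplicit false
open Cfsg Subgroup CL.Th CL.MSS CL.Push CL.BHS
open scoped commutatorElement MatrixGroups

namespace CL.B2

variable {G : Type*} [Group G]

/-- `K = E W'` -/
def Ko (P P' : Subgroup G) : Subgroup G := oU[2] P ⊔ Wo P'

/-- The almost simple situation. -/
structure AS (D : Set G) (L : Subgroup G) : Prop where
  hy : Hy D
  normal : L.Normal
  simple : IsSimpleGroup L
  nonab : ¬ IsMulCommutative L
  cent : 𝐂 L = ⊥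
  gen : ∀ d ∈ D, L ⊔ zpowers d = ⊤

/-- The conclusion for a simple group. -/
structure Concl (D : Set G) : Prop where
  lst : Lst G
  all : ∀ s : G, orderOf s = 2 → SylIn 2 (Sy s) ⊤ → s ∈ D

/-- The functions `ζ`, `C` of the small pairs at `t`. -/
structure SmT (D : Set G) (t : G) (ζ : G → G) (C : G → Subgroup G) : Prop where
  th : TH (Sy t) (Th D t) ζ C
  eq : ∀ w P P' B, Sm D t w P P' B → Zo P B = zpowers (ζ w) ∧ C w = Sy t ⊓ 𝐂 (Ko P P')

end CL.B2
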