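import Cfsg.Agent.INV.B2.Sm3

/-!
# The end of the case `q = 2`: all involutions lie in `D`
-/

set_option autoImplicit false
set_option linter.unusedSectionVars false
open Cfsg Subgroup CL.Th CL.MSS CL.Push CL.BHS
open scoped commutatorElement MatrixGroups

namespace CL.B2
variable {G : Type*} [Group G] [Finite G] {D Θ : Set G} {c g g' s t u v w x η ρ : G} {ζ : G → G}
  {C : G → Subgroup G} {m : ℕ} {i j k : ℤ}

namespace Dih
variable (d : Dih Θ ζ w ρ m)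
include d

theorem cj (k : ℤ) : w * ρ ^ k * w⁻¹ = ρ ^ (-k) := by
  rw [← conj_zpow, d.inv, inv_zpow', ]
theorem sw (k : ℤ) : ρ ^ k * w = w * ρ ^ (-k) := by
  rw [← neg_neg k, ← d.cj, neg_neg, inv_mul_cancel_right]
theorem shift (i k : ℤ) : ρ ^ i * (w * ρ ^ k) * (ρ ^ i)⁻¹ = w * ρ ^ (k - 2 * i) := by
  rw [← mul_assoc, d.sw]; group
theorem ne : ρ⁻¹ ≠ ρ := fun e => by
  have : 2 ^ (m + 2) ∣ 2 ^ 1 := d.ord ▸ orderOf_dvd_of_pow_eq_one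
    (by rw [pow_one, pow_two]; exact mul_eq_one_iff_inv_eq.2 e)
  have := (Nat.pow_dvd_pow_iff_le_right one_lt_two).1 this
  omega
theorem gen (hk : Odd k) : ρ ∈ zpowers (ρ ^ k) := by
  rw [mem_zpowers_zpow_iff, d.ord, ← Int.isCoprime_iff_gcd_eq_one]
  push_cast
  exact (Int.isCoprime_two_right.2 hk).pow_right

end Dih

/-- The data used at the end of the case `q = 2`. -/
structure EH (D : Set G) (t : G) (Θ : Set G) (ζ : G → G) (C : G → Subgroup G) : Prop where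
  h : Hy D
  mem : t ∈ D
  T : TH (Sy t) Θ ζ C
  zt : ∀ v ∈ Θ, ζ v = t
  fu : ∀ v ∈ Θ, ∃ e, e * t * e⁻¹ = v ∧ e * v * e⁻¹ = v * t ∧ C v ≤ 𝐜 e
  nD : ∀ v ∈ Θ, ∀ c ∈ C v, c ∉ D
  cen : ∀ c, (∀ v ∈ Θ, c ∈ C v) → c = 1
  cS : 𝐜 t ≤ Sy t

namespace EH
variable (E : EH D t Θ ζ C)
include E

theorem thD (hv : v ∈ Θ) : v ∈ D :=
  let ⟨e, h1, _⟩ := E.fu v hv
  h1 ▸ E.h.conj t E.mem e
theorem CS (hv : v ∈ Θ) (hc : c ∈ C v) : c ∈ Sy t := (E.T.cle v hv hc).1.1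
theorem tt : t * t = 1 := E.h.sq E.mem
theorem ct (hs : s ∈ Sy t) : s * t = t * s := mem_c.1 (Sy_le t hs)
theorem YS : Yz Θ ζ t ≤ Sy t := (closure_le _).2 fun v hv => E.T.mem v hv.1
theorem memY (hv : v ∈ Θ) : v ∈ Yz Θ ζ t := S3.mem_Y hv (E.zt v hv)
theorem cY (hv : v ∈ Θ) (hs : s ∈ Sy t) : s ∈ 𝐍 (Yz Θ ζ t) :=
  E.zt v hv ▸ E.T.norm_Y hv hs (by rw [E.zt v hv, E.ct hs])
theorem tY (hv : v ∈ Θ) : t ∈ Yz Θ ζ t := by simpa only [E.zt v hv] using S3.z_mem E.T hv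
theorem tC : t ∈ 𝐂 (Yz Θ ζ t) := fun _ hy => E.ct (E.YS hy)
theorem dec (hv : v ∈ Θ) (hs : s ∈ Sy t) (hc : s ∈ 𝐂 (Yz Θ ζ t)) : s ∈ C v ∨ t * s ∈ C v := by
  simpa only [E.zt v hv] using E.T.cent_X hv hs (by rwa [E.zt v hv])

theorem nD0 (hs : s ∈ Sy t) (hc : s ∈ 𝐂 (Yz Θ ζ t)) (hD : s ∈ D) : s = t := by
  have := E.cen (t * s) fun v hv => (E.dec hv hs hc).resolve_left fun e => E.nD v hv s e hD
  rw [← E.h.inv E.mem, eq_inv_of_mul_eq_one_right this]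

theorem invC (hv : v ∈ Θ) (hc : c ∈ C v) (h2 : c * c = 1) : c ∈ 𝐂 (Yz Θ ζ t) := by
  obtain ⟨ρ, m, d⟩ := E.T.dih hv
  obtain ⟨a, a1, a2, a3, a4⟩ := E.T.part v hv
  obtain ⟨k, rfl⟩ := (d.mem a).1 ⟨a1, a2⟩
  have vv := S3.sq_of (E.T.two v hv)
  have k1 : c ∈ 𝐜 (ρ ^ k) := by
    have := (𝐜 c).mul_mem (mem_c.2 (mem_c.1 (E.T.cle v hv hc).1.2).symm) (mem_c.2 (mem_c.1 (a4 hc)).symm)
    rw [← mul_assoc, vv, one_mul] at this
    exact mem_c.2 (mem_c.1 this).symm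
  have k2 : ρ ^ k * ρ ^ k ≠ 1 := fun e => S3.ne_of (E.T.ztwo v hv) <| by
    have : v * ρ ^ k * v * (v * ρ ^ k)⁻¹ = v := by
      rw [mul_assoc v, d.sw, ← mul_assoc, vv, zpow_neg, mul_inv_rev, one_mul, ← mul_assoc, ← mul_inv_rev, e,
        S3.inv_of (E.T.two v hv), inv_one, one_mul]
    exact mul_eq_left.1 (a3.symm.trans this)
  obtain ⟨n, hn⟩ := S3.rho4_mem d.ord k k2
  simpa only [E.zt v hv] using E.T.cent_Y d hv (E.CS hv hc) h2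
    (hn ▸ (Commute.zpow_right (mem_c.1 k1) n))

section
variable (hw : w ∈ Θ) (d : Dih Θ ζ w ρ m)
include hw d

theorem th : v ∈ Θ ↔ ∃ k : ℤ, v = w * ρ ^ k :=
  ⟨fun hv => (d.mem v).1 ⟨hv, (E.zt v hv).trans (E.zt w hw).symm⟩, fun hv => ((d.mem v).2 hv).1⟩
theorem th' (k : ℤ) : w * ρ ^ k ∈ Θ := (E.th hw d).2 ⟨k, rfl⟩
theorem rY (k : ℤ) : ρ ^ k ∈ Yz Θ ζ t :=
  (mul_mem_cancel_left (E.memY hw)).1 (E.memY (E.th' hw d k))
theorem rt : ρ ^ 2 ^ (m + 1) = t := d.pow.trans (E.zt w hw)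
theorem act (hs : s ∈ Sy t) : ∃ k : ℤ, s * w * s⁻¹ = w * ρ ^ k := (E.th hw d).1 (E.T.cj w hw s hs).1

theorem pw (hc : ρ ^ k * w = w * ρ ^ k) : ρ ^ k = 1 ∨ ρ ^ k = t := by
  simpa only [mul_eq_left, mul_right_inj, E.zt w hw] using E.T.eq_of_comm hw (E.th' hw d k)
    ((E.zt _ (E.th' hw d k)).trans (E.zt w hw).symm) (by rw [mul_assoc, hc])

theorem Ydec (hη : η ∈ Yz Θ ζ t) : (∃ k : ℤ, η = ρ ^ k) ∨ η ∈ Θ := by
  obtain ⟨k, e | e⟩ := (E.T.mem_Y d hw).1 (E.zt w hw ▸ hη)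
  exacts [.inl ⟨k, e⟩, .inr (e ▸ E.th' hw d k)]

theorem invY (hη : η ∈ Yz Θ ζ t) (h2 : η * η = 1) : η = 1 ∨ η = t ∨ η ∈ Θ := by
  rcases E.Ydec hw d hη with ⟨k, rfl⟩ | e
  · exact (E.pw hw d (by rw [d.sw, zpow_neg, inv_eq_of_mul_eq_one_right h2])).imp_right .inl
  · exact .inr (.inr e)

theorem YC (hη : η ∈ Yz Θ ζ t) (hc : η ∈ C w) : η = 1 := by
  rcases E.Ydec hw d hη with ⟨k, rfl⟩ | e
  · exact (E.pw hw d (mem_c.1 (E.T.cle w hw hc).1.2)).resolve_right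
      fun e => E.nD w hw _ hc (e ▸ E.mem)
  · exact absurd (E.thD e) (E.nD w hw _ hc)

theorem par (hc : c ∈ 𝐂 (Yz Θ ζ t)) (h1 : c ∈ C (w * ρ ^ k)) (i : ℤ) :
    c ∈ C (w * ρ ^ (k - 2 * i)) := by
  rw [← d.shift, (E.T.cj _ (E.th' hw d k) _ (E.YS (E.rY hw d i))).2.2]
  have := conj_mem_cj (g := ρ ^ i) h1
  rwa [hc _ (E.rY hw d i), mul_inv_cancel_right] at this

theorem all (hk : Odd k) (hc : c ∈ 𝐂 (Yz Θ ζ t)) (h1 : c ∈ C w) (h2 : c ∈ C (w * ρ ^ k)) :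
    c = 1 := E.cen c fun v hv => by
  obtain ⟨j, rfl⟩ := (E.th hw d).1 hv
  obtain ⟨i, rfl⟩ := hk
  obtain ⟨l, rfl | rfl⟩ := Int.even_or_odd' j
  · simpa using E.par hw d (k := 0) hc (by simpa using h1) (-l)
  · convert E.par hw d hc h2 (i - l) using 4; ring

theorem inner (hs : s ∈ Sy t) (e : s * w * s⁻¹ = w * ρ ^ (2 * i)) :
    ∃ η ∈ Yz Θ ζ t, ∃ c ∈ C w, s = η * c := by
  have k1 : ρ ^ i * s * w = w * (ρ ^ i * s) := by
    rw [← mul_inv_eq_iff_eq_mul, mul_inv_rev, show ρ ^ i * s * w * (s⁻¹ * (ρ ^ i)⁻¹) =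
      ρ ^ i * (s * w * s⁻¹) * (ρ ^ i)⁻¹ by group, e, d.shift]; simp
  have r := inv_mem (E.rY hw d i)
  obtain ⟨c, hc, k2⟩ := E.T.cent w hw _ (mul_mem (E.YS (E.rY hw d i)) hs) k1
  rw [E.zt w hw] at k2
  rcases k2 with k2 | k2 | k2 | k2
  · exact ⟨_, r, c, hc, by rw [← k2]; group⟩
  · exact ⟨_, mul_mem r (E.memY hw), c, hc, by rw [mul_assoc, ← k2]; group⟩
  · exact ⟨_, mul_mem r (E.tY hw), c, hc, by rw [mul_assoc, ← k2]; group⟩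
  · exact ⟨_, mul_mem r (mul_mem (E.memY hw) (E.tY hw)), c, hc, by rw [mul_assoc, ← k2]; group⟩

theorem innerD (hD : s ∈ D) (hs : s ∈ Sy t) (e : s * w * s⁻¹ = w * ρ ^ (2 * i)) :
    s = t ∨ s ∈ Θ := by
  obtain ⟨η, hη, c, hc, rfl⟩ := E.inner hw d hs e
  have s2 := E.h.sq hD
  have cS := E.CS hw hc
  have c2 : c * c = 1 := E.YC hw d (by
    have := inv_mem (mul_mem hη ((mem_normalizer_iff.1 (E.cY hw cS) η).1 hη))
    rwa [show (η * (c * η * c⁻¹))⁻¹ = c * c * (η * c * (η * c))⁻¹ by group, s2,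
      inv_one, mul_one] at this) (mul_mem hc hc)
  have cc := E.invC hw hc c2
  have h2 : η * η = 1 := by
    rwa [mul_assoc, ← mul_assoc c, ← cc η hη, mul_assoc, c2, mul_one] at s2
  rcases E.invY hw d hη h2 with rfl | rfl | hv
  · exact absurd (by simpa using hD) (E.nD w hw c hc)
  · exact .inl (E.nD0 hs (mul_mem E.tC cc) hD)
  obtain ⟨e', e1, -, e3'⟩ := E.fu η hv
  rcases E.dec hv cS cc with k | k
  · have k1 := E.h.conj' hD e'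
    rw [← e1, mul_assoc _ _ c, mul_assoc _ _ e', mul_assoc _ _ e', mul_assoc _ c, mem_c.1 (e3' k),
      inv_mul_cancel_left, mul_assoc e', inv_mul_cancel_left] at k1
    have := E.nD0 (mul_mem (E.h.self_mem E.mem) cS) (mul_mem E.tC cc) k1
    rw [mul_eq_left.1 this, mul_one]
    exact .inr hv
  · obtain ⟨v1, -, v2⟩ := E.T.mul η hv
    rw [E.zt η hv] at v1 v2
    obtain ⟨f, f1, -, f3⟩ := E.fu _ v1
    have k1 := E.h.conj' hD f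
    rw [show η * c = η * t * (t * c) by rw [mul_assoc, ← mul_assoc t, E.tt, one_mul], ← f1,
      mul_assoc _ _ (t * c), mul_assoc _ _ f, mul_assoc _ _ f, mul_assoc _ (t * c),
      mem_c.1 (f3 (v2.ge k)), inv_mul_cancel_left, mul_assoc f, inv_mul_cancel_left, ← mul_assoc,
      E.tt, one_mul] at k1
    exact absurd k1 (E.nD w hw c hc)

theorem sq_inner (hx : x ∈ Sy t) : ∃ i : ℤ, x * x * w * (x * x)⁻¹ = w * ρ ^ (2 * i) := by
  obtain ⟨k, hk⟩ := E.act hw d hx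
  obtain ⟨l, hl⟩ := (E.th hw d).1 (E.T.cj _ (E.th' hw d 1) x hx).1
  have e : x * ρ * x⁻¹ = ρ ^ (l - k) := by
    rw [show x * ρ * x⁻¹ = (x * w * x⁻¹)⁻¹ * (x * (w * ρ ^ (1 : ℤ)) * x⁻¹) by group, hk, hl]; group
  obtain ⟨i, hi | hi⟩ := Int.even_or_odd' (l - k)
  · refine absurd ?_ (E.h.ne_one E.mem)
    have : x * t * x⁻¹ = 1 := by
      rw [← E.rt hw d, ← conj_pow, e, hi, mul_comm, zpow_mul, ← zpow_natCast, ← zpow_mul,
        ← zpow_mul, ← orderOf_dvd_iff_zpow_eq_one, d.ord]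
      exact ⟨i, by push_cast; ring⟩
    rwa [E.ct hx, mul_inv_cancel_right] at this
  · refine ⟨k * (i + 1), ?_⟩
    rw [show x * x * w * (x * x)⁻¹ = x * (x * w * x⁻¹) * x⁻¹ by group, hk,
      show x * (w * ρ ^ k) * x⁻¹ = x * w * x⁻¹ * (x * ρ ^ k * x⁻¹) by group, hk, ← conj_zpow, e, hi]
    group

theorem inv_rho (h2 : u * u = 1) (hk : Odd k) (e : u * w * u⁻¹ = w * ρ ^ k) (j : ℤ) :
    u * ρ ^ j * u⁻¹ = ρ ^ (-j) := by
  have ww := S3.sq_of (E.T.two w hw)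
  have ui := inv_eq_of_mul_eq_one_right h2
  have wi := inv_eq_of_mul_eq_one_right ww
  have k1 : ρ ^ k = w * u * (w * u) := by
    rw [← inv_mul_cancel_left w (ρ ^ k), ← e, wi, ui]; group
  have k2 : u * ρ ^ k * u⁻¹ = (ρ ^ k)⁻¹ := by
    rw [k1, show u * (w * u * (w * u)) * u⁻¹ = u * w * (u * w) by group]
    simp only [mul_inv_rev, wi, ui]
  obtain ⟨n, hn⟩ := d.gen hk
  have hn : (ρ ^ k) ^ n = ρ := hn
  rw [← conj_zpow, ← hn, ← conj_zpow, k2, inv_zpow, hn, inv_zpow']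

theorem no_outer (hc : c ∈ C w) (c2 : c * c = 1) (hD : u ∈ D) (hu : u ∈ Sy t) (hk : Odd k)
    (e : u * w * u⁻¹ = w * ρ ^ k) : c = 1 := by
  by_contra c1
  have cc := E.invC hw hc c2
  have cS := E.CS hw hc
  have hy := E.th' hw d k
  have h1 : u * c * u⁻¹ ∈ C (w * ρ ^ k) := by
    rw [← e, (E.T.cj w hw u hu).2.2]; exact conj_mem_cj hc
  have cc' : u * c * u⁻¹ ∈ 𝐂 (Yz Θ ζ t) := E.invC hy h1 (by
    rw [show u * c * u⁻¹ * (u * c * u⁻¹) = u * (c * c) * u⁻¹ by group, c2]; group)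
  have h2 := (E.dec hy cS cc).resolve_left fun k => c1 (E.all hw d hk cc hc k)
  have h3 := (E.dec hw (E.CS hy h1) cc').resolve_left fun k =>
    c1 (by simpa using E.all hw d hk cc' k h1)
  have h4 : u * c * u⁻¹ = t * c := by
    have := E.all hw d hk (mul_mem cc (mul_mem E.tC cc')) (mul_mem hc h3)
      (by rw [← mul_assoc, E.ct cS]; exact mul_mem h2 h1)
    rw [← mul_assoc, E.ct cS] at this
    rw [eq_inv_of_mul_eq_one_right this, mul_inv_rev, E.h.inv E.mem, inv_eq_of_mul_eq_one_right c2,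
      E.ct cS]
  have ir := E.inv_rho hw d (E.h.sq hD) hk e
  have r4 : ρ ^ (2 ^ m : ℤ) * ρ ^ (2 ^ m : ℤ) = t := by
    rw [← E.rt hw d, ← zpow_add, ← zpow_natCast]; congr 1; push_cast; ring
  have h5 : u * (ρ ^ (2 ^ m : ℤ) * c) * u⁻¹ = ρ ^ (2 ^ m : ℤ) * c := by
    rw [show u * (ρ ^ (2 ^ m : ℤ) * c) * u⁻¹ = u * ρ ^ (2 ^ m : ℤ) * u⁻¹ * (u * c * u⁻¹) by group,
      ir, h4, ← r4]
    group
  have h6 : ρ ^ (2 ^ m : ℤ) * c * (ρ ^ (2 ^ m : ℤ) * c) = t := by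
    rw [mul_assoc, ← mul_assoc c, ← cc _ (E.rY hw d _), mul_assoc, c2, mul_one, r4]
  generalize ρ ^ (2 ^ m : ℤ) * c = x at h5 h6
  obtain ⟨g, rfl⟩ := E.h.cls t E.mem u hD
  have x1 : g⁻¹ * x * g ∈ Sy t := E.cS (mem_c.2 (by
    conv_lhs => rw [← h5]
    group))
  have x2 : g⁻¹ * x * g * (g⁻¹ * x * g) = g⁻¹ * t * g := by rw [← h6]; group
  obtain ⟨i, hi⟩ := E.sq_inner hw d x1
  rcases E.innerD hw d (x2 ▸ E.h.conj' E.mem g) (mul_mem x1 x1) hi with k | k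
  · have : g * t * g⁻¹ = t := by
      rw [x2] at k
      conv_lhs => rw [← k]
      group
    refine d.ne ?_
    simpa only [this, zpow_neg, zpow_one, ← E.ct (E.YS (zpow_one ρ ▸ E.rY hw d 1)),
      mul_inv_cancel_right] using (ir 1).symm
  · exact (E.T.disj _ k).1 (E.T.sq_mem k x1 (mul_assoc _ _ _).symm)

theorem outerD (hC : ∀ c ∈ C w, c = 1) (hD : u ∈ D) (hk : Odd k) (e : u * w * u⁻¹ = w * ρ ^ k)
    (hu : u ∈ Sy t) (hs : s ∈ Sy t) (h2 : s * s = 1) (hj : Odd j) (e' : s * w * s⁻¹ = w * ρ ^ j) :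
    s ∈ D := by
  have ir := E.inv_rho hw d (E.h.sq hD) hk e
  have is := E.inv_rho hw d h2 hj e'
  have wi := S3.inv_of (E.T.two w hw)
  have k0 : ∀ i l : ℤ, ρ ^ l * u ∈ D → ρ ^ (l + 2 * i) * u ∈ D := fun i l h => by
    have := E.h.conj _ h (ρ ^ i)
    rwa [show ρ ^ i * (ρ ^ l * u) * (ρ ^ i)⁻¹ = ρ ^ i * ρ ^ l * (u * ρ ^ (-i) * u⁻¹) * u by group, ir,
      show ρ ^ i * ρ ^ l * ρ ^ (- -i) = ρ ^ (l + 2 * i) by group] at this
  have k1 : ∀ l : ℤ, ρ ^ l * u ∈ D := fun l => by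
    obtain ⟨i, rfl | rfl⟩ := Int.even_or_odd' l
    · simpa using k0 i 0 (by simpa using hD)
    · obtain ⟨n, rfl⟩ := hk
      have := E.h.conj' hD w
      rw [show w⁻¹ * u * w = w⁻¹ * (u * w * u⁻¹) * u by group, e, inv_mul_cancel_left] at this
      convert k0 (i - n) _ this using 3; ring
  obtain ⟨a, rfl⟩ := hk
  obtain ⟨b, rfl⟩ := hj
  have k2 : (ρ ^ (a - b) * u)⁻¹ * s * w = w * ((ρ ^ (a - b) * u)⁻¹ * s) := by
    have : ρ ^ (a - b) * u * w * (ρ ^ (a - b) * u)⁻¹ = s * w * s⁻¹ := by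
      rw [show ρ ^ (a - b) * u * w * (ρ ^ (a - b) * u)⁻¹ =
        ρ ^ (a - b) * (u * w * u⁻¹) * (ρ ^ (a - b))⁻¹ by group, e, e', d.shift]
      congr 2; ring
    rw [mul_assoc, ← inv_mul_cancel_right (s * w) s, ← this]; group
  have k3 : (ρ ^ (a - b) * u)⁻¹ * s * ρ * ((ρ ^ (a - b) * u)⁻¹ * s)⁻¹ = ρ := by
    rw [show (ρ ^ (a - b) * u)⁻¹ * s * ρ * ((ρ ^ (a - b) * u)⁻¹ * s)⁻¹ = u⁻¹ * ((ρ ^ (a - b))⁻¹ *
      (s * ρ ^ (1 : ℤ) * s⁻¹) * ρ ^ (a - b)) * u by group, is,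
      show (ρ ^ (a - b))⁻¹ * ρ ^ (-1 : ℤ) * ρ ^ (a - b) = ρ ^ (-1 : ℤ) by group, ← ir]
    group
  obtain ⟨c, hc, k4⟩ := E.T.cent w hw _
    (mul_mem (inv_mem (mul_mem (E.YS (E.rY hw d _)) hu)) hs) k2
  rw [hC c hc, E.zt w hw] at k4
  have tr := E.ct (E.YS (zpow_one ρ ▸ E.rY hw d 1))
  rcases k4 with k4 | k4 | k4 | k4
  · exact inv_mul_eq_one.1 k4 ▸ k1 _
  · rw [k4, mul_one, d.inv] at k3; exact absurd k3 d.ne
  · rw [mul_one, inv_mul_eq_iff_eq_mul, mul_assoc, E.ct hu, ← E.rt hw d, ← zpow_natCast,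
      ← mul_assoc, ← zpow_add] at k4
    exact k4 ▸ k1 _
  · rw [k4, mul_one, mul_assoc w, ← tr, mul_inv_rev, mul_assoc, mul_assoc, mul_inv_cancel_left,
      ← mul_assoc, d.inv] at k3
    exact absurd k3 d.ne

end

section
variable (hw : w ∈ Θ) (hD : ∀ u ∈ D, u ∈ Sy t → u = t ∨ u ∈ Θ)

/-- the class of an element modulo `Y S'` -/
local notation "φ[" a "]" => (QuotientGroup.mk a : G ⧸ (Yz Θ ζ t ⊔ ⁅Sy t, Sy t⁆ : Subgroup G))

theorem fA (e : g * t * g⁻¹ = g' * t * g'⁻¹) (hx : g⁻¹ * x * g ∈ Sy t) :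
    φ[g⁻¹ * x * g] = φ[g'⁻¹ * x * g'] := by
  have k : g⁻¹ * g' ∈ Sy t := E.cS (mem_c.2 (by
    rw [show g⁻¹ * g' * t = g⁻¹ * (g' * t * g'⁻¹) * g' by group, ← e]; group))
  have := mem_sup_right (S := Yz Θ ζ t) (commutator_mem_commutator (inv_mem hx) (inv_mem k))
  refine QuotientGroup.eq.2 ?_
  convert this using 1
  simp only [commutatorElement_def]; group

include hw hD

theorem fB0 (hx : x ∈ Sy t) (h1 : g * t * g⁻¹ ∈ Sy t) (h2 : x * (g * t * g⁻¹) = g * t * g⁻¹ * x) :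
    φ[x] = φ[g⁻¹ * x * g] := by
  rcases hD _ (E.h.conj t E.mem g) h1 with k | k
  · simpa using E.fA (g := 1) (x := x) (by simpa using k.symm) (by simpa using hx)
  obtain ⟨e, e1, e2, e3⟩ := E.fu _ k
  obtain ⟨c, hc, k1⟩ := E.T.cent _ k x hx h2
  rw [E.zt _ k] at k1
  obtain ⟨v, hv⟩ : ∃ v, v = g * t * g⁻¹ := ⟨_, rfl⟩
  rw [← hv] at k hc k1 e2 e3 e1
  have cS := E.CS k hc
  have a1 : e⁻¹ * v * e ∈ Yz Θ ζ t := by rw [← e1]; simpa [mul_assoc] using E.tY hw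
  have a2 : e⁻¹ * (v * t) * e ∈ Yz Θ ζ t := by rw [← e2]; simpa [mul_assoc] using E.memY k
  have a3 : e⁻¹ * t * e ∈ Yz Θ ζ t := by
    convert mul_mem (inv_mem a1) a2 using 1; group
  obtain ⟨y, y1, y2, rfl⟩ : ∃ y ∈ Yz Θ ζ t, e⁻¹ * y * e ∈ Yz Θ ζ t ∧ x = y * c := by
    rcases k1 with k1 | k1 | k1 | k1
    exacts [⟨1, one_mem _, by simp, by simpa using k1⟩, ⟨v, E.memY k, a1, k1⟩, ⟨t, E.tY hw, a3, k1⟩,
      ⟨v * t, mul_mem (E.memY k) (E.tY hw), a2, k1⟩]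
  have k2 : e⁻¹ * (y * c) * e = e⁻¹ * y * e * c := by
    rw [mul_assoc, mul_assoc, mem_c.1 (e3 hc)]; group
  rw [← E.fA (e1.trans hv) (k2 ▸ mul_mem (E.YS y2) cS), k2]
  refine QuotientGroup.eq.2 (mem_sup_left ?_)
  convert (mem_normalizer_iff.1 (inv_mem (E.cY hw cS)) _).1 (mul_mem (inv_mem y1) y2) using 1
  group

theorem fB (h0 : g' * t * g'⁻¹ * (g * t * g⁻¹) = g * t * g⁻¹ * (g' * t * g'⁻¹))
    (h1 : x * (g * t * g⁻¹) = g * t * g⁻¹ * x) (h2 : x * (g' * t * g'⁻¹) = g' * t * g'⁻¹ * x) :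
    φ[g⁻¹ * x * g] = φ[g'⁻¹ * x * g'] := by
  have k : ∀ {y}, y * (g * t * g⁻¹) = g * t * g⁻¹ * y → g⁻¹ * y * g ∈ Sy t := fun {y} h =>
    E.cS (mem_c.2 (by
      rw [show g⁻¹ * y * g * t = g⁻¹ * (y * (g * t * g⁻¹)) * g by group, h]; group))
  have := E.fB0 hw hD (g := g⁻¹ * g') (k h1) (by convert k h0 using 1; group) (by
    rw [show g⁻¹ * x * g * (g⁻¹ * g' * t * (g⁻¹ * g')⁻¹) = g⁻¹ * (x * (g' * t * g'⁻¹)) * g by group,
      h2]; group)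
  rw [this]; congr 1; group

theorem fC (hx : x ∈ Sy t) (h1 : g⁻¹ * x * g ∈ Sy t) : φ[x] = φ[g⁻¹ * x * g] := by
  have h2 : x * (g * t * g⁻¹) = g * t * g⁻¹ * x := by
    rw [show x * (g * t * g⁻¹) = g * (g⁻¹ * x * g * t) * g⁻¹ by group, E.ct h1]; group
  obtain ⟨T, hT, k1⟩ := exists_sylIn_ge (R := zpowers x ⊔ zpowers t) (H := 𝐜 x)
    ((Sy_pg t).to_le (sup_le (zpowers_le.2 hx) (zpowers_le.2 (E.h.self_mem E.mem))))
    (sup_le (zpowers_le.2 (mem_c.2 rfl)) (zpowers_le.2 (mem_c.2 (E.ct hx).symm)))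
  obtain ⟨c, c1, c2⟩ := hT.exists_conj_le (E.h.pg_z (E.h.conj t E.mem g))
    (zpowers_le.2 (mem_c.2 h2.symm))
  obtain ⟨w₀, w1, w2⟩ := E.h.exists_Sy hT.pgroup
  obtain ⟨g₀, rfl⟩ := E.h.cls t E.mem w₀ w1
  have k := fun {y} (h : y ∈ T) => mem_c.1 (Sy_le _ (w2 h))
  have xT := k (k1 (mem_sup_left (mem_zpowers x)))
  have c3 := mem_c.1 c1
  have e : c * g * t * (c * g)⁻¹ = c * (g * t * g⁻¹) * c⁻¹ := by group
  have b1 := E.fB hw hD (g := 1) (g' := g₀) (x := x)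
    (by simpa using (k (k1 (mem_sup_right (mem_zpowers t)))).symm) (by simpa using E.ct hx) xT
  have b2 := E.fB hw hD (g := g₀) (g' := c * g) (x := x)
    (e ▸ k (c2 (conj_mem_cj (mem_zpowers _)))) xT (by
      rw [e, ← mul_assoc, ← mul_assoc, ← c3, mul_assoc c, h2, mul_assoc _ c⁻¹,
        (Commute.inv_left c3 : c⁻¹ * x = x * c⁻¹)]
      group)
  rw [show (c * g)⁻¹ * x * (c * g) = g⁻¹ * (c⁻¹ * (x * c)) * g by group, ← c3,
    inv_mul_cancel_left] at b2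
  simpa using b1.trans b2

theorem focal (hG : _root_.commutator G = ⊤) : Sy t ≤ Yz Θ ζ t := by
  have k := commutator_inf_eq_focalSubgroup (E.h.syl t E.mem).toSylowTop
  rw [hG, top_inf_eq] at k
  refine le_of_le_sup_commutator (Sy_pg t) (Sy_pg t) le_normalizer (fun _ => E.cY hw)
    (fun _ => E.cY hw) E.YS (k.le.trans ((closure_le _).2 ?_))
  rintro _ ⟨h1, x, hx, u, rfl⟩
  have := QuotientGroup.eq.1 (E.fC hw hD (g := u⁻¹) (inv_mem hx) (by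
    simpa [commutatorElement_def, mul_assoc] using (Sy t).mul_mem (inv_mem hx) h1))
  simpa [commutatorElement_def, mul_assoc] using this

end

theorem allD (hw : w ∈ Θ) (hG : _root_.commutator G = ⊤) (h2 : orderOf s = 2) : s ∈ D := by
  obtain ⟨ρ, m, d⟩ := E.T.dih hw
  obtain ⟨w₀, w1, w2⟩ := E.h.exists_Sy (T := zpowers s)
    (isPGroup_zpowers (k := 1) (by rw [pow_one, ← h2, pow_orderOf_eq_one]))
  obtain ⟨g, rfl⟩ := E.h.cls w₀ w1 t E.mem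
  have hs : g * s * g⁻¹ ∈ Sy (g * w₀ * g⁻¹) := Sy_cj g w₀ ▸ conj_mem_cj (w2 (mem_zpowers s))
  suffices g * s * g⁻¹ ∈ D by simpa [mul_assoc] using E.h.conj' this g
  replace h2 : orderOf (g * s * g⁻¹) = 2 := ((MulAut.conj g).orderOf_eq s).trans h2
  generalize g * s * g⁻¹ = s at hs h2
  generalize g * w₀ * g⁻¹ = t at *
  have kY : s ∈ Yz Θ ζ t → s ∈ D := fun h => by
    rcases E.invY hw d h (S3.sq_of h2) with e | e | e
    exacts [absurd e (S3.ne_of h2), e ▸ E.mem, E.thD e]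
  by_cases ho : ∃ u ∈ D, u ∈ Sy t ∧ ∃ k : ℤ, Odd k ∧ u * w * u⁻¹ = w * ρ ^ k
  · obtain ⟨u, u1, u2, k, hk, e⟩ := ho
    have hC : ∀ c ∈ C w, c = 1 := fun c hc => by
      by_contra c1
      obtain ⟨j, hj⟩ := IsPGroup.iff_orderOf.1 (Sy_pg t) ⟨c, E.CS hw hc⟩
      rw [orderOf_mk] at hj
      have hj := orderOf_pow_orderOf_div (orderOf_pos c).ne' (hj ▸ dvd_pow_self 2
        fun e => c1 (orderOf_eq_one_iff.1 (by rw [hj, e, pow_zero])))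
      exact S3.ne_of hj (E.no_outer hw d (pow_mem hc _) (S3.sq_of hj) u1 u2 hk e)
    obtain ⟨j, hj⟩ := E.act hw d hs
    rcases Int.even_or_odd j with ⟨i, rfl⟩ | hj'
    · obtain ⟨η, hη, c, hc, rfl⟩ := E.inner hw d hs (i := i) (by rwa [two_mul])
      exact kY (by rwa [hC c hc, mul_one])
    · exact E.outerD hw d hC u1 hk e u2 hs (S3.sq_of h2) hj' hj
  · refine kY (E.focal hw (fun u u1 u2 => ?_) hG hs)
    obtain ⟨j, hj⟩ := E.act hw d u2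
    rcases Int.even_or_odd j with ⟨i, rfl⟩ | hj'
    · exact E.innerD hw d u1 u2 (i := i) (by rwa [two_mul])
    · exact absurd ⟨u, u1, u2, j, hj', hj⟩ ho

end EH
end CL.B2
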