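import Cfsg.Agent.INV.B2.LineB

/-!
# Elements normalizing a line and its point: field automorphisms

Let `x ∈ N(P) ∩ N(B)`.  It acts on `Y / C_Y(P) = F²` as an additive bijection `θ` (`θ (ψ y) =
ψ (x y x⁻¹)`) with `θ ∘ ρ(g) = ρ(x g x⁻¹) ∘ θ`, and `θ(F e₀) = F e₀`.  An additive map `F² → F²`
commuting with `SL₂(F)` is a scalar (the image of `e₀` is fixed by `U`, so it is `c e₀`; every
nonzero vector is `g e₀`).  So `θ ∘ c ∘ θ⁻¹ = σ(c)` for a ring automorphism `σ` of `F`: `θ` is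
`σ`-semilinear.  If `σ = 1` and `x` is a 2-element, `θ` is a triangular matrix whose diagonal
entries have 2-power order in `Fˣ`, so they are 1: `θ = ρ(b)` with `b ∈ B`.  Then `y = b⁻¹ x` acts
trivially on `F²`, so `[P, y] ≤ Q` and `[W, y] ≤ C_W(P)`; `w ↦ [w, y]` is a homomorphism
`W → C_W(P)` which is constant on `E`-classes, so it kills `[W, E] = W`: `x ∈ Inn P B`.
So for a 2-element `x`: `x ∈ Inn P B ↔ σ = 1`.  It is best to prove once a lemma giving `θ`, `σ`.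
-/

set_option autoImplicit false
set_option linter.unusedSectionVars false
open Cfsg Subgroup CL.Th CL.MSS CL.Push CL.BHS
open scoped commutatorElement MatrixGroups

namespace CL.B2

variable {G : Type*} [Group G] [Finite G] {D : Set G} {b s x y : G} {B P T : Subgroup G} {k : ℕ}

namespace FS

section Field
variable {F : Type} [Field F]

/-- `!![1, a; 0, 1]` -/
def uu (a : F) : SL(2, F) := ⟨!![1, a; 0, 1], by simp [Matrix.det_fin_two]⟩

theorem smul0 (g : SL(2, F)) (v : Fin 2 → F) : (g • v) 0 = g 0 0 * v 0 + g 0 1 * v 1 := by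
  simp [Matrix.SpecialLinearGroup.smul_def, Matrix.mulVec, dotProduct, Fin.sum_univ_two]

theorem smul1 (g : SL(2, F)) (v : Fin 2 → F) : (g • v) 1 = g 1 0 * v 0 + g 1 1 * v 1 := by
  simp [Matrix.SpecialLinearGroup.smul_def, Matrix.mulVec, dotProduct, Fin.sum_univ_two]

theorem uu_smul (a : F) (v : Fin 2 → F) : uu a • v = ![v 0 + a * v 1, v 1] := by
  ext i; fin_cases i
  · rw [Fin.zero_eta, smul0]; simp [uu]
  · rw [Fin.mk_one, smul1]; simp [uu]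

theorem uu_e0 (a : F) : uu a • ![(1 : F), 0] = ![1, 0] := by rw [uu_smul]; simp

theorem uu_ne : uu (1 : F) ≠ 1 := fun h => by
  have := congrArg (fun g : SL(2, F) => g 0 1) h
  simp [uu] at this

theorem sm_comm (g : SL(2, F)) (c : F) (v : Fin 2 → F) : g • c • v = c • g • v := by
  ext i; fin_cases i
  · simp only [Fin.zero_eta, smul0, Pi.smul_apply, smul_eq_mul]; ring
  · simp only [Fin.mk_one, smul1, Pi.smul_apply, smul_eq_mul]; ring

theorem sl_ext {g h : SL(2, F)} (e : ∀ v : Fin 2 → F, g • v = h • v) : g = h := by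
  have a := congrFun (e ![1, 0]) 0
  have b := congrFun (e ![1, 0]) 1
  have c := congrFun (e ![0, 1]) 0
  have d := congrFun (e ![0, 1]) 1
  simp only [smul0, smul1, Matrix.cons_val_zero, Matrix.cons_val_one, mul_one, mul_zero, add_zero,
    zero_add] at a b c d
  ext i j; fin_cases i <;> fin_cases j <;> assumption

theorem eq_uu {g : SL(2, F)} (h : g • ![(1 : F), 0] = ![1, 0]) : g = uu (g 0 1) := by
  have a := congrFun h 0
  have b := congrFun h 1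
  simp only [smul0, smul1, Matrix.cons_val_zero, Matrix.cons_val_one, mul_one, mul_zero,
    add_zero] at a b
  have d := g.2
  rw [Matrix.det_fin_two] at d
  change g 0 0 * g 1 1 - g 0 1 * g 1 0 = 1 at d
  rw [a, b, one_mul, mul_zero, sub_zero] at d
  ext i j; fin_cases i <;> fin_cases j <;> simp [uu, a, b, d]

theorem uu_comm (a b : F) : uu a * uu b = uu b * uu a := sl_ext fun v => by
  simp only [mul_smul, uu_smul, Matrix.cons_val_zero, Matrix.cons_val_one]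
  congr 1; ring

theorem dec (v : Fin 2 → F) : v = v 0 • ![(1 : F), 0] + v 1 • ![(0 : F), 1] := by
  ext i; fin_cases i <;> simp

theorem ne_e0 : ![(1 : F), 0] ≠ 0 := fun h => by simpa using congrFun h 0

theorem line {v : Fin 2 → F} (h : v 1 = 0) : v = v 0 • ![(1 : F), 0] := by
  ext i; fin_cases i <;> simp [h]

theorem scalar (φ : (Fin 2 → F) → Fin 2 → F) (h0 : φ 0 = 0)
    (h : ∀ (g : SL(2, F)) v, φ (g • v) = g • φ v) : ∃ c : F, ∀ v, φ v = c • v := by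
  have h1 : φ ![1, 0] 1 = 0 := by
    have := h (uu 1) ![1, 0]
    rw [uu_e0] at this
    exact (fix_iff_of_fix_e0 (uu_e0 1) uu_ne _).1 this.symm
  refine ⟨φ ![1, 0] 0, fun v => ?_⟩
  by_cases hv : v = 0
  · rw [hv, h0, smul_zero]
  · obtain ⟨g, rfl⟩ := exists_smul_e0 hv
    rw [h, ← sm_comm, ← line h1]

theorem eq_one_of_pow [CharP F 2] {c : F} {k : ℕ} (h : c ^ 2 ^ k = 1) : c = 1 := by
  have := sub_pow_char_pow (R := F) (p := 2) (x := c) (y := 1) (n := k)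
  rw [h, one_pow, sub_self] at this
  exact sub_eq_zero.1 (pow_eq_zero_iff (by positivity) |>.1 this)

theorem inv_unique [Fintype F] [CharP F 2] {σ τ : F →+* F} (h1 : ∀ c, σ (σ c) = c)
    (h2 : ∀ c, τ (τ c) = c) (n1 : ¬ ∀ c, σ c = c) (n2 : ¬ ∀ c, τ c = c) (c : F) : σ c = τ c := by
  classical
  let := ZMod.algebra F 2
  have : Fact (Nat.Prime 2) := Nat.fact_prime_two
  let mk (σ : F →+* F) (h : ∀ c, σ (σ c) = c) : F ≃ₐ[ZMod 2] F :=
    AlgEquiv.ofRingEquiv (f := { σ with invFun := σ, left_inv := h, right_inv := h }) fun r =>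
      DFunLike.congr_fun (RingHom.ext_zmod (σ.comp (algebraMap (ZMod 2) F)) (algebraMap (ZMod 2) F)) r
  have hc := IsCyclic.card_pow_eq_one_le (α := F ≃ₐ[ZMod 2] F) (n := 2) two_pos
  by_contra hn
  have : ({1, mk σ h1, mk τ h2} : Finset (F ≃ₐ[ZMod 2] F)) ⊆
      Finset.univ.filter fun a => a ^ 2 = 1 := by
    intro a ha
    simp only [Finset.mem_insert, Finset.mem_singleton] at ha
    simp only [Finset.mem_filter, Finset.mem_univ, true_and]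
    rcases ha with rfl | rfl | rfl
    · exact one_pow _
    · rw [sq]; ext x; exact h1 x
    · rw [sq]; ext x; exact h2 x
  have h3 := (Finset.card_le_card this).trans hc
  rw [Finset.card_eq_three.2 ⟨1, mk σ h1, mk τ h2, fun e => n1 fun x => (DFunLike.congr_fun e x).symm,
    fun e => n2 fun x => (DFunLike.congr_fun e x).symm, fun e => hn (DFunLike.congr_fun e c), rfl⟩]
    at h3
  omega

end Field

variable {F : Type} [Field F] {ρ : P →* SL(2, F)} {ψ : G → Fin 2 → F}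

/-- `x` acts on `F²` as the `σ`-semilinear map `θ` -/
structure Sem (P : Subgroup G) (ψ : G → Fin 2 → F) (x : G) (θ : (Fin 2 → F) →+ (Fin 2 → F))
    (σ : F →+* F) : Prop where
  act : ∀ y ∈ Yo P, θ (ψ y) = ψ (x * y * x⁻¹)
  sem : ∀ c v, θ (c • v) = σ c • θ v

variable {θ θ' : (Fin 2 → F) →+ (Fin 2 → F)} {σ σ' : F →+* F}

theorem ncY (hP : x ∈ 𝐍 P) (hy : y ∈ Yo P) : x * y * x⁻¹ ∈ Yo P :=
  conj_mem_of_normalizes (norm_Yo P) hP hy

theorem cjP (hP : x ∈ 𝐍 P) (hy : y ∈ P) : x * y * x⁻¹ ∈ P := conj_mem_of_normalizes le_rfl hP hy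

theorem cjC (hP : x ∈ 𝐍 P) (hy : y ∈ 𝐂 P) : x * y * x⁻¹ ∈ 𝐂 P :=
  conj_mem_of_normalizes (normalizer_le_normalizer_centralizer P) hP hy

theorem Sem.mul (hy : y ∈ 𝐍 P) (h : Sem P ψ x θ σ) (h' : Sem P ψ y θ' σ') :
    Sem P ψ (x * y) (θ.comp θ') (σ.comp σ') where
  act w hw := by
    rw [AddMonoidHom.comp_apply, h'.act w hw, h.act _ (ncY hy hw)]
    congr 1; group
  sem c v := by simp only [AddMonoidHom.comp_apply, h'.sem, h.sem, RingHom.comp_apply]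

variable (m : LM F P B ρ ψ)
include m

theorem exists_th (hP : x ∈ 𝐍 P) :
    ∃ θ : (Fin 2 → F) →+ (Fin 2 → F), ∀ y ∈ Yo P, θ (ψ y) = ψ (x * y * x⁻¹) := by
  choose s hs hs' using m.surj
  have key : ∀ y ∈ Yo P, ψ (x * s (ψ y) * x⁻¹) = ψ (x * y * x⁻¹) := fun y hy => by
    have h := (m.toNatD.eq_iff (hs _) hy).1 (hs' _)
    refine (m.toNatD.eq_iff (ncY hP (hs _)) (ncY hP hy)).2 ?_
    rw [show (x * s (ψ y) * x⁻¹)⁻¹ * (x * y * x⁻¹) = x * ((s (ψ y))⁻¹ * y) * x⁻¹ by group]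
    exact mem_inf.2 ⟨ncY hP (mem_inf.1 h).1, cjC hP (mem_inf.1 h).2⟩
  refine ⟨AddMonoidHom.mk' (fun v => ψ (x * s v * x⁻¹)) fun v w => ?_, key⟩
  have := key (s v * s w) (mul_mem (hs v) (hs w))
  rw [m.add _ (hs v) _ (hs w), hs', hs'] at this
  rw [this, ← m.add _ (ncY hP (hs v)) _ (ncY hP (hs w))]
  congr 1; group

theorem th_rho (hP : x ∈ 𝐍 P) (h : ∀ y ∈ Yo P, θ (ψ y) = ψ (x * y * x⁻¹)) (g : P) (v : Fin 2 → F) :
    θ (ρ g • v) = ρ ⟨x * g * x⁻¹, cjP hP g.2⟩ • θ v := by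
  obtain ⟨y, hy, rfl⟩ := m.surj v
  rw [← m.act g y hy, h _ (m.toNatD.conj_mem g hy), h y hy, ← m.act _ _ (ncY hP hy)]
  congr 1; simp only; group

theorem th_inv (hP : x ∈ 𝐍 P) (h : ∀ y ∈ Yo P, θ (ψ y) = ψ (x * y * x⁻¹))
    (h' : ∀ y ∈ Yo P, θ' (ψ y) = ψ (x⁻¹ * y * x⁻¹⁻¹)) (v : Fin 2 → F) : θ' (θ v) = v := by
  obtain ⟨y, hy, rfl⟩ := m.surj v
  rw [h y hy, h' _ (ncY hP hy)]
  congr 1; group

theorem th_inj (hP : x ∈ 𝐍 P) (h : ∀ y ∈ Yo P, θ (ψ y) = ψ (x * y * x⁻¹)) :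
    Function.Injective θ := by
  obtain ⟨θ', h'⟩ := exists_th m (inv_mem hP)
  exact Function.LeftInverse.injective (th_inv m hP h h')

theorem exists_sem (hP : x ∈ 𝐍 P) : ∃ θ σ, Sem P ψ x θ σ := by
  obtain ⟨θ, h⟩ := exists_th m hP
  obtain ⟨θ', h'⟩ := exists_th m (inv_mem hP)
  have i1 := th_inv m hP h h'
  have i2 := th_inv m (inv_mem hP) h' (by simpa only [inv_inv] using h)
  have : ∀ c : F, ∃ d : F, ∀ v, θ (c • θ' v) = d • v := fun c => by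
    refine scalar _ (by simp) fun g v => ?_
    obtain ⟨g, rfl⟩ := m.onto g
    rw [th_rho m (inv_mem hP) h', ← sm_comm, th_rho m hP h]
    congr 2
    exact Subtype.ext (by simp only; group)
  choose σ hσ using this
  have hs : ∀ c v, θ (c • v) = σ c • θ v := fun c v => by rw [← hσ, i1]
  have hn : θ ![1, 0] ≠ 0 := fun e => ne_e0 (th_inj m hP h (e.trans (map_zero θ).symm))
  have hi := smul_left_injective F hn
  refine ⟨θ, ⟨⟨⟨σ, hi ?_⟩, fun c d => hi ?_⟩, hi ?_, fun c d => hi ?_⟩, h, hs⟩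
  · simp only [← hs, one_smul]
  · simp only [mul_smul, ← hs]
  · simp only [← hs, zero_smul, map_zero]
  · simp only [add_smul, ← hs, map_add]

theorem exists_uu (a : F) : ∃ g : P, (g : G) ∈ B ∧ ρ g = uu a := by
  obtain ⟨g, e⟩ := m.onto (uu a)
  exact ⟨g, (m.fixB g).2 (by rw [e, uu_e0]), e⟩

theorem psi1 (hy : y ∈ Yo P) (hc : y ∈ 𝐂 B) : ψ y 1 = 0 := by
  obtain ⟨g, hg, e⟩ := exists_uu m (1 : F)
  have := m.act g y hy
  rw [mem_centralizer_iff.1 hc g hg, mul_inv_cancel_right, e] at this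
  exact (fix_iff_of_fix_e0 (uu_e0 1) uu_ne _).1 this.symm

theorem th_e0 (hP : x ∈ 𝐍 P) (hB : x ∈ 𝐍 B) (h : ∀ y ∈ Yo P, θ (ψ y) = ψ (x * y * x⁻¹)) :
    θ ![1, 0] 1 = 0 := by
  obtain ⟨g, hg, e⟩ := exists_uu m (1 : F)
  have := th_rho m hP h ⟨x⁻¹ * g * x⁻¹⁻¹, cjP (inv_mem hP) g.2⟩ ![1, 0]
  rw [(m.fixB _).1 (conj_mem_of_normalizes le_rfl (inv_mem hB) hg)] at this
  rw [show (⟨_, _⟩ : P) = g from Subtype.ext (by simp only; group), e] at this
  exact (fix_iff_of_fix_e0 (uu_e0 1) uu_ne _).1 this.symm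

theorem triv (hP : x ∈ 𝐍 P) (h : ∀ w ∈ Yo P, ψ (x * w * x⁻¹) = ψ w) : x ∈ 𝐂 (Wo P) := by
  have h' : ∀ y ∈ Yo P, AddMonoidHom.id _ (ψ y) = ψ (x * y * x⁻¹) := fun y hy => (h y hy).symm
  refine le_c_iff.1 (commutator_le.2 fun w hw e he => ?_)
  have heP := oU_le P he
  have r : ρ ⟨e, heP⟩ = ρ ⟨x * e * x⁻¹, cjP hP heP⟩ := sl_ext fun v => th_rho m hP h' ⟨e, heP⟩ v
  have q : e⁻¹ * (x * e * x⁻¹) ∈ O2 P :=
    (m.kerρ ((⟨e, heP⟩ : P)⁻¹ * ⟨x * e * x⁻¹, cjP hP heP⟩)).1 (by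
      rw [map_mul, map_inv, r, inv_mul_cancel])
  have q1 := mem_centralizer_iff.1 (Q_le_cent_Y P q) _ (ncY hP hw)
  have d := (mem_inf.1 ((m.toNatD.eq_iff hw (ncY hP hw)).1 (h w hw).symm)).2
  have d1 := mem_centralizer_iff.1 d e heP
  generalize hq : e⁻¹ * (x * e * x⁻¹) = q' at q1
  generalize hd : w⁻¹ * (x * w * x⁻¹) = d' at d1
  have e1 : x * e * x⁻¹ = e * q' := by rw [← hq]; group
  have e2 : x * w * x⁻¹ = w * d' := by rw [← hd]; group
  have e3 : x * ⁅w, e⁆ * x⁻¹ = ⁅w, e⁆ := by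
    calc x * ⁅w, e⁆ * x⁻¹ = (x * w * x⁻¹) * ((x * e * x⁻¹) * (x * w * x⁻¹) * (x * e * x⁻¹)⁻¹)⁻¹ := by
          rw [commutatorElement_def]; group
      _ = (x * w * x⁻¹) * (e * (q' * (x * w * x⁻¹)) * q'⁻¹ * e⁻¹)⁻¹ := by rw [e1]; group
      _ = (w * d') * (e * w * (d' * e⁻¹))⁻¹ := by rw [← q1, e2]; group
      _ = (w * d') * (e * w * (e⁻¹ * (e * d') * e⁻¹))⁻¹ := by group
      _ = ⁅w, e⁆ := by rw [d1, commutatorElement_def]; group
  rw [mem_c]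
  rw [← e3]; nth_rw 2 [e3]; group

omit m in
theorem iter (hP : x ∈ 𝐍 P) (h : Sem P ψ x θ σ) (n : ℕ) (hy : y ∈ Yo P) :
    θ^[n] (ψ y) = ψ (x ^ n * y * (x ^ n)⁻¹) := by
  induction n with
  | zero => simp
  | succ n ih =>
    rw [Function.iterate_succ_apply', ih, h.act _ (ncY (pow_mem hP n) hy)]
    congr 1; rw [pow_succ']; group

theorem inn_of_lin [CharP F 2] (hP : x ∈ 𝐍 P) (hB : x ∈ 𝐍 B) (h2 : x ^ 2 ^ k = 1)
    (h : Sem P ψ x θ σ) (hs : ∀ c, σ c = c) :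
    ∃ b ∈ B, b⁻¹ * x ∈ 𝐂 (Wo P) ⊓ 𝐍 P ⊓ 𝐍 B := by
  have z := th_e0 m hP hB h.act
  have f : ∀ v, θ v = ![θ ![1, 0] 0 * v 0 + θ ![0, 1] 0 * v 1, θ ![0, 1] 1 * v 1] := fun v => by
    conv_lhs => rw [dec v, map_add, h.sem, h.sem, hs, hs]
    ext i; fin_cases i <;> simp [z, mul_comm]
  have it : ∀ v, θ^[2 ^ k] v = v := fun v => by
    obtain ⟨y, hy, rfl⟩ := m.surj v
    rw [iter hP h _ hy, h2]; simp
  generalize θ ![1, 0] 0 = c0 at f
  generalize θ ![0, 1] 0 = a at f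
  generalize θ ![0, 1] 1 = c1 at f
  have i0 : ∀ n : ℕ, θ^[n] ![1, 0] = ![c0 ^ n, 0] := fun n => by
    induction n with
    | zero => simp
    | succ n ih => rw [Function.iterate_succ_apply', ih, f]; simp [pow_succ']
  have i1 : ∀ n : ℕ, θ^[n] ![0, 1] 1 = c1 ^ n := fun n => by
    induction n with
    | zero => simp
    | succ n ih => rw [Function.iterate_succ_apply', f, ih]; simp [pow_succ']
  have a0 : c0 = 1 := eq_one_of_pow (k := k) (by simpa using congrFun ((i0 _).symm.trans (it _)) 0)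
  have a1 : c1 = 1 := eq_one_of_pow (k := k) (by rw [← i1, it]; simp)
  obtain ⟨g, hg, e⟩ := exists_uu m a
  have gP : (g : G)⁻¹ * x ∈ 𝐍 P := mul_mem (inv_mem (le_normalizer g.2)) hP
  refine ⟨g, hg, mem_inf.2 ⟨mem_inf.2 ⟨triv m gP fun w hw => ?_, gP⟩,
    mul_mem (inv_mem (le_normalizer hg)) hB⟩⟩
  have := m.act g⁻¹ _ (ncY hP hw)
  rw [← h.act w hw, f, a0, a1, one_mul, one_mul, ← uu_smul, ← e, ← mul_smul, ← map_mul,
    inv_mul_cancel, map_one, one_smul] at this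
  rw [← this]
  congr 1; simp only [InvMemClass.coe_inv]; group

theorem sem_sq (hP : x ∈ 𝐍 P) (x2 : x * x = 1) (h : Sem P ψ x θ σ) :
    (∀ v, θ (θ v) = v) ∧ ∀ c, σ (σ c) = c := by
  have h1 : ∀ v, θ (θ v) = v := fun v => by
    obtain ⟨y, hy, rfl⟩ := m.surj v
    have := (h.mul hP h).act y hy
    rw [x2] at this
    simpa using this
  refine ⟨h1, fun c => smul_left_injective F (ne_e0 (F := F)) ?_⟩
  have := (h.mul hP h).sem c ![1, 0]
  simp only [AddMonoidHom.comp_apply, h1, RingHom.comp_apply] at this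
  exact this.symm

end FS

open FS

/-- `C(W) ⊓ N(P) ⊓ N(B)` normalizes `B`. -/
theorem mem_Inn : x ∈ Inn P B ↔ ∃ b ∈ B, b⁻¹ * x ∈ 𝐂 (Wo P) ⊓ 𝐍 P ⊓ 𝐍 B := by
  have : x ∈ Inn P B ↔ _ := mem_sup_of_normalizes_left (N := B) inf_le_right
  rw [this]
  constructor
  · rintro ⟨b, hb, z, hz, rfl⟩
    exact ⟨b, hb, by rwa [inv_mul_cancel_left]⟩
  · rintro ⟨b, hb, hz⟩
    exact ⟨b, hb, _, hz, mul_inv_cancel_left _ _⟩

namespace Ln0
variable (l : Ln0 D P B)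
include l

theorem Inn_le : Inn P B ≤ 𝐍 P ⊓ 𝐍 B :=
  sup_le (le_inf (l.B_le.trans le_normalizer) le_normalizer)
    (le_inf (inf_le_left.trans inf_le_right) inf_le_right)

theorem Inn_le_cent_Z : Inn P B ≤ 𝐂 (Zo P B) :=
  sup_le (le_centralizer_iff.1 l.Z_le_cent)
    ((inf_le_left.trans inf_le_left).trans (centralizer_le (SetLike.coe_subset_coe.2 l.Z_le)))

/-- an inner element acts trivially on `B / Q` (`[b, y]` centralizes `W` for `y ∈ C(W)`) -/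
theorem Inn_comm (hx : x ∈ Inn P B) (hb : b ∈ B) : ⁅b, x⁆ ∈ O2 P := by
  obtain ⟨c, hc, hy⟩ := mem_Inn.1 hx
  obtain ⟨F, _, _, _, ρ, ψ, m⟩ := l.model
  generalize e : c⁻¹ * x = y at hy
  obtain rfl : x = c * y := by rw [← e]; group
  obtain ⟨hy, yB⟩ := mem_inf.1 hy
  obtain ⟨yW, -⟩ := mem_inf.1 hy
  have h1 : ⁅b, y⁆ ∈ O2 P := by
    rw [← l.B_inf_cent_W, commutatorElement_def]
    refine mem_inf.2 ⟨?_, mul_mem (conj_mem_of_normalizes
      (le_normalizer_centralizer (l.B_le.trans (le_norm_W P))) hb yW) (inv_mem yW)⟩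
    rw [mul_assoc, mul_assoc, ← mul_assoc y]
    exact mul_mem hb (conj_mem_of_normalizes le_rfl yB (inv_mem hb))
  have h2 : ⁅b, c⁆ ∈ O2 P := by
    refine (m.kerρ ⁅(⟨b, l.B_le hb⟩ : P), ⟨c, l.B_le hc⟩⁆).1 ?_
    rw [map_commutatorElement, eq_uu ((m.fixB ⟨b, l.B_le hb⟩).1 hb),
      eq_uu ((m.fixB ⟨c, l.B_le hc⟩).1 hc)]
    exact commutatorElement_eq_one_iff_mul_comm.2 (uu_comm _ _)
  rw [show ⁅b, c * y⁆ = ⁅b, c⁆ * (c * ⁅b, y⁆ * c⁻¹) by simp only [commutatorElement_def]; group]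
  exact mul_mem h2 (conj_mem_of_normalizes (le_normalizer_oP le_normalizer) (l.B_le hc) h1)

theorem Inn_comm_W (hx : x ∈ Inn P B) (hy : y ∈ Wo P) : ⁅y, x⁆ ∈ Zo P B := by
  obtain ⟨c, hc, hz⟩ := mem_Inn.1 hx
  generalize e : c⁻¹ * x = z at hz
  obtain rfl : x = c * z := by rw [← e]; group
  have := mem_centralizer_iff.1 (mem_inf.1 (mem_inf.1 hz).1).1 _ (inv_mem hy)
  rw [show ⁅y, c * z⁆ = y * c * (z * y⁻¹) * z⁻¹ * c⁻¹ by rw [commutatorElement_def]; group, ← this,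
    show y * c * (y⁻¹ * z) * z⁻¹ * c⁻¹ = ⁅y, c⁆ by rw [commutatorElement_def]; group]
  exact commutator_mem_commutator hy hc

/-- `θ` is trivial on `F e₀`, so `σ = 1`. -/
theorem fs_Z (hP : x ∈ 𝐍 P) (hB : x ∈ 𝐍 B) (h2 : x ^ 2 ^ k = 1)
    (hc : ∀ z ∈ Zo P B, ⁅z, x⁆ ∈ 𝐂 P) : x ∈ Inn P B := by
  obtain ⟨F, _, _, _, ρ, ψ, m⟩ := l.model
  obtain ⟨θ, σ, h⟩ := exists_sem m hP
  have key : ∀ c : F, θ (c • ![1, 0]) = c • ![1, 0] := fun c => by
    obtain ⟨y, hy, e⟩ := m.surj (c • ![(1 : F), 0])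
    obtain ⟨w, hw, hd⟩ := l.Y_dec hy
    have wY := W_le_Y P hw
    rw [← (m.toNatD.eq_iff wY hy).2 (mem_inf.2 ⟨mul_mem (inv_mem wY) hy, hd⟩)] at e
    obtain ⟨g, hg, eg⟩ := exists_uu m (1 : F)
    have wZ : w ∈ Zo P B := l.mem_Z_of_comm hw hg
      (fun q => uu_ne (eg.symm.trans ((m.kerρ g).2 q)))
      (mem_inf.1 ((m.toNatD.comm_mem_iff g wY).2 (by rw [e, eg, sm_comm, uu_e0]))).2
    rw [← e, h.act w wY]
    refine ((m.toNatD.eq_iff wY (ncY hP wY)).2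
      (mem_inf.2 ⟨mul_mem (inv_mem wY) (ncY hP wY), ?_⟩)).symm
    have := hc _ (inv_mem wZ)
    rwa [commutatorElement_def, inv_inv, mul_assoc, mul_assoc, ← mul_assoc x] at this
  refine mem_Inn.2 (inn_of_lin m hP hB h2 h fun c => smul_left_injective F (ne_e0 (F := F)) ?_)
  have := key 1
  rw [one_smul] at this
  simp only
  rw [← key c, h.sem, this]

/-- `θ` is trivial on `F² / F e₀`, so `σ = 1`. -/
theorem fs_W (hP : x ∈ 𝐍 P) (hB : x ∈ 𝐍 B) (h2 : x ^ 2 ^ k = 1)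
    (hc : ∀ y ∈ Wo P, ⁅y, x⁆ ∈ Zo P B) : x ∈ Inn P B := by
  obtain ⟨F, _, _, _, ρ, ψ, m⟩ := l.model
  obtain ⟨θ, σ, h⟩ := exists_sem m hP
  have key : ∀ v, θ v 1 = v 1 := fun v => by
    obtain ⟨y, hy, rfl⟩ := m.surj v
    obtain ⟨w, hw, hd⟩ := l.Y_dec hy
    have wY := W_le_Y P hw
    rw [← (m.toNatD.eq_iff wY hy).2 (mem_inf.2 ⟨mul_mem (inv_mem wY) hy, hd⟩), h.act w wY]
    have z := hc _ (inv_mem hw)
    have zY := W_le_Y P (l.Z_le z)
    rw [show x * w * x⁻¹ = w * ⁅w⁻¹, x⁆ by rw [commutatorElement_def]; group, m.add _ wY _ zY,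
      Pi.add_apply, psi1 m zY (l.Z_le_cent z), add_zero]
  refine mem_Inn.2 (inn_of_lin m hP hB h2 h fun c => ?_)
  have := key (c • ![0, 1])
  rw [h.sem] at this
  simpa [key] using this

/-- `θ` commutes with all `u_a = !![1, a; 0, 1]`.  With `θ(l, 0) = (c₀ σ l, 0)` and
`θ(0, l) = (*, c₁ σ l)` this says `c₀ σ(a l) = a c₁ σ(l)`; `a = 1` gives `c₀ = c₁`, and `l = 1`
gives `σ a = a`. -/
theorem fs_B (hP : x ∈ 𝐍 P) (hB : x ∈ 𝐍 B) (h2 : x ^ 2 ^ k = 1)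
    (hc : ∀ b ∈ B, ⁅b, x⁆ ∈ O2 P) : x ∈ Inn P B := by
  obtain ⟨F, _, _, _, ρ, ψ, m⟩ := l.model
  obtain ⟨θ, σ, h⟩ := exists_sem m hP
  have z := th_e0 m hP hB h.act
  have key : ∀ a : F, σ a * θ ![1, 0] 0 = a * θ ![0, 1] 1 := fun a => by
    obtain ⟨g, hg, e⟩ := exists_uu m a
    have r : ρ ⟨x * g * x⁻¹, cjP hP g.2⟩ = ρ g := by
      have := (m.kerρ (g * (⟨x * g * x⁻¹, cjP hP g.2⟩ : P)⁻¹)).2 (by
        convert hc g hg using 1
        simp only [coe_mul, InvMemClass.coe_inv, commutatorElement_def]; group)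
      rw [map_mul, map_inv, mul_inv_eq_one] at this
      exact this.symm
    have := th_rho m hP h.act g ![0, 1]
    rw [r, e, uu_smul, uu_smul, FS.dec ![_, _], map_add, h.sem, h.sem] at this
    have := congrFun this 0
    simp only [Matrix.cons_val_zero, Matrix.cons_val_one, mul_one, zero_add, map_one, one_smul,
      Pi.add_apply, Pi.smul_apply, smul_eq_mul] at this
    linear_combination this
  have hn : θ ![1, 0] 0 ≠ 0 := fun e => ne_e0 (th_inj m hP h.act (by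
    rw [map_zero, line z, e, zero_smul]))
  refine mem_Inn.2 (inn_of_lin m hP hB h2 h fun c => mul_right_cancel₀ hn ?_)
  have := key 1
  rw [map_one, one_mul, one_mul] at this
  rw [key, this]

/-- `σ_x`, `σ_y` have order 2 in the cyclic group `Aut(F)`, so they are equal and `σ_{xy} = 1`. -/
theorem fs_two (hT : IsPGroup 2 T) (hle : T ≤ 𝐍 P ⊓ 𝐍 B) (hx : x ∈ T) (hy : y ∈ T)
    (x2 : x * x = 1) (y2 : y * y = 1) (nx : x ∉ Inn P B) (ny : y ∉ Inn P B) :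
    x * y ∈ Inn P B := by
  obtain ⟨F, _, _, _, ρ, ψ, m⟩ := l.model
  obtain ⟨xP, xB⟩ := mem_inf.1 (hle hx)
  obtain ⟨yP, yB⟩ := mem_inf.1 (hle hy)
  obtain ⟨θ, σ, h⟩ := exists_sem m xP
  obtain ⟨θ', σ', h'⟩ := exists_sem m yP
  have e := inv_unique (sem_sq m xP x2 h).2 (sem_sq m yP y2 h').2
    (fun hs => nx (mem_Inn.2 (inn_of_lin (k := 1) m xP xB (by rwa [pow_one, sq]) h hs)))
    (fun hs => ny (mem_Inn.2 (inn_of_lin (k := 1) m yP yB (by rwa [pow_one, sq]) h' hs)))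
  obtain ⟨k, hk⟩ := isPGroup_iff_forall_mem.1 hT _ (mul_mem hx hy)
  refine mem_Inn.2 (inn_of_lin m (mul_mem xP yP) (mul_mem xB yB) hk (h.mul yP h') fun c => ?_)
  rw [RingHom.comp_apply, e, (sem_sq m yP y2 h').2]

/-- `θ² = 1`, `σ ≠ 1`.  For `v ∉ F e₀` and `c ∈ F` the vector `c v + θ(c v)` is fixed by `θ`, and its
second coordinate `c v₁ + σ(c) (θ v)₁` is nonzero for some `c`.  This vector is `ψ(e s e⁻¹)` for some
`e ∈ E`, `e ∉ N(B)`.  `x e s e⁻¹ x⁻¹ = g s g⁻¹` with `g = x e x⁻¹ ∈ P` has the same image under `ψ`;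
so `ρ(e⁻¹ g)` fixes `ψ s = c' e₀ ≠ 0`, `e⁻¹ g ∈ B` centralizes `s`. -/
theorem fs_fix (hP : x ∈ 𝐍 P) (hB : x ∈ 𝐍 B) (x2 : x * x = 1) (nx : x ∉ Inn P B)
    (hs : s ∈ Yo P) (hc : s ∈ 𝐂 B) (hn : s ∉ 𝐂 P) (hx : x * s = s * x) :
    ∃ e ∈ oU[2] P, e ∉ 𝐍 B ∧ x * (e * s * e⁻¹) = e * s * e⁻¹ * x := by
  obtain ⟨F, _, _, _, ρ, ψ, m⟩ := l.model
  obtain ⟨θ, σ, h⟩ := exists_sem m hP
  have ns : ¬ ∀ c, σ c = c := fun hs =>
    nx (mem_Inn.2 (inn_of_lin (k := 1) m hP hB (by rwa [pow_one, sq]) h hs))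
  obtain ⟨u, hu, u1⟩ : ∃ u, θ u = u ∧ u 1 ≠ 0 := by
    by_contra hh
    push Not at hh
    have key : ∀ c : F, c + σ c * θ ![0, 1] 1 = 0 := fun c => by
      have := hh (c • ![0, 1] + θ (c • ![0, 1])) (by
        rw [map_add, (sem_sq m hP x2 h).1, add_comm])
      rw [h.sem] at this
      simpa using this
    have k1 := key 1
    rw [map_one, one_mul] at k1
    refine ns fun c => ?_
    linear_combination σ c * k1 - key c
  have s0 : ψ s ≠ 0 := fun e => hn (mem_inf.1 ((m.ker s hs).1 e)).2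
  have s1 := psi1 m hs hc
  obtain ⟨g, eg⟩ := exists_smul_eq s0 (fun e => u1 (by rw [e]; rfl) : u ≠ 0)
  obtain ⟨p, rfl⟩ := m.onto g
  obtain ⟨e, he, b, hb, eb⟩ := (mem_sup_of_normalizes_left (l.B_le.trans (oU_normal P))).1
    (l.E_sup.ge p.2)
  have eP := oU_le P he
  have e1 : ψ (e * s * e⁻¹) = u := by
    rw [← eg, ← m.act p s hs, ← eb]
    congr 1
    rw [mul_assoc e b, mem_centralizer_iff.1 hc b hb]; group
  have sY : e * s * e⁻¹ ∈ Yo P := ncY (le_normalizer eP) hs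
  refine ⟨e, he, fun eN => u1 ?_, ?_⟩
  · rw [← e1]
    exact psi1 m sY (conj_mem_of_normalizes (normalizer_le_normalizer_centralizer B) eN hc)
  have e2 : x * (e * s * e⁻¹) * x⁻¹ = (x * e * x⁻¹) * s * (x * e * x⁻¹)⁻¹ := by
    calc _ = x * e * x⁻¹ * (x * s) * e⁻¹ * x⁻¹ := by group
      _ = _ := by rw [hx]; group
  have e3 : ρ ⟨x * e * x⁻¹, cjP hP eP⟩ • ψ s = ρ ⟨e, eP⟩ • ψ s := by
    rw [← m.act _ s hs, ← m.act _ s hs]
    simp only
    rw [← e2, ← h.act _ sY, e1, hu]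
  have e4 : e⁻¹ * (x * e * x⁻¹) ∈ B := by
    refine (m.fixB ((⟨e, eP⟩ : P)⁻¹ * ⟨x * e * x⁻¹, cjP hP eP⟩)).2 ?_
    have c0 : ψ s 0 ≠ 0 := fun e => s0 (by rw [line s1, e, zero_smul])
    refine smul_right_injective _ c0 ?_
    simp only
    rw [← sm_comm, ← line s1, map_mul, mul_smul, e3, ← mul_smul, ← map_mul, inv_mul_cancel, map_one,
      one_smul]
  have e5 := mem_centralizer_iff.1 hc _ e4
  calc _ = x * (e * s * e⁻¹) * x⁻¹ * x := by group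
    _ = e * (e⁻¹ * (x * e * x⁻¹) * s) * (x * e * x⁻¹)⁻¹ * x := by rw [e2]; group
    _ = _ := by rw [e5]; group

end Ln0

end CL.B2
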