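import Cfsg.Agent.INV.B2.Pair

/-!
# A pair and a third line

Notation as in `Pair`, index 1 for the third line `P₁`.
-/

set_option autoImplicit false
set_option maxHeartbeats 400000
set_option linter.unusedSectionVars false
open Cfsg Subgroup CL.Th CL.MSS CL.Push CL.BHS
open scoped commutatorElement MatrixGroups

namespace CL.B2
variable {G : Type*} [Group G] [Finite G] {D : Set G} {s t : G} {B B₁ P P' P₁ U : Subgroup G}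

namespace GCh

open LB

variable {A A' H L L' R X : Subgroup G} {w g : G} {𝓛 : Set (Subgroup G)}

theorem cle (hK : A ≤ X) : 𝐂 X ≤ 𝐂 A := centralizer_le (SetLike.coe_subset_coe.2 hK)

theorem am_eq (e : Jt B₁ = Jt B) : Am B₁ = Am B :=
  (maxElemAbIn_eq_of_le le_rfl (thompsonSubgroupOf_le B₁)).symm.trans
    ((congrArg Am e).trans (maxElemAbIn_eq_of_le le_rfl (thompsonSubgroupOf_le B)))

theorem norm_E (h : Hy D) (c : Loc D H R w) (σ : LS H (Vo w H) 𝓛) (l : Ln0 D P B) (OP : O2 H ≤ 𝐍 P)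
    (hL : L ∈ 𝓛) (hL' : L' ∈ 𝓛) (e : L ≠ L') (hX : X ≤ B) (h4 : (X ⊓ L) ⊔ O2 P = B)
    (h1 : oU[2] P ≤ L) : L' ≤ 𝐍 (oU[2] P) := by
  have NP : ncl (X ⊓ L) (oU[2] P) ≤ P :=
    ncl_le (inf_le_left.trans (hX.trans l.B_le)) ((oU_le P).trans le_normalizer)
  obtain ⟨b, hb, hb'⟩ := SetLike.not_le_iff_exists.1
    (fun k => l.not_le_Q (h4.ge.trans (sup_le k le_rfl)) : ¬ X ⊓ L ≤ O2 P)
  have EN := l.E_le NP (ncl_normal _ _) (le_ncl _ _ hb) (hX hb.1) hb'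
  have nO : H ≤ 𝐍 (O2 H) := oP_normal H
  have k : oU[2] (ncl (X ⊓ L) (oU[2] P) ⊔ O2 H) = oU[2] P :=
    le_antisymm ((oU_mono (sup_le_sup_right NP _)).trans (oU_sup_of_isPGroup (oP_isPGroup H) OP).le)
      ((oU_oU P).ge.trans (oU_mono (EN.trans le_sup_left)))
  rw [← k]
  refine le_normalizer_oU (le_normalizer_of_cj_le fun g hg => ?_)
  rw [cj_sup, cj_eq_of_mem_normalizer (nO ((σ.cp L' hL').le hg))]
  refine sup_le (cj_le_iff.2 (ncl_le_iff.2 fun x hx => cj_le_iff.1 (cj_le_iff_forall.2 fun a ha => ?_)))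
    le_sup_right
  obtain ⟨n, hn⟩ := isPGroup_iff_forall_mem.1 (isPGroup_cj x (l.pg.to_le hX).to_inf_left) a ha
  simpa only [commutatorElement_def, inv_mul_cancel_right] using mul_mem (mem_sup_right
    (c.comm_mem_O h σ hL hL' e (cj_le_of_mem inf_le_right (h1 hx) ha) hn hg))
    (mem_sup_left (cj_le_ncl _ hx ha))

theorem le_Q (l : Ln0 D P B) (l₁ : Ln0 D P₁ B₁) (hJ : Jt B₁ = Jt B) (h1 : Wo P ≤ 𝐂 (Wo P₁)) :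
    Wo P₁ ≤ O2 P := (le_inf ((l₁.W_le_Jt.trans hJ.le).trans (thompsonSubgroupOf_le B))
      (cent_symm h1)).trans l.B_inf_cent_W.le

theorem Z₁_le (p : Pr D P P' B) (l₁ : Ln0 D P₁ B₁) (hJ : Jt B₁ = Jt B) (h1 : Wo P ≤ 𝐂 (Wo P₁))
    (h2 : Wo P' ≤ 𝐂 (Wo P₁)) (hA : A ≤ O2 P) :
    ⁅Wo P₁, A⁆ ≤ 𝐂 (Ko P P') ⊓ 𝐂 (Ko P' P) := commutator_le.2 fun u hu a ha => by
  obtain ⟨w, hw, q, hq, rfl⟩ := (mem_sup_of_normalizes_right (p.l.W_le.trans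
    (p.r.B_le.trans (le_normalizer_oP le_normalizer)))).1 (p.symm.W'_sup.ge (p.l.Q_le (hA ha)))
  have c := mem_centralizer_iff.1 (h1 hw)
  have k := p.I_comm (commutator_mem_commutator (mem_inf.2 ⟨le_Q p.l.toLn0 l₁ hJ h1 hu,
    le_Q p.r.toLn0 l₁ hJ h2 hu⟩) (mem_inf.2 ⟨(mul_mem_cancel_left (W_le_Q P hw)).1 (hA ha), hq⟩))
  have wK := p.W_le_K hw
  have wK' : w ∈ Ko P' P := mem_sup_right hw
  rw [show ⁅u, w * q⁆ = u * w * u⁻¹ * ⁅u, q⁆ * w⁻¹ by simp only [commutatorElement_def]; group,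
    c u hu, mul_inv_cancel_right, mem_centralizer_iff.1 (mem_inf.1 k).1 w wK, mul_inv_cancel_right]
  exact k

/-- members of `𝒜(Q₁)` of different types have conjugates of different types -/
theorem diff (p : Pr D P P' B) (l₁ : Ln0 D P₁ B₁) (hJ : Jt B₁ = Jt B) (hW : Wo P₁ ≤ Ce P P')
    (hA : A ∈ Am (O2 P₁)) (hA' : A' ∈ Am (O2 P₁)) (h1 : A ≤ O2 P) (h2 : ¬ A' ≤ O2 P) (hg : g ∈ P₁) :
    ¬ (g •ᶜ A ≤ O2 P ↔ g •ᶜ A' ≤ O2 P) := fun e => by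
  have am : ∀ {A}, A ∈ Am (O2 P₁) → A ∈ Am B := fun h => am_eq hJ ▸ (l₁.am_Q.1 h).1
  have cj : ∀ {A}, A ∈ Am (O2 P₁) → g •ᶜ A ∈ Am B := fun h => am (by
    have := cj_Am g h
    rwa [cj_eq_of_mem_normalizer (oP_normal P₁ hg)] at this)
  have k : ⁅g •ᶜ A, g •ᶜ A'⁆ ≤ 𝐂 (oU[2] P) := by
    by_cases c : g •ᶜ A ≤ O2 P
    · exact (p.am_comm (cj hA) c (cj hA') (e.1 c)).trans inf_le_left
    · exact (p.symm.am_comm (cj hA) ((p.am_type (cj hA)).resolve_left fun k => c k.1).1 (cj hA')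
        ((p.am_type (cj hA')).resolve_left fun k => c (e.2 k.1)).1).trans inf_le_right
  have a1 := ((p.am_type (am hA)).resolve_right fun k => k.2.2 h1).2.1
  have a2 := ((p.am_type (am hA')).resolve_left fun k => h2 k.1).2.1
  rw [← cj_commutator] at k
  refine p.l.Z_not_le fun z hz => ?_
  have zo : z ∈ oz (Jt B₁) := hJ ▸ mem_oz_Jt (p.l.W_le (p.l.Z_le hz))
    (Ysq (W_le_Y P (p.l.Z_le hz))) (cle (thompsonSubgroupOf_le B) (p.l.Z_le_cent hz))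
  have zc : z ∈ 𝐂 B₁ := cent_symm l₁.baum zo
  have := (mem_inf.1 (hW (l₁.cj_mem_W (l₁.mem_Y (Ysq (W_le_Y P (p.l.Z_le hz)))
    (((oz_le _).trans (thompsonSubgroupOf_le _)) zo) zc) zc hg))).1
  exact inv_mem_iff.1 ((mul_mem_cancel_right
    (k (conj_mem_cj ((p.comm_WW.ge.trans (commutator_mono a1 a2)) hz)))).1 this)

theorem other (p : Pr D P P' B) (l₁ : Ln0 D P₁ B₁) (hJ : Jt B₁ = Jt B) (h2 : Wo P' ≤ 𝐂 (Wo P₁))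
    (hA : A ∈ Am (O2 P₁)) (h1 : ¬ A ≤ O2 P') : ∃ A' ∈ Am (O2 P₁), A' ≤ O2 P' ∧ ¬ A' ≤ O2 P := by
  have := (p.r.off (am_eq hJ ▸ (l₁.am_Q.1 hA).1) h1).2
  have le := sup_le (inf_le_right : A ⊓ O2 P' ≤ _) (W_le_Q P')
  exact ⟨_, l₁.am_Q.2 ⟨(am_eq hJ).symm ▸ this, sup_le (inf_le_left.trans hA.1)
    (le_Q l₁ p.r.toLn0 hJ.symm (cent_symm h2))⟩, le,
    ((p.am_type this).resolve_left fun k => k.2.2 le).2.2⟩

theorem both (p : Pr D P P' B) (l₁ : Ln0 D P₁ B₁) (hJ : Jt B₁ = Jt B) (h1 : Wo P ≤ 𝐂 (Wo P₁))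
    (h2 : Wo P' ≤ 𝐂 (Wo P₁)) :
    ∃ A ∈ Am (O2 P₁), ∃ A' ∈ Am (O2 P₁), A ≤ O2 P ∧ ¬ A' ≤ O2 P := by
  obtain ⟨A, hA⟩ := maxElemAbIn_nonempty (p := 2) (O2 P₁)
  rcases p.am_type (am_eq hJ ▸ (l₁.am_Q.1 hA).1) with k | k
  · obtain ⟨A', hA', -, e⟩ := other p l₁ hJ h2 hA k.2.2
    exact ⟨A, hA, A', hA', k.1, e⟩
  · obtain ⟨A', hA', e, -⟩ := other p.symm l₁ hJ h1 hA k.2.2
    exact ⟨A', hA', A, hA, e, k.2.2⟩

end GCh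

open GCh LB

/-- `lt3` for two lines with different points.  `J = J(Sy t)`, `H = N(U)`; let `R ≥ J` be a Sylow
2-subgroup of `H`, `Loc D H R w`.  `w` centralizes `J`, so `J(Sy w) = J` (`Jt_eq`), `J(R) = J`, and
`w ∈ Z(B) ∩ Z(B₁)` (`D_cent`).  `tv'` gives `L ≠ L₁`.  Continue as in `lt3` with
`N₀ = ⟨(J ⊓ L) ^ E⟩`; `O = O₂(H) ≤ Sy w ⊓ C(W) ≤ N(P)` (`T_le`) normalizes `E`. -/
theorem lt4 (h : Hy D) (l : Ln D P B) (l₁ : Ln D P₁ B₁) (ht : t ∈ D) (hJ : Jt B = Jt (Sy t))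
    (hJ₁ : Jt B₁ = Jt (Sy t)) (hne : Wo P ≠ Wo P₁) (hU : IsPGroup 2 U) (hs : s ∈ D) (hs' : s ∈ U)
    (hE : oU[2] P ≤ 𝐍 U) (hE₁ : oU[2] P₁ ≤ 𝐍 U) (hN : Jt (Sy t) ≤ 𝐍 U) :
    Wo P ≤ 𝐂 (oU[2] P₁) ∧ ⁅oU[2] P, oU[2] P₁⁆ ≤ O2 P := by
  obtain ⟨R, hR, JR⟩ := exists_sylIn_ge ((Sy_pg t).to_le (thompsonSubgroupOf_le _)) hN
  obtain ⟨w, c⟩ := h.exists_loc_norm hU hs hs' hR
  have wc : w ∈ 𝐂 (Jt (Sy t)) := le_c_iff.1 (JR.trans (c.le.trans (Sy_le w)))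
  have e := h.Jt_eq ht c.mem wc
  have eR : Jt R = Jt (Sy t) := (thompsonSubgroupOf_eq_of_le (e.le.trans JR) c.le).trans e
  obtain ⟨b1, b2⟩ := l.D_cent h c.mem (hJ.symm ▸ wc)
  obtain ⟨b3, b4⟩ := l₁.D_cent h c.mem (hJ₁.symm ▸ wc)
  obtain ⟨𝓛, σ⟩ := lt h c
  obtain ⟨L, hL, a1, a2, -, a4⟩ := tv' h c σ l.toLn0 hE (hJ.trans eR.symm) b1 b2
  obtain ⟨L', hL', a5, a6, -, -⟩ := tv' h c σ l₁.toLn0 hE₁ (hJ₁.trans eR.symm) b3 b4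
  have ne : L ≠ L' := fun k => hne (by rw [a1, a5, k])
  obtain ⟨c1, c2⟩ := σ.comm L hL L' hL' ne
  have WV : 𝐂 (Vo w (𝐍 U)) ≤ 𝐂 (Wo P) :=
    cle (a1.le.trans (commutator_le_left_of_normalizes ((σ.cp _ hL).le.trans σ.norm)))
  have OP : O2 (𝐍 U) ≤ 𝐍 P := ((le_inf ((oP_le_sylIn c.syl).trans c.le) (cent_le_norm ((cent_symm
    ((c.V_le h).trans inf_le_right)).trans WV))).trans (l.T_le h c.mem b1 b2).2.2).trans inf_le_left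
  have n1 := a6.trans (norm_E h c σ l.toLn0 OP hL hL' ne (thompsonSubgroupOf_le B) a4 a2)
  exact ⟨(a1.le.trans c1).trans (cle a6), (le_inf ((commutator_le_left_of_normalizes n1).trans (oU_le P))
    (((commutator_mono a2 a6).trans c2).trans WV)).trans l.inf_cent_W.le⟩

/-- `W₁ ≤ J(B) ≤ B`, so `W₁ ≤ I`.  Take `A ∈ 𝒜(B₁) = 𝒜(B)`, `A ≰ Q₁`; `A = W (A ⊓ I)` or
`W' (A ⊓ I)`, so `Z₁ = [W₁, A] ≤ [I, I] ≤ C(K)`.  Let `u = z c ∈ W₁`, `z ∈ Z`, `c ∈ C(K)` (`I_dec`), and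
suppose `z ∉ C(P)`; then `u ∉ Z₁`.  By `torus` there is `t₁ ∈ D ∩ Z(B)` with `t₁ z ∈ C(P)`;
`t₁ ∈ Z(B₁)` (`D_cent`), and `cover` for `P₁` gives `s = t₁ u d ∈ D`, `d ∈ Z₁`.  `s` centralizes `K`,
against `ncl_D`. -/
theorem Pr.third_W (h : Hy D) (p : Pr D P P' B) (l₁ : Ln D P₁ B₁) (hJ : Jt B₁ = Jt B)
    (h1 : Wo P ≤ 𝐂 (Wo P₁)) (h2 : Wo P' ≤ 𝐂 (Wo P₁)) : Wo P₁ ≤ 𝐂 (Ko P P') := fun u hu => by
  obtain ⟨A, hA, hQ⟩ := l₁.exists_off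
  have Z1 : Zo P₁ B₁ ≤ 𝐂 (Ko P P') := by
    rw [← l₁.comm_of_sup (l₁.off hA hQ).1]
    rcases p.am_type (am_eq hJ ▸ hA) with k | k
    · exact (Z₁_le p l₁.toLn0 hJ h1 h2 k.1).trans inf_le_left
    · exact (Z₁_le p.symm l₁.toLn0 hJ h2 h1 k.1).trans inf_le_right
  obtain ⟨z, hz, hc⟩ := p.I_dec (le_Q p.l.toLn0 l₁.toLn0 hJ h1 hu) (le_Q p.r.toLn0 l₁.toLn0 hJ h2 hu)
  by_contra n
  have nz : z ∉ 𝐂 P := fun e => n ((mul_mem_cancel_left (Subgroup.inv_mem _ (cle p.K_le e))).1 hc)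
  obtain ⟨t, ht, t1, t2⟩ := p.l.ex
  obtain ⟨k, -, hk, -, e⟩ := p.l.torus (p.l.mem_Y (h.sq ht) t1 t2) t2
    (fun e => p.l.D_not_cent h ht t2 (cle (oU_le P) e)) (W_le_Y P (p.l.Z_le hz)) (p.l.Z_le_cent hz) nz
  have ht' := h.conj t ht k
  obtain ⟨t3, t4⟩ := l₁.D_cent h ht' (hJ.symm ▸ cle (thompsonSubgroupOf_le B)
    (conj_mem_of_normalizes (CL.MSS.le_normalizer_centralizer le_rfl) hk t2))
  obtain ⟨e₁, -, d, hd, he⟩ := l₁.cover (l₁.mem_Y (h.sq ht') t3 t4) t4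
    (fun e => l₁.D_not_cent h ht' t4 (cle (oU_le P₁) e)) hu fun e => n (Z1 e)
  have : k * t * k⁻¹ * u * d ∈ 𝐂 (Ko P P') := by
    rw [h.inv ht'] at e
    simpa only [mul_assoc, mul_inv_cancel_left] using mul_mem (mul_mem (cle p.K_le e) hc)
      (Z1 (l₁.mem_Z_of_cent (mem_inf.1 hd).1 (mem_inf.1 hd).2))
  obtain ⟨b, hb, hb'⟩ := SetLike.not_le_iff_exists.1
    (fun k => p.l.not_le_Q (p.W'_sup.ge.trans (sup_le k le_rfl)) : ¬ Wo P' ≤ O2 P)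
  exact p.l.ncl_D h (he ▸ h.conj _ ht' e₁) (cle le_sup_left this) (p.r.W_le hb) hb'
    (mem_centralizer_iff.1 this b (mem_sup_right hb))

theorem GCh.half (h : Hy D) (p : Pr D P P' B) (l₁ : Ln D P₁ B₁) (ht : t ∈ D) (hJ : Jt B = Jt (Sy t))
    (hJ₁ : Jt B₁ = Jt (Sy t)) (n1 : Wo P₁ ≠ Wo P) (n2 : Wo P₁ ≠ Wo P') :
    Wo P ≤ 𝐂 (oU[2] P₁) ∧ ⁅oU[2] P, oU[2] P₁⁆ ≤ O2 P := by
  have J := hJ₁.trans hJ.symm
  have h1 : Wo P ≤ 𝐂 (Wo P₁) := by_contra fun n => n2 (congrArg Wo (p.nc_eq h l₁ J n).1)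
  have h2 : Wo P' ≤ 𝐂 (Wo P₁) := by_contra fun n => n1 (congrArg Wo (p.symm.nc_eq h l₁ J n).1)
  have k1 := p.third_W h l₁ J h1 h2
  have hW : Wo P₁ ≤ Ce P P' := le_inf (k1.trans (cle le_sup_left))
    ((p.symm.third_W h l₁ J h2 h1).trans (cle le_sup_left))
  obtain ⟨A₀, hA₀, A₁, hA₁, a0, a1⟩ := both p l₁.toLn0 J h1 h2
  have XB : O2 P ⊓ 𝐂 (Wo P₁) ≤ B := inf_le_left.trans p.l.Q_le
  have am : ∀ {A}, A ∈ Am (O2 P₁) → A ∈ Am B := fun h => am_eq J ▸ (l₁.am_Q.1 h).1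
  have m1 : ∀ A ∈ Am (O2 P₁), A ≤ O2 P → A ∈ Am (O2 P ⊓ 𝐂 (Wo P₁)) := fun A hA e =>
    mem_maxElemAbIn_of_le (am hA) (le_inf e (hA.1.trans (Q_le_cent_W P₁))) XB
  have m2 : ∀ A ∈ Am (O2 P ⊓ 𝐂 (Wo P₁)), A ∈ Am (O2 P₁) := fun A hA => by
    have : A ∈ Am B₁ := (am_eq J).ge (mem_maxElemAbIn_of_mem_of_le (am hA₀) (m1 _ hA₀ a0).1 XB hA)
    exact l₁.am_Q.2 ⟨this, (le_inf this.1 (hA.1.trans inf_le_right)).trans l₁.B_inf_cent_W.le⟩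
  have cj : ∀ {A}, A ∈ Am (O2 P₁) → ∀ g ∈ P₁, g •ᶜ A ∈ Am (O2 P₁) := fun h g hg => by
    have := cj_Am g h
    rwa [cj_eq_of_mem_normalizer (oP_normal P₁ hg)] at this
  have nX : P ⊓ 𝐍 (Wo P₁) ≤ 𝐍 (Jt (O2 P ⊓ 𝐂 (Wo P₁))) :=
    (CL.MSS.le_normalizer_inf (inf_le_left.trans (oP_normal P)) (CL.MSS.le_normalizer_centralizer
      inf_le_right)).trans (normalizer_le_normalizer_thompsonSubgroupOf _)
  obtain ⟨s, hs, s1, s2⟩ := p.l.ex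
  refine lt4 h p.l l₁ ht hJ hJ₁ n1.symm ((oP_isPGroup P).to_le ((thompsonSubgroupOf_le _).trans
    inf_le_left)) hs (le_thompsonSubgroupOf (m1 _ hA₀ a0) (p.l.Y_le_of_am (am hA₀) a0
      (p.l.mem_Y (h.sq hs) s1 s2)))
    ((le_inf (oU_le P) (cent_le_norm (cent_symm (hW.trans inf_le_left)))).trans nX)
    (oU_le_of_pow fun g hg => ⟨1, mem_normalizer_of_cj_le (cj_le_iff.2
      (thompsonSubgroupOf_le_iff.2 fun A hA => cj_le_iff.1 (le_thompsonSubgroupOf ?_)))⟩)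
    ((le_inf ((hJ.ge.trans (thompsonSubgroupOf_le B)).trans p.l.B_le) ((hJ₁.ge.trans
      (thompsonSubgroupOf_le B₁)).trans (l₁.B_le.trans (le_norm_W P₁)))).trans nX)
  have hA' := m2 A hA
  have a := hA.1.trans inf_le_left
  refine m1 _ (cj hA' _ (pow_mem hg _)) ?_
  rw [pow_one, pow_two, cj_mul]
  have d : ∀ {A A'}, A ∈ Am (O2 P₁) → A' ∈ Am (O2 P₁) → A ≤ O2 P → ¬ A' ≤ O2 P →
      ¬ (g •ᶜ A ≤ O2 P ↔ g •ᶜ A' ≤ O2 P) := fun b1 b2 b3 b4 => diff p l₁.toLn0 J hW b1 b2 b3 b4 hg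
  have d1 := d hA' hA₁ a a1
  by_cases c : g •ᶜ A ≤ O2 P
  · have := d (cj hA' g hg) hA₁ c a1
    tauto
  · have := d hA' (cj hA' g hg) a c
    tauto

/-- `GC`.  By `nc_eq` (for `p` and `p.symm`) `W₁` commutes with `W`, `W'`; so `W₁ ≤ C(K) ⊓ C(K')`
(`third_W`) and `W, W' ≤ Q₁`.  `𝒜(Q₁) ⊆ 𝒜(B)` has members of both types: if `A ≤ Q` then
`A' = (A ⊓ Q') W' ∈ 𝒜(Q₁)` (`off`), and `[A, A'] = Z`.  `Z ≤ Ω₁ Z J(B)`, so `Z ≤ Z(B₁)`, `Z ≤ Y₁`, and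
`g z g⁻¹ ∈ z W₁` for `g ∈ E₁`; so `g Z g⁻¹ ≰ C(E)`, `g A g⁻¹` and `g A' g⁻¹` have different types
(`am_comm`), and `Z ≤ g Z g⁻¹`: `P₁` normalizes `Z`.  Two members of `𝒜(Q₁)` have different types
iff their commutator contains `Z`; so `P₁` permutes the two types and `E₁ = O²(P₁)` fixes them:
`E₁` normalizes `U = J(Q ⊓ C(W₁))`, the join of the members of `𝒜(Q₁)` in `Q`.  `E` and
`J(B) ≤ B ⊓ B₁` normalize `Q ⊓ C(W₁)`; `t ∈ U`.  `lt4`: `W ≤ C(E₁)`, `[E, E₁] ≤ Q`; by symmetry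
`W' ≤ C(E₁)`.  Let `e ∈ E₁` have odd order, `x ∈ E \ N(B)`; `e x e⁻¹ = x c` with `c ∈ Q`, so
`e (x w' x⁻¹) e⁻¹ ∈ x w' Z x⁻¹`: `e` is trivial on `x Z x⁻¹ ≤ W` and on `x W' x⁻¹ / x Z x⁻¹`, so
`e²`, hence `e`, centralizes `x W' x⁻¹`.  `K_eq`; `E₁` is generated by its elements of odd order. -/
theorem Pr.gc (h : Hy D) (p : Pr D P P' B) (l₁ : Ln D P₁ B₁) (ht : t ∈ D) (hJ : Jt B = Jt (Sy t))
    (hJ₁ : Jt B₁ = Jt (Sy t)) (n1 : Wo P₁ ≠ Wo P) (n2 : Wo P₁ ≠ Wo P') :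
    oU[2] P₁ ≤ 𝐂 (Ko P P') := by
  obtain ⟨k1, k2⟩ := half h p l₁ ht hJ hJ₁ n1 n2
  have k3 := (half h p.symm l₁ ht hJ hJ₁ n2 n1).1
  obtain ⟨x, hx, hn⟩ := p.l.exists_x
  rw [← p.K_eq hx hn]
  refine cent_symm (sup_le k3 (cent_symm ?_))
  rw [← oU_oU]
  refine oU_le_of_pow fun e he => ⟨1, mem_centralizer_iff.2 fun y hy => ?_⟩
  obtain ⟨u, hu, rfl⟩ := mem_cj'.1 hy
  have c1 := k2 (commutator_mem_commutator (Subgroup.inv_mem _ hx) he)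
  have c2 : ⁅u⁻¹, ⁅x⁻¹, e⁆⁆ ∈ Wo P := p.l.Z_le (p.Z_eq'.le
    (commutator_mem_commutator (Subgroup.inv_mem _ hu) (p.l.Q_le c1)))
  have c3 := mem_centralizer_iff.1 (k1 (conj_mem_of_normalizes (le_norm_W P) (oU_le P hx) c2)) e he
  have c4 := Ysq (W_le_Y P (conj_mem_of_normalizes (le_norm_W P) (oU_le P hx) c2))
  have c5 := mem_centralizer_iff.1 (k3 hu) e he
  have c6 : e * (x * u * x⁻¹) = x * u * x⁻¹ * (x * ⁅u⁻¹, ⁅x⁻¹, e⁆⁆ * x⁻¹) * e := by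
    calc _ = e * x * e⁻¹ * (e * u) * x⁻¹ := by group
      _ = _ := by rw [c5]; simp only [commutatorElement_def]; group
  generalize x * ⁅u⁻¹, ⁅x⁻¹, e⁆⁆ * x⁻¹ = y at c3 c4 c6
  generalize x * u * x⁻¹ = v at c6 ⊢
  rw [pow_one, pow_two, mul_assoc e, c6, ← mul_assoc e, ← mul_assoc e, c6, mul_assoc _ e y, c3,
    ← mul_assoc (v * y), mul_assoc v y y, c4, mul_one, mul_assoc]

end CL.B2
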