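import Cfsg.Agent.INV.B2.TV
import Cfsg.Agent.INV.B2.Ext

/-!
# Two lines in a local subgroup; uniqueness of lines
-/

set_option autoImplicit false
set_option linter.unusedSectionVars false
open Cfsg Subgroup CL.Th CL.MSS CL.Push CL.BHS
open scoped commutatorElement MatrixGroups

namespace CL.B2
variable {G : Type*} [Group G] [Finite G] {D : Set G} {s w : G} {B H P P' R U : Subgroup G}

/-- Let `R ≥ B` be a Sylow 2-subgroup of `N(U)`; `exists_loc_norm`; `crit` for `H = N(U)`, `T = R`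
gives `J(R) = J(B)` and `B(R) ≤ B`; `baum` gives `B ≤ B(R)`. -/
theorem Ln.loc (h : Hy D) (l : Ln D P B) (hU : IsPGroup 2 U) (hs : s ∈ D) (hs' : s ∈ U)
    (hP : P ≤ 𝐍 U) : ∃ R w, Loc D (𝐍 U) R w ∧ Bm R = B := by
  obtain ⟨R, hR, BR⟩ := exists_sylIn_ge l.pg (l.B_le.trans hP)
  obtain ⟨w, c⟩ := h.exists_loc_norm hU hs hs' hR
  obtain ⟨k1, k2⟩ := l.crit _ R hP ⟨w, c.mem, c.memO⟩ hR.pgroup BR hR.le
  refine ⟨R, w, c, ?_⟩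
  show R ⊓ 𝐂 (oz (Jt R)) = B
  rw [k1]
  exact le_antisymm k2 (le_inf BR l.baum)

section
variable {L L' : Subgroup G} {𝓛 : Set (Subgroup G)} (h : Hy D) (c : Loc D H R w)
  (σ : LS H (Vo w H) 𝓛)
include h c σ

theorem Loc.line_le (l : Ln0 D P (Bm R)) (l' : Ln0 D P' (Bm R)) (hP : P' ≤ H) (h1 : oU[2] P ≤ L)
    (h2 : L ≤ (P' ⊓ L) ⊔ (H ⊓ 𝐂 (Vo w H))) : P ≤ P' := by
  obtain ⟨x, hx, hn⟩ := l.exists_x
  obtain ⟨y, hy, d, hd, rfl⟩ := (mem_sup_of_normalizes_right ((inf_le_left.trans hP).trans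
    (CL.MSS.le_normalizer_inf le_normalizer (CL.MSS.le_normalizer_centralizer σ.norm)))).1 (h2 (h1 hx))
  have CN : H ⊓ 𝐂 (Vo w H) ≤ 𝐍 R := by simpa only [cj_one] using c.cent_le_norm h (one_mem H)
  rw [← l.gen (oU_le P hx) hn, cj_mul, cj_eq_of_mem_normalizer (norm_baum R (CN hd))]
  exact sup_le l'.B_le (cj_le_of_mem l'.B_le hy.1)

theorem Loc.comm_mem_O (hL : L ∈ 𝓛) (hL' : L' ∈ 𝓛) (e : L ≠ L') {a g : G} (ha : a ∈ L) {k : ℕ}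
    (hk : a ^ 2 ^ k = 1) (hg : g ∈ L') : ⁅g, a⁆ ∈ O2 H := by
  have aH := (σ.cp L hL).le ha
  have gH := (σ.cp L' hL').le hg
  obtain ⟨x, hx, k1⟩ := c.syl.exists_le_conj (isPGroup_zpowers hk) (zpowers_le.2 aH)
  have k2 := (σ.comm L' hL' L hL e.symm).2 (commutator_mem_commutator hg ha)
  have k3 := mul_mem (mul_mem gH aH) (inv_mem gH)
  have k4 := inv_mem (k1 (mem_zpowers a))
  have k5 := (c.syl.cj_of_mem hx).le_of_normalizes (isPGroup_zpowers (k := k) (by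
    rw [conj_pow, hk]; simp)) (zpowers_le.2 k3) (zpowers_le.2 ((mul_mem_cancel_right
      (le_normalizer k4)).1 (c.cent_le_norm h hx (mem_inf.2 ⟨mul_mem k3 (inv_mem aH), k2⟩)))) (mem_zpowers _)
  exact ((c.cj h hx).1.inf_cent h).le ⟨mul_mem k5 k4, (c.cj h hx).2.symm ▸ k2⟩

theorem Loc.norm_E (l : Ln0 D P (Bm R)) (hP : P ≤ H) (hL : L ∈ 𝓛) (hL' : L' ∈ 𝓛) (e : L ≠ L')
    (h4 : (Bm R ⊓ L) ⊔ O2 P = Bm R) (h1 : oU[2] P ≤ L) : L' ≤ 𝐍 (oU[2] P) := by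
  have NP : ncl (Bm R ⊓ L) (oU[2] P) ≤ P :=
    ncl_le (inf_le_left.trans l.B_le) ((oU_le P).trans le_normalizer)
  obtain ⟨b, hb, hb'⟩ := SetLike.not_le_iff_exists.1
    (fun k => l.not_le_Q (h4.ge.trans (sup_le k le_rfl)) : ¬ Bm R ⊓ L ≤ O2 P)
  have EN := l.E_le NP (ncl_normal _ _) (le_ncl _ _ hb) hb.1 hb'
  have nO : H ≤ 𝐍 (O2 H) := oP_normal H
  have OP : O2 H ≤ 𝐍 P := by
    obtain ⟨x, hx, hn⟩ := l.exists_x
    have a : O2 H ≤ 𝐍 (Bm R) := ((oP_le_sylIn c.syl).trans le_normalizer).trans (norm_baum R)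
    have b := cj_mono x a
    rw [cj_eq_of_mem_normalizer (nO (hP (oU_le P hx))), cj_normalizer] at b
    simpa only [l.gen (oU_le P hx) hn] using CL.MSS.le_normalizer_sup a b
  have k : oU[2] (ncl (Bm R ⊓ L) (oU[2] P) ⊔ O2 H) = oU[2] P :=
    le_antisymm ((oU_mono (sup_le_sup_right NP _)).trans (oU_sup_of_isPGroup (oP_isPGroup H) OP).le)
      ((oU_oU P).ge.trans (oU_mono (EN.trans le_sup_left)))
  rw [← k]
  refine le_normalizer_oU (le_normalizer_of_cj_le fun g hg => ?_)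
  rw [cj_sup, cj_eq_of_mem_normalizer (nO ((σ.cp L' hL').le hg))]
  refine sup_le (cj_le_iff.2 (ncl_le_iff.2 fun x hx => cj_le_iff.1 (cj_le_iff_forall.2 fun a ha => ?_)))
    le_sup_right
  obtain ⟨n, hn⟩ := isPGroup_iff_forall_mem.1 (isPGroup_cj x l.pg.to_inf_left) a ha
  simpa only [commutatorElement_def, inv_mul_cancel_right] using mul_mem (mem_sup_right
    (c.comm_mem_O h σ hL hL' e (cj_le_of_mem inf_le_right (h1 hx) ha) hn hg))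
    (mem_sup_left (cj_le_ncl _ hx ha))

end

/-- `Ln.loc`, `lt`, and `tv` for `P` and `P'` give `L`, `L'`; `H = N(U)`, `C = H ⊓ C(V) ≤ N(R) ≤ N(B)`,
`O = O₂(H) ≤ R`.  Suppose `L = L'`.  Take `x' ∈ E' \ N(B)`; `x' = x c` with `x ∈ P`, `c ∈ C`, so
`P' = ⟨B, x' B x'⁻¹⟩ = ⟨B, x B x⁻¹⟩ ≤ P`; by symmetry `P = P'`.  So `L ≠ L'`, and `LS.comm` gives
`W ≤ C(E')`, `W' ≤ C(E)`, `B ⊓ L ≤ C_B(W') = Q'`, so `Q Q' = B`, and `[E, E'] ≤ C`.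
For a 2-element `a ∈ L` and `e ∈ L'`: `e a e⁻¹ = a c` with `c ∈ C` lies in the normal Sylow
2-subgroup `⟨a⟩ O` of `⟨a⟩ C` (`Loc.comm_le`), so `[a, e] ∈ O`.  Hence `E'` normalizes `N₀ O`,
`N₀ = ⟨(B ⊓ L) ^ E⟩`, `E ≤ N₀ ≤ P` (`E_le`).  `O ≤ R ⊓ x R x⁻¹` normalizes `B` and `x B x⁻¹`
(`x ∈ P`), hence `P` and `E`; so `O²(N₀ O) = E` and `E' ≤ N(E)`.  By symmetry `E ≤ N(E')`, and
`[E, E'] ≤ E ⊓ E' ⊓ C(V) ≤ Q ⊓ Q'` (`inf_cent_W`). -/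
theorem lt3 (h : Hy D) (l : Ln D P B) (l' : Ln0 D P' B) (hne : P ≠ P') (hU : IsPGroup 2 U)
    (hs : s ∈ D) (hs' : s ∈ U) (hP : P ≤ 𝐍 U) (hP' : P' ≤ 𝐍 U) :
    Wo P ≤ 𝐂 (oU[2] P') ∧ Wo P' ≤ 𝐂 (oU[2] P) ∧ O2 P ⊔ O2 P' = B ∧ oU[2] P' ≤ 𝐍 (oU[2] P) ∧
      oU[2] P ≤ 𝐍 (oU[2] P') ∧ ⁅oU[2] P, oU[2] P'⁆ ≤ O2 P ⊓ O2 P' := by
  obtain ⟨R, w, c, rfl⟩ := l.loc h hU hs hs' hP
  obtain ⟨𝓛, s⟩ := lt h c
  obtain ⟨L, hL, a1, a2, a3, a4⟩ := tv h c s l.toLn0 hP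
  obtain ⟨L', hL', b1, b2, b3, b4⟩ := tv h c s l' hP'
  have e : L ≠ L' := by
    rintro rfl
    exact hne (le_antisymm (c.line_le h s l.toLn0 l' hP' a2 b3) (c.line_le h s l' l.toLn0 hP b2 a3))
  obtain ⟨c1, c2⟩ := s.comm L hL L' hL' e
  have c3 := (s.comm L' hL' L hL e.symm).1
  rw [← a1] at c1
  rw [← b1] at c3
  have n1 := b2.trans (c.norm_E h s l.toLn0 hP hL hL' e a4 a2)
  have n2 := a2.trans (c.norm_E h s l' hP' hL' hL e.symm b4 b2)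
  have k : ⁅oU[2] P, oU[2] P'⁆ ≤ 𝐂 (Vo w (𝐍 U)) := (commutator_mono a2 b2).trans c2
  have WV : ∀ {L}, L ∈ 𝓛 → 𝐂 (Vo w (𝐍 U)) ≤ 𝐂 (⁅Vo w (𝐍 U), L⁆ : Subgroup G) := fun hL =>
    centralizer_le (commutator_le_left_of_normalizes ((s.cp _ hL).le.trans s.norm))
  refine ⟨c1.trans (centralizer_le b2), c3.trans (centralizer_le a2),
    le_antisymm (sup_le l.Q_le l'.Q_le) (a4.ge.trans ((sup_le_sup_right ((inf_le_inf_left _
      (cent_symm c3)).trans l'.B_inf_cent_W.le) _).trans (sup_comm _ _).le)), n1, n2, le_inf ?_ ?_⟩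
  · exact (le_inf ((commutator_le_left_of_normalizes n1).trans (oU_le P))
      (k.trans (a1 ▸ WV hL))).trans l.inf_cent_W.le
  · exact (le_inf ((commutator_le_right_of_normalizes n2).trans (oU_le P'))
      (k.trans (b1 ▸ WV hL'))).trans l'.inf_cent_W.le

/-- A member of `D ∩ Z(B)` lies in `Y ≤ J(Q)`. -/
theorem Ln0.exists_JQ (h : Hy D) (l : Ln0 D P B) : ∃ t ∈ D, t ∈ Jt (O2 P) :=
  let ⟨t, ht, t1, t2⟩ := l.ex
  ⟨t, ht, omegaOne_center_le_thompsonSubgroupOf _ (l.mem_Y (h.sq ht) t1 t2)⟩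

/-- Suppose `P ≠ P'`; `lt3` with `U = J(Q)` gives `W ≤ C(E')`.  `J(Q) ≤ B` is normalized by `P'`, so
`J(Q) ≤ Q'`.  Take `A ∈ 𝒜(B)`, `A ≰ Q'`, `a ∈ A \ Q'`; then `A ≰ Q` (`am_Q`), `A* = (A ⊓ Q) W ∈ 𝒜(Q)`
lies in `Q'`, so `W' ≤ A*` (`Y_le_of_am`).  For `w' ∈ W' \ Z'`, `w' = a₀ w`:
`[w', a] = [w, a] ∈ W ⊓ W' ≤ C(P')` (`mem_cent_of_E`), against `mem_Z_of_comm`. -/
theorem uniq (h : Hy D) (l : Ln D P B) (l' : Ln0 D P' B) (hn : P' ≤ 𝐍 (Jt (O2 P))) :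
    P' = P := by
  by_contra hne
  obtain ⟨t, ht, ht'⟩ := l.exists_JQ h
  have JQ := thompsonSubgroupOf_le (p := 2) (O2 P)
  have pJ := (oP_isPGroup (p := 2) P).to_le JQ
  have k := (lt3 h l l' (Ne.symm hne) pJ ht ht' ((oP_normal P).trans
    (normalizer_le_normalizer_thompsonSubgroupOf _)) hn).1
  have JQ' : Jt (O2 P) ≤ O2 P' := le_oP pJ ((JQ.trans l.Q_le).trans l'.B_le) hn
  have am : ∀ A ∈ Am B, A ≤ O2 P → A ≤ O2 P' := fun A hA e =>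
    (le_thompsonSubgroupOf (l.am_Q.2 ⟨hA, e⟩)).trans JQ'
  obtain ⟨A, hA, hQ⟩ := l'.exists_off
  have hS := (l.off hA fun e => hQ (am A hA e)).2
  obtain ⟨a, ha, ha'⟩ := SetLike.not_le_iff_exists.1 hQ
  obtain ⟨y, hy, hy'⟩ := SetLike.not_le_iff_exists.1 l'.W_not_le_Z
  obtain ⟨v, hv, b, hb, rfl⟩ := (mem_sup_of_normalizes_left ((inf_le_right.trans (oP_le P)).trans
    (P_norm_W P))).1 (((l'.Y_le_of_am hS (am _ hS (sup_le inf_le_right (W_le_Q P)))).trans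
      (sup_comm _ _).le) (WY P' hy))
  refine hy' (l'.mem_Z_of_comm hy (hA.1 ha) ha' (l'.mem_cent_of_E
    (commY (WY P' hy) (l'.B_le (hA.1 ha))) (k ?_)))
  rw [comm_of_cent (w := v) (by rw [inv_mul_cancel_left]; exact elemAb_comm hA.2.1 ha hb.1)]
  exact commW hv (l.B_le (hA.1 ha))

/-- `H = N(J(Q))`, `Ln.loc` gives `R` with `B(R) = B`.  For `n ∈ N_H(J(R)) ≤ N(B)` (`Loc.norm_Bm`)
the line `n P n⁻¹ ≤ H` has the point `B`, so it is `P`.  If `H ≰ N(P)`, `ext` gives a line `P' ≤ H`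
with the point `B` and `P' ≰ N(P)`, against `uniq`. -/
theorem norm_JQ (h : Hy D) (l : Ln D P B) : 𝐍 (Jt (O2 P)) ≤ 𝐍 P := by
  obtain ⟨t, ht, ht'⟩ := l.exists_JQ h
  have hP : P ≤ 𝐍 (Jt (O2 P)) :=
    (oP_normal P).trans (normalizer_le_normalizer_thompsonSubgroupOf _)
  obtain ⟨R, w, c, rfl⟩ := l.loc h ((oP_isPGroup P).to_le (thompsonSubgroupOf_le _)) ht ht' hP
  by_contra hn
  obtain ⟨P', k1, k2, k3⟩ := ext h c (fun n hn' => mem_normalizer_iff_cj.2 (uniq h l (by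
    simpa only [cj_eq_of_mem_normalizer (c.norm_Bm h hn')] using l.toLn0.cj h n)
    (cj_le_of_mem hP hn'.2))) hn
  exact k3 ((uniq h l k2 k1).le.trans le_normalizer)

end CL.B2
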