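import Cfsg.Agent.INV.B2.LT3

/-!
# Critical lines
-/

set_option autoImplicit false
set_option linter.unusedSectionVars false
open Cfsg Subgroup CL.Th CL.MSS CL.Push CL.BHS
open scoped commutatorElement MatrixGroups

namespace CL.B2
variable {G : Type*} [Group G] [Finite G] {D : Set G} {s t w : G} {B P U : Subgroup G}

theorem Ln0.W_le_Jt (l : Ln0 D P B) : Wo P ≤ Jt B :=
  let ⟨_, h1, h2⟩ := l.exists_off
  le_sup_right.trans (le_thompsonSubgroupOf (l.off h1 h2).2)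

theorem Ln.crit_sW (h : Hy D) (l : Ln D P B) (hw : w ∈ D) (hB : w ∈ B) (hc : w ∈ 𝐂 B)
    {T : Subgroup G} (hT : IsPGroup 2 T) (h1 : B ≤ T)
    (h2 : T ≤ 𝐍 (zpowers w ⊔ Wo P : Subgroup G)) : Jt T = Jt B ∧ T ⊓ 𝐂 (oz (Jt B)) ≤ B :=
  l.crit _ T (l.norm_sW (l.mem_Y (h.sq hw) hB hc) hc) ⟨w, hw, le_oP (l.pg.to_le
    (sup_le (zpowers_le.2 hB) l.W_le)) le_normalizer le_rfl (mem_sup_left (mem_zpowers w))⟩ hT h1 h2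

theorem Ln.norm_W_le' (h : Hy D) (l : Ln D P B) : 𝐍 B ⊓ 𝐍 (Wo P) ≤ 𝐍 P := by
  have := CL.MSS.le_normalizer_inf (H := 𝐍 B ⊓ 𝐍 (Wo P)) inf_le_left
    (CL.MSS.le_normalizer_centralizer inf_le_right)
  rw [l.B_inf_cent_W] at this
  exact (this.trans (normalizer_le_normalizer_thompsonSubgroupOf _)).trans (norm_JQ h l)

/-- Take `t ∈ D ∩ Z(B)`; `t ∈ J(B)`, `W ≤ J(B)`.  `U = ⟨t⟩ W` is normalized by `P` (`norm_sW`) and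
centralized by `s`; `s ∈ Sy t`.  `crit` with `H = N(U)`, `T = Sy t ⊓ H` gives `s ∈ B`; then
`s ∈ Ω₁ Z J(B)` (`mem_oz_Jt`) is centralized by `B`. -/
theorem Ln.D_cent (h : Hy D) (l : Ln D P B) (hs : s ∈ D) (hc : s ∈ 𝐂 (Jt B)) :
    s ∈ B ∧ s ∈ 𝐂 B := by
  obtain ⟨t, ht, t1, t2⟩ := l.ex
  have tJ : t ∈ Jt B := oz_le _ (mem_oz_Jt t1 (h.sq ht) (centralizer_le (thompsonSubgroupOf_le B) t2))
  have k := (l.crit_sW h ht t1 t2 (Sy_pg t).to_inf_left (le_inf (h.le_Sy ht l.pg (le_c_iff.2 t2))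
    (l.B_le.trans (l.norm_sW (l.mem_Y (h.sq ht) t1 t2) t2))) inf_le_right).2
    ⟨⟨h.mem_Sy_sq ht (h.sq hs) (hc t tJ).symm, centralizer_le_normalizer _
      (centralizer_le (sup_le (zpowers_le.2 tJ) l.W_le_Jt : _ ≤ Jt B) hc)⟩, centralizer_le (oz_le _) hc⟩
  exact ⟨k, cent_symm l.baum (mem_oz_Jt k (h.sq hs) hc)⟩

/-- `T = Sy w ⊓ N(W)` normalizes `U = ⟨w⟩ W`; `crit` with `H = N(U)`.  `B = B(T)` is characteristic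
in `T`, so `T` normalizes `B`, `Q = C_B(W)`, `J(Q)`, and `P` (`norm_JQ`). -/
theorem Ln.T_le (h : Hy D) (l : Ln D P B) (hw : w ∈ D) (hB : w ∈ B) (hc : w ∈ 𝐂 B) :
    Jt (Sy w ⊓ 𝐍 (Wo P)) = Jt B ∧ Bm (Sy w ⊓ 𝐍 (Wo P)) = B ∧
      Sy w ⊓ 𝐍 (Wo P) ≤ 𝐍 P ⊓ 𝐍 B := by
  have BT : B ≤ Sy w ⊓ 𝐍 (Wo P) :=
    le_inf (h.le_Sy hw l.pg (le_c_iff.2 hc)) (l.B_le.trans (P_norm_W P))
  obtain ⟨k1, k2⟩ := l.crit_sW h hw hB hc (Sy_pg w).to_inf_left BT (CL.MSS.le_normalizer_sup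
    (fun x hx => mem_normalizer_iff_cj.2 (by
      rw [cj_zpowers, mem_c.1 (Sy_le w hx.1), mul_inv_cancel_right])) inf_le_right)
  have k3 : Bm (Sy w ⊓ 𝐍 (Wo P)) = B := by
    show _ ⊓ 𝐂 (oz (Jt _)) = B
    rw [k1]
    exact le_antisymm k2 (le_inf BT l.baum)
  have k4 : Sy w ⊓ 𝐍 (Wo P) ≤ 𝐍 B := (le_normalizer.trans (norm_baum _)).trans
    (congrArg (fun X : Subgroup G => 𝐍 X) k3).le
  exact ⟨k1, k3, le_inf ((le_inf k4 inf_le_right).trans (l.norm_W_le' h)) k4⟩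

/-- `N(B) ⊓ N(W)` normalizes `Q = C_B(W)`; `norm_JQ`. -/
theorem Ln.norm_W_le (h : Hy D) (l : Ln D P B) : 𝐍 B ⊓ 𝐍 (Wo P) ≤ 𝐍 P := l.norm_W_le' h

/-- `Ln.loc` gives `R = Sy w ⊓ N(U)` with `B(R) = B`.  `N_{Sy w}(R) ≤ N(B) ≤ N(U)`, so `R` is
self-normalizing in the 2-group `Sy w`: `R = Sy w`.  `Bm_of_le`. -/
theorem Ln.caseI (h : Hy D) (l : Ln D P B) (hU : IsPGroup 2 U) (hs : s ∈ D) (hs' : s ∈ U)
    (hP : P ≤ 𝐍 U) (hB : 𝐍 B ≤ 𝐍 U) (ht : t ∈ D) (hle : B ≤ Sy t) : B = Bm (Sy t) := by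
  obtain ⟨R, w, c, rfl⟩ := l.loc h hU hs hs' hP
  obtain rfl : R = Sy w := by
    by_contra e
    exact (CL.MSS.lt_inf_normalizer_of_lt (Sy_pg w) (lt_of_le_of_ne c.le e)).not_ge
      ((inf_le_inf_left _ ((norm_baum R).trans hB)).trans (c.inf_eq h).le)
  exact h.Bm_of_le ht c.mem hle

end CL.B2
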