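import Cfsg.Agent.INV.B2.PairA

/-!
# Pairs

Notation: `E, Q, W, Z, q` for `P` and `E', Q', W'` for `P'`; `K = Ko P P' = E W'`, `K' = Ko P' P`,
`I = Q ⊓ Q'`.  By `mutual_`: `B = W' Q = W Q'`, `[W, W'] = Z = Zo P' B = W ⊓ Q' = W' ⊓ Q`, `q = q'`.
-/

set_option autoImplicit false
set_option linter.unusedSectionVars false
open Cfsg Subgroup CL.Th CL.MSS CL.Push CL.BHS
open scoped commutatorElement MatrixGroups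

namespace CL.B2
variable {G : Type*} [Group G] [Finite G] {D : Set G} {a b g i k s t u w x y z z₁ z₂ : G}
  {A B B₁ P P' P₁ : Subgroup G}

theorem comm_mem (h : A ≤ 𝐍 B) (hy : y ∈ B) (hx : x ∈ A) : ⁅y, x⁆ ∈ B :=
  commutator_le_left_of_normalizes h (commutator_mem_commutator hy hx)

theorem Am_eq (e : Jt B₁ = Jt B) : Am B₁ = Am B :=
  (maxElemAbIn_eq_of_le le_rfl (thompsonSubgroupOf_le B₁)).symm.trans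
    ((congrArg Am e).trans (maxElemAbIn_eq_of_le le_rfl (thompsonSubgroupOf_le B)))

theorem Hy.pow (hy : y ∈ Sy w) : ∃ n : ℕ, y ^ 2 ^ n = 1 :=
  isPGroup_iff_forall_mem.1 (Sy_pg w) y hy

theorem Hy.norm_Sy_inf (h : Hy D) (hw : w ∈ D) (hg : g ∈ 𝐍 A) (he : w⁻¹ * (g * w * g⁻¹) ∈ A) :
    g ∈ 𝐍 (Sy w ⊓ 𝐂 A : Subgroup G) := by
  refine mem_normalizer_iff_cj.2 (cj_eq_of_ge fun y hy => ?_)
  rw [cj_inf, ← Sy_cj, cj_centralizer, cj_eq_of_mem_normalizer hg]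
  obtain ⟨n, hn⟩ := Hy.pow hy.1
  refine ⟨h.mem_Sy (h.conj w hw g) hn ?_, hy.2⟩
  rw [← mul_inv_cancel_left w (g * w * g⁻¹), ← mul_assoc y, mem_c.1 (Sy_le w hy.1), mul_assoc w,
    ← hy.2 _ he, ← mul_assoc w]

theorem Ln0.cent_P (l : Ln0 D P B) (h1 : y ∈ 𝐂 (oU[2] P)) (h2 : y ∈ 𝐂 B) : y ∈ 𝐂 P := by
  rw [← l.E_sup, centralizer_sup_eq]; exact ⟨h1, h2⟩

theorem Ln0.D_not_cent' (l : Ln0 D P B) (h : Hy D) (hs : s ∈ D) (hc : s ∈ 𝐂 B) : s ∉ 𝐂 P :=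
  fun e => l.D_not_cent h hs hc (centralizer_anti (oU_le P) e)

theorem Pr.cj' (h : Hy D) (p : Pr D P P' B) (hg : g ∈ 𝐍 P) : Pr D P (g •ᶜ P') (g •ᶜ B) := by
  have := p.cj h g
  rwa [cj_eq_of_mem_normalizer hg] at this

namespace Pr
variable (p : Pr D P P' B)
include p

/-- `NC`.  Index 1 for `P₁`.  `𝒜 = 𝒜(B) = 𝒜(B₁)`; `W₁ ≤ J(B) ≤ B`, `W ≤ B₁`; `mutual_`: `Z = Z₁`,
`W Q₁ = B₁`.  A member of `𝒜(Q₁)` contains `W₁`, so it is not in `Q`, so it lies in `Q'`.  Conversely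
let `A ∈ 𝒜`, `A ≤ Q'`, `A ≰ Q₁`; then `A* = (A ⊓ Q₁) W₁ ∈ 𝒜(Q₁)`, and `Z = [W₁, A] ≤ [A*, A] ≤ C(E)`
(`am_comm` for `p.symm`), which is false.  So `J(Q₁) = J(Q')`, and `P₁ ≤ N(P')`, `P' ≤ N(P₁)`
(`norm_JQ`).  `E_le` with `N = P₁ ⊓ P' ≥ W` gives `E₁ ≤ P'` and `E' ≤ P₁`, so `E₁ = E'`.  Take
`t ∈ D ∩ Z(B)`; `t ∈ Z(B₁)` (`D_cent`); `W₁ = [⟨t⟩, E₁] = W'` (`comm_y`), `B₁ = B(Sy t ⊓ N(W')) = B`
(`T_le`), `P₁ = E₁ B₁ = P'`. -/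
theorem nc_eq (h : Hy D) (l : Ln D P₁ B₁) (hJ : Jt B₁ = Jt B) (hn : ¬ Wo P ≤ 𝐂 (Wo P₁)) :
    P₁ = P' ∧ B₁ = B := by
  have hA := Am_eq hJ
  have w1 : Wo P₁ ≤ B := l.W_le_Jt.trans (hJ.le.trans (thompsonSubgroupOf_le B))
  have w2 : Wo P ≤ B₁ := p.l.W_le_Jt.trans (hJ.ge.trans (thompsonSubgroupOf_le B₁))
  have hZ := (p.l.mutual_ l.toLn0 w1 w2 hn).2.2.2.1
  have a1 : ∀ A ∈ Am B₁, A ≤ O2 P₁ → A ≤ O2 P' := fun A k1 k2 =>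
    ((p.am_type (hA ▸ k1)).resolve_left fun e => hn (cent_symm (((WY P₁).trans
      (l.Y_le_of_am k1 k2)).trans (e.1.trans (Q_le_cent_W P))))).1
  have a2 : ∀ A ∈ Am B₁, A ≤ O2 P' → A ≤ O2 P₁ := fun A k1 k2 => by_contra fun k3 => by
    obtain ⟨o1, o2⟩ := l.off k1 k3
    refine p.Z_not_le_Ce (hZ.le.trans ((l.comm_of_sup o1).ge.trans ((commutator_mono (le_sup_right.trans
      (a1 _ o2 (sup_le inf_le_right (W_le_Q P₁)))) k2).trans (p.symm.Q_comm.trans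
      (inf_le_right.trans (cK_E P P'))))))
  have hQ : Jt (O2 P₁) = Jt (O2 P') := by
    rw [Jt, Jt, thompsonSubgroupOf_eq_sSup, thompsonSubgroupOf_eq_sSup]
    congr 1
    ext A
    rw [l.am_Q, p.r.am_Q, ← hA]
    exact ⟨fun e => ⟨e.1, a1 A e.1 e.2⟩, fun e => ⟨e.1, a2 A e.1 e.2⟩⟩
  have nJ : ∀ X : Subgroup G, X ≤ 𝐍 (Jt (O2 X)) := fun X =>
    (oP_normal X).trans (normalizer_le_normalizer_thompsonSubgroupOf _)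
  have n1 : P' ≤ 𝐍 P₁ := (nJ P').trans (hQ ▸ norm_JQ h l)
  have n2 : P₁ ≤ 𝐍 P' := (nJ P₁).trans (hQ ▸ norm_JQ h p.r)
  have hE : oU[2] P₁ = oU[2] P' := by
    obtain ⟨b, b1, b2⟩ := SetLike.not_le_iff_exists.1 fun e : Wo P ≤ O2 P₁ =>
      hn (e.trans (Q_le_cent_W P₁))
    obtain ⟨c, c1, c2⟩ := SetLike.not_le_iff_exists.1 p.symm.nQ
    refine le_antisymm ((oU_oU P₁).ge.trans (oU_mono ((l.E_le (N := P₁ ⊓ P') inf_le_left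
      ((oU_le P₁).trans (MSS.le_normalizer_inf le_normalizer n2))
      ⟨l.B_le (w2 b1), p.r.B_le (p.l.W_le b1)⟩ (w2 b1) b2).trans inf_le_right)))
      ((oU_oU P').ge.trans (oU_mono ((p.r.E_le (N := P' ⊓ P₁) inf_le_left
      ((oU_le P').trans (MSS.le_normalizer_inf le_normalizer n1))
      ⟨p.r.B_le (p.l.W_le c1), l.B_le (w2 c1)⟩ (p.l.W_le c1) c2).trans inf_le_right)))
  obtain ⟨t, ht, t1, t2⟩ := p.l.ex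
  obtain ⟨t3, t4⟩ := l.D_cent h ht (hJ ▸ centralizer_anti (thompsonSubgroupOf_le B) t2)
  have hW : Wo P₁ = Wo P' := by
    rw [← l.comm_y (l.mem_Y (h.sq ht) t3 t4) t4 (l.D_not_cent' h ht t4),
      ← p.r.comm_y (p.r.mem_Y (h.sq ht) t1 t2) t2 (p.r.D_not_cent' h ht t2), hE]
  have hB : B₁ = B := by rw [← (l.T_le h ht t3 t4).2.1, ← (p.r.T_le h ht t1 t2).2.1, hW]
  exact ⟨by rw [← l.E_sup, ← p.r.E_sup, hE, hB], hB⟩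

/-- The partner is unique. -/
theorem norm_le (h : Hy D) : 𝐍 P ⊓ 𝐍 B ≤ 𝐍 P' := fun g hg => by
  have p' := p.cj' h hg.1
  rw [cj_eq_of_mem_normalizer hg.2] at p'
  exact mem_normalizer_iff_cj.2 (p.nc_eq h p'.r rfl p'.nc).1

/-- `y ∈ T = Sy w ⊓ N(W) ≤ N(P) ⊓ N(B) ≤ N(P')` centralizes `Z`, so `y ∈ Inn P' B` (`fs_Z`), and
`B = W Q'`: `y ∈ W C(W')`.  `I₁ = Sy w ⊓ C(W) = O₂(C(⟨w⟩ W))` is normalized by `P` (`norm_sW`);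
`split` for `I₁`, `X = W'`, and `K_eq`. -/
theorem cent_dec (h : Hy D) (hw : w ∈ D) (hB : w ∈ B) (hc : w ∈ 𝐂 B) (hy : y ∈ Sy w)
    (hy' : y ∈ 𝐂 (Wo P)) : ∃ u ∈ Wo P, u⁻¹ * y ∈ 𝐂 (Ko P P') := by
  obtain ⟨x, x1, x2⟩ := p.l.exists_x
  have xP := oU_le P x1
  rw [← p.K_eq x1 x2, centralizer_sup_eq]
  refine p.l.split (I := Sy w ⊓ 𝐂 (Wo P)) p.r.W_le xP x2 (le_inf (p.l.W_le.trans
    (h.le_Sy hw p.l.pg (le_c_iff.2 hc))) ((W_le_Q P).trans (Q_le_cent_W P)))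
    (h.norm_Sy_inf hw (P_norm_W P xP) (p.l.cj_mem_W (p.l.mem_Y (h.sq hw) hB hc) hc xP))
    (fun i hi => ?_) ⟨hy, hy'⟩
  have k := (p.l.T_le h hw hB hc).2.2 ⟨hi.1, centralizer_le_normalizer _ hi.2⟩
  obtain ⟨n, hn⟩ := Hy.pow hi.1
  obtain ⟨b, b1, b2⟩ := mem_Inn.1 (p.r.fs_Z (p.norm_le h k) k.2 hn fun z hz => by
    rw [commutatorElement_eq_one_iff_mul_comm.2 (hi.2 z (p.l.Z_le (p.Z_eq'.le hz)))]; exact one_mem _)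
  obtain ⟨u, u1, u2⟩ := p.symm.B_dec b1
  exact ⟨u, u1, by
    rw [show u⁻¹ * i = u⁻¹ * b * (b⁻¹ * i) by group]; exact mul_mem (Q_le_cent_W P' u2) b2.1.1⟩

theorem cent_dec' (h : Hy D) (hw : w ∈ D) (hB : w ∈ B) (hc : w ∈ 𝐂 B) (hy : y ∈ Sy w)
    (h1 : y ∈ 𝐂 (Wo P)) (h2 : y ∈ 𝐂 (Wo P')) : ∃ z ∈ Zo P B, z⁻¹ * y ∈ 𝐂 (Ko P P') := by
  obtain ⟨u, k1, k2⟩ := p.cent_dec h hw hB hc hy h1
  refine ⟨u, p.W_inf_cent'.le ⟨k1, ?_⟩, k2⟩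
  have := mul_mem h2 (Subgroup.inv_mem _ (cK_W' P P' k2))
  rwa [mul_inv_rev, mul_inv_cancel_left, inv_inv] at this

/-- `R = Sy w ⊓ C(W W') = O₂(C(W W' ⟨w⟩))`; by `cent_dec` `R = Z C_R(K) = Z C_R(K')`.  Let `k` be as in
`torus_fpf`; `k` normalizes `P'`, `W'`, `K'`.  Does it normalize `R`?  `k w k⁻¹ = w z` with `z ∈ Z`,
so it does.  `R' = C_R(K') = [R', k] C_{R'}(k)` (coprime action), `[R, k] ≤ Z`, and an element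
`z c ∈ R` fixed by `k` has `z ∈ C(P)`. -/
theorem big_dec (h : Hy D) (hq : qo P B ≠ 2) (hw : w ∈ D) (hB : w ∈ B) (hc : w ∈ 𝐂 B)
    (hy : y ∈ Sy w) (h1 : y ∈ 𝐂 (Wo P)) (h2 : y ∈ 𝐂 (Wo P')) :
    ∃ z ∈ Zo P B, z⁻¹ * y ∈ 𝐂 (Ko P P') ⊓ 𝐂 (Ko P' P) := by
  obtain ⟨k, k1, k2, k3, k4⟩ := p.l.torus_fpf hq
  have kP := oU_le P k1
  have kP' := p.norm_le h ⟨le_normalizer kP, k2⟩
  have kz : ∀ {X : Subgroup G}, k ∈ 𝐍 X → zpowers k ≤ 𝐍 X := zpowers_le.2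
  have nR : zpowers k ≤ 𝐍 (Sy w ⊓ 𝐂 (Wo P ⊔ Wo P' : Subgroup G) ⊓ 𝐂 (Ko P' P) : Subgroup G) :=
    MSS.le_normalizer_inf (kz (h.norm_Sy_inf hw (MSS.le_normalizer_sup (kz (P_norm_W P kP))
      (kz (norm_Wo P' kP')) (mem_zpowers k))
      (mem_sup_left (p.l.cj_mem_W (p.l.mem_Y (h.sq hw) hB hc) hc kP))))
      (MSS.le_normalizer_centralizer (MSS.le_normalizer_sup (le_normalizer_oU (kz kP'))
        (kz (P_norm_W P kP))))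
  have pR : IsPGroup 2 (Sy w ⊓ 𝐂 (Wo P ⊔ Wo P' : Subgroup G) ⊓ 𝐂 (Ko P' P) : Subgroup G) :=
    (Sy_pg w).to_inf_left.to_inf_left
  have d : ∀ r ∈ Sy w ⊓ 𝐂 (Wo P ⊔ Wo P' : Subgroup G) ⊓ 𝐂 (Ko P' P),
      ∃ z ∈ Zo P B, z⁻¹ * r ∈ 𝐂 (Ko P P') := fun r hr =>
    p.cent_dec' h hw hB hc hr.1.1 (centralizer_anti le_sup_left hr.1.2)
      (centralizer_anti le_sup_right hr.1.2)
  obtain ⟨z, z1, z2⟩ := p.symm.cent_dec' h hw hB hc hy h2 h1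
  rw [p.Z_eq'] at z1
  have zB := p.l.W_le (p.l.Z_le z1)
  obtain ⟨n, hn⟩ := pR.exists_card_eq
  obtain ⟨a, ha, c, hc', e⟩ := coprime_exists_commutator_mul_centralizer _ _ nR
    (by rw [hn, Nat.card_zpowers]; exact (Nat.coprime_two_right.2 k3).pow_right n)
    (Or.inr (have := pR.isNilpotent; inferInstance)) (z⁻¹ * y)
    ⟨(Sy w ⊓ _).mul_mem (Subgroup.inv_mem _ ⟨h.le_Sy hw p.l.pg (le_c_iff.2 hc) zB, centralizer_anti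
      (sup_le p.l.W_le p.r.W_le) (p.l.Z_cent z1)⟩) ⟨hy, (centralizer_sup_eq _ _).ge ⟨h1, h2⟩⟩, z2⟩
  have kK : zpowers k ≤ Ko P P' := zpowers_le.2 (E_le_K P P' k1)
  have aZ : a ∈ Zo P B := commutator_le.2 (fun r hr g hg => by
    obtain ⟨v, v1, v2⟩ := d r hr
    rw [comm_of_cent (v2 g (kK hg))]
    exact comm_mem (kz (norm_Zo P B ⟨le_normalizer kP, k2⟩)) v1 hg) ha
  refine ⟨z * a, mul_mem z1 aZ, ?_⟩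
  rw [mul_inv_rev, mul_assoc, e, inv_mul_cancel_left]
  obtain ⟨v, v1, v2⟩ := d c hc'.1
  refine ⟨?_, hc'.1.2⟩
  rw [← mul_inv_cancel_left v c]
  refine mul_mem (centralizer_anti p.K_le (k4 v (WY P (p.l.Z_le v1)) ?_)) v2
  rw [← comm_of_cent (v2 k (kK (mem_zpowers k))),
    commutatorElement_eq_one_iff_mul_comm.2 (hc'.2 k (mem_zpowers k)).symm]
  exact one_mem _

/-- For `q > 2` use `big_dec`.  For `q = 2`: `Z = ⟨z⟩`, `s ∈ I` is `c` or `z c` with `c ∈ C(K)`, and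
`s ∉ C(E)` (`D_not_cent`); the same for `K'`.  An element of `Z(B)` centralizing `E` centralizes
`P`. -/
theorem D_dec (h : Hy D) (hs : s ∈ D) (hB : s ∈ B) (hc : s ∈ 𝐂 B) :
    ∃ z ∈ Zo P B, z⁻¹ * s ∈ 𝐂 P ⊓ 𝐂 P' := by
  suffices ∃ z ∈ Zo P B, z⁻¹ * s ∈ 𝐂 (Ko P P') ⊓ 𝐂 (Ko P' P) by
    obtain ⟨z, z1, z2⟩ := this
    have := mul_mem (Subgroup.inv_mem _ (p.l.Z_cent z1)) hc
    exact ⟨z, z1, p.l.cent_P (cK_E _ _ z2.1) this, p.r.cent_P (cK_E _ _ z2.2) this⟩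
  by_cases hq : qo P B = 2
  · obtain ⟨z, z1, z2⟩ := p.l.two_Z hq
    have q1 := YQ P (p.l.mem_Y (h.sq hs) hB hc)
    have q2 := YQ P' (p.r.mem_Y (h.sq hs) hB hc)
    have zz : z * z = 1 := by rw [← pow_two, ← z1, pow_orderOf_eq_one]
    obtain ⟨a, a1, a2⟩ := p.I_dec q1 q2
    obtain ⟨b, b1, b2⟩ := p.symm.I_dec q2 q1
    obtain rfl : a = z := (LB.zp zz (z2.le a1)).resolve_left fun e =>
      p.l.D_not_cent h hs hc (cK_E P P' (by simpa [e] using a2))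
    obtain rfl : b = a := (LB.zp zz (z2.le (p.Z_eq'.le b1))).resolve_left fun e =>
      p.r.D_not_cent h hs hc (cK_E P' P (by simpa [e] using b2))
    exact ⟨b, a1, a2, b2⟩
  · exact p.big_dec h hq hs hB hc (h.self_mem hs) (centralizer_anti p.l.W_le hc)
      (centralizer_anti p.r.W_le hc)

theorem D_aux (h : Hy D) (ht : t ∈ D) (hB : t ∈ B) (hc : t ∈ 𝐂 B) (hu : u ∈ D) (hu' : u ∈ Sy t)
    (hn : u ∈ 𝐍 (Wo P)) (nx : u ∉ Inn P B) : ∃ s ∈ D, s ∈ B ∧ s ∉ O2 P ∧ s * u = u * s := by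
  have k := (p.l.T_le h ht hB hc).2.2 ⟨hu', hn⟩
  have tY := p.r.mem_Y (h.sq ht) hB hc
  obtain ⟨e, e1, e2, e3⟩ := p.r.fs_fix (p.norm_le h k) k.2 (h.sq hu) (fun e => nx
    (p.l.fs_Z (k := 1) k.1 k.2 (by rw [pow_one, pow_two, h.sq hu]) fun z hz => by
      rw [commutatorElement_eq_one_iff_mul_comm.2 (p.r.Inn_le_cent_Z e z (p.Z_eq'.ge hz))]
      exact one_mem _)) tY hc (p.r.D_not_cent' h ht hc) (mem_c.1 (Sy_le t hu'))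
  have eP := oU_le P' e1
  have m := p.r.cj_mem_W tY hc eP
  refine ⟨_, h.conj t ht e, (mul_mem_cancel_left (Subgroup.inv_mem _ hB)).1 (p.r.W_le m), fun c => ?_, e3.symm⟩
  have c1 := (mul_mem_cancel_left (Subgroup.inv_mem _ hc)).1 (p.l.Z_cent (p.W'_inf.le
    ⟨m, (O2 P).mul_mem (Subgroup.inv_mem _ (YQ P (p.l.mem_Y (h.sq ht) hB hc))) c⟩))
  refine p.r.D_not_cent' h (h.conj t ht e) c1 ?_
  rw [← p.r.gen eP e2, centralizer_sup_eq, ← cj_centralizer]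
  exact ⟨c1, conj_mem_cj hc⟩

/-- `u ∈ N(P) ⊓ N(B) ⊓ N(P')` (`T_le`).  Suppose `u ∉ Inn P B`, so `u` does not centralize `Z` and
`u ∉ Inn P' B`.  `fs_fix` for `P`: `u` commutes with `s₁ = e t e⁻¹`, `e ∈ E \ N(B)`; so
`u ∈ Sy s₁ ⊓ N(W)` normalizes `B₁ = e B e⁻¹` and `e P' e⁻¹` (`T_le` for the conjugate pair).
`u ∉ Inn P B₁`: otherwise `u = b y`, `b ∈ B₁`, `y ∈ C(W) ⊓ N(P)`; `[P, y] ≤ P ⊓ C(W) = Q`, so `y` and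
`b` normalize `B`, `b ∈ Q` (`cj_ne`) and `u` centralizes `W`.  `fs_fix` for `P'` gives
`s₂ = e' t e'⁻¹ ∈ t W'` commuting with `u`, `s₂ ∉ C(B)`, so `s₂ ∈ B \ Q`; in the same way there is
`s₃ ∈ D ∩ B₁ \ Q` commuting with `u`.  `⟨s₂, s₃⟩ ≤ Sy u ⊓ P` lies in a point of `P`, which is `B` and
`B₁` (`inf_eq`). -/
theorem D_inn (h : Hy D) (ht : t ∈ D) (hB : t ∈ B) (hc : t ∈ 𝐂 B) (hu : u ∈ D) (hu' : u ∈ Sy t)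
    (hn : u ∈ 𝐍 (Wo P)) : u ∈ Inn P B := by
  by_contra nx
  have k := (p.l.T_le h ht hB hc).2.2 ⟨hu', hn⟩
  obtain ⟨e, e1, e2, e3⟩ := p.l.fs_fix k.1 k.2 (h.sq hu) nx (p.l.mem_Y (h.sq ht) hB hc) hc
    (p.l.D_not_cent' h ht hc) (mem_c.1 (Sy_le t hu'))
  have eP := oU_le P e1
  have p₁ := p.cj' h (le_normalizer eP)
  have ne : B ≠ e •ᶜ B := fun e' => e2 (mem_normalizer_iff_cj.2 e'.symm)
  obtain ⟨s, s1, s2, s3, s4⟩ := p.D_aux h ht hB hc hu hu' hn nx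
  obtain ⟨v, v1, v2, v3, v4⟩ := p₁.D_aux h (h.conj t ht e) (conj_mem_cj hB)
    (by rw [← cj_centralizer]; exact conj_mem_cj hc) hu (h.mem_Sy_sq (h.conj t ht e) (h.sq hu) e3) hn
    fun nx' => by
      obtain ⟨b, b1, b2⟩ := mem_Inn.1 nx'
      have yB : b⁻¹ * u ∈ 𝐍 B := mem_normalizer_of_cj_le (cj_le_iff_forall.2 fun β hβ => by
        have hP := p.l.B_le hβ
        rw [show b⁻¹ * u * β * (b⁻¹ * u)⁻¹ = ⁅b⁻¹ * u, β⁆ * β by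
          simp only [commutatorElement_def]; group]
        refine mul_mem (p.l.Q_le (p.l.inf_cent_W.le ⟨?_, comm_mem
          (MSS.le_normalizer_centralizer (P_norm_W P)) b2.1.1 hP⟩)) hβ
        exact P.mul_mem ((mem_normalizer_iff.1 b2.1.2 β).1 hP) (Subgroup.inv_mem _ hP))
      have bB : b ∈ 𝐍 B := by
        have := (𝐍 B).mul_mem k.2 (Subgroup.inv_mem _ yB)
        rwa [mul_inv_rev, mul_inv_cancel_left, inv_inv] at this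
      have bQ : b ∈ O2 P := by_contra fun e' =>
        (p₁.l.cj_ne p.l.syl ne b1 e').1 (mem_normalizer_iff_cj.1 bB)
      refine nx (mem_sup_right ⟨⟨?_, k.1⟩, k.2⟩)
      rw [← mul_inv_cancel_left b u]
      exact mul_mem (Q_le_cent_W P bQ) b2.1.1
  obtain ⟨S, S1, S2⟩ := exists_sylIn_ge (p := 2) (R := Sy u ⊓ P) (Sy_pg u).to_inf_left inf_le_right
  have c1 : S = B := by_contra fun e' => s3 ((p.l.inf_eq S1 e').le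
    ⟨s2, S2 ⟨h.mem_Sy_sq hu (h.sq s1) s4, p.l.B_le s2⟩⟩)
  have c2 : S = e •ᶜ B := by_contra fun e' => v3 ((p₁.l.inf_eq S1 e').le
    ⟨v2, S2 ⟨h.mem_Sy_sq hu (h.sq v1) v4, p₁.l.B_le v2⟩⟩)
  exact ne (c1.symm.trans c2)

theorem Z_torus (h : Hy D) (h1 : z₁ ∈ Zo P B) (h2 : z₂ ∈ Zo P B) (n1 : z₁ ∉ 𝐂 P) (n2 : z₂ ∉ 𝐂 P) :
    ∃ k ∈ P, k ∈ 𝐍 P' ⊓ 𝐍 B ∧ (k * z₁ * k⁻¹)⁻¹ * z₂ ∈ Zo P B ⊓ 𝐂 P := by
  obtain ⟨k, k1, k2, -, k3⟩ := p.l.torus (WY P (p.l.Z_le h1)) (p.l.Z_cent h1) n1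
    (WY P (p.l.Z_le h2)) (p.l.Z_cent h2) n2
  have k4 : k ∈ 𝐍 P ⊓ 𝐍 B := ⟨le_normalizer (oU_le P k1), k2⟩
  exact ⟨k, oU_le P k1, ⟨p.norm_le h k4, k2⟩,
    (Zo P B).mul_mem (Subgroup.inv_mem _ ((mem_normalizer_iff.1 (norm_Zo P B k4) _).1 h1)) h2, k3⟩

/-- `D₀ = Z ⊓ C(P)`, `D₀' = Z ⊓ C(P')` have index `q` in `Z`.  If `D₀ = 1` use `torus`.  Otherwise take
`1 ≠ d ∈ D₀`, `d ∉ C(P')`; the elements `k'` of `torus` for `P'` normalize `P` and `D₀`, so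
`Z = D₀ D₀'`.  Write `z₁ = a a'`, `z₂ = b b'`; `torus` for `P` gives `k ∈ E` with `k a' k⁻¹ ∈ b' D₀`,
and `k a' k⁻¹ ∈ D₀'`, so `k a' k⁻¹ = b'`, `k a k⁻¹ = a`; the same for `P'`. -/
theorem Z_conj (h : Hy D) (h0 : Zo P B ⊓ 𝐂 P ⊓ 𝐂 P' = ⊥) (h1 : z₁ ∈ Zo P B) (h2 : z₂ ∈ Zo P B)
    (n1 : z₁ ∉ 𝐂 P) (n1' : z₁ ∉ 𝐂 P') (n2 : z₂ ∉ 𝐂 P) (n2' : z₂ ∉ 𝐂 P') :
    ∃ g : G, g * z₁ * g⁻¹ = z₂ := by
  by_cases hd : Zo P B ⊓ 𝐂 P = ⊥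
  · obtain ⟨k, -, k2, k3⟩ := p.Z_torus h h1 h2 n1 n2
    exact ⟨k, inv_mul_eq_one.1 (hd.le k3)⟩
  obtain ⟨d, d1, d2⟩ := (bot_or_exists_ne_one _).resolve_left hd
  have dec : ∀ z ∈ Zo P B, ∃ a ∈ Zo P B ⊓ 𝐂 P, a⁻¹ * z ∈ Zo P B ⊓ 𝐂 P' := fun z hz => by
    by_cases c : z ∈ 𝐂 P'
    · exact ⟨1, one_mem _, by simpa using ⟨hz, c⟩⟩
    obtain ⟨k, -, k2, k3⟩ := p.symm.Z_torus h (p.Z_eq'.ge d1.1) (p.Z_eq'.ge hz)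
      (fun e => d2 (h0.le ⟨d1, e⟩)) c
    rw [p.Z_eq'] at k3
    exact ⟨_, ⟨(mem_normalizer_iff.1 (norm_Zo P B ⟨k2.1, k2.2⟩) d).1 d1.1, FS.cjC k2.1 d1.2⟩, k3⟩
  obtain ⟨a, a1, a2⟩ := dec _ h1
  obtain ⟨b, b1, b2⟩ := dec _ h2
  have nn : ∀ {X : Subgroup G} {a z : G}, z ∉ X → a ∈ X → a⁻¹ * z ∉ X := fun c1 c2 c3 =>
    c1 ((mul_mem_cancel_left (Subgroup.inv_mem _ c2)).1 c3)
  have nn' : ∀ {X : Subgroup G} {a z : G}, z ∉ X → a⁻¹ * z ∈ X → a ∉ X := fun c1 c2 c3 =>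
    nn c1 c3 c2
  obtain ⟨k, k1, k2, k3⟩ := p.Z_torus h a2.1 b2.1 (nn n1 a1.2) (nn n2 b1.2)
  obtain ⟨j, j1, j2, j3⟩ := p.symm.Z_torus h (p.Z_eq'.ge a1.1) (p.Z_eq'.ge b1.1) (nn' n1' a2.2)
    (nn' n2' b2.2)
  rw [p.Z_eq'] at j3
  have e1 := inv_mul_eq_one.1 (h0.le ⟨k3, (𝐂 P').mul_mem (Subgroup.inv_mem _ (FS.cjC k2.1 a2.2)) b2.2⟩)
  have e2 := inv_mul_eq_one.1 (h0.le ⟨⟨j3.1, (𝐂 P).mul_mem (Subgroup.inv_mem _ (FS.cjC j2.1 a1.2)) b1.2⟩, j3.2⟩)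
  refine ⟨j * k, ?_⟩
  calc j * k * z₁ * (j * k)⁻¹ = j * (k * a * k⁻¹) * (k * (a⁻¹ * z₁) * k⁻¹) * j⁻¹ := by group
    _ = j * a * j⁻¹ * (j * (b⁻¹ * z₂) * j⁻¹) := by rw [e1, a1.2 k k1]; group
    _ = z₂ := by rw [e2, b2.2 j j1]; group

end Pr

end CL.B2
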