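import Cfsg.Agent.INV.B2.Defs3
import Cfsg.Agent.INV.B2.LineC
import Cfsg.Agent.INV.B2.FS

/-!
# Pairs, first part

Notation: `E, Q, W, Z, q` for `P` and `E', Q', W'` for `P'`; `K = Ko P P' = E W'`, `K' = Ko P' P`,
`I = Q ⊓ Q'`.
-/

set_option autoImplicit false
set_option linter.unusedSectionVars false
open Cfsg Subgroup CL.Th CL.MSS CL.Push CL.BHS
open scoped commutatorElement MatrixGroups

namespace CL.B2
variable {G : Type*} [Group G] [Finite G] {D : Set G} {a b g i k s t u w x y z z₁ z₂ : G}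
  {A B B₁ P P' P₁ X : Subgroup G}

theorem comm_strip (hz : z ∈ 𝐂 X) (hu : u ∈ 𝐂 X) (hu' : u ∈ X) (ha : a ∈ X)
    (hb : b ∈ X) : ⁅a, b⁆ = ⁅z⁻¹ * a, u⁻¹ * b⁆ := by
  have e1 : ∀ {c v w : G}, c ∈ 𝐂 X → v ∈ X → w ∈ X → ⁅c⁻¹ * v, w⁆ = ⁅v, w⁆ := fun {c v w} hc hv hw => by
    have := hc _ (mul_mem (mul_mem hv hw) (inv_mem hv))
    calc ⁅c⁻¹ * v, w⁆ = c⁻¹ * (v * w * v⁻¹ * c) * w⁻¹ := by simp only [commutatorElement_def]; group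
      _ = _ := by rw [this, commutatorElement_def]; group
  rw [e1 hz ha (mul_mem (inv_mem hu') hb), ← commutatorElement_inv, ← e1 hu hb ha,
    commutatorElement_inv]

theorem le_or_le (h : ∀ a ∈ A, a ∈ B ∨ a ∈ X) : A ≤ B ∨ A ≤ X := by
  by_contra! e
  obtain ⟨a, a1, a2⟩ := SetLike.not_le_iff_exists.1 e.1
  obtain ⟨b, b1, b2⟩ := SetLike.not_le_iff_exists.1 e.2
  rcases h _ (mul_mem a1 b1) with c | c
  · exact a2 ((mul_mem_cancel_right ((h b b1).resolve_right b2)).1 c)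
  · exact b2 ((mul_mem_cancel_left ((h a a1).resolve_left a2)).1 c)

theorem E_le_K (P P' : Subgroup G) : oU[2] P ≤ Ko P P' := le_sup_left
theorem W'_le_K (P P' : Subgroup G) : Wo P' ≤ Ko P P' := le_sup_right
theorem cK_E (P P' : Subgroup G) : 𝐂 (Ko P P') ≤ 𝐂 (oU[2] P) := centralizer_anti (E_le_K P P')
theorem cK_W' (P P' : Subgroup G) : 𝐂 (Ko P P') ≤ 𝐂 (Wo P') := centralizer_anti (W'_le_K P P')
theorem cK_W (P P' : Subgroup G) : 𝐂 (Ko P P') ≤ 𝐂 (Wo P) :=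
  centralizer_anti ((W_le_E P).trans (E_le_K P P'))

namespace Pr
variable (p : Pr D P P' B)
include p

theorem mu : Wo P' ⊔ O2 P = B ∧ qo P B = qo P' B ∧ ⁅Wo P, Wo P'⁆ = Zo P B ∧ Zo P B = Zo P' B ∧
    Wo P' ⊓ O2 P = Zo P B := p.l.mutual_ p.r.toLn0 p.r.W_le p.l.W_le p.nc
theorem nQ : ¬ Wo P' ≤ O2 P := fun e => p.nc (cent_symm (e.trans (Q_le_cent_W P)))

theorem W'_sup : Wo P' ⊔ O2 P = B := p.mu.1
theorem q_eq : qo P B = qo P' B := p.mu.2.1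
theorem comm_WW : ⁅Wo P, Wo P'⁆ = Zo P B := p.mu.2.2.1
theorem Z_eq' : Zo P' B = Zo P B := p.mu.2.2.2.1.symm
theorem W'_inf : Wo P' ⊓ O2 P = Zo P B := p.mu.2.2.2.2
theorem W_inf_cent' : Wo P ⊓ 𝐂 (Wo P') = Zo P B := p.l.W_inf_cent p.r.W_le p.nQ
theorem ne : P ≠ P' := fun e => p.nQ (e ▸ W_le_Q P)
theorem W_le_K : Wo P ≤ Ko P P' := (W_le_E P).trans le_sup_left
theorem K_le : Ko P P' ≤ P := sup_le (oU_le P) (p.r.W_le.trans p.l.B_le)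
theorem K_sup : Ko P P' ⊔ O2 P = P := by rw [Ko, sup_assoc, p.W'_sup, p.l.E_sup]

theorem Z_le' : Zo P B ≤ Wo P' := p.W'_inf.ge.trans inf_le_left

theorem B_dec (hb : b ∈ B) : ∃ u ∈ Wo P', u⁻¹ * b ∈ O2 P := by
  obtain ⟨u, hu, q, hq, rfl⟩ := (mem_sup_of_normalizes_right
    (p.r.W_le.trans (p.l.B_le.trans (oP_normal P)))).1 (p.W'_sup.ge hb)
  exact ⟨u, hu, by rwa [inv_mul_cancel_left]⟩

theorem Q_split (hx : x ∈ P) (hn : x ∉ 𝐍 B) (hy : y ∈ O2 P) :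
    ∃ w ∈ Wo P, w⁻¹ * y ∈ 𝐂 (Wo P' ⊔ x •ᶜ Wo P' : Subgroup G) := by
  rw [centralizer_sup_eq]
  exact p.l.split p.r.W_le hx hn (W_le_Q P) (oP_normal P hx) (fun i hi =>
    let ⟨u, h1, h2⟩ := p.symm.B_dec (p.l.Q_le hi); ⟨u, h1, Q_le_cent_W P' h2⟩) hy

/-- `L = ⟨W', x W' x⁻¹⟩`, `L Q = P` (`gen_of_sup`).  `Q = W I` with `I ≤ C(W')`; `split` (for `Q`,
`X = W'`) gives `Q = W C_Q(L)`, so `[Q, L] ≤ W = Z · x Z x⁻¹ ≤ L`.  So `L` is normal in `P` with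
2-power index, `E ≤ L`. -/
theorem K_eq (hx : x ∈ oU[2] P) (hn : x ∉ 𝐍 B) : Wo P' ⊔ x •ᶜ Wo P' = Ko P P' := by
  have hP := oU_le P hx
  refine le_antisymm (sup_le le_sup_right ((cj_mono _ (W'_le_K P P')).trans
    (cj_eq_of_mem (E_le_K P P' hx)).le)) (sup_le (oU_le_of_le_sup (oP_isPGroup P) (fun y hy => ?_)
      (p.l.gen_of_sup p.W'_sup hP hn).ge) le_sup_left)
  obtain ⟨w, h1, h2⟩ := p.Q_split hP hn hy
  obtain ⟨z, hz, z', hz', rfl⟩ := p.l.W_dec hP hn h1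
  rw [← mul_inv_cancel_left (z * z') y]
  exact mul_mem (le_normalizer (mul_mem (mem_sup_left (p.Z_le' hz))
    (mem_sup_right (cj_mono _ p.Z_le' hz')))) (centralizer_le_normalizer _ h2)

theorem Q_dec (hy : y ∈ O2 P) : ∃ w ∈ Wo P, w⁻¹ * y ∈ 𝐂 (Ko P P') :=
  let ⟨_, h1, h2⟩ := p.l.exists_x
  p.K_eq h1 h2 ▸ p.Q_split (oU_le P h1) h2 hy

theorem comm_Q : ⁅O2 P, oU[2] P⁆ ≤ Wo P := commutator_le.2 fun y hy e he => by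
  obtain ⟨w, h1, h2⟩ := p.Q_dec hy
  rw [comm_of_cent (h2 e (E_le_K P P' he))]
  exact commW h1 (oU_le P he)

theorem W_inf_K (hy : y ∈ Wo P) (hc : y ∈ 𝐂 (Ko P P')) : y ∈ 𝐂 P :=
  p.l.mem_cent_of_E (WY P hy) (cK_E P P' hc)

theorem I_dec (h1 : i ∈ O2 P) (h2 : i ∈ O2 P') : ∃ z ∈ Zo P B, z⁻¹ * i ∈ 𝐂 (Ko P P') := by
  obtain ⟨w, k1, k2⟩ := p.Q_dec h1
  refine ⟨w, p.W_inf_cent'.le ⟨k1, ?_⟩, k2⟩
  have := mul_mem (Q_le_cent_W P' h2) (inv_mem (cK_W' P P' k2))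
  rwa [mul_inv_rev, mul_inv_cancel_left, inv_inv] at this

theorem I_comm' : ⁅O2 P ⊓ O2 P', O2 P ⊓ O2 P'⁆ ≤ 𝐂 (Ko P P') := commutator_le.2 fun a ha b hb => by
  obtain ⟨z, h1, h2⟩ := p.I_dec ha.1 ha.2
  obtain ⟨u, k1, k2⟩ := p.I_dec hb.1 hb.2
  rw [comm_strip (p.l.Z_cent h1) (p.l.Z_cent k1) (p.l.W_le (p.l.Z_le k1))
    (p.l.Q_le ha.1) (p.l.Q_le hb.1)]
  exact commutator_le_self _ (commutator_mem_commutator h2 k2)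

theorem I_comm : ⁅O2 P ⊓ O2 P', O2 P ⊓ O2 P'⁆ ≤ 𝐂 (Ko P P') ⊓ 𝐂 (Ko P' P) :=
  le_inf p.I_comm' (inf_comm (O2 P') (O2 P) ▸ p.symm.I_comm')

theorem Q_comm : ⁅O2 P, O2 P⁆ ≤ 𝐂 (Ko P P') ⊓ 𝐂 (Ko P' P) := commutator_le.2 fun a ha b hb => by
  obtain ⟨z, h1, h2⟩ := p.symm.B_dec (p.l.Q_le ha)
  obtain ⟨u, k1, k2⟩ := p.symm.B_dec (p.l.Q_le hb)
  rw [comm_strip (YcQ P (WY P h1)) (YcQ P (WY P k1)) (W_le_Q P k1) ha hb]
  exact p.I_comm (commutator_mem_commutator ⟨(O2 P).mul_mem (inv_mem (W_le_Q P h1)) ha, h2⟩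
    ⟨(O2 P).mul_mem (inv_mem (W_le_Q P k1)) hb, k2⟩)

theorem Z_not_le_Ce : ¬ Zo P B ≤ 𝐂 (oU[2] P) := p.l.Z_not_le

/-- An involution `w' w c` (`c ∈ C(K)`): `1 = [w', w] c²`, so `[w', w] ∈ W ⊓ C(K) ≤ C(P)`, and
`w ∈ Z` or `w' ∈ Q` (`mem_Z_of_comm`). -/
theorem inv_dec (hw : w ∈ Wo P) (hu : u ∈ Wo P') (hy : y ∈ 𝐂 (Ko P P'))
    (h2 : (u * w * y) * (u * w * y) = 1) : w ∈ Zo P B ∨ u ∈ Zo P B := by
  refine or_iff_not_imp_right.2 fun hn => p.l.mem_Z_of_comm hw (p.r.W_le hu)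
    (fun e => hn (p.W'_inf.le ⟨hu, e⟩)) (p.W_inf_K (commW hw (p.l.B_le (p.r.W_le hu))) ?_)
  have e1 := hy _ (mul_mem (W'_le_K P P' hu) (p.W_le_K hw))
  have : ⁅w, u⁆ = y * y := by
    rw [commutatorElement_def, LB.Yinv (WY P hw), LB.Yinv (WY P' hu), ← mul_one (w * u * w * u), ← h2]
    calc w * u * w * u * (u * w * y * (u * w * y))
        = w * u * w * (u * u) * w * (y * (u * w)) * y := by group
      _ = w * u * (w * w) * u * w * (y * y) := by rw [← e1, LB.Ysq (WY P' hu)]; group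
      _ = w * (u * u) * w * (y * y) := by rw [LB.Ysq (WY P hw)]; group
      _ = y * y := by rw [LB.Ysq (WY P' hu), mul_one, LB.Ysq (WY P hw), one_mul]
  exact this ▸ mul_mem hy hy

theorem inv_mem (hb : b ∈ B) (h2 : b * b = 1) : b ∈ O2 P ∨ b ∈ O2 P' := by
  obtain ⟨u, hu, k⟩ := p.B_dec hb
  obtain ⟨w, hw, k'⟩ := p.Q_dec k
  have e : u * w * (w⁻¹ * (u⁻¹ * b)) = b := by group
  rcases p.inv_dec hw hu k' (by rwa [e]) with h | h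
  · refine Or.inr (p.r.B_inf_cent_W.le ⟨hb, e ▸ mul_mem (mul_mem (Q_le_cent_W P' (W_le_Q P' hu))
      (Q_le_cent_W P' (W_le_Q P' (p.Z_le' h)))) (cK_W' P P' k')⟩)
  · exact Or.inl ((mul_mem_cancel_left (Subgroup.inv_mem _ (W_le_Q P (p.l.Z_le h)))).1 k)

/-- The two types of members of `𝒜(B)`. -/
theorem am_type (hA : A ∈ Am B) :
    (A ≤ O2 P ∧ Wo P ≤ A ∧ ¬ A ≤ O2 P') ∨ (A ≤ O2 P' ∧ Wo P' ≤ A ∧ ¬ A ≤ O2 P) :=
  (le_or_le fun a ha => p.inv_mem (hA.1 ha) ((pow_two a).symm.trans (hA.2.1.2 a ha))).imp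
    (fun h => have k := (WY P).trans (p.l.Y_le_of_am hA h); ⟨h, k, fun e => p.symm.nQ (k.trans e)⟩)
    fun h => have k := (WY P').trans (p.r.Y_le_of_am hA h); ⟨h, k, fun e => p.nQ (k.trans e)⟩

/-- `A = W (A ⊓ I)`, so `[A, A₁] ≤ [I, I]`. -/
theorem am_comm (hA : A ∈ Am B) (h1 : A ≤ O2 P) {A₁ : Subgroup G} (hA₁ : A₁ ∈ Am B)
    (h2 : A₁ ≤ O2 P) : ⁅A, A₁⁆ ≤ Ce P P' :=
  (commutator_mono h1 h2).trans (p.Q_comm.trans (inf_le_inf (cK_E P P') (cK_E P' P)))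

end Pr

end CL.B2
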