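import Cfsg.Agent.INV.B2.SmB

/-!
# Small pairs

Notation as in `Pair`; `S = Sy t`, `q = 2`, `Z = ⟨z⟩`, `W = {1, z, w, w z}`, `C₀ = S ⊓ C(K)`,
`t = z r` with `r ∈ C(P) ⊓ C(P')` (`D_dec`, `D_not_cent`).
-/

set_option autoImplicit false
set_option linter.unusedSectionVars false
open Cfsg Subgroup CL.Th CL.MSS CL.Push CL.BHS
open scoped commutatorElement MatrixGroups

namespace CL.B2
variable {G : Type*} [Group G] [Finite G] {D : Set G} {e s t v w y : G}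
  {B B₁ P P' P₁ P₁' W₁ : Subgroup G}

theorem cj_Ko (g : G) (P P' : Subgroup G) : g •ᶜ Ko P P' = Ko (g •ᶜ P) (g •ᶜ P') := by
  rw [Ko, cj_sup, cj_oU, cj_Wo, Ko]

namespace Sm
variable (h : Hy D) (m : Sm D t w P P' B)
include h m

theorem W'_comm (m₁ : Sm D t v P₁ P₁' B₁) (h1 : Wo P₁ ≤ 𝐂 (Ko P P')) (h2 : Wo P ≤ 𝐂 (Ko P₁ P₁')) :
    Wo P₁' ≤ 𝐂 (Ko P P') := by
  obtain ⟨a, n⟩ := m₁.exists_partner h
  exact (m.u2 h n (h2 m.memW a (W'_le_K _ _ n.memW))).resolve_left fun e =>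
    m₁.nc (h1.trans (e ▸ cK_W P P'))

/-- `W₁ ≤ C(K)`, and by symmetry `W ≤ C(K₁)`.  For `a₁ ∈ W₁' \ Z₁`, `u2` gives `W₁' ≤ C(K)`
(`W₁' ≠ W`, since `W` commutes with `W₁`); by symmetry `W' ≤ C(K₁)`.  `cc` for the elements of odd
order of `E₁` (`comm_mem_W`) gives `E₁ ≤ C(E)`; so `K₁ = E₁ W₁'` centralizes `K = E W'`. -/
theorem K_comm (m₁ : Sm D t v P₁ P₁' B₁) (hc : v * w = w * v) (hne : Wo P₁ ≠ Wo P) :
    Ko P₁ P₁' ≤ 𝐂 (Ko P P') := by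
  have a1 := (m.u2 h m₁ hc).resolve_left hne
  have a2 := (m₁.u2 h m hc.symm).resolve_left hne.symm
  have b1 := m.W'_comm h m₁ a1 a2
  have b2 := m₁.W'_comm h m a2 a1
  refine sup_le (le_centralizer_sup (oU_le_iff.2 fun x hx hx' => ?_)
    ((E_le_K P₁ P₁').trans (cent_symm b2))) b1
  have xE := mem_oU hx hx'
  exact m.cc h (Nat.coprime_two_right.1 hx') (cent_symm a2 (E_le_K _ _ xE))
    (cent_symm b2 (E_le_K _ _ xE)) (le_inf m₁.W_le a1) (P_norm_W P₁ hx)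
    (m₁.l.comm_mem_W (m₁.tY h) xE)

/-- Suppose `y W y⁻¹ ≠ W`; by `K_comm`, `K₁ = y K y⁻¹` centralizes `K`.  `u = t y ∈ D`, `t` normalizes
`K`, so `u K u⁻¹ = K₁`.  For `g ∈ K`, `δ(g) = g · u g u⁻¹` commutes with `u`, and `δ` is
multiplicative.  For `a ∈ W' \ Z`, `a' = x a x⁻¹`: `δ(a), δ(a') ∈ Sy u`, so `δ(a a')` is a 2-element;
it acts on `W` like `a a'`, so `(a a') ^ 2 ^ k ∈ Q`.  But `ρ(a a')` has order 3 (or: `⟨a, a'⟩ Q = P`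
would be a 2-group). -/
theorem sw (hy : y ∈ Th D t) (hc : (y * w * y⁻¹) * w = w * (y * w * y⁻¹)) :
    y •ᶜ Wo P = Wo P := by
  obtain ⟨P₂, P₂', B₂, n0, n1, n2, n3⟩ := hy
  have n : Sm D t y P₂ P₂' B₂ := ⟨n0, n1, n2, n3⟩
  have yt := mem_c.1 (Sy_le t (n.W_le n.memW))
  have m₁ := m.cj h y
  rw [yt, mul_inv_cancel_right] at m₁
  by_contra hne
  have k := m.K_comm h m₁ hc (by rwa [← cj_Wo])
  have uD := n.mul_mem h
  have k' : ∀ g ∈ Ko P P', t * y * g * (t * y)⁻¹ ∈ 𝐂 (Ko P P') := fun g hg => k (by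
    rw [← yt, ← cj_Ko, show y * t * g * (y * t)⁻¹ = y * (t * g * t⁻¹) * y⁻¹ by group]
    exact conj_mem_cj ((mem_normalizer_iff.1 (MSS.le_normalizer_sup (m.l.B_le.trans (oU_normal P))
      (m.r.B_le.trans (P_norm_W P')) m.memB) g).1 hg))
  generalize t * y = u at *
  have uu := h.sq uD
  have d : ∀ g ∈ Ko P P', g * g = 1 → g * (u * g * u⁻¹) ∈ Sy u := fun g hg gg => by
    have c := k' g hg g hg
    refine h.mem_Sy_sq uD ?_ ?_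
    · calc _ = g * (u * g * u⁻¹ * g) * (u * g * u⁻¹) := by group
        _ = g * g * (u * (g * g) * u⁻¹) := by rw [← c]; group
        _ = 1 := by rw [gg]; group
    · calc _ = u * (u⁻¹ * g * u * g) := by group
        _ = u * (u * g * u⁻¹ * g) := by rw [h.inv uD]
        _ = _ := by rw [← c]
  obtain ⟨z, a, e, f⟩ := m.frame h
  have aK := W'_le_K P P' f.pa.memW
  have aa := LB.Ysq (WY P' f.pa.memW)
  have eK := E_le_K P P' f.mem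
  have bK := (Ko P P').mul_mem ((Ko P P').mul_mem (inv_mem eK) aK) eK
  have ab : a * (e⁻¹ * a * e) = e ^ 2 := by
    rw [show a * (e⁻¹ * a * e) = (a * e * a⁻¹)⁻¹ * (a * a) * e by group, f.inv, aa, inv_inv, mul_one,
      pow_two]
  obtain ⟨j, hj⟩ := Hy.pow ((Sy u).mul_mem (d a aK aa) (d _ bK (by
    rw [show e⁻¹ * a * e * (e⁻¹ * a * e) = e⁻¹ * (a * a) * e by group, aa]; group)))
  have e2 := (Ko P P').pow_mem eK 2
  rw [show a * (u * a * u⁻¹) * (e⁻¹ * a * e * (u * (e⁻¹ * a * e) * u⁻¹)) =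
    a * (u * a * u⁻¹ * (e⁻¹ * a * e)) * (u * (e⁻¹ * a * e) * u⁻¹) by group, ← k' a aK _ bK,
    show a * (e⁻¹ * a * e * (u * a * u⁻¹)) * (u * (e⁻¹ * a * e) * u⁻¹) =
      a * (e⁻¹ * a * e) * (u * (a * (e⁻¹ * a * e)) * u⁻¹) by group, ab,
    Commute.mul_pow (k' _ e2 _ e2), mul_eq_one_iff_eq_inv, ← pow_mul, ← pow_succ'] at hj
  exact m.not_pow f (hj ▸ cK_W P P' (inv_mem (Subgroup.pow_mem _ (k' _ e2) _)))

end Sm

/-- Choose for `w ∈ Th D t` the pair (unique by `Sm.uniq`), `ζ w` from `two_Z`. -/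
theorem exists_smT (h : Hy D) (ht : t ∈ D) : ∃ ζ C, SmT D t ζ C := by
  have ex : ∀ w, ∃ (z : G) (C : Subgroup G), ∀ P P' B, Sm D t w P P' B →
      Zo P B = zpowers z ∧ C = Sy t ⊓ 𝐂 (Ko P P') := fun w => by
    by_cases hw : ∃ P P' B, Sm D t w P P' B
    · obtain ⟨P, P', B, m⟩ := hw
      obtain ⟨z, -, hz⟩ := m.l.two_Z m.q
      refine ⟨z, Sy t ⊓ 𝐂 (Ko P P'), fun P₁ P₁' B₁ m₁ => ?_⟩
      obtain ⟨rfl, rfl, rfl⟩ := m.uniq h m₁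
      exact ⟨hz, rfl⟩
    · exact ⟨1, ⊥, fun P P' B m => absurd ⟨P, P', B, m⟩ hw⟩
  choose ζ C k using ex
  have sm : ∀ {w}, w ∈ Th D t → ∃ P P' B, Sm D t w P P' B :=
    fun ⟨P, P', B, n0, n1, n2, n3⟩ => ⟨P, P', B, n0, n1, n2, n3⟩
  have zZ : ∀ {w P P' B}, Sm D t w P P' B → ζ w ∈ Zo P B := fun m => (k _ _ _ _ m).1.ge (mem_zpowers _)
  have z2 : ∀ {w P P' B}, Sm D t w P P' B → orderOf (ζ w) = 2 := fun m => by
    obtain ⟨z, z1, hz⟩ := m.l.two_Z m.q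
    rw [← Nat.card_zpowers, ← (k _ _ _ _ m).1, hz, Nat.card_zpowers, z1]
  have ze : ∀ {w P P' B z}, Sm D t w P P' B → z ∈ Zo P B → orderOf z = 2 → ζ w = z :=
    fun {w P P' B z} m hz ho => ((LB.zp (LB.Ysq (WY P (m.l.Z_le (zZ m)))) ((k _ _ _ _ m).1.le hz)).resolve_left
      fun e => by simp [e] at ho).symm
  have eo : ∀ {w v P P' B P₁ P₁' B₁}, Sm D t w P P' B → Sm D t v P₁ P₁' B₁ → Wo P₁ = Wo P →
      v = w ∨ v = w * ζ w := fun {w v P P' B P₁ P₁' B₁} m m₁ e => by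
    have : Zo P₁ B₁ = Zo P B := by rw [m.l.Z_eq, m₁.l.Z_eq, e, m.B_eq h m₁ e]
    rcases m.l.two_W m.q (k _ _ _ _ m).1 m.memW m.nZ (e ▸ m₁.memW) with c | c | c
    exacts [absurd (c ▸ one_mem _) m₁.nZ, absurd (c ▸ this ▸ zZ m) m₁.nZ, c]
  have cj : ∀ {w P P' B s}, Sm D t w P P' B → s ∈ Sy t →
      Sm D t (s * w * s⁻¹) (s •ᶜ P) (s •ᶜ P') (s •ᶜ B) := fun {w P P' B s} m hs => by
    have := m.cj h s
    rwa [mem_c.1 (Sy_le t hs), mul_inv_cancel_right] at this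
  refine ⟨ζ, C, ⟨Sy_pg t, fun w hw => ?_, fun w hw => ?_, fun w hw => ?_, fun w hw => ?_,
    fun w hw => ?_, fun w hw s hs => ?_, fun w hw => ?_, fun w hw => ?_, fun w hw s hs hc => ?_,
    fun w hw => ?_, fun w hw v hv hc => ?_, fun w hw y hy hc => ?_⟩, k⟩
  all_goals obtain ⟨P, P', B, m⟩ := sm hw
  all_goals have zW := m.l.Z_le (zZ m)
  · exact m.W_le m.memW
  · exact m.two h
  · exact z2 m
  · exact LB.Ycomm (WY P m.memW) (WY P zW)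
  · have n : Sm D t (w * ζ w) P P' B := ⟨m.toAt, m.q, mul_mem m.memW zW,
      fun e => m.nZ ((mul_mem_cancel_right (zZ m)).1 e)⟩
    exact ⟨n.mem_Th h, ze n (zZ m) (z2 m), (k _ _ _ _ n).2.trans (k _ _ _ _ m).2.symm⟩
  · have n := cj m hs
    refine ⟨n.mem_Th h, ze n (cj_Zo s P B ▸ conj_mem_cj (zZ m))
      ((SemiconjBy.orderOf_eq s (inv_mul_cancel_right ..).symm).symm.trans (z2 m)), ?_⟩
    rw [(k _ _ _ _ n).2, (k _ _ _ _ m).2, cj_inf, cj_centralizer, cj_Ko, cj_eq_of_mem hs]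
  · rw [(k _ _ _ _ m).2]
    exact fun x hx => ⟨⟨hx.1, mem_c.2 (hx.2 _ (m.toPr.W_le_K m.memW)).symm⟩,
      mem_c.2 (hx.2 _ (m.toPr.W_le_K zW)).symm⟩
  · rw [(k _ _ _ _ m).2]
    refine ⟨fun e => m.nZ (m.eq_one m.memW (cK_E _ _ e.2) ▸ one_mem _), fun e => ?_⟩
    simpa [m.eq_one zW (cK_E _ _ e.2)] using z2 m
  · obtain ⟨u, u1, u2⟩ := m.toPr.cent_dec h m.mem m.memB m.tc hs (m.cent h hs hc)
    refine ⟨u⁻¹ * s, (k _ _ _ _ m).2.ge ⟨(Sy t).mul_mem (inv_mem (m.W_le u1)) hs, u2⟩, ?_⟩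
    rcases m.l.two_W m.q (k _ _ _ _ m).1 m.memW m.nZ u1 with c | c | c | c
    · simp [c]
    all_goals simp [← c, mul_assoc]
  · obtain ⟨a, n⟩ := m.exists_partner h
    refine ⟨a, n.mem_Th h, ze n (m.toPr.Z_eq'.ge (zZ m)) (z2 m), m.l.two_cj m.q (k _ _ _ _ m).1
      m.memW m.nZ (m.r.W_le n.memW) (m.nQ n), ?_⟩
    rw [(k _ _ _ _ m).2]
    exact fun x hx => mem_c.2 (hx.2 _ (W'_le_K P P' n.memW)).symm
  · obtain ⟨P₁, P₁', B₁, n⟩ := sm hv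
    rcases m.u2 h n hc with c | c
    · exact (eo m n c).imp_right Or.inl
    · have := (le_inf n.W_le c).trans (k _ _ _ _ m).2.ge
      exact Or.inr (Or.inr ⟨this n.memW, this (n.l.Z_le (zZ n))⟩)
  · obtain ⟨P₁, P₁', B₁, n⟩ := sm hy
    exact eo m (cj m (n.W_le n.memW)) ((cj_Wo y P).symm.trans (m.sw h hy hc))

end CL.B2
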