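import Cfsg.Agent.INV.B2.Big

/-!
# The 2-group structure `TH`

`z = ζ w`, `Θ_z = {y ∈ Θ | ζ y = z}`, `Y = Yz Θ ζ z`.
-/

set_option autoImplicit false
set_option maxHeartbeats 400000
set_option linter.unusedSectionVars false
open Cfsg Subgroup CL.Th CL.MSS CL.Push CL.BHS
open scoped commutatorElement MatrixGroups

namespace CL.B2
variable {G : Type*} [Group G] [Finite G] {S A P Q : Subgroup G} {Θ : Set G} {ζ : G → G}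
  {C : G → Subgroup G} {a a' g s v w y α ρ : G} {m : ℕ}

/-- `Y = ⟨w, ρ⟩` is dihedral and `Θ_z` is the set of its reflections. -/
structure Dih (Θ : Set G) (ζ : G → G) (w ρ : G) (m : ℕ) : Prop where
  ord : orderOf ρ = 2 ^ (m + 2)
  inv : w * ρ * w⁻¹ = ρ⁻¹
  pow : ρ ^ 2 ^ (m + 1) = ζ w
  mem : ∀ y, (y ∈ Θ ∧ ζ y = ζ w) ↔ ∃ k : ℤ, y = w * ρ ^ k

namespace T2

variable {x z σ : G} {H K : Subgroup G} {k : ℤ}

theorem sq (h : orderOf x = 2) : x * x = 1 := by rw [← pow_two, ← h, pow_orderOf_eq_one]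

theorem inv (h : orderOf x = 2) : x⁻¹ = x := inv_eq_of_mul_eq_one_right (sq h)

theorem ne (h : orderOf x = 2) : x ≠ 1 := by rintro rfl; simp at h

theorem gen (hy : y ∈ Θ) (e : ζ y = z) : y ∈ Yz Θ ζ z := subset_closure ⟨hy, e⟩

theorem pw_mem {n j : ℕ} (h : orderOf ρ = 2 ^ n) (hk : ¬ (2 : ℤ) ^ (j + 1) ∣ k) :
    ρ ^ 2 ^ j ∈ zpowers (ρ ^ k) := by
  have o : ρ ^ ((2 : ℤ) ^ n) = 1 := by
    rw [← Nat.cast_ofNat, ← Nat.cast_pow, ← h, zpow_natCast, pow_orderOf_eq_one]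
  obtain ⟨i, -, e⟩ := (Nat.dvd_prime_pow Nat.prime_two).1
    (show Int.gcd k (2 ^ n) ∣ 2 ^ n by exact_mod_cast Int.gcd_dvd_right k (2 ^ n))
  have b : ρ ^ 2 ^ i ∈ zpowers (ρ ^ k) := by
    rw [← e, ← zpow_natCast, Int.gcd_eq_gcd_ab, zpow_add, zpow_mul, zpow_mul, o, one_zpow, mul_one]
    exact zpow_mem_zpowers _ _
  have c : i ≤ j := by_contra fun c => hk ((pow_dvd_pow 2 (by omega : j + 1 ≤ i)).trans (by
    have := Int.gcd_dvd_left k (2 ^ n)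
    rwa [e, Nat.cast_pow] at this))
  rw [← Nat.add_sub_cancel' c, pow_add, pow_mul]
  exact pow_mem b _

theorem dvd_iff {n : ℕ} (h : orderOf ρ = 2 ^ n) : (2 : ℤ) ^ n ∣ k ↔ ρ ^ k = 1 := by
  rw [← orderOf_dvd_iff_zpow_eq_one, h]; norm_cast

theorem four (h : orderOf ρ = 2 ^ (m + 2)) (hk : (ρ ^ k) ^ (4 : ℤ) = 1) :
    ∃ j : ℤ, ρ ^ k = (ρ ^ 2 ^ m) ^ j := by
  rw [← zpow_mul, ← dvd_iff h, pow_add, show (2 : ℤ) ^ 2 = 4 by norm_num,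
    mul_dvd_mul_iff_right (by norm_num)] at hk
  obtain ⟨j, rfl⟩ := hk
  exact ⟨j, by rw [zpow_mul]; norm_cast⟩

theorem refl (h : w * σ * w⁻¹ = σ⁻¹) (k : ℤ) : σ ^ k * w = w * σ ^ (-k) := by
  rw [eq_comm, ← mul_inv_eq_iff_eq_mul, ← conj_zpow, h, inv_zpow', neg_neg]

theorem cjr (h : w * σ * w⁻¹ = σ⁻¹) (i k : ℤ) :
    σ ^ (-i) * (w * σ ^ k) * (σ ^ (-i))⁻¹ = w * σ ^ (2 * i + k) := by
  rw [← mul_assoc, refl h]; group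

theorem cjw (h : w * σ * w⁻¹ = σ⁻¹) (h2 : w⁻¹ = w) (i : ℤ) :
    w * σ ^ i * w * (w * σ ^ i)⁻¹ = w * σ ^ (2 * i) := by
  have _ := h2
  calc _ = w * σ ^ i * (w * σ ^ (-i) * w⁻¹) := by group
    _ = _ := by rw [← conj_zpow, h, inv_zpow', neg_neg]; group

theorem cj_cl {t : Set G} (h : ∀ y ∈ t, g * y * g⁻¹ ∈ K) : g •ᶜ closure t ≤ K :=
  cj_le_iff.2 ((closure_le _).2 fun y hy => mem_cj.2 ((inv_inv g).symm ▸ h y hy))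

theorem dbl (h : H ≤ K) (hx : x ∈ K) (hn : x ∉ H) : 2 * Nat.card H ≤ Nat.card K := by
  obtain ⟨c, hc⟩ := card_dvd_of_le h
  have h1 : c ≠ 1 := fun e => hn ((eq_of_le_of_card_ge h (by simp [hc, e])).ge hx)
  have h0 : c ≠ 0 := fun e => (Nat.card_pos (α := K)).ne' (by simp [hc, e])
  rw [hc, mul_comm]
  exact Nat.mul_le_mul_left _ (by omega)

theorem adj (hA : IsElementaryAbelian 2 H) (h2 : orderOf x = 2) (hc : H ≤ 𝐜 x) (hn : x ∉ H) :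
    IsElementaryAbelian 2 (H ⊔ zpowers x : Subgroup G) ∧
      2 * Nat.card H ≤ Nat.card (H ⊔ zpowers x : Subgroup G) :=
  ⟨Th.elemAb_sup hA (elemAb_zpowers ((pow_two x).trans (sq h2)))
    (cent_symm (zpowers_le.2 (le_c_iff.1 hc))), dbl le_sup_left (mem_sup_right (mem_zpowers x)) hn⟩

end T2

open T2

namespace TH
variable (T : TH S Θ ζ C)
include T

theorem z_mem (hw : w ∈ Θ) : ζ w ∈ S :=
  (mul_mem_cancel_left (T.mem w hw)).1 (T.mem _ (T.mul w hw).1)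

theorem inv_mul (hw : w ∈ Θ) (hv : v ∈ Θ) : w * (w * v) * w⁻¹ = (w * v)⁻¹ := by
  rw [← mul_assoc, sq (T.two w hw), one_mul, mul_inv_rev, inv (T.two v hv)]

theorem refl_mem (hw : w ∈ Θ) (hv : v ∈ Θ) (k : ℤ) :
    w * (w * v) ^ k ∈ Θ ∧ (ζ v = ζ w → ζ (w * (w * v) ^ k) = ζ w) := by
  have i := T.inv_mul hw hv
  have c : ζ v = ζ w → ∀ j : ℤ, (w * v) ^ j * ζ w * ((w * v) ^ j)⁻¹ = ζ w := fun e j => by
    rw [mul_inv_eq_iff_eq_mul]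
    exact (((show Commute w (ζ w) from T.comm w hw).mul_left (e ▸ T.comm v hv)).zpow_left j).eq
  have hs := fun j : ℤ => zpow_mem (mul_mem (T.mem w hw) (T.mem v hv)) j
  obtain ⟨j, rfl | rfl⟩ := Int.even_or_odd' k
  · obtain ⟨a, b, -⟩ := T.cj w hw _ (hs (-j))
    have := cjr i j 0
    rw [zpow_zero, mul_one, add_zero] at this
    rw [this] at a b
    exact ⟨a, fun e => b.trans (c e _)⟩
  · obtain ⟨a, b, -⟩ := T.cj v hv _ (hs (-j))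
    have := cjr i j 1
    rw [zpow_one, ← mul_assoc w w, sq (T.two w hw), one_mul] at this
    rw [this] at a b
    exact ⟨a, fun e => b.trans (e ▸ e ▸ c e _)⟩

theorem zeta_pow (hw : w ∈ Θ) (hv : v ∈ Θ) {k : ℕ} (h1 : (w * v) ^ 2 ^ (k + 1) ≠ 1)
    (h2 : (w * v) ^ 2 ^ (k + 2) = 1) : (w * v) ^ 2 ^ (k + 1) = ζ w := by
  have i := T.inv_mul hw hv
  have e := cjw i (inv (T.two w hw)) (2 ^ k)
  have e1 : (w * v) ^ (2 * 2 ^ k : ℤ) = (w * v) ^ 2 ^ (k + 1) := by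
    rw [← pow_succ', ← zpow_natCast]; norm_cast
  have e2 := refl i (2 * 2 ^ k)
  rw [zpow_neg, e1, inv_eq_of_mul_eq_one_right (by rw [← pow_add, ← two_mul, ← pow_succ', h2])] at e2
  have := T.sw w hw _ (T.refl_mem hw hv (2 ^ k)).1 (by rw [e, e1, mul_assoc, e2])
  rw [e, e1, mul_eq_left, mul_right_inj] at this
  exact this.resolve_left h1

theorem cz (hw : w ∈ Θ) (hs : s ∈ S) (hc : s * w = w * s) : s * ζ w = ζ w * s := by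
  have := (T.cj w hw s hs).2.1
  rw [hc, mul_inv_cancel_right] at this
  exact mul_inv_eq_iff_eq_mul.1 this.symm

theorem dec (hw : w ∈ Θ) (hs : s ∈ S ⊓ 𝐜 w) :
    ∃ u ∈ S ⊓ 𝐜 w, u ∈ 𝐂 (S ⊓ 𝐜 w : Subgroup G) ∧ u * u = 1 ∧ u⁻¹ * s ∈ C w := by
  have a1 : w ∈ S ⊓ 𝐜 w := mem_inf.2 ⟨T.mem w hw, mem_c.2 rfl⟩
  have a2 : ζ w ∈ S ⊓ 𝐜 w := mem_inf.2 ⟨T.z_mem hw, mem_c.2 (T.comm w hw).symm⟩
  have b1 : w ∈ 𝐂 (S ⊓ 𝐜 w : Subgroup G) := le_c_iff.1 inf_le_right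
  have b2 : ζ w ∈ 𝐂 (S ⊓ 𝐜 w : Subgroup G) := le_c_iff.1 fun x hx =>
    mem_c.2 (T.cz hw (mem_inf.1 hx).1 (mem_c.1 (mem_inf.1 hx).2))
  obtain ⟨c, hc, e | e | e | e⟩ := T.cent w hw s (mem_inf.1 hs).1 (mem_c.1 (mem_inf.1 hs).2)
  · exact ⟨1, one_mem _, one_mem _, one_mul _, by simpa [e] using hc⟩
  · exact ⟨w, a1, b1, sq (T.two w hw), by simpa [e] using hc⟩
  · exact ⟨_, a2, b2, sq (T.ztwo w hw), by simpa [e] using hc⟩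
  · exact ⟨_, mul_mem a1 a2, mul_mem b1 b2, sq (T.two _ (T.mul w hw).1), by rwa [e, inv_mul_cancel_left]⟩

theorem comm_C (hw : w ∈ Θ) (ha : a ∈ S ⊓ 𝐜 w) (hs : s ∈ S ⊓ 𝐜 w) : ⁅a, s⁆ ∈ C w := by
  obtain ⟨u, -, u2, -, u4⟩ := T.dec hw ha
  obtain ⟨v, v1, v2, -, v4⟩ := T.dec hw hs
  rw [comm_strip u2 v2 v1 ha hs]
  exact mul_mem (mul_mem (mul_mem u4 v4) (inv_mem u4)) (inv_mem v4)

theorem w_not (hw : w ∈ Θ) : w ∉ 𝐂 (Yz Θ ζ (ζ w)) := fun e => by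
  obtain ⟨a, ha, e1, e2, -⟩ := T.part w hw
  rw [mem_centralizer_iff.1 e a (gen ha e1), mul_inv_cancel_right, left_eq_mul] at e2
  exact ne (T.ztwo w hw) e2

theorem cj_z (hy : y ∈ Θ) (e : ζ y = ζ w) (hs : s ∈ S) (hc : s * ζ w = ζ w * s) :
    s * y * s⁻¹ ∈ Θ ∧ ζ (s * y * s⁻¹) = ζ w :=
  ⟨(T.cj y hy s hs).1, by rw [(T.cj y hy s hs).2.1, e, hc, mul_inv_cancel_right]⟩

theorem r4_sq (d : Dih Θ ζ w ρ m) : ρ ^ 2 ^ m * ρ ^ 2 ^ m = ζ w := by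
  have _ := T
  rw [← pow_add, ← two_mul, ← pow_succ', d.pow]

theorem r4_ne (d : Dih Θ ζ w ρ m) (hw : w ∈ Θ) : ρ ^ 2 ^ m ≠ (ρ ^ 2 ^ m)⁻¹ := fun e =>
  ne (T.ztwo w hw) (by rw [← T.r4_sq d, ← eq_inv_iff_mul_eq_one, ← e])

theorem mul_eq (d : Dih Θ ζ w ρ m) (hw : w ∈ Θ) (hy : y ∈ Θ) (e : ζ y = ζ w) (hv : v ∈ Θ)
    (e' : ζ v = ζ w) : ∃ k : ℤ, y * v = ρ ^ k := by
  obtain ⟨i, rfl⟩ := (d.mem y).1 ⟨hy, e⟩
  obtain ⟨j, rfl⟩ := (d.mem v).1 ⟨hv, e'⟩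
  exact ⟨-i + j, by
    rw [← mul_assoc, mul_assoc w, refl d.inv, ← mul_assoc, sq (T.two w hw), one_mul, zpow_add]⟩

/-- `ρ = w v` has order `2 ^ n ≥ 4`, all `w ρ ^ j` lie in `Θ` (`cj`).  For `y = w ρ ^ 2 ^ (n - 2)`,
`y w y⁻¹ = w ρ ^ 2 ^ (n - 1)`; `sw` gives `ζ w = ρ ^ 2 ^ (n - 1)`.  The same for `v`.  In particular
`ζ w` is a power of `(w v)²`. -/
theorem zeta_eq (hw : w ∈ Θ) (hv : v ∈ Θ) (hn : v * w ≠ w * v) :
    ζ v = ζ w ∧ ζ w ∈ zpowers ((w * v) ^ 2) := by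
  have ex := isPGroup_iff_forall_mem.1 T.pg _ (mul_mem (T.mem w hw) (T.mem v hv))
  have i : v * w = (w * v)⁻¹ := by rw [mul_inv_rev, inv (T.two w hw), inv (T.two v hv)]
  have n1 : (w * v) ^ 2 ^ 1 ≠ 1 := fun e => hn (by
    rw [i, inv_eq_iff_mul_eq_one, ← pow_two, ← e, pow_one])
  have n0 : (w * v) ^ 2 ^ 0 ≠ 1 := fun e => n1 (by rw [pow_succ, pow_mul, e, one_pow])
  classical
  have h2 := Nat.find_spec ex
  obtain ⟨k, hk⟩ : ∃ k, Nat.find ex = k + 2 := by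
    rcases e : Nat.find ex with _ | _ | k <;> rw [e] at h2
    exacts [absurd h2 n0, absurd h2 n1, ⟨k, rfl⟩]
  have h1 := Nat.find_min ex (show k + 1 < _ by omega)
  rw [hk] at h2
  have e1 := T.zeta_pow hw hv h1 h2
  have e2 := T.zeta_pow hv hw (k := k) (by rwa [i, inv_pow, Ne, inv_eq_one]) (by rw [i, inv_pow, h2, inv_one])
  rw [i, inv_pow, e1, inv (T.ztwo w hw)] at e2
  exact ⟨e2.symm, by rw [← e1, pow_succ' 2 k, pow_mul]; exact pow_mem (mem_zpowers _) _⟩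

theorem eq_of_comm (hw : w ∈ Θ) (hv : v ∈ Θ) (e : ζ v = ζ w) (hc : v * w = w * v) :
    v = w ∨ v = w * ζ w :=
  (or_assoc.2 (T.u2 w hw v hv hc)).resolve_right fun k => (T.disj w hw).2 (e ▸ k.2)

theorem mem_C (hw : w ∈ Θ) (hv : v ∈ Θ) (e : ζ v ≠ ζ w) : v ∈ C w ∧ ζ v ∈ C w := by
  rcases T.u2 w hw v hv (by_contra fun n => e (T.zeta_eq hw hv n).1) with rfl | rfl | k
  exacts [absurd rfl e, absurd (T.mul w hw).2.1 e, k]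

theorem sq_mem (hw : w ∈ Θ) (hs : s ∈ S) (hc : s * w = w * s) : s * s ∈ C w := by
  have m := mem_inf.2 ⟨hs, mem_c.2 hc⟩
  obtain ⟨u, -, u2, u3, u4⟩ := T.dec hw m
  have := mul_mem u4 u4
  rwa [inv_eq_of_mul_eq_one_right u3, mul_assoc, ← mul_assoc s, mem_centralizer_iff.1 u2 s m,
    ← mul_assoc, ← mul_assoc, u3, one_mul] at this

/-- `δ = y y'` centralizes `w`, so `δ² ∈ C w`; if `y`, `y'` do not commute then `z ∈ ⟨δ²⟩`. -/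
theorem eq_of_conj (hw : w ∈ Θ) (hy : y ∈ Θ) {y' : G} (hy' : y' ∈ Θ) (e : ζ y = ζ w)
    (e' : ζ y' = ζ w) (hc : y * w * y⁻¹ = y' * w * y'⁻¹) : y' = y ∨ y' = y * ζ w := by
  refine e ▸ T.eq_of_comm hy hy' (e'.trans e.symm) (by_contra fun n => (T.disj w hw).2 ?_)
  have := T.sq_mem hw (mul_mem (inv_mem (T.mem _ hy')) (T.mem _ hy)) (by
    calc _ = y'⁻¹ * (y * w * y⁻¹) * y := by group
      _ = _ := by rw [hc]; group)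
  rw [inv (T.two _ hy'), ← pow_two] at this
  exact zpowers_le.2 this (e' ▸ (T.zeta_eq hy' hy (Ne.symm n)).2)

/-- Take `y ∈ Θ_z` with `ρ = w y` of maximal order (`≥ 4` by `part`).  By induction on the order of
`w y'` every `y' ∈ Θ_z` is `w ρ ^ k`: if `y'` commutes with `w` use `eq_of_comm`; otherwise
`y' w y'⁻¹ = w ρ ^ k` by induction, `(w y')² = ρ ^ k` up to sign, `k = 2 i` is even by maximality,
and `eq_of_conj` applies to `w ρ ^ i` and `y'`. -/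
theorem dih (hw : w ∈ Θ) : ∃ ρ m, Dih Θ ζ w ρ m := by
  obtain ⟨v, ⟨hv, ev⟩, hmax⟩ := Set.exists_max_image {y | y ∈ Θ ∧ ζ y = ζ w} (fun y => orderOf (w * y))
    (Set.toFinite _) ⟨w, hw, rfl⟩
  have od : ∀ y ∈ Θ, ∃ n, orderOf (w * y) = 2 ^ n := fun y hy =>
    let ⟨_, e⟩ := isPGroup_iff_forall_mem.1 T.pg _ (mul_mem (T.mem w hw) (T.mem y hy))
    let ⟨n, _, e⟩ := (Nat.dvd_prime_pow Nat.prime_two).1 (orderOf_dvd_of_pow_eq_one e); ⟨n, e⟩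
  obtain ⟨n, hn⟩ := od v hv
  have le : ∀ y ∈ Θ, ζ y = ζ w → (w * y) ^ 2 ^ n = 1 := fun y hy e => by
    obtain ⟨i, hi⟩ := od y hy
    have := hmax y ⟨hy, e⟩
    rw [hi, hn, Nat.pow_le_pow_iff_right one_lt_two] at this
    exact orderOf_dvd_iff_pow_eq_one.1 (hi ▸ pow_dvd_pow 2 this)
  have z2 := T.ztwo w hw
  have sqr : ∀ y ∈ Θ, (w * y) ^ 2 = w * (y * w * y⁻¹) := fun y hy => by
    rw [inv (T.two y hy), pow_two]; group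
  obtain ⟨m, rfl⟩ : ∃ m, n = m + 2 := by
    obtain ⟨a, ha, e1, e2, -⟩ := T.part w hw
    refine ⟨n - 2, (Nat.sub_add_cancel (by_contra fun c => ne z2 ?_)).symm⟩
    have := orderOf_dvd_iff_pow_eq_one.1 ((orderOf_dvd_of_pow_eq_one (le a ha e1)).trans
      (pow_dvd_pow 2 (by omega : n ≤ 1)))
    rwa [pow_one, sqr a ha, e2, ← mul_assoc, sq (T.two w hw), one_mul] at this
  have i := T.inv_mul hw hv
  have pw := T.zeta_pow hw hv (k := m) (pow_ne_one_of_lt_orderOf (by positivity)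
    (hn ▸ Nat.pow_lt_pow_right one_lt_two (by omega))) (le v hv ev)
  refine ⟨w * v, m, hn, i, pw, fun y => ⟨fun h => ?_, ?_⟩⟩
  swap
  · rintro ⟨k, rfl⟩
    exact ⟨(T.refl_mem hw hv k).1, (T.refl_mem hw hv k).2 ev⟩
  obtain ⟨hy, e⟩ := h
  obtain ⟨j, hj⟩ := isPGroup_iff_forall_mem.1 T.pg _ (mul_mem (T.mem w hw) (T.mem y hy))
  induction j generalizing y with
  | zero => exact ⟨0, by
      rw [pow_zero, pow_one, mul_eq_one_iff_inv_eq, inv (T.two w hw)] at hj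
      rw [zpow_zero, mul_one, hj]⟩
  | succ j ih =>
    obtain ⟨c1, c2⟩ := T.cj_z hw rfl (T.mem y hy) (e ▸ T.comm y hy)
    obtain ⟨k, hk⟩ := ih _ c1 c2 (by rw [← sqr y hy, ← pow_mul, ← pow_succ', hj])
    obtain ⟨k, rfl | rfl⟩ := Int.even_or_odd' k
    · obtain ⟨b1, b2⟩ := T.refl_mem hw hv k
      rcases T.eq_of_conj hw b1 hy (b2 ev) e ((cjw i (inv (T.two w hw)) k).trans hk.symm) with e | e
      · exact ⟨k, e⟩
      · exact ⟨k + (2 ^ (m + 1) : ℕ), by rw [e, zpow_add, zpow_natCast, pw, mul_assoc]⟩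
    · refine absurd ?_ (ne z2)
      have := le y hy e
      rwa [pow_succ' 2 (m + 1), pow_mul, sqr y hy, hk, ← mul_assoc, sq (T.two w hw), one_mul,
        ← zpow_natCast, ← zpow_mul, mul_comm, zpow_mul, zpow_natCast, pw, zpow_add, zpow_mul, zpow_two,
        sq z2, one_zpow, one_mul, zpow_one] at this

theorem norm_Y (hw : w ∈ Θ) (hs : s ∈ S) (hc : s * ζ w = ζ w * s) : s ∈ 𝐍 (Yz Θ ζ (ζ w)) :=
  have _ := hw
  mem_normalizer_of_cj_le (cj_cl fun _ hy => let ⟨a, b⟩ := T.cj_z hy.1 hy.2 hs hc; gen a b)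

theorem mem_Y (d : Dih Θ ζ w ρ m) (hw : w ∈ Θ) :
    y ∈ Yz Θ ζ (ζ w) ↔ ∃ k : ℤ, y = ρ ^ k ∨ y = w * ρ ^ k := by
  have w2 := sq (T.two w hw)
  have g := fun k : ℤ => let ⟨a, b⟩ := (d.mem _).2 ⟨k, rfl⟩; gen a b
  refine ⟨fun h => closure_induction (p := fun y _ => ∃ k : ℤ, y = ρ ^ k ∨ y = w * ρ ^ k)
    (fun y hy => ((d.mem y).1 hy).imp fun _ => .inr) ⟨0, .inl (zpow_zero ρ).symm⟩ ?_ ?_ h, ?_⟩
  · rintro _ _ - - ⟨i, rfl | rfl⟩ ⟨j, rfl | rfl⟩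
    · exact ⟨i + j, .inl (zpow_add ρ i j).symm⟩
    · exact ⟨-i + j, .inr (by rw [← mul_assoc, refl d.inv, zpow_add, mul_assoc])⟩
    · exact ⟨i + j, .inr (by rw [zpow_add, mul_assoc])⟩
    · exact ⟨-i + j, .inl (by
        rw [← mul_assoc, mul_assoc w, refl d.inv, ← mul_assoc, w2, one_mul, zpow_add])⟩
  · rintro _ - ⟨i, rfl | rfl⟩
    · exact ⟨-i, .inl (zpow_neg ρ i).symm⟩
    · exact ⟨i, .inr (inv (T.two _ ((d.mem _).2 ⟨i, rfl⟩).1))⟩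
  · rintro ⟨k, rfl | rfl⟩
    exacts [(mul_mem_cancel_left (gen hw rfl)).1 (g k), g k]

/-- By `cent`; `s` commutes with the partner of `w`. -/
theorem cent_X (hw : w ∈ Θ) (hs : s ∈ S) (hc : s ∈ 𝐂 (Yz Θ ζ (ζ w))) :
    s ∈ C w ∨ ζ w * s ∈ C w := by
  obtain ⟨a, ha, e1, e2, e3⟩ := T.part w hw
  have c1 : s ∈ 𝐜 a := mem_c.2 (mem_centralizer_iff.1 hc a (gen ha e1)).symm
  have c2 : ζ w ∈ 𝐜 a := mem_c.2 (e1 ▸ (T.comm a ha).symm)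
  have n : w ∉ 𝐜 a := fun e => ne (T.ztwo w hw) (by
    rwa [← mem_c.1 e, mul_inv_cancel_right, left_eq_mul] at e2)
  have c3 := (mem_centralizer_iff.1 hc w (gen hw rfl)).symm
  clear hc
  obtain ⟨c, hc, rfl | rfl | rfl | rfl⟩ := T.cent w hw s hs c3
  · exact .inl hc
  · exact absurd ((mul_mem_cancel_right (e3 hc)).1 c1) n
  · exact .inr (by rwa [← mul_assoc, sq (T.ztwo w hw), one_mul])
  · exact absurd ((mul_mem_cancel_right c2).1 ((mul_mem_cancel_right (e3 hc)).1 c1)) n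

/-- An element normalizing `Y` fixes or inverts `ρ₄ = ρ ^ 2 ^ m`. -/
theorem rho4 (d : Dih Θ ζ w ρ m) (hw : w ∈ Θ) (hg : g ∈ 𝐍 (Yz Θ ζ (ζ w))) :
    g * ρ ^ 2 ^ m * g⁻¹ = ρ ^ 2 ^ m ∨ g * ρ ^ 2 ^ m * g⁻¹ = (ρ ^ 2 ^ m)⁻¹ := by
  have r2 := T.r4_sq d
  have z2 := T.ztwo w hw
  have n : g * ρ ^ 2 ^ m * g⁻¹ * (g * ρ ^ 2 ^ m * g⁻¹) ≠ 1 := fun e => ne z2 (by
    simpa [conj_mul, r2] using e)
  have r4 : (ρ ^ 2 ^ m) ^ (4 : ℤ) = 1 := by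
    rw [show (4 : ℤ) = 2 * 2 by rfl, zpow_mul, zpow_two, zpow_two, r2, sq z2]
  obtain ⟨k, e | e⟩ := (T.mem_Y d hw).1 (conj_mem_of_normalizes le_rfl hg
    (pow_mem ((T.mem_Y d hw).2 ⟨1, .inl (zpow_one ρ).symm⟩) (2 ^ m)))
  swap
  · exact absurd (sq (T.two _ ((d.mem _).2 ⟨k, e⟩).1)) n
  obtain ⟨j, hj⟩ := four d.ord (k := k) (by rw [← e, conj_zpow, r4]; simp)
  rw [e, hj] at n ⊢
  rw [← Int.mul_ediv_add_emod j 4, zpow_add, zpow_mul, r4, one_zpow, one_mul] at n ⊢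
  have : j % 4 = 0 ∨ j % 4 = 1 ∨ j % 4 = 2 ∨ j % 4 = 3 := by omega
  rcases this with e | e | e | e <;> rw [e] at n ⊢
  · simp at n
  · exact .inl (zpow_one _)
  · exact absurd (by rw [← zpow_add]; exact r4) n
  · exact .inr (eq_inv_of_mul_eq_one_left (by rw [← zpow_add_one]; exact r4))

/-- `C y` centralizes `ρ₄` for `y ∈ Θ_z` (`part`: the partner of `y` is `y ρ₄^{±1}`).  Let
`s w s⁻¹ = w ρ ^ k`.  If `k` is odd, `s` inverts `s w`, `(s w)² = ρ ^ (± k)` and `ρ₄`.  So `k` is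
even, `s ρ ^ i` centralizes `w`, `s = c ρ ^ j` with `c ∈ C w` (`cent`; `w` inverts `ρ₄`).
`c⁻¹ ρ c = ρ ^ ε`, `ε ≡ 1 mod 4`; `1 = s² = c² ρ ^ (j (1 + ε))` and `C w ⊓ ⟨ρ⟩ = 1` give `ρ ^ j ∈ ⟨z⟩`,
`c² = 1`.  So `ε² ≡ 1`, `c ρ c⁻¹ ∈ {ρ, ρ z}`.  In the second case `c y c⁻¹ = y z` for `y = w ρ`, so
`c = a u c'` with `a` the partner of `y`, `u ∈ ⟨y, z⟩`, `c' ∈ C y`; `c² = 1` gives `u ∈ ⟨z⟩`, and `c`
inverts `ρ₄`.  (Shorter: `s` and `y ∈ Θ_z` generate a dihedral group; argue with `(s y)²`.) -/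
theorem cent_Y (d : Dih Θ ζ w ρ m) (hw : w ∈ Θ) (hs : s ∈ S) (h2 : s * s = 1)
    (hc : s * ρ ^ 2 ^ m = ρ ^ 2 ^ m * s) : s ∈ 𝐂 (Yz Θ ζ (ζ w)) := by
  have si := inv_eq_of_mul_eq_one_right h2
  have z2 := T.ztwo w hw
  have sz : s * ζ w = ζ w * s := by rw [← T.r4_sq d, ← mul_assoc, hc, mul_assoc, hc, mul_assoc]
  have k : ∀ y ∈ Θ, ζ y = ζ w → s * y * s⁻¹ = y ∨ s * y * s⁻¹ = y * ζ w := fun y hy e => by
    obtain ⟨c1, c2⟩ := T.cj_z hy e hs sz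
    obtain ⟨k, hk⟩ := T.mul_eq d hw hy e c1 c2
    have i : s * y * s⁻¹ * y = (ρ ^ k)⁻¹ := by
      rw [← hk, mul_inv_rev, inv (T.two _ c1), inv (T.two _ hy)]
    refine e ▸ T.eq_of_comm hy c1 (c2.trans e.symm) ?_
    rw [i, hk, inv_eq_iff_mul_eq_one]
    by_contra n
    obtain ⟨j, hj⟩ := pw_mem d.ord (j := m) (k := k) fun ⟨c, e⟩ => n (by
      rw [← zpow_add, ← dvd_iff d.ord, e]; exact ⟨c, by ring⟩)
    have i2 : s * ρ ^ k * s⁻¹ = (ρ ^ k)⁻¹ := by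
      rw [← i, ← hk, ← conj_mul, show s * (s * y * s⁻¹) * s⁻¹ = s * s * y * (s * s)⁻¹ by group, h2]
      group
    refine T.r4_ne d hw ((eq_mul_inv_of_mul_eq hc.symm).trans ?_)
    simp only at hj
    rw [← hj, ← conj_zpow, i2, inv_zpow]
  refine le_c_iff.1 ((closure_le _).2 fun y hy => mem_c.2 (mul_inv_eq_iff_eq_mul.1
    ((k y hy.1 hy.2).resolve_right fun e => ?_)).symm)
  obtain ⟨a, ha, e1, e2, -⟩ := T.part y hy.1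
  rw [hy.2] at e1 e2
  have ai := inv (T.two a ha)
  have c1 := T.sq_mem hy.1 (mul_mem (inv_mem (T.mem a ha)) hs) (by
    calc _ = a⁻¹ * (s * y * s⁻¹) * s := by group
      _ = _ := by rw [e, ← e2]; group)
  have c2 : s * a * s⁻¹ = a := (k a ha e1).resolve_right fun e => (T.disj y hy.1).2 (by
    rw [si] at e
    rwa [ai, mul_assoc, ← mul_assoc s, e, ← mul_assoc, sq (T.two a ha), one_mul, ← hy.2] at c1)
  obtain ⟨i, hi⟩ := T.mul_eq d hw hy.1 hy.2 ha e1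
  have c3 : y * a * (y * a) = ζ w := by
    rw [ai] at e2
    rw [mul_assoc, ← mul_assoc a, e2, ← mul_assoc, sq (T.two y hy.1), one_mul]
  obtain ⟨j, hj⟩ := four d.ord (k := i) (by
    rw [← hi, show (4 : ℤ) = 2 * 2 by rfl, zpow_mul, zpow_two, zpow_two, c3, sq z2])
  have c4 : s * (y * a) * s⁻¹ = y * a := by
    rw [hi, hj, ← conj_zpow, hc, mul_inv_cancel_right]
  rw [← conj_mul, e, c2, mul_left_inj, mul_eq_left] at c4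
  exact ne z2 c4

theorem r_mem (d : Dih Θ ζ w ρ m) (hw : w ∈ Θ) : ρ ^ 2 ^ m ∈ Yz Θ ζ (ζ w) :=
  pow_mem ((T.mem_Y d hw).2 ⟨1, .inl (zpow_one ρ).symm⟩) _

theorem inverts (d : Dih Θ ζ w ρ m) (hw : w ∈ Θ) (hs : s ∈ S) (h2 : s * s = 1)
    (hc : s * ζ w = ζ w * s) (hn : s ∉ 𝐂 (Yz Θ ζ (ζ w))) : s * ρ ^ 2 ^ m * s⁻¹ = (ρ ^ 2 ^ m)⁻¹ :=
  (T.rho4 d hw (T.norm_Y hw hs hc)).resolve_left fun e =>
    hn (T.cent_Y d hw hs h2 (mul_inv_eq_iff_eq_mul.1 e))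

theorem fix_mul {x : G} (h1 : a * x * a⁻¹ = x⁻¹) (h2 : a' * x * a'⁻¹ = x⁻¹) :
    a * a' * x = x * (a * a') := by
  have _ := T
  rw [← mul_inv_eq_iff_eq_mul, mul_inv_rev, ← mul_assoc, mul_assoc a, mul_assoc a, h2, ← conj_inv, h1,
    inv_inv]

theorem idx (hw : w ∈ Θ) (hA : IsElementaryAbelian 2 A) (hS : A ≤ S) (hz : A ≤ 𝐜 (ζ w)) (ha : a ∈ A)
    (ha' : a' ∈ A) (n : a ∉ 𝐂 (Yz Θ ζ (ζ w))) (n' : a' ∉ 𝐂 (Yz Θ ζ (ζ w))) :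
    a * a' ∈ 𝐂 (Yz Θ ζ (ζ w)) := by
  obtain ⟨ρ, m, d⟩ := T.dih hw
  have q : ∀ a ∈ A, a * a = 1 := fun a ha => (pow_two a).symm.trans (hA.2 a ha)
  exact T.cent_Y d hw (hS (mul_mem ha ha')) (q _ (mul_mem ha ha'))
    (T.fix_mul (T.inverts d hw (hS ha) (q a ha) (mem_c.1 (hz ha)) n)
      (T.inverts d hw (hS ha') (q a' ha') (mem_c.1 (hz ha')) n'))

theorem am_cent (hA : A ∈ Am S) : A ≤ 𝐂 (closure (ζ '' Θ)) := by
  by_contra n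
  have hV : IsElementaryAbelian 2 (closure (ζ '' Θ)) := Th.elemAb_closure (by
    rintro _ ⟨v, hv, rfl⟩ _ ⟨w, hw, rfl⟩
    by_cases e : ζ v = ζ w
    · rw [e]
    · exact mem_c.1 (mem_inf.1 (T.cle w hw (T.mem_C hw hv e).2)).2)
    (by rintro _ ⟨v, hv, rfl⟩; exact (pow_two _).trans (sq (T.ztwo v hv)))
  have nV : S ≤ 𝐍 (closure (ζ '' Θ)) := le_normalizer_of_cj_le fun s hs => cj_cl (by
    rintro _ ⟨v, hv, rfl⟩
    exact Subgroup.subset_closure ⟨_, (T.cj v hv s hs).1, (T.cj v hv s hs).2.1⟩)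
  obtain ⟨A, hA, n, hq⟩ := exists_quad hV ((closure_le _).2 (by
    rintro _ ⟨v, hv, rfl⟩; exact T.z_mem hv)) nV hA n
  obtain ⟨w, hw, nz⟩ : ∃ w ∈ Θ, ¬ A ≤ 𝐜 (ζ w) := by
    by_contra! k
    exact n (cent_symm ((closure_le _).2 (by rintro _ ⟨v, hv, rfl⟩; exact le_c_iff.1 (k v hv))))
  have z2 := T.ztwo w hw
  have nc : ∀ g, g ∈ 𝐍 (zpowers (ζ w)) → g ∈ 𝐜 (ζ w) := fun g hg => mem_c.2 (mul_inv_eq_iff_eq_mul.1
    ((LB.zp (sq z2) (conj_mem_of_normalizes le_rfl hg (mem_zpowers _))).resolve_left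
      fun e => ne z2 (by simpa using e)))
  have mc : ∀ g ∈ A, g ∉ 𝐜 (ζ w) → g * w * g⁻¹ ∈ C w ∧ g * ζ w * g⁻¹ ∈ C w := fun g hg ng => by
    obtain ⟨c1, c2, -⟩ := T.cj w hw g (hA.1 hg)
    exact c2 ▸ T.mem_C hw c1 fun e => ng (mem_c.2 (mul_inv_eq_iff_eq_mul.1 (c2.symm.trans e)))
  have cn : ∀ g, g ∈ 𝐜 (ζ w) → g ∈ 𝐍 (zpowers (ζ w)) := fun g hg => mem_normalizer_iff_cj.2 (by
    rw [cj_zpowers, mem_c.1 hg, mul_inv_cancel_right])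
  have i1 : (𝐜 (ζ w)).relIndex A ≤ 2 := BG.idx2 fun a ha a' ha' n n' => nc _ (quad_two hV
    (hA.1.trans nV) hq (zpowers_le.2 (subset_closure ⟨w, hw, rfl⟩))
    (fun e => (T.disj w hw).2 (e (mem_zpowers _))) (fun g hg => (em (g ∈ 𝐜 (ζ w))).imp
      (fun e => mem_normalizer_iff_cj.1 (cn g e)) fun e => by
        rw [cj_zpowers]; exact zpowers_le.2 (mc g hg e).2) ha ha' (mt (nc _) n) (mt (nc _) n'))
  have i2 : (𝐂 (Yz Θ ζ (ζ w))).relIndex (𝐜 (ζ w) ⊓ A) ≤ 2 := BG.idx2 fun a ha a' ha' n n' =>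
    T.idx hw (elemAb_inf_right hA.2.1 _) (inf_le_right.trans hA.1) inf_le_left ha ha' n n'
  have i3 := Nat.mul_le_mul i2 i1
  have zY : ζ w ∈ Yz Θ ζ (ζ w) :=
    (mul_mem_cancel_left (gen hw rfl)).1 (gen (T.mul w hw).1 (T.mul w hw).2.1)
  have cY : ∀ y ∈ Yz Θ ζ (ζ w), 𝐂 (Yz Θ ζ (ζ w)) ⊓ A ≤ 𝐜 y := fun y hy =>
    inf_le_left.trans (le_c_iff.2 (cent_symm le_rfl hy))
  rw [relIndex_inf_mul_relIndex, inf_eq_left.2 (le_c_iff.2 (cent_symm le_rfl zY))] at i3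
  have i4 := BG.crd (𝐂 (Yz Θ ζ (ζ w))) A
  obtain ⟨a, ha, na⟩ := SetLike.not_le_iff_exists.1 nz
  have cY' : ∀ y ∈ Yz Θ ζ (ζ w), 𝐂 (Yz Θ ζ (ζ w)) ⊓ A ≤ 𝐜 (a * y * a⁻¹) := fun y hy x hx => by
    have c := elemAb_commute hA.2.1 (mem_inf.1 hx).2 ha
    exact mem_c.2 ((c.mul_right (mem_c.1 (cY y hy hx))).mul_right c.inv_right).eq
  obtain ⟨p, hp, p1, p2, p3⟩ := T.part w hw
  have pw : p * w ≠ w * p := fun e => T.w_not hw (by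
    rw [e, mul_inv_cancel_right, left_eq_mul] at p2; exact absurd p2 (ne z2))
  have a2 : a * a = 1 := (pow_two a).symm.trans (hA.2.1.2 a ha)
  have ai := inv_eq_of_mul_eq_one_right a2
  obtain ⟨m1, m2⟩ := mc a ha na
  have fl : ∀ x y : G, a * x * a⁻¹ ∈ 𝐜 y → x ∈ 𝐜 (a * y * a⁻¹) := fun x y e => by
    have : a * (a * x * a⁻¹ * y) * a⁻¹ = a * (y * (a * x * a⁻¹)) * a⁻¹ := by rw [mem_c.1 e]
    rwa [← conj_mul, ← conj_mul (a := y), show a * (a * x * a⁻¹) * a⁻¹ = a * a * x * (a * a)⁻¹ by group, a2, one_mul, inv_one, mul_one,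
      ← mem_c] at this
  obtain ⟨e1, k1⟩ := adj (elemAb_inf_right hA.2.1 _) z2 (cY _ zY) fun e =>
    na (mem_c.2 (elemAb_comm hA.2.1 ha (mem_inf.1 e).2))
  obtain ⟨e2, k2⟩ := adj e1 (T.two w hw) (sup_le (cY _ (gen hw rfl))
    (zpowers_le.2 (mem_c.2 (T.comm w hw).symm))) fun e => pw (mem_c.1 ((sup_le (cY _ (gen hp p1))
      (zpowers_le.2 (mem_c.2 (p1 ▸ (T.comm p hp).symm)))) e)).symm
  have cw := fun x hx => mem_inf.1 (T.cle w hw (x := x) hx)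
  obtain ⟨e3, k3⟩ := adj e2 (T.two _ (T.cj w hw a (hA.1 ha)).1) (sup_le (sup_le (cY' _ (gen hw rfl))
    (zpowers_le.2 (mem_c.2 (mem_c.1 (cw _ m1).2).symm)))
    (zpowers_le.2 (mem_c.2 (mem_c.1 (mem_inf.1 (cw _ m1).1).2).symm))) fun e => pw (by
      have := mem_c.1 ((sup_le (sup_le (cY' _ (gen hp p1)) (zpowers_le.2 (fl _ _ (p3 m2))))
        (zpowers_le.2 (fl _ _ (p3 m1)))) e)
      simpa only [conj_mul, mul_left_inj, mul_right_inj] using this.symm)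
  have k4 := hA.2.2 _ (sup_le (sup_le (sup_le (inf_le_right.trans hA.1) (zpowers_le.2 (T.z_mem hw)))
    (zpowers_le.2 (T.mem w hw))) (zpowers_le.2 (T.mem _ (T.cj w hw a (hA.1 ha)).1))) e3
  have k5 := Nat.mul_le_mul_left (Nat.card (𝐂 (Yz Θ ζ (ζ w)) ⊓ A : Subgroup G)) i3
  have k6 : 0 < Nat.card (𝐂 (Yz Θ ζ (ζ w)) ⊓ A : Subgroup G) := Nat.card_pos
  omega

/-- `V = ⟨ζ(Θ)⟩` is elementary abelian (`mem_C`) and normal in `S`.  Suppose some member of `𝒜(S)`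
does not centralize `V`; take `A` from `exists_quad`, not centralizing `z = ζ w`.  `quad_two` with
`K = C w`: `A₁ = C_A(z)` has index 2; `A₂ = C_{A₁}(ρ₄) = C_A(Y)` has index `≤ 2` in `A₁`.  For
`a ∈ A \ A₁`, `W₂ = ⟨w, z⟩ × a ⟨w, z⟩ a⁻¹` has order 16 and centralizes `A₂`, and
`A₂ ⊓ W₂ ≤ ⟨z · a z a⁻¹⟩`; so `|A₂ W₂| ≥ 8 |A₂| > |A|`.  So all `A ∈ 𝒜(S)` centralize, hence contain,
`z`.  Then `|C_A(Y) ⟨w⟩| = 2 |C_A(Y)| ≥ |A|`. -/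
theorem am (hw : w ∈ Θ) (hA : A ∈ Am S) :
    ζ w ∈ A ∧ (A ⊓ 𝐂 (Yz Θ ζ (ζ w))) ⊔ zpowers w ∈ Am S ∧
      ∀ a ∈ A, ∀ a' ∈ A, a ∉ 𝐂 (Yz Θ ζ (ζ w)) → a' ∉ 𝐂 (Yz Θ ζ (ζ w)) →
        a * a' ∈ 𝐂 (Yz Θ ζ (ζ w)) := by
  have hz : A ≤ 𝐜 (ζ w) := le_c_iff.2 (cent_symm (T.am_cent hA) (subset_closure ⟨w, hw, rfl⟩))
  have i := fun a ha a' ha' => T.idx (a := a) (a' := a') hw hA.2.1 hA.1 hz ha ha'
  obtain ⟨e, k⟩ := adj (elemAb_inf_left hA.2.1 (𝐂 (Yz Θ ζ (ζ w)))) (T.two w hw) (inf_le_right.trans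
    (le_c_iff.2 (cent_symm le_rfl (gen hw rfl)))) fun e => T.w_not hw (mem_inf.1 e).2
  refine ⟨mem_of_mem_maxElemAbIn hA (T.z_mem hw) ((pow_two _).trans (sq (T.ztwo w hw))) (le_c_iff.1 hz),
    mem_maxElemAbIn_of_card_le hA (sup_le (inf_le_left.trans hA.1) (zpowers_le.2 (T.mem w hw))) e
      (le_trans ?_ k), i⟩
  rw [← BG.crd (𝐂 (Yz Θ ζ (ζ w))) A, inf_comm, mul_comm]
  exact Nat.mul_le_mul_right _ (BG.idx2 i)

/-- `Y' = g Y g⁻¹` and `g⁻¹ Y g` lie in `Q ≤ N(Y)`, so `Y`, `Y'` normalize each other.  If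
`Y ⊓ Y' ≠ 1` it contains `z' = g z g⁻¹`, which is central in `Q ≥ Y`, so `z' = z`.  Otherwise
`g ρ₄ g⁻¹` centralizes `Y`; `sq_mem`. -/
theorem z_fix (hw : w ∈ Θ) (hQ : Q ≤ S) (hg : g ∈ 𝐍 Q) (hY : Yz Θ ζ (ζ w) ≤ Q)
    (hz : Q ≤ 𝐜 (ζ w)) : g * ζ w * g⁻¹ = ζ w ∨ g * ζ w * g⁻¹ ∈ C w := by
  obtain ⟨ρ, m, d⟩ := T.dih hw
  have a := conj_mem_of_normalizes' le_rfl hg (hY (gen hw rfl))
  have r := conj_mem_of_normalizes le_rfl hg (hY (T.r_mem d hw))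
  have r2 : g * ρ ^ 2 ^ m * g⁻¹ * (g * ρ ^ 2 ^ m * g⁻¹) = g * ζ w * g⁻¹ := by rw [conj_mul, T.r4_sq d]
  have e0 : w * (g * ρ ^ 2 ^ m * g⁻¹) * w⁻¹ =
    g * (g⁻¹ * w * g * ρ ^ 2 ^ m * (g⁻¹ * w * g)⁻¹) * g⁻¹ := by group
  rcases T.rho4 d hw (T.norm_Y hw (hQ a) (mem_c.1 (hz a))) with e | e <;> rw [e] at e0
  · exact .inr (r2 ▸ T.sq_mem hw (hQ r) (mul_inv_eq_iff_eq_mul.1 e0).symm)
  rw [← conj_inv] at e0
  obtain ⟨c1, c2⟩ := T.cj_z hw rfl (inv_mem (hQ r)) (mem_c.1 (hz (inv_mem r)))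
  generalize g * ρ ^ 2 ^ m * g⁻¹ = x at r2 e0 c1 c2
  have e1 : x⁻¹ * w * x⁻¹⁻¹ = w * (x * x) := by rw [inv_inv, ← e0]; group
  have z2 := sq (T.ztwo w hw)
  have e2 : w * (x * x) * w⁻¹ = x * x := by
    rw [← conj_mul, e0, ← mul_inv_rev, r2, inv_eq_iff_mul_eq_one, conj_mul, z2, mul_one, mul_inv_cancel]
  rw [e1] at c1 c2
  rcases T.eq_of_comm hw c1 c2 (by rw [mul_assoc, ← mul_inv_eq_iff_eq_mul.1 e2]) with e | e
  · rw [mul_eq_left, r2] at e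
    exact absurd (by simpa using e) (ne (T.ztwo w hw))
  · exact .inl (r2 ▸ mul_left_cancel e)

section
variable (d : Dih Θ ζ w ρ m) (hw : w ∈ Θ) (hQ : Q ≤ S) (hP : P ≤ 𝐍 Q) (hz : P ≤ 𝐜 (ζ w))
  (hY : Yz Θ ζ (ζ w) ≤ Q) (hz' : Q ≤ 𝐜 (ζ w)) (hg : g ∈ P)
include d hw hQ hP hz hY hz' hg

theorem cj_inv : g * w * g⁻¹ * ρ ^ 2 ^ m * (g * w * g⁻¹)⁻¹ = (ρ ^ 2 ^ m)⁻¹ := by
  have a := conj_mem_of_normalizes hP hg (hY (gen hw rfl))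
  refine (T.rho4 d hw (T.norm_Y hw (hQ a) (mem_c.1 (hz' a)))).resolve_left fun e => (T.disj w hw).2 ?_
  have := T.sq_mem hw (hQ (conj_mem_of_normalizes' hP hg (hY (T.r_mem d hw)))) (by
    conv_lhs => rw [← e]
    group)
  rwa [show ∀ x : G, g⁻¹ * x * g * (g⁻¹ * x * g) = g⁻¹ * (x * x * g) from fun x => by group,
    T.r4_sq d, ← mem_c.1 (hz hg), inv_mul_cancel_left] at this

theorem cent_cjY {β : G} (hβ : β ∈ Q) (h2 : β * β = 1) (hc : β ∈ 𝐂 (Yz Θ ζ (ζ w))) :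
    g⁻¹ * β * g ∈ 𝐂 (Yz Θ ζ (ζ w)) := by
  by_contra n
  have a := conj_mem_of_normalizes' hP hg hβ
  have e1 := T.inverts d hw (hQ a) (by rw [show g⁻¹ * β * g * (g⁻¹ * β * g) = g⁻¹ * (β * β) * g by group,
    h2, mul_one, inv_mul_cancel]) (mem_c.1 (hz' a)) n
  have e2 := T.cj_inv d hw hQ hP hz hY hz' (inv_mem hg)
  have e3 := T.cj_inv d hw hQ hP hz hY hz' (one_mem P)
  have e4 := mem_centralizer_iff.1 hc _ (T.r_mem d hw)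
  have r := hY (T.r_mem d hw)
  have r2 := T.r4_sq d
  have z2 := T.ztwo w hw
  have zg := mem_c.1 (hz hg)
  generalize ρ ^ 2 ^ m = x at e1 e2 e3 e4 r r2
  have ri : x⁻¹ = x * ζ w := by rw [inv_eq_iff_mul_eq_one, ← mul_assoc, r2, sq z2]
  have zx : ζ w * x = x * ζ w := by rw [← r2, mul_assoc]
  have f1 : β * (g * x * g⁻¹) * β⁻¹ = g * x * g⁻¹ * ζ w := by
    calc _ = g * (g⁻¹ * β * g * x * (g⁻¹ * β * g)⁻¹) * g⁻¹ := by group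
      _ = g * x * g⁻¹ * (g * ζ w) * g⁻¹ := by rw [e1, ri]; group
      _ = _ := by rw [zg]; group
  have f2 : w * (g * x * g⁻¹) * w⁻¹ = ζ w * (g * x * g⁻¹) := by
    calc _ = g * (g⁻¹ * w * g⁻¹⁻¹ * x * (g⁻¹ * w * g⁻¹⁻¹)⁻¹) * g⁻¹ := by group
      _ = g * ζ w * x * g⁻¹ := by rw [e2, ri, ← zx]; group
      _ = _ := by rw [zg]; group
  have f3 : w * x⁻¹ * w⁻¹ = x⁻¹ * ζ w := by
    rw [one_mul, inv_one, mul_one] at e3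
    rw [← conj_inv, e3, inv_inv, ← r2, inv_mul_cancel_left]
  have q := conj_mem_of_normalizes hP hg r
  have := T.comm_C hw (mem_inf.2 ⟨hQ (mul_mem (inv_mem r) q), mem_c.2 (by
    rw [eq_comm, ← mul_inv_eq_iff_eq_mul, ← conj_mul, f3, f2, mul_assoc, ← mul_assoc (ζ w), sq z2,
      one_mul])⟩) (mem_inf.2 ⟨hQ hβ, mem_c.2 (mem_centralizer_iff.1 hc w (gen hw rfl)).symm⟩)
  refine (T.disj w hw).2 (inv_mem_iff.1 ?_)
  convert this using 1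
  have f4 : β * x * β⁻¹ = x := by rw [← e4, mul_inv_cancel_right]
  have f5 := mem_c.1 (hz' (mul_mem (inv_mem r) q))
  calc _ = x⁻¹ * (g * x * g⁻¹) * (x⁻¹ * (g * x * g⁻¹) * ζ w)⁻¹ := by rw [f5]; group
    _ = x⁻¹ * (g * x * g⁻¹) * ((β * x * β⁻¹)⁻¹ * (β * (g * x * g⁻¹) * β⁻¹))⁻¹ := by
      rw [f4, f1, mul_assoc x⁻¹ (g * x * g⁻¹) (ζ w)]
    _ = _ := by rw [commutatorElement_def]; group

end

/-- The conjugates of `Y` under `P` lie in `Q` and normalize each other.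
(i) For `g ∈ P`, `y ∈ Θ_z`, `g y g⁻¹` inverts `ρ₄`: otherwise it centralizes `Y` (`cent_Y`), so
`g⁻¹ ρ₄ g` centralizes `y` and `z ∈ C y` (`sq_mem`).
(ii) An involution `β ∈ Q ⊓ C(Y)` centralizes `g Y g⁻¹`: otherwise it inverts `ρ₄' = g ρ₄ g⁻¹`.  `w`
inverts `ρ₄'` and `ρ₄`, so `ρ₄⁻¹ ρ₄' = u c ∈ ⟨w, z⟩ C w`; `β ∈ ⟨z⟩ C w`, and `β c β⁻¹ = c z` gives
`z ∈ C w`.
(iii) `c = [w, α] = w w''`, `w'' = α w α⁻¹`, centralizes `g Y g⁻¹`; `c² = w · w'' w w'' ∈ ⟨ρ⟩` and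
`g⁻¹ c² g ∈ C w`, so `c² = 1`; `c` centralizes `ρ₄` by (i), so `c ∈ C(Y)`.  `A₀ = C_A(Y)`
centralizes `w''` by (ii), so `c` centralizes `A₀ ⟨w⟩ ∈ 𝒜(S)`, `c ∈ A₀ ⟨w⟩ ⊓ C(Y) = A₀`. -/
theorem comm_mem (hw : w ∈ Θ) (hQ : Q ≤ S) (hP : P ≤ 𝐍 Q) (hz : P ≤ 𝐜 (ζ w))
    (hY : Yz Θ ζ (ζ w) ≤ Q) (hz' : Q ≤ 𝐜 (ζ w)) (hg : g ∈ P) (hα : α ∈ P)
    (hc : α ∈ 𝐂 (g •ᶜ Yz Θ ζ (ζ w) : Subgroup G)) (hA : A ∈ Am S) (hAQ : A ≤ Q) : ⁅w, α⁆ ∈ A := by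
  obtain ⟨ρ, m, d⟩ := T.dih hw
  have wi := inv (T.two w hw)
  have wQ := hY (gen hw rfl)
  have e : ⁅w, α⁆ = w * (α * w * α⁻¹) := by rw [commutatorElement_def, wi]; group
  have w'Q := conj_mem_of_normalizes hP hα wQ
  have cQ : ⁅w, α⁆ ∈ Q := e ▸ mul_mem wQ w'Q
  have a := conj_mem_of_normalizes' hP hg wQ
  have c1 : g⁻¹ * ⁅w, α⁆ * g ∈ 𝐂 (Yz Θ ζ (ζ w)) := by
    rw [← cj_centralizer, mem_cj] at hc
    convert mul_mem (conj_mem_of_normalizes (CL.MSS.le_normalizer_centralizer le_rfl)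
      (T.norm_Y hw (hQ a) (mem_c.1 (hz' a))) hc) (inv_mem hc) using 1
    rw [commutatorElement_def]; group
  have c2 := T.sq_mem hw (hQ (conj_mem_of_normalizes' hP hg cQ))
    (mem_centralizer_iff.1 c1 w (gen hw rfl)).symm
  obtain ⟨b1, b2⟩ := T.cj_z hw rfl (hQ w'Q) (mem_c.1 (hz' w'Q))
  obtain ⟨k, hk⟩ := T.mul_eq d hw hw rfl b1 b2
  have c3 : ⁅w, α⁆ * ⁅w, α⁆ = ρ ^ k := by rw [← hk, e, conj_inv, wi]; group
  have c4 : ⁅w, α⁆ * ⁅w, α⁆ = 1 := by_contra fun n => (T.disj w hw).2 (by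
    obtain ⟨j, hj⟩ := pw_mem d.ord (j := m + 1) (k := k) fun e => n (c3.trans ((dvd_iff d.ord).1 e))
    have := zpow_mem c2 j
    simp only at hj
    rwa [show ∀ x : G, g⁻¹ * x * g * (g⁻¹ * x * g) = g⁻¹ * (x * x) * g⁻¹⁻¹ from fun x => by group,
      conj_zpow, c3, hj, d.pow, inv_inv, mul_assoc, ← mem_c.1 (hz hg), inv_mul_cancel_left] at this)
  have i1 := T.cj_inv d hw hQ hP hz hY hz' (one_mem P)
  rw [one_mul, inv_one, mul_one] at i1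
  have c5 := T.cent_Y d hw (hQ cQ) c4 (e ▸ T.fix_mul i1 (T.cj_inv d hw hQ hP hz hY hz' hα))
  have cw : A ⊓ 𝐂 (Yz Θ ζ (ζ w)) ≤ 𝐜 w :=
    inf_le_right.trans (le_c_iff.2 (cent_symm le_rfl (gen hw rfl)))
  obtain ⟨b, hb, y, hy, e'⟩ := (mem_sup_of_normalizes_left (cent_le_norm (zpowers_le.2
    (le_c_iff.1 cw)))).1 (mem_of_mem_maxElemAbIn (T.am hw hA).2.1 (hQ cQ) ((pow_two _).trans c4)
      (le_c_iff.1 (sup_le (fun β hβ => by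
        have := mem_centralizer_iff.1 (T.cent_cjY d hw hQ hP hz hY hz' hα (hAQ (mem_inf.1 hβ).1)
          ((pow_two β).symm.trans (hA.2.1.2 β (mem_inf.1 hβ).1)) (mem_inf.1 hβ).2) w (gen hw rfl)
        rw [mem_c, e, ← mul_assoc, mem_c.1 (cw hβ), mul_assoc, mul_assoc w, mul_right_inj]
        calc _ = α * (α⁻¹ * β * α * w) * α⁻¹ := by group
          _ = _ := by rw [← this]; group)
        (zpowers_le.2 (mem_c.2 (mem_centralizer_iff.1 c5 w (gen hw rfl)))))))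
  rw [← e'] at c5 ⊢
  rcases LB.zp (sq (T.two w hw)) hy with rfl | rfl
  · exact mul_mem (mem_inf.1 hb).1 (one_mem _)
  · exact absurd ((mul_mem_cancel_left (mem_inf.1 hb).2).1 c5) (T.w_not hw)

end TH

end CL.B2
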