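import Cfsg.Agent.INV.B2.Sm1
import Cfsg.Agent.INV.B2.Sm2

/-!
# Small pairs and other lines

`S = Sy t`, `Θ = Th D t`, `z = ζ w`, `Y = Yz Θ ζ z`; index 1 for the other line.
-/

set_option autoImplicit false
set_option maxHeartbeats 400000
set_option linter.unusedSectionVars false
open Cfsg Subgroup CL.Th CL.MSS CL.Push CL.BHS
open scoped commutatorElement MatrixGroups

namespace CL.B2
variable {G : Type*} [Group G] [Finite G] {D : Set G} {s t v w : G} {ζ : G → G}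
  {C : G → Subgroup G} {B B₁ P P' P₁ P₁' : Subgroup G}

namespace S3

open LB GCh

variable {A U X : Subgroup G} {a g u x y z : G}

/-- the elements of `N(U)` fixing the coset `w U` -/
def stab (w : G) (U : Subgroup G) : Subgroup G where
  carrier := {x | x ∈ 𝐍 U ∧ w⁻¹ * (x * w * x⁻¹) ∈ U}
  one_mem' := ⟨one_mem _, by simp⟩
  mul_mem' := fun {x y} hx hy => ⟨mul_mem hx.1 hy.1, by
    convert mul_mem hx.2 (conj_mem_of_normalizes le_rfl hx.1 hy.2) using 1; group⟩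
  inv_mem' := fun {x} hx => ⟨inv_mem hx.1, by
    convert conj_mem_of_normalizes' le_rfl hx.1 (inv_mem hx.2) using 1; group⟩

theorem E_le_stab (l : Ln0 D P B) (hX : X ≤ B) (hQ : ¬ X ≤ O2 P) (hU : P ≤ 𝐍 U)
    (h : ∀ g ∈ P, ∀ a ∈ X, w⁻¹ * (g * a * g⁻¹ * w * (g * a * g⁻¹)⁻¹) ∈ U) : oU[2] P ≤ stab w U := by
  obtain ⟨b, hb, hb'⟩ := SetLike.not_le_iff_exists.1 hQ
  exact (l.E_le (ncl_le_self (hX.trans l.B_le)) ((oU_le P).trans (ncl_normal X P)) (le_ncl _ _ hb)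
    (hX hb) hb').trans (ncl_le_iff.2 fun g hg => cj_le_iff_forall.2 fun a ha =>
      ⟨hU (mul_mem (mul_mem hg (l.B_le (hX ha))) (inv_mem hg)), h g hg a ha⟩)

theorem rho4_mem {ρ : G} {m : ℕ} (h : orderOf ρ = 2 ^ (m + 2)) (k : ℤ) (hk : ρ ^ k * ρ ^ k ≠ 1) :
    ρ ^ 2 ^ m ∈ zpowers (ρ ^ k) := by
  have o : ρ ^ ((2 : ℤ) ^ (m + 2)) = 1 := by
    rw [← Nat.cast_ofNat, ← Nat.cast_pow, ← h, zpow_natCast, pow_orderOf_eq_one]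
  obtain ⟨j, -, e⟩ := (Nat.dvd_prime_pow Nat.prime_two).1
    (show Int.gcd k (2 ^ (m + 2)) ∣ 2 ^ (m + 2) by exact_mod_cast Int.gcd_dvd_right k (2 ^ (m + 2)))
  have b : ρ ^ 2 ^ j ∈ zpowers (ρ ^ k) := by
    rw [← e, ← zpow_natCast, Int.gcd_eq_gcd_ab, zpow_add, zpow_mul, zpow_mul, o, one_zpow, mul_one]
    exact zpow_mem_zpowers _ _
  by_cases c : j ≤ m
  · rw [← Nat.add_sub_cancel' c, pow_add, pow_mul]
    exact pow_mem b _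
  obtain ⟨c, rfl⟩ : (2 : ℤ) ^ (m + 1) ∣ k := (pow_dvd_pow 2 (by omega : m + 1 ≤ j)).trans (by
    have := Int.gcd_dvd_left k (2 ^ (m + 2))
    rwa [e, Nat.cast_pow] at this)
  refine absurd ?_ hk
  rw [← zpow_add, ← add_mul, ← mul_two, ← pow_succ, zpow_mul, o, one_zpow]

theorem sm_of (hw : w ∈ Th D t) : ∃ P P' B, Sm D t w P P' B :=
  let ⟨P, P', B, p, a, b, c⟩ := hw; ⟨P, P', B, p, a, b, c⟩

theorem mem_Y {Θ : Set G} (hy : y ∈ Θ) (e : ζ y = z) : y ∈ Yz Θ ζ z := subset_closure ⟨hy, e⟩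

theorem sq_of (h : orderOf x = 2) : x * x = 1 := by rw [← pow_two, ← h, pow_orderOf_eq_one]

theorem inv_of (h : orderOf x = 2) : x⁻¹ = x := inv_eq_of_mul_eq_one_right (sq_of h)

theorem ne_of (h : orderOf x = 2) : x ≠ 1 := by rintro rfl; simp at h

theorem z_mem {S : Subgroup G} {Θ : Set G} (τ : TH S Θ ζ C) (hw : w ∈ Θ) : ζ w ∈ Yz Θ ζ (ζ w) :=
  (mul_mem_cancel_left (mem_Y hw rfl)).1 (mem_Y (τ.mul w hw).1 (τ.mul w hw).2.1)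

theorem w_not {S : Subgroup G} {Θ : Set G} (τ : TH S Θ ζ C) (hw : w ∈ Θ) : w ∉ 𝐂 (Yz Θ ζ (ζ w)) :=
  fun e => by
  obtain ⟨a, ha, e1, e2, -⟩ := τ.part w hw
  rw [mem_centralizer_iff.1 e a (mem_Y ha e1), mul_inv_cancel_right, left_eq_mul] at e2
  exact ne_of (τ.ztwo w hw) e2

variable (h : Hy D) (T : SmT D t ζ C)
include h T

theorem zz (m : Sm D t w P P' B) (m₁ : Sm D t v P₁ P₁' B₁) (e : Zo P₁ B₁ = Zo P B) : ζ v = ζ w :=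
  (zp (sq_of (T.th.ztwo w (m.mem_Th h))) ((T.eq _ _ _ _ m).1.le (e.le ((T.eq _ _ _ _ m₁).1.ge
    (mem_zpowers _))))).resolve_left (ne_of (T.th.ztwo v (m₁.mem_Th h)))

theorem W_le (m : Sm D t w P P' B) : Wo P ≤ Yz (Th D t) ζ (ζ w) := fun y hy => by
  have hw := m.mem_Th h
  rcases m.l.two_W m.q (T.eq _ _ _ _ m).1 m.memW m.nZ hy with rfl | rfl | rfl | rfl
  exacts [one_mem _, z_mem T.th hw, mem_Y hw rfl, mul_mem (mem_Y hw rfl) (z_mem T.th hw)]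

theorem W'_le (m : Sm D t w P P' B) : Wo P' ≤ Yz (Th D t) ζ (ζ w) :=
  let ⟨_, m'⟩ := m.exists_partner h
  zz h T m m' m.toPr.Z_eq' ▸ W_le h T m'

theorem tz (m : Sm D t w P P' B) : t * ζ w ∈ 𝐂 P := by
  obtain ⟨z, hz, e⟩ := m.toPr.D_dec h m.mem m.memB m.toAt.cent
  rcases zp (sq_of (T.th.ztwo w (m.mem_Th h))) ((T.eq _ _ _ _ m).1.le hz) with rfl | rfl
  · exact absurd (by simpa using (mem_inf.1 e).1) (m.l.D_not_cent' h m.mem m.toAt.cent)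
  · simpa only [mul_inv_rev, inv_inv, h.inv m.mem] using inv_mem (mem_inf.1 e).1

end S3

open S3 LB GCh

/-- For `q > 2`: `At.big`.  For `q = 2` take `w ∈ W \ Z` and `A ∈ 𝒜(S)`; `C_A(Y) ⟨w⟩ ∈ 𝒜(S)` lies in
`T = S ⊓ N(W)`, so `𝒜(T) ⊆ 𝒜(S)`, and `J(T) = J(B)` (`T_le`). -/
theorem At.Jt_le (h : Hy D) (p : At D t P P' B) : Jt B ≤ Jt (Sy t) := by
  by_cases hq : qo P B = 2
  · obtain ⟨w, hw, nw⟩ := SetLike.not_le_iff_exists.1 p.l.W_not_le_Z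
    have m : Sm D t w P P' B := ⟨p, hq, hw, nw⟩
    obtain ⟨ζ, C, T⟩ := exists_smT h p.mem
    obtain ⟨A, hA⟩ := maxElemAbIn_nonempty (p := 2) (Sy t)
    have a := (T.th.am (m.mem_Th h) hA).2.1
    exact (p.l.T_le h p.mem p.memB p.cent).1.ge.trans (thompsonSubgroupOf_mono_of_mem a (le_inf a.1
      (sup_le (cent_le_norm (inf_le_right.trans (cle (W_le h T m))))
        (zpowers_le.2 (le_normalizer hw)))) inf_le_left)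
  · exact (p.big h hq).le

/-- `D_cent`. -/
theorem At.of_cent (h : Hy D) (p : At D t P P' B) (hs : s ∈ D) (hc : s ∈ 𝐂 (Jt (Sy t))) :
    At D s P P' B :=
  let ⟨a, b⟩ := p.l.D_cent h hs (cle (p.Jt_le h) hc)
  ⟨p.toPr, hs, h.le_Sy hs p.l.pg (le_c_iff.2 b), a⟩

theorem norm_Nt (h : Hy D) (ht : t ∈ D) : 𝐍 (Jt (Sy t)) ≤ 𝐍 (Nt D t) := fun g hg =>
  mem_normalizer_of_cj_le (cj_le_iff.2 (sSup_le fun _ ⟨P, P', B, p, e⟩ => cj_le_iff.1 (le_sSup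
    ⟨_, _, _, (p.cj h g).of_cent h ht (by
      rw [Sy_cj, ← cj_Jt, cj_eq_of_mem_normalizer hg]
      exact le_c_iff.1 ((thompsonSubgroupOf_le _).trans (Sy_le t))), by rw [e, cj_oU]⟩)))

theorem SmT.Y_le (h : Hy D) (T : SmT D t ζ C) (hw : w ∈ Th D t) :
    Yz (Th D t) ζ (ζ w) ≤ Jt (Sy t) := (closure_le _).2 fun y hy => by
  obtain ⟨A, hA⟩ := maxElemAbIn_nonempty (p := 2) (Sy t)
  have _ := And.intro h hw
  exact le_thompsonSubgroupOf (T.th.am hy.1 hA).2.1 (mem_sup_right (mem_zpowers y))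

/-- Take the partners `a`, `a₁`; `ζ a₁ = ζ v ≠ ζ w`.  `v` commutes with `w` (`zeta_eq`), `W₁ ≠ W`
(otherwise `w` or `ζ w`, ... : `v ∈ C w`, `W ⊓ C(K) = 1`); `K_comm`. -/
theorem Sm.comm_of_ne (h : Hy D) (m : Sm D t w P P' B) (m₁ : Sm D t v P₁ P₁' B₁)
    (hne : Zo P₁ B₁ ≠ Zo P B) : oU[2] P₁ ≤ 𝐂 (oU[2] P) := by
  obtain ⟨ζ, C, T⟩ := exists_smT h m.mem
  have ne : ζ v ≠ ζ w := fun e => hne (by rw [(T.eq _ _ _ _ m).1, (T.eq _ _ _ _ m₁).1, e])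
  have c := (mem_inf.1 ((T.eq _ _ _ _ m).2.le (T.th.mem_C (m.mem_Th h) (m₁.mem_Th h) ne).1)).2
  refine (le_sup_left.trans (m.K_comm h m₁ (by_contra fun e =>
    ne (T.th.zeta_eq (m.mem_Th h) (m₁.mem_Th h) e).1) fun e => ?_)).trans (cle le_sup_left)
  exact ne_of (m₁.two h) (mem_bot.1 ((m.l.two_D m.q).le
    (mem_inf.2 ⟨e.le m₁.memW, cle le_sup_left c⟩)))

namespace S3

variable {A : Subgroup G} {x : G} (h : Hy D) (T : SmT D t ζ C) (l₁ : Ln D P₁ B₁)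
  (hJ : Jt B₁ = Jt (Sy t)) (hw : w ∈ Th D t)
include h T l₁ hJ hw

theorem Y_le_B : Yz (Th D t) ζ (ζ w) ≤ B₁ :=
  (T.Y_le h hw).trans (hJ.ge.trans (thompsonSubgroupOf_le _))

theorem z_cent : ζ w ∈ 𝐂 B₁ := cent_symm l₁.baum (mem_oz_Jt (Y_le_B h T l₁ hJ hw (z_mem T.th hw))
  (sq_of (T.th.ztwo w hw)) (le_c_iff.1 (thompsonSubgroupOf_le_iff.2 fun _ hA => le_c_iff.2
    (MSS.elemAb_le_centralizer hA.2.1 (T.th.am hw (Am_eq hJ ▸ hA)).1))))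

theorem mem_Q (hle : B₁ ≤ Sy t) (hx : qo P₁ B₁ ≠ 2 ∨ Un D P₁ B₁) : w ∈ O2 P₁ := by
  by_contra n
  obtain ⟨P, P', B, m⟩ := sm_of hw
  have τ := T.th
  have wB := Y_le_B h T l₁ hJ hw (mem_Y hw rfl)
  have zc := mem_centralizer_iff.1 (z_cent h T l₁ hJ hw)
  obtain ⟨A, hA⟩ := maxElemAbIn_nonempty (p := 2) (O2 P₁)
  have hA' := l₁.am_Q.1 hA
  have WA := (W_le_Y P₁).trans (l₁.Y_le_of_am hA'.1 hA'.2)
  have k : ∀ u ∈ Wo P₁, u ∉ Zo P₁ B₁ → w * u ≠ u * w := fun u hu nu e => nu (l₁.mem_Z_of_comm hu wB n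
    (by rw [commutatorElement_eq_one_iff_mul_comm.2 e.symm]; exact one_mem _))
  have k' : ∀ u ∈ Wo P₁, u ∉ Zo P₁ B₁ → u ∉ 𝐂 (Yz (Th D t) ζ (ζ w)) := fun u hu nu e =>
    k u hu nu (mem_centralizer_iff.1 e w (mem_Y hw rfl))
  have q : qo P₁ B₁ = 2 := le_antisymm (l₁.relIndex_Z ▸ BG.idx2 fun a ha a' ha' na na' =>
    by_contra fun nn => k' _ (mul_mem ha ha') nn ((τ.am hw (Am_eq hJ ▸ hA'.1)).2.2 a (WA ha) a'
      (WA ha') (k' a ha na) (k' a' ha' na'))) l₁.two_le_q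
  obtain ⟨u, hu, nu⟩ := SetLike.not_le_iff_exists.1 l₁.W_not_le_Z
  obtain ⟨ρ, n, d⟩ := τ.dih hw
  obtain ⟨F, _, _, _, r, ψ, f⟩ := l₁.fm
  have hz := (T.eq _ _ _ _ m).1
  have zW := m.l.Z_le (hz.ge (mem_zpowers _))
  have BW : B₁ ≤ 𝐍 (Wo P) := fun a ha => by
    have ez : a * ζ w * a⁻¹ = ζ w := by rw [zc a ha, mul_inv_cancel_right]
    obtain ⟨c1, c2, -⟩ := τ.cj w hw a (hle ha)
    rw [ez] at c2
    obtain ⟨j, hj⟩ := (d.mem _).1 ⟨c1, c2⟩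
    have c3 := (f.r_eq_iff (f.le wB) (f.le (mul_mem (mul_mem ha wB) (inv_mem ha)))).1
      (by rw [f.r_conj (f.le ha) (f.le wB), f.r_comm ha wB, mul_inv_cancel_right])
    rw [hj, inv_mul_cancel_left] at c3
    have c4 : ρ ^ j * ρ ^ j = 1 := by_contra fun e => k' u hu nu (τ.cent_Y d hw (hle (l₁.W_le hu))
      (Ysq (W_le_Y _ hu)) (mem_centralizer_iff.1 ((zpowers_le.2 (Q_le_cent_W P₁ c3))
        (rho4_mem d.ord j e)) u hu))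
    have c5 : a * w * a⁻¹ ∈ Wo P := by
      rcases τ.eq_of_comm hw c1 c2 (by
        rw [hj, mul_assoc, mul_right_inj, eq_comm, ← mul_inv_eq_iff_eq_mul, ← conj_zpow, d.inv, inv_zpow,
          inv_eq_of_mul_eq_one_right c4]) with e | e <;> rw [e]
      exacts [m.memW, mul_mem m.memW zW]
    refine mem_normalizer_of_cj_le (cj_le_iff_forall.2 fun y hy => ?_)
    rcases m.l.two_W m.q hz m.memW m.nZ hy with rfl | rfl | rfl | rfl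
    · simp
    · rwa [ez]
    · exact c5
    · rw [← conj_mul, ez]
      exact mul_mem c5 zW
  have e : Jt B₁ = Jt B := hJ.trans ((thompsonSubgroupOf_eq_of_le (hJ.ge.trans
    ((thompsonSubgroupOf_le _).trans (le_inf hle BW))) inf_le_left).symm.trans
      (m.l.T_le h m.mem m.memB m.toAt.cent).1)
  have nc : ¬ Wo P ≤ 𝐂 (Wo P₁) := fun e => k u hu nu (mem_centralizer_iff.1 (e m.memW) u hu).symm
  obtain ⟨-, rfl⟩ := m.toPr.nc_eq h l₁ e nc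
  exact nc (cent_symm ((hx.resolve_left (not_not.2 q)).un P m.l))

end S3

/-- Step A.  `Y ≤ J(S) ≤ B₁`, `z ∈ Ω₁ Z J(S)` is central in `B₁`.  Suppose `y ∈ Θ_z \ Q₁` and let
`P, P', B` be the pair of `y`.  Take `A ∈ 𝒜(Q₁) ⊆ 𝒜(S)`, `W₁ ≤ A`; `|W₁ : C_{W₁}(Y)| ≤ 2` (`am`) and
`C_{W₁}(y) = Z₁`, so `q₁ = 2` and `P₁` has no partner.  `Z₁ = ⟨z₁⟩`, `u ∈ W₁ \ Z₁`,
`u y u⁻¹ = y z₁ ∈ Θ_z`, so `z₁ = z` (`eq_of_comm`).  `[Y, u] ≤ ⟨z⟩` and `u` inverts `ρ₄` (`cent_Y`), so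
`ρ₄ ∉ ⟨ρ²⟩`: `m = 0`, `Θ_z = {y, y z, a, a z}` with `a = y ρ`, `u a u⁻¹ = a`, `a ∈ Q₁`.  Every
`A ∈ 𝒜(S)` lies in `B₁`, normalizes `Q₁` and `Θ_z`, so it normalizes `{y, y z}` and `W`.  So
`J(S) = J(S ⊓ N(W)) = J(B)`, and `nc_eq` gives `P₁ = P'`, `B₁ = B`: `P` is a partner of `P₁`. -/
theorem SmT.Y_le_Q (h : Hy D) (T : SmT D t ζ C) (hw : w ∈ Th D t) (l₁ : Ln D P₁ B₁)
    (hJ : Jt B₁ = Jt (Sy t)) (hle : B₁ ≤ Sy t) (hx : qo P₁ B₁ ≠ 2 ∨ Un D P₁ B₁) :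
    Yz (Th D t) ζ (ζ w) ≤ O2 P₁ := (closure_le _).2 fun _ hy =>
  have _ := hw
  mem_Q h T l₁ hJ hy.1 hle hx

namespace S3

variable {A : Subgroup G} {x : G} (h : Hy D) (T : SmT D t ζ C) (l₁ : Ln D P₁ B₁)
  (hJ : Jt B₁ = Jt (Sy t)) (hw : w ∈ Th D t) (hle : B₁ ≤ Sy t)
  (hY : Yz (Th D t) ζ (ζ w) ≤ O2 P₁) (hA : A ∈ Am B₁) (hQ : ¬ A ≤ O2 P₁)
include h T l₁ hJ hw hle hY

theorem W_cent : Wo P₁ ≤ 𝐂 (Yz (Th D t) ζ (ζ w)) := cent_symm (hY.trans (Q_le_cent_W P₁))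

theorem t_mem (ht : t ∈ D) : t ∈ B₁ ∧ t ∈ 𝐂 B₁ :=
  l₁.D_cent h ht (le_c_iff.1 (((thompsonSubgroupOf_le _).trans hle).trans (Sy_le t)))

include hA hQ

theorem sup_eq : (A ⊓ 𝐂 (Yz (Th D t) ζ (ζ w))) ⊔ O2 P₁ = B₁ := by
  have a : _ ∈ Am B₁ := Am_eq hJ ▸ (T.th.am hw (Am_eq hJ ▸ hA)).2.1
  have wQ := zpowers_le.2 (hY (mem_Y hw rfl))
  rw [← (l₁.off a fun e => hQ ((le_inf hA.1 (cent_symm fun u hu => ?_)).trans
    l₁.B_inf_cent_W.le)).1, sup_assoc, sup_eq_right.2 wQ]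
  obtain ⟨b, hb, y, hy, rfl⟩ := (mem_sup_of_normalizes_left (cent_le_norm (cent_symm
    (inf_le_right.trans (cle (zpowers_le.2 (mem_Y hw rfl))))))).1 (l₁.Y_le_of_am a e (W_le_Y _ hu))
  rcases zp (sq_of (T.th.two w hw)) hy with rfl | rfl
  · exact MSS.elemAb_le_centralizer hA.2.1 (mul_mem (mem_inf.1 hb).1 (one_mem _))
  · exact absurd ((mul_mem_cancel_left (mem_inf.1 hb).2).1 (W_cent h T l₁ hJ hw hle hY hu))
      (w_not T.th hw)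

theorem W_le_C : Wo P₁ ≤ C w := fun u hu => by
  obtain ⟨P, P', B, m⟩ := sm_of hw
  have τ := T.th
  have z2 := τ.ztwo w hw
  have zc := mem_centralizer_iff.1 (z_cent h T l₁ hJ hw)
  have cw := fun s (hs : s ∈ Wo P₁) => τ.cent_X hw (hle (l₁.W_le hs)) (W_cent h T l₁ hJ hw hle hY hs)
  have Z1 : Zo P₁ B₁ ≤ C w := by
    rw [← l₁.comm_of_sup (sup_eq h T l₁ hJ hw hle hY hA hQ)]
    refine commutator_le.2 fun x hx y hy => ?_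
    have y1 := hA.1 (mem_inf.1 hy).1
    have e1 : ∀ x ∈ B₁, ∀ y ∈ B₁, ⁅ζ w * x, y⁆ = ⁅x, y⁆ := fun x hx y hy => by
      rw [commutatorElement_def, ← zc x hx, mul_assoc x, ← zc y hy, commutatorElement_def]; group
    have e2 : ∀ x ∈ B₁, ∀ y ∈ B₁, ⁅x, ζ w * y⁆ = ⁅x, y⁆ := fun x hx y hy => by
      rw [← commutatorElement_inv, e1 y hy x hx, commutatorElement_inv]
    have c : ∀ x ∈ C w, ∀ y ∈ C w, ⁅x, y⁆ ∈ C w := fun x hx y hy =>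
      mul_mem (mul_mem (mul_mem hx hy) (inv_mem hx)) (inv_mem hy)
    have zB := Y_le_B h T l₁ hJ hw (z_mem τ hw)
    rcases cw x hx with a | a <;> rcases τ.cent_X hw (hle y1) (mem_inf.1 hy).2 with b | b <;>
      simpa only [e1 _ (l₁.W_le hx) _ y1, e2 _ (l₁.W_le hx) _ y1, e1 _ (l₁.W_le hx) _ (mul_mem zB y1)]
        using c _ a _ b
  by_contra n
  obtain ⟨t1, t2⟩ := t_mem h T l₁ hJ hw hle hY m.mem
  obtain ⟨e, -, d, hd, he⟩ := l₁.cover (l₁.mem_Y (h.sq m.mem) t1 t2) t2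
    (l₁.D_not_cent' h m.mem t2) hu fun e => n (Z1 e)
  have CK : C w ≤ 𝐂 (Ko P P') := (T.eq _ _ _ _ m).2.le.trans inf_le_right
  have : t * u * d ∈ 𝐂 (Ko P P') := by
    have := mul_mem (mul_mem (cle m.toPr.K_le (tz h T m)) (CK ((cw u hu).resolve_left n)))
      (CK (Z1 (l₁.mem_Z_of_cent (mem_inf.1 hd).1 (mem_inf.1 hd).2)))
    rwa [mul_assoc t, ← mul_assoc (ζ w), sq_of z2, one_mul] at this
  obtain ⟨b, hb, hb'⟩ := SetLike.not_le_iff_exists.1 m.toPr.nQ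
  exact m.l.ncl_D h (he ▸ h.conj _ m.mem e) (cle le_sup_left this) (m.r.W_le hb) hb'
    (mem_centralizer_iff.1 this b (mem_sup_right hb))

theorem P_le_c : P₁ ≤ 𝐜 (ζ w) := fun g hg => by
  have zc := z_cent h T l₁ hJ hw
  have := W_le_C h T l₁ hJ hw hle hY hA hQ (l₁.cj_mem_W (l₁.mem_Y (sq_of (T.th.ztwo w hw))
    (Y_le_B h T l₁ hJ hw (z_mem T.th hw)) zc) zc hg)
  exact mem_c.2 (mul_inv_eq_iff_eq_mul.1 ((T.th.z_fix hw (l₁.Q_le.trans hle) (oP_normal P₁ hg) hY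
    (le_c_iff.2 (cle l₁.Q_le zc))).resolve_right fun e => (T.th.disj w hw).2
      (inv_mem_iff.1 ((mul_mem_cancel_right e).1 this))))

theorem E_stab : oU[2] P₁ ≤ stab w (Wo P₁) := by
  have τ := T.th
  have pc := P_le_c h T l₁ hJ hw hle hY hA hQ
  have nY : P₁ ≤ 𝐍 (oz (Jt (O2 P₁))) :=
    ((oP_normal P₁).trans (normalizer_le_normalizer_thompsonSubgroupOf _)).trans (norm_oz _)
  have s := sup_eq h T l₁ hJ hw hle hY hA hQ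
  have k1 : oU[2] P₁ ≤ stab w (oz (Jt (O2 P₁))) := E_le_stab l₁.toLn0 (le_sup_left.trans s.le)
    (fun e => l₁.not_le_Q (s.ge.trans (sup_le e le_rfl))) nY fun g hg a ha => by
    have c : ∀ A' ∈ Am (O2 P₁), ⁅w, g * a * g⁻¹⁆ ∈ A' := fun A' hA' => τ.comm_mem hw
      (l₁.Q_le.trans hle) (oP_normal P₁) pc hY ((oP_le P₁).trans pc) hg
      (mul_mem (mul_mem hg (l₁.B_le (hA.1 (mem_inf.1 ha).1))) (inv_mem hg))
      (cj_centralizer g _ ▸ conj_mem_cj (mem_inf.1 ha).2) (Am_eq hJ ▸ (l₁.am_Q.1 hA').1) hA'.1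
    obtain ⟨A', hA'⟩ := maxElemAbIn_nonempty (p := 2) (O2 P₁)
    have := mem_oz_Jt (hA'.1 (c A' hA')) ((pow_two _).symm.trans (hA'.2.1.2 _ (c A' hA')))
      (le_c_iff.1 (thompsonSubgroupOf_le_iff.2 fun A hA => le_c_iff.2
        (MSS.elemAb_le_centralizer hA.2.1 (c A hA))))
    rw [commutatorElement_def, inv_of (τ.two w hw)] at this
    simpa only [inv_of (τ.two w hw), mul_assoc] using this
  have k2 : ∀ y ∈ oz (Jt (O2 P₁)), oU[2] P₁ ≤ stab y (Wo P₁) := fun y hy =>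
    E_le_stab l₁.toLn0 hA.1 hQ (le_norm_W P₁) fun g hg a ha => by
    have b := (l₁.off hA hQ).2
    have hy' := mem_oz.1 (conj_mem_of_normalizes' nY hg hy)
    have b' := l₁.am_Q.2 ⟨b, sup_le inf_le_right (W_le_Q P₁)⟩
    obtain ⟨c, hc, u, hu, e⟩ := (mem_sup_of_normalizes_right ((inf_le_right.trans (oP_le P₁)).trans
      (le_norm_W P₁))).1 (mem_of_mem_maxElemAbIn b' (thompsonSubgroupOf_le _ hy'.1) hy'.2.2
        (cle (le_thompsonSubgroupOf b') hy'.2.1))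
    have c1 := elemAb_comm hA.2.1 ha (mem_inf.1 hc).1
    rw [show y⁻¹ * (g * a * g⁻¹ * y * (g * a * g⁻¹)⁻¹) =
      g * ((g⁻¹ * y * g)⁻¹ * (a * (g⁻¹ * y * g)) * a⁻¹) * g⁻¹ by group, ← e, ← mul_assoc a, c1,
      show (c * u)⁻¹ * (c * a * u) * a⁻¹ = u⁻¹ * (a * u * a⁻¹) by group]
    exact cjW hg (mul_mem (inv_mem hu) (cjW (l₁.B_le (hA.1 ha)) hu))
  rw [← oU_oU]
  refine oU_le_of_pow fun e he => ⟨1, pow_mem (le_norm_W P₁ (oU_le _ he)) _, ?_⟩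
  have a := (k1 he).2
  have b := (k2 _ a he).2
  have c := (pow_two _).symm.trans (mem_oz.1 a).2.2
  rw [inv_eq_of_mul_eq_one_right c] at b
  convert b using 1
  rw [pow_one, pow_two]; group

theorem cent_L (hx : x ∈ oU[2] P₁) (hn : x ∉ 𝐍 B₁) :
    w ∈ 𝐂 (x •ᶜ (A ⊓ 𝐂 (Yz (Th D t) ζ (ζ w))) : Subgroup G) := by
  obtain ⟨P, P', B, m⟩ := sm_of hw
  have s := sup_eq h T l₁ hJ hw hle hY hA hQ
  have wc : w ∈ 𝐂 (A ⊓ 𝐂 (Yz (Th D t) ζ (ζ w)) : Subgroup G) :=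
    cent_symm inf_le_right (mem_Y hw rfl)
  generalize A ⊓ 𝐂 (Yz (Th D t) ζ (ζ w)) = X at s wc ⊢
  have XB := le_sup_left.trans s.le
  have XP := cj_le_of_mem (XB.trans l₁.B_le) (oU_le _ hx)
  have e := E_stab h T l₁ hJ hw hle hY hA hQ hx
  obtain ⟨u, hu, k⟩ := l₁.split (I := Wo P₁ ⊔ zpowers w) XB (oU_le _ hx) hn le_sup_left
    (mem_normalizer_of_cj_le (by
      rw [cj_sup, cj_eq_of_mem_normalizer e.1, cj_zpowers]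
      exact sup_le le_sup_left (zpowers_le.2 ((mul_mem_cancel_left (inv_mem (mem_sup_right
        (mem_zpowers w)))).1 (mem_sup_left e.2)))))
    (fun i hi => by
      obtain ⟨u, hu, y, hy, rfl⟩ := (mem_sup_of_normalizes_left (zpowers_le.2
        (le_norm_W P₁ (oP_le P₁ (hY (mem_Y hw rfl)))))).1 hi
      exact ⟨u, hu, by rw [inv_mul_cancel_left]; exact zpowers_le.2 wc hy⟩)
    (mem_sup_right (mem_zpowers w))
  obtain ⟨k1, k2⟩ := mem_inf.1 k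
  by_cases c : u ∈ 𝐂 P₁
  · exact (mul_mem_cancel_left (inv_mem (cle XP c))).1 k2
  have uc := l₁.Z_le_cent ((l₁.W_inf_cent XB fun e => l₁.not_le_Q (s.ge.trans (sup_le e le_rfl))).le
    (mem_inf.2 ⟨hu, inv_mem_iff.1 ((mul_mem_cancel_right wc).1 k1)⟩))
  obtain ⟨t1, t2⟩ := t_mem h T l₁ hJ hw hle hY m.mem
  obtain ⟨k, -, hk, -, f⟩ := l₁.torus (l₁.mem_Y (h.sq m.mem) t1 t2) t2 (l₁.D_not_cent' h m.mem t2)
    (W_le_Y _ hu) uc c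
  have ht' := h.conj t m.mem k
  have m' : Sm D (k * t * k⁻¹) w P P' B := ⟨m.toAt.of_cent h ht' (hJ ▸ cle (thompsonSubgroupOf_le B₁)
    (conj_mem_of_normalizes (CL.MSS.le_normalizer_centralizer le_rfl) hk t2)), m.q, m.memW, m.nZ⟩
  rw [h.inv ht'] at f
  refine (l₁.ncl_D' h (m'.mul_mem h) s (oU_le _ hx) hn ?_ ?_).elim
  · simpa only [mul_assoc, mul_inv_cancel_left] using mul_mem (cle (XB.trans l₁.B_le) f) k1
  · simpa only [mul_assoc, mul_inv_cancel_left] using mul_mem (cle XP f) k2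

theorem E_cent : oU[2] P₁ ≤ 𝐂 (Yz (Th D t) ζ (ζ w)) := by
  obtain ⟨x, hx, hn⟩ := l₁.exists_x
  have s := sup_eq h T l₁ hJ hw hle hY hA hQ
  obtain ⟨b, hb, hb'⟩ := SetLike.not_le_iff_exists.1
    (fun e => l₁.not_le_Q (s.ge.trans (sup_le e le_rfl)) : ¬ A ⊓ 𝐂 (Yz (Th D t) ζ (ζ w)) ≤ O2 P₁)
  refine l₁.E_le_cent ((oU_le _).trans ((l₁.gen_of_sup s (oU_le _ hx) hn).ge.trans (sup_le (sup_le
    (cent_le_norm inf_le_right) (cent_le_norm (cent_symm ((closure_le _).2 fun y hy => ?_))))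
    fun q hq => T.th.norm_Y hw (hle (l₁.Q_le hq)) (mem_c.1
      (P_le_c h T l₁ hJ hw hle hY hA hQ (oP_le _ hq)))))) (hA.1 (mem_inf.1 hb).1) hb' (mem_inf.1 hb).2
  exact hy.2 ▸ cent_L h T l₁ hJ hy.1 hle (hy.2 ▸ hY) hA hQ hx hn

end S3

/-- Take `A ∈ 𝒜(B₁) = 𝒜(S)`, `A ≰ Q₁`, `A₂ = C_A(Y)`, `A' = A₂ ⟨w⟩ ∈ 𝒜(S)`.  If `A' ≤ Q₁` then
`W₁ ≤ A' ⊓ C(Y) = A₂ ≤ A`, so `A ≤ C(W₁)`, false.  So `A' Q₁ = B₁` (`off`) and `A₂ Q₁ = B₁`.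
B. `W₁, A₂ ≤ C_S(Y) ≤ ⟨z⟩ C w`, so `Z₁ = [W₁, A₂] ≤ C w`.  If `u = z c ∈ W₁`, `c ∈ C w`, then `u ∉ Z₁`,
`cover` gives `t u d ∈ D`, `d ∈ Z₁`, and `t u d = (t z) c d` centralizes `K`, against `ncl_D`
(`t ∈ Z(B₁)` by `D_cent`).  So `W₁ ≤ C w`; this holds for all `w ∈ Θ_z`.
C. For `g ∈ E₁`, `g z g⁻¹ ∈ z W₁` is not in `C w`, so `g z g⁻¹ = z` (`z_fix`, `Q = Q₁`): `P₁ ≤ C(z)`.
D. `Y₀ = Ω₁ Z J(Q₁)` is normal in `P₁`.  By `comm_mem` (and `mem_oz_Jt`) the normal subgroup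
`{x ∈ P₁ | [g w g⁻¹, x] ∈ Y₀ for all g ∈ P₁}` contains `A₂`, so it contains `E₁` (`E_le`).
`Y₀ ≤ (A ⊓ Q₁) W₁`, so `[Y₀, A] ≤ W₁` and `[Y₀, E₁] ≤ W₁` (`E_le`).  `E₁ = O²(E₁)` stabilizes the
series `W₁ ≤ Y₀ ≤ ⟨w⟩ Y₀`, so `[w, E₁] ≤ W₁`.
E. `split` (`I = ⟨w⟩ W₁`, `X = A₂`, `x ∈ E₁ \ N(B₁)`): `w = u d`, `d ∈ C(L)`, `L = ⟨A₂, x A₂ x⁻¹⟩`,
`u ∈ Z₁`.  If `u ∉ C(P₁)`, `torus` gives `t₁ ∈ D ∩ Z(B₁)` with `t₁ u ∈ C(P₁)`; `t₁ w ∈ D`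
(`At.of_cent`, `Sm.mul_mem`) centralizes `L`, against `ncl_D'`.  So `Y ≤ C(L)` (all `w ∈ Θ_z`),
`P₁ = L Q₁` normalizes `Y`, and `E₁ ≤ C(Y)` (`E_le_cent`).
F. `W W' ≤ Y`; `Sm.cc` for the elements of odd order of `E₁`. -/
theorem Sm.third (h : Hy D) (m : Sm D t w P P' B) (l₁ : Ln D P₁ B₁) (hJ : Jt B₁ = Jt (Sy t))
    (hle : B₁ ≤ Sy t) (hx : qo P₁ B₁ ≠ 2 ∨ Un D P₁ B₁) : oU[2] P₁ ≤ 𝐂 (oU[2] P) := by
  obtain ⟨ζ, C, T⟩ := exists_smT h m.mem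
  have hw := m.mem_Th h
  have hY := T.Y_le_Q h hw l₁ hJ hle hx
  obtain ⟨A, hA, hQ⟩ := l₁.exists_off
  have k := E_cent h T l₁ hJ hw hle hY hA hQ
  obtain ⟨t1, t2⟩ := t_mem h T l₁ hJ hw hle hY m.mem
  rw [← oU_oU]
  exact oU_le_iff.2 fun e he ho => m.cc h (Nat.coprime_two_right.1 ho) (cle (S3.W_le h T m) (k he))
    (cle (S3.W'_le h T m) (k he)) ((W_le_C h T l₁ hJ hw hle hY hA hQ).trans (T.eq _ _ _ _ m).2.le)
    (le_norm_W P₁ (oU_le _ he)) (l₁.comm_mem_W (l₁.mem_Y (h.sq m.mem) t1 t2) he)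

end CL.B2
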