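import Cfsg.Agent.INV.B2.Pair

/-!
# Small pairs, first part

Notation as in `Pair`; `S = Sy t`, `q = 2`, `Z = ⟨z⟩`, `W = {1, z, w, w z}`, `C₀ = S ⊓ C(K)`,
`t = z r` with `r ∈ C(P) ⊓ C(P')` (`D_dec`, `D_not_cent`).
-/

set_option autoImplicit false
set_option linter.unusedSectionVars false
open Cfsg Subgroup CL.Th CL.MSS CL.Push CL.BHS
open scoped commutatorElement MatrixGroups

namespace CL.B2
variable {G : Type*} [Group G] [Finite G] {D : Set G} {a e s t v w y z : G}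
  {B B₁ P P' P₁ P₁' W₁ X : Subgroup G}

theorem mem_of_odd (he : Odd (orderOf e)) {k : ℕ} (h : e ^ 2 ^ k ∈ X) : e ∈ X :=
  oU_mem_of_pow_mem ((Nat.coprime_two_right.2 he).pow_right k) h

theorem Ln.Jt_cent (h : Hy D) (l : Ln D P B) (hw : w ∈ D) (hB : w ∈ B) (hc : w ∈ 𝐂 B) :
    Jt (Sy w ⊓ 𝐂 (Wo P)) = Jt (O2 P) := by
  have k := (l.T_le h hw hB hc).1
  have QS : O2 P ≤ Sy w ⊓ 𝐂 (Wo P) :=
    le_inf (l.Q_le.trans (h.le_Sy hw l.pg (le_c_iff.2 hc))) (Q_le_cent_W P)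
  obtain ⟨A, h1, h2⟩ := l.exists_off
  refine (thompsonSubgroupOf_eq_of_le ((le_inf ?_ ((thompsonSubgroupOf_le _).trans
    inf_le_right)).trans l.B_inf_cent_W.le) QS).symm
  exact (thompsonSubgroupOf_mono_of_mem ((Am_eq k).ge (l.off h1 h2).2)
    ((sup_le inf_le_right (W_le_Q P)).trans QS)
    (inf_le_inf_left _ (centralizer_le_normalizer _))).trans (k.le.trans (thompsonSubgroupOf_le B))

/-- the `S₄` of a small line -/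
structure Fr (D : Set G) (t w : G) (P P' B : Subgroup G) (z a e : G) : Prop where
  two : orderOf z = 2
  Z : Zo P B = zpowers z
  pa : Sm D t a P' P B
  mem : e ∈ oU[2] P
  odd : Odd (orderOf e)
  inv : a * e * a⁻¹ = e⁻¹
  ez : e * z * e⁻¹ = w
  ew : e * w * e⁻¹ = w * z
  nB : e ∉ 𝐍 B

namespace Sm
variable (h : Hy D) (m : Sm D t w P P' B)
include h m

theorem cj (g : G) : Sm D (g * t * g⁻¹) (g * w * g⁻¹) (g •ᶜ P) (g •ᶜ P') (g •ᶜ B) :=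
  ⟨m.toAt.cj h g, (qo_cj g P B).trans m.q, cj_Wo g P ▸ conj_mem_cj m.memW,
    fun e => m.nZ (conj_mem_cj_iff.1 ((cj_Zo g P B).ge e))⟩
theorem two : orderOf w = 2 :=
  orderOf_eq_prime ((pow_two w).trans (LB.Ysq (WY P m.memW))) fun e => m.nZ (e ▸ one_mem _)
theorem mem_Th : w ∈ Th D t := ⟨P, P', B, m.toAt, m.q, m.memW, m.nZ⟩
theorem exists_partner : ∃ a, Sm D t a P' P B :=
  let ⟨a, h1, h2⟩ := SetLike.not_le_iff_exists.1 m.r.W_not_le_Z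
  ⟨a, m.toAt.symm, m.toPr.q_eq.symm.trans m.q, h1, h2⟩

omit h in
theorem tc : t ∈ 𝐂 B := m.toAt.cent
theorem tY : t ∈ Yo P := m.l.mem_Y (h.sq m.mem) m.memB m.tc
omit h in
theorem W_le : Wo P ≤ Sy t := m.l.W_le.trans m.le
omit h in
theorem nQ (n : Sm D t a P' P B) : a ∉ O2 P := fun e =>
  n.nZ (m.toPr.Z_eq'.ge (m.toPr.W'_inf.le ⟨n.memW, e⟩))
omit h in
theorem eq_one (h1 : y ∈ Wo P) (h2 : y ∈ 𝐂 (oU[2] P)) : y = 1 := (m.l.two_D m.q).le ⟨h1, h2⟩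

theorem frame : ∃ z a e, Fr D t w P P' B z a e := by
  obtain ⟨z, z1, z2⟩ := m.l.two_Z m.q
  obtain ⟨a, n⟩ := m.exists_partner h
  obtain ⟨e, e1, e2, e3, e4, e5, -⟩ := m.l.two_e m.q z2 m.memW m.nZ (m.r.W_le n.memW) (m.nQ n)
    (LB.Ysq (WY P' n.memW))
  exact ⟨z, a, e, z1, z2, n, e1, e2, e3, e4, e5, fun c => m.nZ (e4 ▸ (mem_normalizer_iff.1
    (norm_Zo P B ⟨le_normalizer (oU_le P e1), c⟩) z).1 (z2.ge (mem_zpowers z)))⟩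

omit h in
theorem W_le_of (hz : Zo P B = zpowers z) (h1 : z ∈ X) (h2 : w ∈ X) : Wo P ≤ X := fun y hy => by
  rcases m.l.two_W m.q hz m.memW m.nZ hy with rfl | rfl | rfl | rfl
  exacts [one_mem _, h1, h2, X.mul_mem h2 h1]

theorem W_le_of_norm (hn : oU[2] P ≤ 𝐍 X) (h1 : y ∈ Wo P) (h2 : y ∈ X) (h3 : y ≠ 1) :
    Wo P ≤ X := by
  obtain ⟨z, a, e, f⟩ := m.frame h
  have k := fun {y : G} => (mem_normalizer_iff.1 (hn f.mem) y)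
  have k1 : w ∈ X → Wo P ≤ X := fun c =>
    m.W_le_of f.Z ((mul_mem_cancel_left c).1 (f.ew ▸ k.1 c)) c
  rcases m.l.two_W m.q f.Z m.memW m.nZ h1 with rfl | rfl | rfl | rfl
  exacts [absurd rfl h3, k1 (f.ez ▸ k.1 h2), k1 h2, k1 (k.2 (f.ew ▸ h2))]

omit h in
theorem not_pow (f : Fr D t w P P' B z a e) {k : ℕ} : e ^ 2 ^ k ∉ 𝐂 (Wo P) := fun c => by
  have zZ := f.Z.ge (mem_zpowers z)
  refine m.nZ ?_
  rwa [← f.ez, ← mem_of_odd f.odd c z (m.l.Z_le zZ), mul_inv_cancel_right]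

/-- `cover`, `two_D`. -/
theorem mul_mem : t * w ∈ D := by
  obtain ⟨e, -, d, hd, k⟩ := m.l.cover (m.tY h) m.tc (m.l.D_not_cent' h m.mem m.tc) m.memW m.nZ
  have := h.conj t m.mem e
  rwa [k, m.eq_one hd.1 (centralizer_anti (oU_le P) hd.2), mul_one] at this

/-- `E / W` is a central extension of a group of order 3 by a 2-group (`comm_Q`), so it is abelian,
and `E = O²(E)`. -/
theorem E_inf_Q : oU[2] P ⊓ O2 P = Wo P := by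
  obtain ⟨z, a, e, f⟩ := m.frame h
  have eP := oU_le P f.mem
  have zW := m.l.Z_le (f.Z.ge (mem_zpowers z))
  have aP := m.l.B_le (m.r.W_le f.pa.memW)
  have W' : Wo P' ≤ Wo P ⊔ zpowers e ⊔ zpowers a := f.pa.W_le_of (m.toPr.Z_eq'.trans f.Z)
    (mem_sup_left (mem_sup_left zW)) (mem_sup_right (mem_zpowers a))
  have EL : oU[2] P ≤ Wo P ⊔ zpowers e := by
    rw [← oU_eq_of_le (E_le_K P P') m.toPr.K_le]
    refine oU_le_of_le_sup (P := zpowers a) (isPGroup_zpowers (k := 1) ((pow_two a).trans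
      (LB.Ysq (WY P' f.pa.memW)))) (MSS.le_normalizer_sup (zpowers_le.2 (P_norm_W P aP))
      (zpowers_le.2 (mem_normalizer_iff_cj.2 (by rw [cj_zpowers, f.inv, zpowers_inv])))) ?_
    rw [← m.toPr.K_eq f.mem f.nB]
    exact sup_le W' (cj_le_of_mem W' (mem_sup_left (mem_sup_right (mem_zpowers e))))
  refine le_antisymm (fun x hx => ?_) (le_inf (W_le_E P) (W_le_Q P))
  obtain ⟨u, hu, y, hy, rfl⟩ :=
    (mem_sup_of_normalizes_left (zpowers_le.2 (P_norm_W P eP))).1 (EL hx.1)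
  obtain ⟨k, hk⟩ := isPGroup_iff_forall_mem.1 (oP_isPGroup (p := 2) P) y
    ((mul_mem_cancel_left (W_le_Q P hu)).1 hx.2)
  exact (Wo P).mul_mem hu (mem_of_odd (f.odd.of_dvd_nat (orderOf_dvd_of_mem_zpowers hy))
    (hk ▸ one_mem _))

/-- `S₀ = C_S(w) ≥ Q₁ = C_S(W) ≥ Q`.  `Q₁ ≤ T = S ⊓ N(W)`, `𝒜(T) = 𝒜(B)` (`T_le`), so `J(Q₁) = J(Q)`.
`N_{S₀}(Q₁) ≤ N(J(Q)) ≤ N(P) ≤ N(W)` lies in `T ≤ N(Z)`, so it centralizes `z`, `w`: it is `Q₁`.  So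
`S₀ = Q₁`. -/
theorem cent (hs : s ∈ Sy t) (hc : s * w = w * s) : s ∈ 𝐂 (Wo P) := by
  obtain ⟨z, z1, z2⟩ := m.l.two_Z m.q
  have zz : z * z = 1 := by rw [← pow_two, ← z1, pow_orderOf_eq_one]
  by_contra hn
  refine (MSS.lt_inf_normalizer_of_lt (P := Sy t ⊓ 𝐂 (Wo P)) (Q := Sy t ⊓ 𝐜 w) (Sy_pg t).to_inf_left
    (lt_of_le_of_ne (inf_le_inf_left _ fun x hx => mem_c.2 (hx w m.memW).symm)
      fun e => hn (e.ge ⟨hs, mem_c.2 hc⟩).2)).not_ge fun x hx => ⟨hx.1.1, ?_⟩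
  have k1 : x ∈ 𝐍 P := norm_JQ h m.l (m.l.Jt_cent h m.mem m.memB m.tc ▸
    normalizer_le_normalizer_thompsonSubgroupOf _ hx.2)
  have k2 := (mem_normalizer_iff.1 (norm_Zo P B ((m.l.T_le h m.mem m.memB m.tc).2.2
    ⟨hx.1.1, norm_Wo P k1⟩)) z).1 (z2.ge (mem_zpowers z))
  refine le_c_iff.1 (m.W_le_of z2 (mem_c.2 ?_) (mem_c.2 (mem_c.1 hx.1.2).symm))
  rcases LB.zp zz (z2.le k2) with c | c
  · rw [conj_eq_one_iff] at c
    simp [c] at z1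
  · exact (mul_inv_eq_iff_eq_mul.1 c).symm

theorem inf_cent : Sy t ⊓ 𝐂 (Wo P) = Sy t ⊓ 𝐜 w :=
  le_antisymm (inf_le_inf_left _ fun x hx => mem_c.2 (hx w m.memW).symm)
    fun x hx => ⟨hx.1, m.cent h hx.1 (mem_c.1 hx.2)⟩

theorem B_eq (m₁ : Sm D t v P₁ P₁' B₁) (e : Wo P₁ = Wo P) : B₁ = B := by
  rw [← (m.l.T_le h m.mem m.memB m.tc).2.1, ← (m₁.l.T_le h m.mem m₁.memB m₁.tc).2.1, e]

theorem le_norm (m₁ : Sm D t w P₁ P₁' B₁) : P₁ ≤ 𝐍 (Jt (O2 P)) := by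
  rw [← m.l.Jt_cent h m.mem m.memB m.tc, m.inf_cent h, ← m₁.inf_cent h,
    m₁.l.Jt_cent h m.mem m₁.memB m₁.tc]
  exact (oP_normal P₁).trans (normalizer_le_normalizer_thompsonSubgroupOf _)

/-- `C_S(W) = C_S(w) = C_S(W₁)`, so `J(Q) = J(Q₁)` and `P ≤ N(P₁) ≤ N(W₁)`.  `W ⊓ W₁ ∋ w` is
normalized by `E`, so `W ≤ W₁` (`two_e`), `W = W₁`, `B = B(S ⊓ N(W)) = B₁` (`T_le`); `uniq`,
`nc_eq`. -/
theorem uniq (m₁ : Sm D t w P₁ P₁' B₁) : P₁ = P ∧ P₁' = P' ∧ B₁ = B := by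
  have w1 : w ≠ 1 := fun e => m.nZ (e ▸ one_mem _)
  have hW : Wo P₁ = Wo P := le_antisymm
    (m₁.W_le_of_norm h ((oU_le P₁).trans ((m.le_norm h m₁).trans ((norm_JQ h m.l).trans (norm_Wo P))))
      m₁.memW m.memW w1)
    (m.W_le_of_norm h ((oU_le P).trans ((m₁.le_norm h m).trans ((norm_JQ h m₁.l).trans (norm_Wo P₁))))
      m.memW m₁.memW w1)
  obtain rfl := m.B_eq h m₁ hW
  exact ⟨B2.uniq h m.l m₁.l.toLn0 (m.le_norm h m₁), (m.toPr.nc_eq h m₁.r rfl (hW ▸ m₁.nc)).1, rfl⟩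

/-- `CC`.  `V₁ = ⟨t⟩ W W₁ = W V₂`, `V₂ = ⟨r⟩ W₁`.  `e` centralizes `W` and normalizes `V₂`; `K`
normalizes `W` and centralizes `V₂`; so `[e, K] ≤ C(V₁)`, and `e`, `K` normalize
`O₁ = S ⊓ C(V₁) = O₂(C(V₁)) ≤ W C₀` (`cent_dec`).  `K = ⟨W', x W' x⁻¹⟩` (`K_eq`).  For
`a' ∈ x W' x⁻¹`: `a'` and `e a' e⁻¹ = c₀ a'` (`c₀ ∈ C(V₁)`) centralize `t' = x t x⁻¹ ∈ V₁`, so they
lie in `Sy t'`, and `c₀ ∈ O₁`.  So `e` normalizes `K O₁ = K (O₁ ⊓ C₀)` and `O²` of it, which is `E`.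
For `x₀ ∈ E`: `[e, x₀] ∈ E ⊓ C(W) = W`, so `e²` and `e` centralize `x₀`. -/
theorem cc (he : Odd (orderOf e)) (h1 : e ∈ 𝐂 (Wo P)) (h2 : e ∈ 𝐂 (Wo P'))
    (hW : W₁ ≤ Sy t ⊓ 𝐂 (Ko P P')) (hn : e ∈ 𝐍 W₁) (ht : ⁅t, e⁆ ∈ W₁) : e ∈ 𝐂 (oU[2] P) := by
  have p := m.toPr
  obtain ⟨z, z1, z2⟩ := p.D_dec h m.mem m.memB m.tc
  obtain ⟨x, x1, x2⟩ := m.l.exists_x
  have zW := m.l.Z_le z1
  have xP := oU_le P x1
  obtain ⟨V₂, hV₂⟩ : ∃ V₂, V₂ = zpowers (z⁻¹ * t) ⊔ W₁ := ⟨_, rfl⟩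
  have rV : z⁻¹ * t ∈ V₂ := hV₂ ▸ mem_sup_left (mem_zpowers _)
  have WV : W₁ ≤ V₂ := hV₂ ▸ le_sup_right
  have et : e * t * e⁻¹ = ⁅t, e⁆⁻¹ * t := by simp only [commutatorElement_def]; group
  have n2 : e ∈ 𝐍 V₂ := by
    refine mem_normalizer_of_cj_le ?_
    conv_lhs => rw [hV₂, cj_sup, cj_zpowers, cj_eq_of_mem_normalizer hn]
    refine sup_le (zpowers_le.2 ?_) WV
    rw [← mul_assoc, ← h1 _ (inv_mem zW), mul_assoc, mul_assoc, ← mul_assoc e, et, ← mul_assoc,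
      (Subgroup.inv_mem _ (hW ht).2) _ (p.W_le_K (inv_mem zW)), mul_assoc]
    exact V₂.mul_mem (inv_mem (WV ht)) rV
  have c2 : Ko P P' ≤ 𝐂 V₂ := cent_symm (hV₂ ▸ sup_le (zpowers_le.2 (centralizer_anti p.K_le z2.1))
    (hW.trans inf_le_right))
  have tV : t ∈ Wo P ⊔ V₂ := by
    simpa using (Wo P ⊔ V₂).mul_mem (mem_sup_left zW) (mem_sup_right rV)
  have nO : e ∈ 𝐍 (Sy t ⊓ 𝐂 (Wo P ⊔ V₂ : Subgroup G) : Subgroup G) :=
    h.norm_Sy_inf m.mem (MSS.le_normalizer_sup (zpowers_le.2 (centralizer_le_normalizer _ h1))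
      (zpowers_le.2 n2) (mem_zpowers e)) (by
        rw [et]
        exact Subgroup.mul_mem _ (inv_mem tV) (Subgroup.mul_mem _ (inv_mem (mem_sup_right (WV ht))) tV))
  have nK : e ∈ 𝐍 (Ko P P' ⊔ (Sy t ⊓ 𝐂 (Wo P ⊔ V₂ : Subgroup G)) : Subgroup G) := by
    refine mem_normalizer_of_cj_le ?_
    rw [cj_sup, cj_eq_of_mem_normalizer nO]
    refine sup_le ?_ le_sup_right
    conv_lhs => rw [← p.K_eq x1 x2, cj_sup, cj_eq_of_mem_centralizer h2]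
    refine sup_le (le_sup_of_le_left (W'_le_K P P')) (cj_le_iff_forall.2 fun g hg => ?_)
    have gK : g ∈ Ko P P' := (p.K_eq x1 x2).le (mem_sup_right hg)
    have c0 : ⁅e, g⁆ ∈ 𝐂 (Wo P ⊔ V₂ : Subgroup G) := by
      rw [centralizer_sup_eq]
      refine ⟨comm_mem (MSS.le_normalizer_centralizer (P_norm_W P)) h1 (p.K_le gK), ?_⟩
      rw [← commutatorElement_inv]
      exact Subgroup.inv_mem _ (comm_mem (MSS.le_normalizer_centralizer (zpowers_le.2 n2)) (c2 gK) (mem_zpowers e))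
    have eg : e * g * e⁻¹ = ⁅e, g⁆ * g := by simp only [commutatorElement_def]; group
    have tD := h.conj t m.mem x
    have t' : x * t * x⁻¹ ∈ Wo P ⊔ V₂ := (mul_mem_cancel_left (inv_mem tV)).1
      (mem_sup_left (m.l.cj_mem_W (m.tY h) m.tc xP))
    have g1 : g ∈ Sy (x * t * x⁻¹) := by
      rw [Sy_cj]; exact cj_mono x (m.r.W_le.trans m.le) hg
    obtain ⟨k, hk⟩ := Hy.pow g1
    have g2 : e * g * e⁻¹ ∈ Sy (x * t * x⁻¹) := h.mem_Sy tD (k := k)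
      (by rw [conj_pow, hk, mul_one, mul_inv_cancel]) (by
        rw [eg, mul_assoc, mem_c.1 (Sy_le _ g1), ← mul_assoc, ← c0 _ t', mul_assoc])
    obtain ⟨n, hn'⟩ := Hy.pow ((Sy _).mul_mem g2 (inv_mem g1))
    rw [eg]
    exact Subgroup.mul_mem _ (mem_sup_right ⟨h.mem_Sy m.mem hn' (c0 t tV).symm, c0⟩) (mem_sup_left gK)
  have nE : e ∈ 𝐍 (oU[2] P) := by
    rw [← oU_eq_of_le (E_le_K P P') p.K_le, ← oU_sup_of_isPGroup (P := Sy t ⊓ 𝐂 (Wo P ⊔ V₂ : Subgroup G))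
      (Sy_pg t).to_inf_left fun y hy => ?_]
    · exact normalizer_le_normalizer_oU _ nK
    · obtain ⟨u, u1, u2⟩ := p.cent_dec h m.mem m.memB m.tc hy.1 (centralizer_anti le_sup_left hy.2)
      rw [← mul_inv_cancel_left u y]
      exact Subgroup.mul_mem _ (le_normalizer (p.W_le_K u1)) (centralizer_le_normalizer _ u2)
  refine mem_centralizer_of_two_step (p := 2) (m.l.pg.to_le m.l.W_le) (Nat.coprime_two_right.2 he)
    (fun r hr => ?_) h1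
  have k := comm_mem (zpowers_le.2 nE) hr (mem_zpowers e)
  refine (m.E_inf_Q h).le ⟨k, m.l.inf_cent_W.le ⟨oU_le P k, ?_⟩⟩
  rw [← commutatorElement_inv]
  exact Subgroup.inv_mem _ (comm_mem (MSS.le_normalizer_centralizer (P_norm_W P)) h1 (oU_le P hr))

end Sm

end CL.B2
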