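import Cfsg.Agent.INV.B2.SmA

/-!
# Small pairs, second part
-/

set_option autoImplicit false
set_option linter.unusedSectionVars false
open Cfsg Subgroup CL.Th CL.MSS CL.Push CL.BHS
open scoped commutatorElement MatrixGroups

namespace CL.B2
variable {G : Type*} [Group G] [Finite G] {D : Set G} {a e s t v w w₀ y z : G}
  {B B₁ H P P' P₁ P₁' R V W₁ X : Subgroup G} {𝓛 : Set (Subgroup G)}

namespace Sm
variable (h : Hy D) (m : Sm D t w P P' B)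
include h m

theorem off (f : Fr D t w P P' B z a e) (KH : Ko P P' ≤ H) (WV : Wo P ≤ V)
    (hV : ∀ y ∈ V, ∃ u ∈ Wo P, u⁻¹ * y ∈ 𝐂 (Ko P P')) : Off H V (zpowers a) := by
  have aK := W'_le_K P P' f.pa.memW
  have aa := LB.Ysq (WY P' f.pa.memW)
  have aB := m.r.W_le f.pa.memW
  have na : a ∉ 𝐂 V := fun c => m.nQ f.pa (m.l.B_inf_cent_W.le ⟨aB, centralizer_anti WV c⟩)
  refine ⟨zpowers_le.2 (KH aK), (commutator_eq_bot_iff_le_centralizer.2 (le_centralizer _)).le.trans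
    bot_le, fun b hb => ?_, ?_⟩
  · rcases LB.zp aa hb with rfl | rfl
    · simp
    · rw [pow_two, aa]; exact one_mem _
  have k0 : zpowers a ⊓ 𝐂 V = ⊥ := le_bot_iff.1 fun b hb =>
    (LB.zp aa hb.1).resolve_right fun c => na (c ▸ hb.2)
  have kZ : ∀ y ∈ V, ∀ u ∈ Wo P, u⁻¹ * y ∈ 𝐂 (Ko P P') → (y ∈ 𝐂 (zpowers a) ↔ u ∈ Zo P B) :=
    fun y _ u hu c => by
      have c' := centralizer_anti (zpowers_le.2 aK) c
      rw [← m.l.W_inf_cent (zpowers_le.2 aB) fun c => m.nQ f.pa (c (mem_zpowers a)), mem_inf,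
        and_iff_right hu, ← mul_inv_cancel_left u y, mul_mem_cancel_right c']
  have k1 : (𝐂 (zpowers a)).relIndex V = 2 := relIndex_eq_two_iff.2 ⟨w, WV m.memW, fun y hy => by
    obtain ⟨u, u1, u2⟩ := hV y hy
    have zZ := f.Z.ge (mem_zpowers z)
    have ww := LB.Ysq (WY P m.memW)
    rw [kZ y hy u u1 u2, kZ _ (V.mul_mem hy (WV m.memW)) (u * w) ((Wo P).mul_mem u1 m.memW) (by
      rwa [mul_inv_rev, mul_assoc, ← mul_assoc u⁻¹, ← u2 w (m.toPr.W_le_K m.memW),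
        inv_mul_cancel_left])]
    rcases m.l.two_W m.q f.Z m.memW m.nZ u1 with rfl | rfl | rfl | rfl
    · exact Or.inr ⟨one_mem _, by rw [one_mul]; exact m.nZ⟩
    · exact Or.inr ⟨zZ, fun c => m.nZ ((mul_mem_cancel_left zZ).1 c)⟩
    · exact Or.inl ⟨ww ▸ one_mem _, m.nZ⟩
    · refine Or.inl ⟨?_, fun c => m.nZ ((mul_mem_cancel_right zZ).1 c)⟩
      rwa [LB.Ycomm (WY P m.memW) (WY P (m.l.Z_le zZ)), mul_assoc, ww, mul_one]⟩
  rw [k0, card_bot, mul_one, Nat.card_zpowers, f.pa.two h, ← k1, inf_comm, mul_comm,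
    PN.card_inf_mul_relIndex]

theorem comp (σ : LS H V 𝓛) (KH : Ko P P' ≤ H) (WV : Wo P ≤ V)
    (hV : ∀ y ∈ V, ∃ u ∈ Wo P, u⁻¹ * y ∈ 𝐂 (Ko P P')) :
    ∃ L ∈ 𝓛, Ko P P' ≤ L ∧ ⁅V, L⁆ ≤ Wo P := by
  obtain ⟨z, a, e, f⟩ := m.frame h
  have off := m.off h f KH WV hV
  have aa := LB.Ysq (WY P' f.pa.memW)
  have aB := m.r.W_le f.pa.memW
  have aP := m.l.B_le aB
  have aQ := m.nQ f.pa
  have na : a ∉ 𝐂 V := fun c => aQ (m.l.B_inf_cent_W.le ⟨aB, centralizer_anti WV c⟩)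
  have nP : oU[2] P ≤ 𝐍 P := (oU_le P).trans le_normalizer
  have EK : oU[2] P ≤ (H ⊓ 𝐂 V) ⊔ ⨆ L ∈ 𝓛, L :=
    (m.l.E_le inf_le_left (MSS.le_normalizer_inf nP (((E_le_K P P').trans KH).trans σ.norm_K))
      ⟨aP, ((σ.dec _ off).trans (sup_le_sup_left (iSup₂_mono fun L _ => inf_le_right) _))
        (mem_zpowers a)⟩ aB aQ).trans inf_le_right
  obtain ⟨L, hL, hn⟩ : ∃ L ∈ 𝓛, ¬ zpowers a ⊓ L ≤ 𝐂 V := by
    by_contra! k
    refine na (((σ.dec _ off).trans (sup_le inf_le_right (iSup₂_le fun L hL => ?_))) (mem_zpowers a))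
    rw [cpt_eq (σ.cp L hL) σ.norm off.le]
    exact sup_le (k L hL) inf_le_right
  have cp := σ.cp L hL
  have aL : a ∈ L := by_contra fun c => hn fun b hb => by
    rcases LB.zp aa hb.1 with rfl | rfl
    exacts [one_mem _, absurd hb.2 c]
  have EL : oU[2] P ≤ L := (m.l.E_le inf_le_left (MSS.le_normalizer_inf nP (EK.trans (sup_le
    (cp.ge.trans le_normalizer) (iSup₂_le fun L' hL' => σ.le_norm hL hL')))) ⟨aP, aL⟩ aB aQ).trans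
      inf_le_right
  have KL : Ko P P' ≤ L := sup_le EL (f.pa.W_le_of (m.toPr.Z_eq'.trans f.Z)
    (EL (W_le_E P (m.l.Z_le (f.Z.ge (mem_zpowers z))))) aL)
  obtain ⟨F, _, _, _, r, ψ, U, n, hU, hu⟩ := σ.gm (R := zpowers a) hL
    (isPGroup_zpowers (k := 1) ((pow_two a).trans aa))
  replace hu := hu _ off le_rfl hn
  have aU : a ∈ U := hU ⟨mem_zpowers a, aL⟩
  have hx : r e 1 0 ≠ 0 := fun c => by
    have k := n.sq_mem (U.mul_mem (n.conj_mem (EL f.mem) c aU) (inv_mem aU))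
    rw [show e * a * e⁻¹ * a⁻¹ = e * (a * e * a⁻¹)⁻¹ by group, f.inv, inv_inv, ← pow_two, ← pow_mul] at k
    exact m.not_pow f (k := 2) (centralizer_anti WV k)
  refine ⟨L, hL, KL, commutator_le.2 fun v hv g hg => ?_⟩
  obtain ⟨y, hy, c⟩ := n.onto_sup inf_le_right hu (EL f.mem) hx (r g)
  have AK : zpowers a ⊓ L ≤ Ko P P' := inf_le_left.trans (zpowers_le.2 (W'_le_K P P' f.pa.memW))
  have yK : y ∈ Ko P P' := sup_le AK (cj_le_of_mem AK (E_le_K P P' f.mem)) hy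
  obtain ⟨u, u1, u2⟩ := hV v hv
  rw [← commutatorElement_inv, comm_of_cent ((n.r_eq_iff (KL yK) hg).1 c v hv), commutatorElement_inv,
    comm_of_cent (u2 y yK)]
  exact commW u1 (m.toPr.K_le yK)

theorem W_le_V (c : Loc D H R w₀) (KH : Ko P P' ≤ H)
    (hV : ∀ y ∈ Vo w₀ H, ∃ u ∈ Wo P, u⁻¹ * y ∈ 𝐂 (Ko P P')) : Wo P ≤ Vo w₀ H := by
  obtain ⟨a, n⟩ := m.exists_partner h
  obtain ⟨g, g1, g2⟩ := c.syl.exists_le_conj (R := zpowers a) (isPGroup_zpowers (k := 1)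
    ((pow_two a).trans (LB.Ysq (WY P' n.memW)))) (zpowers_le.2 (KH (W'_le_K P P' n.memW)))
  obtain ⟨c', k⟩ := c.cj h g1
  have sV := k ▸ c'.mem_V h
  obtain ⟨x, x1, x2⟩ : ∃ x ∈ oU[2] P, ⁅g * w₀ * g⁻¹, x⁆ ≠ 1 := by
    by_contra! k
    exact m.l.ncl_D h c'.mem (fun x hx => (commutatorElement_eq_one_iff_mul_comm.1 (k x hx)).symm)
      (m.r.W_le n.memW) (m.nQ n) (mem_c.1 (Sy_le _ (c'.le (g2 (mem_zpowers a)))))
  have EN := ((E_le_K P P').trans KH).trans (c.norm_V h)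
  refine m.W_le_of_norm h EN ?_ (comm_mem EN sV x1) x2
  obtain ⟨u, u1, u2⟩ := hV _ sV
  rw [comm_of_cent (u2 x (E_le_K P P' x1))]
  exact commW u1 (oU_le P x1)

theorem K_norm (h1 : W₁ ≤ Sy t) (h2 : W₁ ≤ 𝐂 (Wo P)) :
    Ko P P' ≤ 𝐍 (zpowers t ⊔ Wo P ⊔ W₁ : Subgroup G) := le_normalizer_of_cj_le fun g hg => by
  have gP := m.toPr.K_le hg
  rw [cj_sup, cj_eq_of_mem_normalizer (m.l.norm_sW (m.tY h) m.tc gP)]
  refine sup_le le_sup_left (cj_le_iff_forall.2 fun y hy => ?_)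
  obtain ⟨u, u1, u2⟩ := m.toPr.cent_dec h m.mem m.memB m.tc (h1 hy) (h2 hy)
  rw [show g * y * g⁻¹ = ⁅y, g⁆⁻¹ * y by simp only [commutatorElement_def]; group,
    comm_of_cent (u2 g hg)]
  exact Subgroup.mul_mem _ (mem_sup_left (mem_sup_right (inv_mem (commW u1 gP)))) (mem_sup_right hy)

theorem W_comm (m₁ : Sm D t v P₁ P₁' B₁) (hc : v * w = w * v) : Wo P ≤ 𝐂 (Wo P₁) := fun y hy =>
  m₁.cent h (m.W_le hy) (m.cent h (m₁.W_le m₁.memW) hc y hy)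

/-- By `cent`, `W₁ ≤ C_S(W) = W C₀` and `W ≤ W₁ C₀₁`.  `U = ⟨t⟩ W W₁` is normalized by `K` and `K₁`.
`H = N(U)`, `a ∈ W' \ Z`, `a ∈ R` Sylow in `H`, `Loc D H R w₀`, `V = Vo w₀ H ≤ S ⊓ C(U) ≤ W C₀`, `𝓛`
from `lt`.  `w₀ ∉ C(E)` (`ncl_D` with `a`), so `W = [V, E] ≤ V`, `|V : C_V(a)| = 2`, and `⟨a⟩` is an
offender.  By `dec` and `cpt_eq`, `a ∈ L` for some `L ∈ 𝓛`; `E ≤ K = ⟨a, x a x⁻¹⟩ W` lies in the
normal subgroup `C_H(V) ⊔ ⨆ 𝓛`, so it normalizes `L`, and `K ≤ L`.  `L = K C_H(V)` and `[V, L] ≤ W`.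
In the same way `K₁ ≤ L₁`, `W₁ ≤ [V, L₁]` (`Loc.cj`).
If `L = L₁` then `W₁ ≤ W`; otherwise `W₁ ≤ C(L)`. -/
theorem u2 (m₁ : Sm D t v P₁ P₁' B₁) (hc : v * w = w * v) :
    Wo P₁ = Wo P ∨ Wo P₁ ≤ 𝐂 (Ko P P') := by
  have c1 := m.W_comm h m₁ hc
  have k := m.K_norm h m₁.W_le (cent_symm c1)
  have k₁ := m₁.K_norm h m.W_le c1
  rw [sup_right_comm] at k₁
  have US : zpowers t ⊔ Wo P ⊔ Wo P₁ ≤ Sy t :=
    sup_le (sup_le (zpowers_le.2 (h.self_mem m.mem)) m.W_le) m₁.W_le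
  generalize hU : zpowers t ⊔ Wo P ⊔ Wo P₁ = U at *
  have tU : t ∈ U := hU ▸ mem_sup_left (mem_sup_left (mem_zpowers t))
  have pU := (Sy_pg t).to_le US
  obtain ⟨R, hR⟩ := exists_sylIn 2 (𝐍 U)
  obtain ⟨w₀, c⟩ := h.exists_loc_norm pU m.mem tU hR
  obtain ⟨𝓛, σ⟩ := lt h c
  have VU : Vo w₀ (𝐍 U) ≤ 𝐂 U := (c.V_le h).trans (inf_le_right.trans
    (centralizer_anti (le_oP pU le_normalizer le_rfl)))
  have VS : Vo w₀ (𝐍 U) ≤ Sy t := h.le_Sy m.mem ((oP_isPGroup _).to_le ((c.V_le h).trans inf_le_left))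
    fun y hy => mem_c.2 (VU hy t tU).symm
  have d := fun y hy => m.toPr.cent_dec h m.mem m.memB m.tc (VS hy) (y := y)
    (centralizer_anti (hU ▸ le_sup_of_le_left le_sup_right) (VU hy))
  have d₁ := fun y hy => m₁.toPr.cent_dec h m.mem m₁.memB m₁.tc (VS hy) (y := y)
    (centralizer_anti (hU ▸ le_sup_right) (VU hy))
  have v0 := m.W_le_V h c k d
  have v1 := m₁.W_le_V h c k₁ d₁
  obtain ⟨L, hL, a1, a2⟩ := m.comp h σ k v0 d
  obtain ⟨L₁, hL₁, b1, b2⟩ := m₁.comp h σ k₁ v1 d₁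
  have e0 := m.l.comm_W.ge.trans (commutator_mono v0 ((E_le_K P P').trans a1))
  have e1 := m₁.l.comm_W.ge.trans (commutator_mono v1 ((E_le_K P₁ P₁').trans b1))
  by_cases e : L₁ = L
  · exact Or.inl (le_antisymm (e1.trans (e ▸ a2)) (e0.trans (e ▸ b2)))
  · exact Or.inr (e1.trans ((σ.comm L₁ hL₁ L hL e).1.trans (centralizer_anti a1)))

end Sm

end CL.B2
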