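import Cfsg.Agent.INV.B2.LineB
import Cfsg.Agent.INV.B2.ExtB

/-!
# A line in a local subgroup belongs to a component
-/

set_option autoImplicit false
set_option linter.unusedSectionVars false
open Cfsg Subgroup CL.Th CL.MSS CL.Push CL.BHS CL.Dickson CL.Quad
open scoped commutatorElement MatrixGroups

namespace CL.B2
variable {G : Type*} [Group G] [Finite G] {D : Set G} {w : G} {B H P R : Subgroup G}
  {𝓛 : Set (Subgroup G)}

theorem GM.conj_mem {F : Type} [Field F] {r : G → SL(2, F)} {ψ : G → Fin 2 → F} {K W : Subgroup G}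
    (m : GM F P K B W r ψ) {x y : G} (hx : x ∈ P) (h : r x 1 0 = 0) (hy : y ∈ B) :
    x * y * x⁻¹ ∈ B := by
  have yP := m.le hy
  refine (m.fix _ (mul_mem (mul_mem hx yP) (inv_mem hx))).2 ?_
  rw [m.r_conj hx yP, mul_smul, mul_smul, ← eq_inv_smul_iff, m.eq_u hy, u_smul]
  exact vec_ext (by simp [smul_fin_two, inv10, h]) rfl

theorem LS.norm_K {V : Subgroup G} (s : LS H V 𝓛) :
    H ≤ 𝐍 ((H ⊓ 𝐂 V) ⊔ ⨆ L ∈ 𝓛, L : Subgroup G) :=
  CL.MSS.le_normalizer_sup (CL.MSS.le_normalizer_inf le_normalizer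
    (CL.MSS.le_normalizer_centralizer s.norm)) (le_normalizer_of_cj_le fun g hg => by
      simp only [cj_iSup]
      exact iSup₂_le fun L hL => le_iSup₂_of_le _ (s.cj L hL g hg) le_rfl)

/-- the model of a component; offenders cover the unitriangular group -/
theorem LS.gm {V L : Subgroup G} (s : LS H V 𝓛) (hL : L ∈ 𝓛) (pR : IsPGroup 2 R) :
    ∃ (F : Type) (_ : Field F) (_ : Fintype F) (_ : CharP F 2) (r : G → SL(2, F))
      (ψ : G → Fin 2 → F) (U : Subgroup G), GM F L (𝐂 V) U V r ψ ∧ R ⊓ L ≤ U ∧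
      ∀ A, Off H V A → A ≤ R → ¬ A ⊓ L ≤ 𝐂 V → ∀ t, ∃ a ∈ A ⊓ L, r a = u t := by
  have cp := s.cp L hL
  obtain ⟨F, i1, i2, i3, ρ, ψ₀, n, onto, ker⟩ := cp.model
  obtain ⟨r, ψ, U, m, hU⟩ := exists_gm n onto ker pR
  refine ⟨F, i1, i2, i3, r, ψ, U, m, hU, fun A off hA hn t => ?_⟩
  have AU : A ⊓ L ≤ U := (inf_le_inf_right _ hA).trans hU
  have k := (s.full A off L hL).resolve_left fun e =>
    hn ((le_inf (inf_le_left.trans le_sup_left) inf_le_right).trans e)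
  rw [cpt_eq cp s.norm off.le, ← inf_relIndex_left V, n.card, ← m.q_eq,
    Nat.pow_left_inj two_ne_zero] at k
  have le : (A ⊓ L) ⊔ (H ⊓ 𝐂 V) ≤ U := sup_le AU fun x hx => m.mem_B (cp.ge hx) hx.2
  have k1 := PN.card_inf_mul_relIndex (𝐂 V) U
  rw [← k, show 𝐂 V ⊓ U = 𝐂 V ⊓ ((A ⊓ L) ⊔ (H ⊓ 𝐂 V)) from le_antisymm (le_inf inf_le_left
    ((le_inf (inf_le_right.trans (m.le.trans cp.le)) inf_le_left).trans le_sup_right))
    (inf_le_inf_left _ le), PN.card_inf_mul_relIndex] at k1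
  obtain ⟨b, hb, e⟩ := m.exists_u t
  obtain ⟨a, ha, d, hd, rfl⟩ := (mem_sup_of_normalizes_right (inf_le_right.trans (cp.le.trans
    (CL.MSS.le_normalizer_inf le_normalizer (CL.MSS.le_normalizer_centralizer s.norm))))).1
    ((eq_of_le_of_card_ge le k1.ge).ge hb)
  exact ⟨a, ha, by rw [← e, m.mul _ ha.2 _ (cp.ge hd), (m.ker d (cp.ge hd)).2 hd.2, mul_one]⟩

/-- Notation: `V = Vo w H`, `C = H ⊓ C(V) ≤ N(R)`, `E, Q, W, q` for `P`.
`w ∈ B ⊓ C(B)`, so `w ∈ Y` (`mem_Y`), `w ∉ C(P)` (`D_not_cent`) and `W = [⟨w⟩, E] ≤ V` (`comm_y`).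
Take `A ∈ 𝒜(B)`, `A ≰ Q`; `𝒜(B) = 𝒜(J(B)) = 𝒜(R)`.  `K = C ⊔ ⨆ 𝓛` is normal in `H`, contains `A`
(`LS.dec`, `off_of_am`), hence `E` (`E_le`); so `E` normalizes every `L ∈ 𝓛` (`LS.le_norm`).
`A* = (A ⊓ Q) W ∈ 𝒜(B)` (`off`), `A* C = (A ⊓ Q) C ≤ C(W)`.  If `cpt A L ≤ cpt A* L` for all `L`
then `A ≤ A* C ≤ C(W)` by `dec`, which is false.  So for some `L`, `cpt A L ≰ C(V)` is full and
`cpt A* L ≤ cpt A L` is not full, so `cpt A* L ≤ C(V)` (`LS.full`): `A ⊓ L ⊓ Q ≤ C`, `A ⊓ L ≰ C`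
(`cpt_eq`).  `E_le` with `N = P ⊓ L` gives `E ≤ L`, and `W = [W, E] ≤ [V, L]`.
Let `q₁² = |V : C_V(L)|`, `q₁ = |A ⊓ L : A ⊓ C| = |(A ⊓ L) Q : Q| ≤ q`.  `W ⊓ C(L) ≤ C_W(P)`
(`mem_cent_of_E`) has index `≥ q²` in `W` (`relIndex_Z`, `relIndex_D`, `mem_Z_of_cent`), so `q = q₁`,
`V = W C_V(L)` and `(A ⊓ L) Q = B`.  In the model `ρ₁` of `L`, `ρ₁(A ⊓ L)` is a Sylow 2-subgroup
`U₁`, and `ρ₁(E)` does not normalize it (otherwise `E ≤ ⟨(A ⊓ L) ^ E⟩` acts on `V` as a 2-group, so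
`E = O²(E) ≤ C`, `W = [W, E] = 1`).  Two Sylow 2-subgroups generate `SL₂(F₁)`: `L = (P ⊓ L) C`.  So
`L` normalizes `W` and `[V, L] = [W, L] ≤ W`. -/
theorem tv' (h : Hy D) (c : Loc D H R w) (s : LS H (Vo w H) 𝓛) (l : Ln0 D P B)
    (hE : oU[2] P ≤ H) (hJ : Jt B = Jt R) (hw : w ∈ B) (hc : w ∈ 𝐂 B) :
    ∃ L ∈ 𝓛, Wo P = ⁅Vo w H, L⁆ ∧ oU[2] P ≤ L ∧ L ≤ (P ⊓ L) ⊔ (H ⊓ 𝐂 (Vo w H)) ∧
      (Jt B ⊓ L) ⊔ O2 P = B := by
  have wY := l.mem_Y (h.sq c.mem) hw hc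
  have WV : Wo P ≤ Vo w H := (l.comm_y wY hc fun e => l.D_not_cent h c.mem hc
    (centralizer_le (oU_le P) e)).ge.trans ((commutator_mono (zpowers_le.2 (c.mem_V h)) le_rfl).trans
      (commutator_le_left_of_normalizes (hE.trans s.norm)))
  obtain ⟨A, hA, hQ⟩ := l.exists_off
  have hA' : A ∈ Am R := by
    have a := maxElemAbIn_eq_of_le (p := 2) le_rfl (thompsonSubgroupOf_le B)
    have b := maxElemAbIn_eq_of_le (p := 2) le_rfl (thompsonSubgroupOf_le R)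
    rw [Am, ← b, ← show thompsonSubgroupOf 2 B = thompsonSubgroupOf 2 R from hJ, a]
    exact hA
  have off := off_of_am h c hA'
  generalize Vo w H = V at *
  have CW : 𝐂 V ≤ 𝐂 (Wo P) := centralizer_le WV
  have nP : oU[2] P ≤ 𝐍 P := (oU_le P).trans le_normalizer
  have AP := hA.1.trans l.B_le
  have EK : oU[2] P ≤ (H ⊓ 𝐂 V) ⊔ ⨆ L ∈ 𝓛, L := by
    obtain ⟨a, ha, ha'⟩ := SetLike.not_le_iff_exists.1 hQ
    exact (l.E_le inf_le_left (CL.MSS.le_normalizer_inf nP (hE.trans s.norm_K)) ⟨AP ha,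
      ((s.dec A off).trans (sup_le_sup_left (iSup₂_mono fun L _ => inf_le_right) _)) ha⟩
      (hA.1 ha) ha').trans inf_le_right
  obtain ⟨L, hL, hn⟩ : ∃ L ∈ 𝓛, ¬ A ⊓ L ≤ 𝐂 (Wo P) := by
    by_contra! k
    refine hQ ((le_inf hA.1 ((s.dec A off).trans (sup_le (inf_le_right.trans CW)
      (iSup₂_le fun L hL => ?_)))).trans l.B_inf_cent_W.le)
    rw [cpt_eq (s.cp L hL) s.norm off.le]
    exact sup_le (k L hL) (inf_le_right.trans CW)
  have cp := s.cp L hL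
  obtain ⟨a, ha, ha'⟩ := SetLike.not_le_iff_exists.1 hn
  have aQ : a ∉ O2 P := fun e => ha' (Q_le_cent_W P e)
  have EL : oU[2] P ≤ L := (l.E_le inf_le_left (CL.MSS.le_normalizer_inf nP (EK.trans (sup_le
    (cp.ge.trans le_normalizer) (iSup₂_le fun L' hL' => s.le_norm hL hL')))) ⟨AP ha.1, ha.2⟩
    (hA.1 ha.1) aQ).trans inf_le_right
  obtain ⟨F, _, _, _, r, ψ, U, m, hU, hu⟩ := s.gm hL c.syl.pgroup
  replace hu := hu A off hA'.1 fun e => hn (e.trans CW)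
  have AU : A ⊓ L ≤ U := (inf_le_inf_right _ hA'.1).trans hU
  obtain ⟨x, hx, hx'⟩ : ∃ x ∈ oU[2] P, r x 1 0 ≠ 0 := by
    by_contra! k
    have := (l.E_le inf_le_left (CL.MSS.le_normalizer_inf nP (le_normalizer_of_cj_le fun x hx =>
      cj_le_iff_forall.2 fun y hy => m.conj_mem (EL hx) (k x hx) hy)) ⟨AP ha.1, AU ha⟩
      (hA.1 ha.1) aQ).trans inf_le_right
    refine l.W_not_le (WV.trans (cent_symm ?_))
    rw [← oU_oU]
    exact oU_le_of_pow fun y hy => ⟨1, m.sq_mem (this hy)⟩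
  have LP : L ≤ (P ⊓ L) ⊔ (H ⊓ 𝐂 V) := fun g hg => by
    obtain ⟨y, hy, e⟩ := m.onto_sup inf_le_right hu (EL hx) hx' (r g)
    have : y ∈ P ⊓ L := sup_le (inf_le_inf_right _ AP)
      (cj_le_of_mem (inf_le_inf_right _ AP) ⟨oU_le P hx, EL hx⟩) hy
    simpa only [mul_inv_cancel_left] using mul_mem (mem_sup_left this) (mem_sup_right
      (mem_inf.2 ⟨cp.le (mul_mem (inv_mem (mem_inf.1 this).2) hg), (m.r_eq_iff this.2 hg).1 e⟩))
  have nW : L ≤ 𝐍 (Wo P) := LP.trans (sup_le (inf_le_left.trans (P_norm_W P))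
    (cent_le_norm (inf_le_right.trans CW)))
  obtain ⟨y, hy, hy'⟩ := SetLike.not_le_iff_exists.1 l.W_not_le
  have m' := m.sub WV nW hy fun e => hy' (centralizer_le EL ((m.zero y (WV hy)).1 e))
  refine ⟨L, hL, le_antisymm (l.comm_W.ge.trans (commutator_mono WV EL))
    (commutator_le.2 fun v hv g hg => ?_), EL, LP, le_antisymm (sup_le
      (inf_le_left.trans (thompsonSubgroupOf_le B)) l.Q_le) ?_⟩
  · obtain ⟨z, hz, e⟩ := m'.surj (ψ v)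
    rw [comm_of_cent ((m.ψ_eq_iff (WV hz) hv).1 e g hg)]
    exact comm_mem_of_norm nW hz hg
  · obtain ⟨F', _, _, _, r', ψ', n⟩ := l.fm
    have AB : A ⊓ L ≤ B := inf_le_left.trans hA.1
    have k1 : (O2 P).relIndex (A ⊓ L) = Nat.card F :=
      relIndex_of_add (fun x => r x 0 1) (fun x hx y hy => by
        rw [m.mul _ hx.2 _ hy.2, m.eq_u (AU hx), m.eq_u (AU hy), ← u_add]; rfl)
        (fun t => let ⟨b, hb, e⟩ := hu t; ⟨b, hb, by rw [e]; rfl⟩) fun x hx =>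
          Iff.trans ⟨fun e => m'.mem_K_of_cent hx.2 (Q_le_cent_W P e),
            fun e => l.B_inf_cent_W.le ⟨AB hx, CW e⟩⟩ (m.mem_K (AU hx))
    have k2 := relIndex_of_add (K := 𝐂 L) ψ m'.add m'.surj fun x hx => (m'.zero x hx).symm
    have k3 := relIndex_of_add (K := 𝐂 P) ψ' (fun x hx y hy => n.add x (WY P hx) y (WY P hy)) n.surj
      fun x hx => (n.zero x (WY P hx)).symm
    have k4 : (𝐂 P).relIndex (Wo P) ≤ (Wo P ⊓ 𝐂 L).relIndex (Wo P) := relIndex_le_of_le_left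
      (fun x hx => l.mem_cent_of_E (WY P hx.1) (centralizer_le EL hx.2)) (relIndex_ne _ _)
    rw [inf_relIndex_left, k2, k3, Nat.card_fun, Nat.card_fun, ← k1, ← n.q_eq, Nat.card_fin,
      Nat.pow_le_pow_iff_left two_ne_zero] at k4
    exact (n.sup_eq_of_relIndex AB (le_antisymm (relIndex_le_of_le_right AB (relIndex_ne _ _))
      k4)).ge.trans (sup_le_sup_right (inf_le_inf_right _ (le_thompsonSubgroupOf hA)) _)

/-- `tv'` with `B = B(R)`. -/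
theorem tv (h : Hy D) (c : Loc D H R w) (s : LS H (Vo w H) 𝓛) (l : Ln0 D P (Bm R)) (hP : P ≤ H) :
    ∃ L ∈ 𝓛, Wo P = ⁅Vo w H, L⁆ ∧ oU[2] P ≤ L ∧ L ≤ (P ⊓ L) ⊔ (H ⊓ 𝐂 (Vo w H)) ∧
      (Bm R ⊓ L) ⊔ O2 P = Bm R := by
  have wc : w ∈ 𝐂 R := le_c_iff.1 (c.le.trans (Sy_le w))
  obtain ⟨L, hL, k1, k2, k3, k4⟩ := tv' h c s l ((oU_le P).trans hP) (Jt_Bm R)
    ⟨oP_le_sylIn c.syl c.memO, centralizer_le ((oz_le _).trans (thompsonSubgroupOf_le R)) wc⟩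
    (centralizer_le (baum_le R) wc)
  exact ⟨L, hL, k1, k2, k3, le_antisymm (sup_le inf_le_left l.Q_le)
    (k4.ge.trans (sup_le_sup_right (inf_le_inf_right _ (thompsonSubgroupOf_le _)) _))⟩

end CL.B2
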